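import Mathlib
import Cfsg.Prelude
import Cfsg.Agent.H23.Coprime4

set_option autoImplicit false
open Cfsg

namespace Cfsg.Agent.H18

open Subgroup

/-- `U` is the kernel of a nontrivial character of `I` occurring in `P`. -/
structure Hy {P : Type*} [Group P] (I U : Subgroup (MulAut P)) : Prop where
  le : U ≤ I
  mul : ∀ S ∈ I, ∀ S' ∈ I, S ∉ U → S' ∉ U → S * S' ∈ U
  ex : ∃ x : P, (∀ S ∈ U, S x = x) ∧ ∀ S ∈ I, S ∉ U → S x ≠ x
  ne : ∃ S ∈ I, S ∉ U

theorem exists_hy_aux {P : Type*} [Group P] [Finite P] {p : ℕ} [Fact p.Prime] (hp2 : p ≠ 2)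
    (hP : IsPGroup p P) (I : Subgroup (MulAut P)) (hI : Cfsg.IsElementaryAbelian 2 I)
    {T : MulAut P} (hT : T ∈ I) (hT1 : T ≠ 1) {X : Type*} [Group X] [Finite X]
    (inl : P →* X) (inr : MulAut P →* X) (inl_inj : Function.Injective inl)
    (inr_inj : Function.Injective inr)
    (haut : ∀ (S : MulAut P) (x : P), inl (S x) = inr S * inl x * (inr S)⁻¹) :
    ∃ U : Subgroup (MulAut P), Hy I U ∧ T ∉ U := by
  classical
  set G : Subgroup X := inl.range with hG
  set A : Subgroup X := I.map inr with hA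
  have hAab : IsMulCommutative A := by
    refine ⟨⟨?_⟩⟩
    rintro ⟨_, ⟨a, ha, rfl⟩⟩ ⟨_, ⟨b, hb, rfl⟩⟩
    apply Subtype.ext
    show inr a * inr b = inr b * inr a
    rw [← map_mul, ← map_mul]
    congr 1
    exact congrArg Subtype.val (hI.1.is_comm.comm (⟨a, ha⟩ : I) ⟨b, hb⟩)
  have hn : A ≤ normalizer (G : Set X) := by
    rintro _ ⟨S, hS, rfl⟩
    rw [mem_normalizer_iff]
    intro x
    constructor
    · rintro ⟨y, rfl⟩
      exact ⟨S y, haut S y⟩
    · rintro ⟨y, hy⟩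
      refine ⟨S⁻¹ y, ?_⟩
      rw [haut, hy, map_inv]; group
  have hA2 : IsPGroup 2 A := by
    rintro ⟨_, ⟨a, ha, rfl⟩⟩
    refine ⟨1, ?_⟩
    apply Subtype.ext
    show inr a ^ 2 ^ 1 = 1
    rw [pow_one, ← map_pow, hI.2 a ha, map_one]
  have hGp : IsPGroup p G := by
    rintro ⟨_, ⟨a, rfl⟩⟩
    obtain ⟨k, hk⟩ := hP a
    refine ⟨k, ?_⟩
    apply Subtype.ext
    show inl a ^ p ^ k = 1
    rw [← map_pow, hk, map_one]
  have hcop : (Nat.card A).Coprime (Nat.card G) := by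
    haveI : Fact (Nat.Prime 2) := ⟨Nat.prime_two⟩
    exact IsPGroup.coprime_card_of_ne 2 p (Ne.symm hp2) A G hA2 hGp
  have h := H23.iSup_cocyclic_centralizer hAab hn hcop
  obtain ⟨B, hB, hBT⟩ : ∃ B ∈ H23.cocyclic A,
      ¬ (G ⊓ centralizer (B : Set X) ≤ centralizer ({inr T} : Set X)) := by
    by_contra hcon
    push Not at hcon
    have h1 : G ≤ centralizer ({inr T} : Set X) := by
      rw [← h]
      exact iSup₂_le hcon
    apply hT1
    ext x
    have h2 := h1 ⟨x, rfl⟩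
    rw [mem_centralizer_iff] at h2
    have h3 := h2 (inr T) rfl
    have h4 : inl (T x) = inl x := by
      rw [haut, h3]; group
    exact inl_inj h4
  obtain ⟨hBA, a, haA, hBa⟩ := hB
  have hAab' : ∀ x ∈ A, ∀ y ∈ A, x * y = y * x := fun x hx y hy =>
    congrArg Subtype.val (hAab.is_comm.comm (⟨x, hx⟩ : A) ⟨y, hy⟩)
  have hsq : ∀ x ∈ A, x * x = 1 := by
    rintro _ ⟨x, hx, rfl⟩
    rw [← map_mul, ← sq, hI.2 x hx, map_one]
  have hdec : ∀ x ∈ A, x ∉ B → ∃ b ∈ B, x = b * a := by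
    intro x hx hxB
    rw [← hBa] at hx
    have hna : zpowers a ≤ normalizer (B : Set X) := by
      rw [zpowers_le, mem_normalizer_iff]
      intro y
      constructor
      · intro hy
        rw [hAab' a haA y (hBA hy), mul_inv_cancel_right]
        exact hy
      · intro hy
        have h5 := hBA hy
        have h6 : y ∈ A := by
          have := A.mul_mem (A.mul_mem (A.inv_mem haA) h5) haA
          convert this using 1; group
        rw [hAab' a haA y h6, mul_inv_cancel_right] at hy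
        exact hy
    rw [H23.mem_sup_iff_of_le_normalizer hna] at hx
    obtain ⟨b, hb, z, hz, hx⟩ := hx
    refine ⟨b, hb, ?_⟩
    obtain ⟨k, rfl⟩ := hz
    rcases Int.even_or_odd' k with ⟨m, rfl | rfl⟩
    · exfalso
      apply hxB
      have h7 : a ^ (2 * m) = 1 := by rw [zpow_mul, zpow_ofNat, sq, hsq a haA, one_zpow]
      simp only [h7, mul_one] at hx
      rw [← hx]; exact hb
    · have h7 : a ^ (2 * m + 1) = a := by
        rw [zpow_add, zpow_mul, zpow_ofNat, sq, hsq a haA, one_zpow, one_mul, zpow_one]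
      simp only [h7] at hx
      exact hx.symm
  set U : Subgroup (MulAut P) := B.comap inr with hU
  have hTU : T ∉ U := by
    intro hTU
    apply hBT
    intro g hg
    rw [mem_centralizer_iff]
    rintro _ rfl
    exact mem_centralizer_iff.1 (mem_inf.1 hg).2 (inr T) hTU
  have hUI : U ≤ I := by
    intro S hS
    obtain ⟨S', hS', h1⟩ := hBA (show inr S ∈ B from hS)
    rw [← inr_inj h1]; exact hS'
  refine ⟨U, ⟨hUI, ?_, ?_, ⟨T, hT, hTU⟩⟩, hTU⟩
  · intro S hS S' hS' h1 h2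
    obtain ⟨b, hb, hb'⟩ := hdec (inr S) ⟨S, hS, rfl⟩ h1
    obtain ⟨c, hc, hc'⟩ := hdec (inr S') ⟨S', hS', rfl⟩ h2
    show inr (S * S') ∈ B
    rw [map_mul, hb', hc', hAab' c (hBA hc) a haA]
    have : b * a * (a * c) = b * (a * a) * c := by group
    rw [this, hsq a haA, mul_one]
    exact B.mul_mem hb hc
  · have h0 : ∃ g, g ∈ G ⊓ centralizer (B : Set X) ∧ g ∉ centralizer ({inr T} : Set X) := by
      by_contra hcon
      push Not at hcon
      exact hBT hcon
    obtain ⟨g, hg, hgT⟩ := h0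
    obtain ⟨⟨x, rfl⟩, hgB⟩ := mem_inf.1 hg
    have hfix : ∀ S ∈ U, S x = x := by
      intro S hS
      apply inl_inj
      rw [haut, mem_centralizer_iff.1 hgB (inr S) hS]; group
    have hTx : T x ≠ x := by
      intro hTx
      apply hgT
      rw [mem_centralizer_iff]
      rintro _ rfl
      have := haut T x
      rw [hTx] at this
      rw [eq_mul_inv_iff_mul_eq] at this
      exact this.symm
    refine ⟨x, hfix, ?_⟩
    intro S hS hSU hSx
    have hST : S * T ∈ U := by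
      obtain ⟨b, hb, hb'⟩ := hdec (inr S) ⟨S, hS, rfl⟩ hSU
      obtain ⟨c, hc, hc'⟩ := hdec (inr T) ⟨T, hT, rfl⟩ hTU
      show inr (S * T) ∈ B
      rw [map_mul, hb', hc', hAab' c (hBA hc) a haA]
      have : b * a * (a * c) = b * (a * a) * c := by group
      rw [this, hsq a haA, mul_one]
      exact B.mul_mem hb hc
    have h8 := hfix _ hST
    rw [MulAut.mul_apply] at h8
    apply hTx
    apply S.injective
    rw [h8, hSx]

theorem exists_hy {P : Type*} [Group P] [Finite P] {p : ℕ} [Fact p.Prime] (hp2 : p ≠ 2)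
    (hP : IsPGroup p P) (I : Subgroup (MulAut P)) (hI : Cfsg.IsElementaryAbelian 2 I)
    {T : MulAut P} (hT : T ∈ I) (hT1 : T ≠ 1) :
    ∃ U : Subgroup (MulAut P), Hy I U ∧ T ∉ U := by
  classical
  haveI : Finite (MulAut P) := inferInstance
  haveI : Finite (P ⋊[MonoidHom.id (MulAut P)] MulAut P) :=
    Finite.of_injective (fun x : (P ⋊[MonoidHom.id (MulAut P)] MulAut P) => (x.left, x.right)) (by
      rintro ⟨a, b⟩ ⟨c, d⟩ h
      simp only [Prod.mk.injEq] at h
      exact SemidirectProduct.ext h.1 h.2)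
  refine exists_hy_aux hp2 hP I hI hT hT1
    (X := P ⋊[MonoidHom.id (MulAut P)] MulAut P) SemidirectProduct.inl SemidirectProduct.inr
    SemidirectProduct.inl_injective SemidirectProduct.inr_injective ?_
  intro S x
  have := SemidirectProduct.inl_aut (φ := MonoidHom.id (MulAut P)) S x
  rw [MonoidHom.id_apply, map_inv] at this
  exact this

theorem Hy.mem_mul {P : Type*} [Group P] {I U : Subgroup (MulAut P)} (h : Hy I U) {S S' : MulAut P}
    (hS : S ∈ I) (hS' : S' ∈ I) : S * S' ∈ U ↔ (S ∈ U ↔ S' ∈ U) := by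
  constructor
  · intro h1
    constructor
    · intro h2
      exact (U.mul_mem_cancel_left h2).1 h1
    · intro h2
      exact (U.mul_mem_cancel_right h2).1 h1
  · intro h1
    by_cases h2 : S ∈ U
    · exact U.mul_mem h2 (h1.1 h2)
    · exact h.mul S hS S' hS' h2 (fun h3 => h2 (h1.2 h3))

theorem cyc_aut {P : Type*} [Group P] {p : ℕ} [Fact p.Prime] (hp2 : p ≠ 2)
    (hP : IsPGroup p P) (φ : MulAut P) (hφ : ∀ x, φ (φ x) = x) {g : P} (hg : φ g ∈ zpowers g) :
    φ g = g ∨ φ g = g⁻¹ := by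
  obtain ⟨k, hk⟩ := mem_zpowers_iff.1 hg
  have h1 : g ^ (k * k - 1) = 1 := by
    rw [zpow_sub, zpow_one, zpow_mul, hk, ← map_zpow, hk, hφ, mul_inv_cancel]
  obtain ⟨n, hn⟩ := (IsPGroup.iff_orderOf.1 hP) g
  have h2 : ((p : ℤ) ^ n) ∣ (k - 1) * (k + 1) := by
    have := orderOf_dvd_iff_zpow_eq_one.2 h1
    rw [hn] at this
    push_cast at this
    have h0 : (k - 1) * (k + 1) = k * k - 1 := by ring
    rw [h0]; exact this
  have hp := (Fact.out : p.Prime)
  have hpZ : Prime (p : ℤ) := Nat.prime_iff_prime_int.1 hp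
  by_cases h3 : (p : ℤ) ∣ k - 1
  · have h4 : ¬ (p : ℤ) ∣ k + 1 := by
      intro h4
      have h5 : (p : ℤ) ∣ 2 := by
        have := dvd_sub h4 h3
        have h0 : (k + 1) - (k - 1) = 2 := by ring
        rwa [h0] at this
      have h6 : p ∣ 2 := by exact_mod_cast h5
      exact hp2 ((Nat.prime_dvd_prime_iff_eq hp Nat.prime_two).1 h6)
    have h5 : ((p : ℤ) ^ n) ∣ k - 1 := by
      refine IsCoprime.dvd_of_dvd_mul_right ?_ h2
      exact IsCoprime.pow_left ((Prime.coprime_iff_not_dvd hpZ).2 h4)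
    left
    have h6 : g ^ (k - 1) = 1 := by
      apply orderOf_dvd_iff_zpow_eq_one.1
      rw [hn]; push_cast; exact h5
    rw [← hk]
    rw [zpow_sub, zpow_one] at h6
    exact mul_inv_eq_one.1 h6
  · have h5 : ((p : ℤ) ^ n) ∣ k + 1 := by
      refine IsCoprime.dvd_of_dvd_mul_left ?_ h2
      exact IsCoprime.pow_left ((Prime.coprime_iff_not_dvd hpZ).2 h3)
    right
    have h6 : g ^ (k + 1) = 1 := by
      apply orderOf_dvd_iff_zpow_eq_one.1
      rw [hn]; push_cast; exact h5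
    rw [← hk]
    rw [zpow_add, zpow_one] at h6
    exact eq_inv_of_mul_eq_one_left h6

theorem eq_one_of_inv_eq {P : Type*} [Group P] {p : ℕ} [Fact p.Prime] (hp2 : p ≠ 2)
    (hP : IsPGroup p P) {x : P} (h : x = x⁻¹) : x = 1 := by
  have h1 : x ^ 2 = 1 := by
    rw [sq]; nth_rewrite 1 [h]; exact inv_mul_cancel x
  obtain ⟨n, hn⟩ := hP x
  have h2 : orderOf x ∣ 2 := orderOf_dvd_of_pow_eq_one h1
  have h3 : orderOf x ∣ p ^ n := orderOf_dvd_of_pow_eq_one hn
  have h4 : Nat.Coprime 2 (p ^ n) := by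
    apply Nat.Coprime.pow_right
    rw [Nat.coprime_primes Nat.prime_two Fact.out]
    exact Ne.symm hp2
  have h5 := Nat.dvd_gcd h2 h3
  rw [h4.gcd_eq_one, Nat.dvd_one] at h5
  exact orderOf_eq_one_iff.1 h5

/-- an element in two different hyperplanes is broad -/
theorem Hy.broad {P : Type*} [Group P] [Finite P] {p : ℕ} [Fact p.Prime] (hp2 : p ≠ 2)
    (hP : IsPGroup p P) {I : Subgroup (MulAut P)} (hI : Cfsg.IsElementaryAbelian 2 I)
    {U U' : Subgroup (MulAut P)} (h : Hy I U) (h' : Hy I U') {T R : MulAut P}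
    (hT : T ∈ U) (hT' : T ∈ U') (hR : R ∈ U) (hR' : R ∉ U') :
    ¬ ∃ g : P, ∀ x : P, (T x = x ↔ x ∈ Subgroup.zpowers g) := by
  rintro ⟨g, hg⟩
  have hcomm : ∀ φ ∈ I, φ g ∈ zpowers g := by
    intro φ hφ
    rw [← hg]
    have h1 : T * φ = φ * T :=
      congrArg Subtype.val (hI.1.is_comm.comm (⟨T, h.le hT⟩ : I) ⟨φ, hφ⟩)
    have h2 := DFunLike.congr_fun h1 g
    rw [MulAut.mul_apply, MulAut.mul_apply, (hg g).2 (mem_zpowers g)] at h2
    exact h2
  have hinv : ∀ φ ∈ I, ∀ x, φ (φ x) = x := by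
    intro φ hφ x
    have := DFunLike.congr_fun (hI.2 φ hφ) x
    rw [sq, MulAut.mul_apply] at this
    exact this
  obtain ⟨x, hx, hx'⟩ := h.ex
  obtain ⟨y, hy, hy'⟩ := h'.ex
  have hxg : x ∈ zpowers g := (hg x).1 (hx T hT)
  have hyg : y ∈ zpowers g := (hg y).1 (hy T hT')
  obtain ⟨k, rfl⟩ := mem_zpowers_iff.1 hxg
  obtain ⟨m, rfl⟩ := mem_zpowers_iff.1 hyg
  have hRg : R g = g := by
    rcases cyc_aut hp2 hP R (hinv R (h.le hR)) (hcomm R (h.le hR)) with h1 | h1
    · exact h1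
    · exfalso
      have h2 := hx R hR
      rw [map_zpow, h1, inv_zpow] at h2
      have h3 := eq_one_of_inv_eq hp2 hP h2.symm
      obtain ⟨S, hS, hSU⟩ := h.ne
      apply hx' S hS hSU
      rw [h3, map_one]
  apply hy' R (h.le hR) hR'
  rw [map_zpow, hRg]

/-- elements outside the hyperplane invert the cyclic fixed-point subgroup of an element inside -/
theorem Hy.inverts {P : Type*} [Group P] [Finite P] {p : ℕ} [Fact p.Prime] (hp2 : p ≠ 2)
    (hP : IsPGroup p P) {I : Subgroup (MulAut P)} (hI : Cfsg.IsElementaryAbelian 2 I)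
    {U : Subgroup (MulAut P)} (h : Hy I U) {a S : MulAut P}
    (ha : a ∈ U) {g : P} (hg : ∀ x : P, (a x = x ↔ x ∈ Subgroup.zpowers g)) (hS : S ∈ I) (hSU : S ∉ U)
    {y : P} (hy : a y = y) : S y = y⁻¹ := by
  have h1 : a * S = S * a :=
    congrArg Subtype.val (hI.1.is_comm.comm (⟨a, h.le ha⟩ : I) ⟨S, hS⟩)
  have h2 : S g ∈ zpowers g := by
    rw [← hg]
    have h2 := DFunLike.congr_fun h1 g
    rw [MulAut.mul_apply, MulAut.mul_apply, (hg g).2 (mem_zpowers g)] at h2
    exact h2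
  have h3 : ∀ x, S (S x) = x := by
    intro x
    have := DFunLike.congr_fun (hI.2 S hS) x
    rw [sq, MulAut.mul_apply] at this
    exact this
  obtain ⟨x, hx, hx'⟩ := h.ex
  obtain ⟨k, hk⟩ := mem_zpowers_iff.1 ((hg x).1 (hx a ha))
  have h4 : S g = g⁻¹ := by
    rcases cyc_aut hp2 hP S h3 h2 with h4 | h4
    · exfalso
      apply hx' S hS hSU
      rw [← hk, map_zpow, h4]
    · exact h4
  obtain ⟨m, rfl⟩ := mem_zpowers_iff.1 ((hg y).1 hy)
  rw [map_zpow, h4, inv_zpow]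

end Cfsg.Agent.H18
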