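import Cfsg.Agent.H18.CN4
import Cfsg.Agent.H25.FrobSylow

/-!
# Solvable CN-groups
-/

set_option autoImplicit false
set_option linter.all false

namespace Cfsg.Agent.H18

open Cfsg Subgroup
open scoped Pointwise commutatorElement

universe u v

variable {G : Type u} [Group G] [Finite G]

/-- cyclic subgroups of coprime orders which commute generate a cyclic group. -/
theorem isCyclic_sup {A B : Subgroup G} (hA : IsCyclic A) (hB : IsCyclic B)
    (hc : A ≤ centralizer (B : Set G)) (hcop : (Nat.card A).Coprime (Nat.card B)) :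
    IsCyclic (A ⊔ B : Subgroup G) := by
  obtain ⟨a, ha⟩ := hA.exists_generator
  obtain ⟨b, hb⟩ := hB.exists_generator
  have h1 : orderOf (a : G) = Nat.card A := by
    rw [Subgroup.orderOf_coe]; exact orderOf_eq_card_of_forall_mem_zpowers ha
  have h2 : orderOf (b : G) = Nat.card B := by
    rw [Subgroup.orderOf_coe]; exact orderOf_eq_card_of_forall_mem_zpowers hb
  have hab : Commute (a : G) b := H21.mem_cent_iff.1 (hc a.2) b b.2
  have h3 : orderOf ((a : G) * b) = Nat.card A * Nat.card B := by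
    rw [hab.orderOf_mul_eq_mul_orderOf_of_coprime (by rwa [h1, h2]), h1, h2]
  have hcompl : IsComplIn A B (A ⊔ B) := H21.complIn_of_sup
    ((H21.le_cent_comm.1 hc).trans (H21.cent_le_nz A)) (H1.inf_eq_bot_of_card_coprime hcop) rfl
  have h4 := H21.complIn_card hcompl
  refine isCyclic_of_orderOf_eq_card (⟨(a : G) * b, mul_mem (mem_sup_left a.2) (mem_sup_right b.2)⟩ : (A ⊔ B : Subgroup G)) ?_
  rw [Subgroup.orderOf_mk, h3, h4]

/-- structure of nilpotent Frobenius complements. -/
theorem frobcompl_struct {E : Subgroup G} (hE : IsFrobeniusComplement E) (hEn : Group.IsNilpotent E) :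
    IsCyclic E ∨ ∃ C Q : Subgroup G, C ⊔ Q = E ∧ (∀ a ∈ C, ∀ b ∈ Q, a * b = b * a) ∧ IsCyclic C ∧
      Odd (Nat.card C) ∧ ∃ n : ℕ, Nonempty (↥Q ≃* QuaternionGroup (2 ^ n)) := by
  haveI : Fact (Nat.Prime 2) := ⟨Nat.prime_two⟩
  set C := piCoreOf (cpl 2) E with hC
  set Q := piCoreOf {2} E with hQ
  have hdec := nil_decomp hEn 2
  have hcent := nil_core_cent hEn 2
  have hCodd : Odd (Nat.card C) := by
    rw [← Nat.not_even_iff_odd]
    intro h
    exact OOT.isPiSub_piCoreOf (cpl 2) E 2 Nat.prime_two (even_iff_two_dvd.1 h) rfl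
  have hCcyc : IsCyclic C := by
    haveI : Group.IsNilpotent C := nil_mono (OOT.piCoreOf_le _ _) hEn
    haveI : IsZGroup C := by
      refine ⟨fun p hp P => ?_⟩
      haveI : Fact p.Prime := ⟨hp⟩
      rcases H25.frob_pgroup hE P.isPGroup' (C.subtype.comp (P : Subgroup C).subtype)
        ((Subgroup.subtype_injective C).comp (Subgroup.subtype_injective _))
        (fun x => OOT.piCoreOf_le _ _ (x : C).2) with h | ⟨h2, -⟩
      · exact h
      · subst h2
        have h1 : Nat.card P ∣ Nat.card C := Subgroup.card_subgroup_dvd_card _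
        obtain ⟨n, hn'⟩ := IsPGroup.iff_card.mp P.2
        have h2 : Odd (Nat.card P) := Odd.of_dvd_nat hCodd h1
        rw [hn'] at h2
        have h3 : n = 0 := by
          by_contra h
          exact (Nat.not_odd_iff_even.mpr ((Nat.even_pow.mpr ⟨even_two, h⟩))) h2
        rw [h3, pow_zero] at hn'
        haveI : Subsingleton P := (Nat.card_eq_one_iff_unique.mp hn').1
        infer_instance
    infer_instance
  rcases H25.frob_pgroup hE (core_sylIn hEn 2).isPGroup Q.subtype (Subgroup.subtype_injective _)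
    (fun x => OOT.piCoreOf_le _ _ x.2) with h | ⟨-, n, -, h⟩
  · left
    rw [← hdec]
    exact isCyclic_sup h hCcyc hcent (coprime_cores 2)
  · right
    refine ⟨C, Q, by rw [sup_comm]; exact hdec, ?_, hCcyc, hCodd, n, h⟩
    intro a ha b hb
    exact (H21.mem_cent_iff.1 (hcent hb) a ha).symm

/-- a prime power order element commuting with a nontrivial element of `fittingHall G` is in
`fittingHall G`. -/
theorem fh_elt (hCN : IsCNGroup G) {x y : G} (hx : x ∈ fittingHall G) (hx1 : x ≠ 1) {r : ℕ}
    [Fact r.Prime] (hy : IsPGroup r (zpowers y)) (hxy : y * x = x * y) : y ∈ fittingHall G := by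
  by_cases hy1 : y = 1
  · rw [hy1]; exact one_mem _
  by_cases hr : r ∣ Nat.card (fittingHall G)
  · -- `fittingHall G` is a normal Hall subgroup
    have h1 : ¬ r ∣ (fittingHall G).index := fun h =>
      (Fact.out : r.Prime).one_lt.ne' (Nat.eq_one_of_dvd_coprimes (H21.fittingHall_coprime G) hr h)
    have h2 : zpowers y ≤ fittingHall G := by
      apply H1.le_of_coprime_index
      obtain ⟨n, hn⟩ := IsPGroup.iff_card.1 hy
      rw [hn]
      exact Nat.Coprime.pow_left _ ((Nat.Prime.coprime_iff_not_dvd Fact.out).2 h1)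
    exact h2 (mem_zpowers y)
  · obtain ⟨Q, hQ, hyQ⟩ := cn_normal_sylow hCN (H := fittingHall G) inferInstance
      (H21.fittingHall_nilpotent G) hr hx hx1 hy hy1 hxy
    exact sylow_le_fittingHall Q hQ hyQ

theorem fh_cent (hCN : IsCNGroup G) {x : G} (hx : x ∈ fittingHall G) (hx1 : x ≠ 1) :
    centralizer ({x} : Set G) ≤ fittingHall G := by
  apply le_of_prime_power
  intro r hr y hy hyr
  exact fh_elt hCN hx hx1 hyr (H21.mem_cent_singleton.1 hy)

/-- no nontrivial normal Sylow subgroups: `p'`-elements act fixed-point-freely on normal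
`p`-subgroups. -/
theorem nofh_fpf (hCN : IsCNGroup G) (hfh : fittingHall G = ⊥) {P : Subgroup G} (hPn : P.Normal)
    {p : ℕ} [Fact p.Prime] (hP : IsPGroup p P) {e : G} (he : ¬ p ∣ orderOf e) (he1 : e ≠ 1) :
    ∀ u ∈ P, e * u = u * e → u = 1 := by
  intro u hu heu
  by_contra hu1
  obtain ⟨q, k, hq, hk⟩ := exists_prime_power_ne_one he1
  haveI : Fact q.Prime := ⟨hq⟩
  have he'1 : e ^ k ≠ 1 := fun h => by rw [h, orderOf_one] at hk; exact hq.ne_one hk.symm
  have he'q : IsPGroup q (zpowers (e ^ k)) := isPGroup_zpowers_of_orderOf hk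
  have hqp : q ≠ p := by
    rintro rfl
    apply he
    rw [← hk]
    exact orderOf_pow_dvd k
  have hqP : ¬ q ∣ Nat.card P := by
    obtain ⟨n, hn⟩ := IsPGroup.iff_card.1 hP
    rw [hn]
    intro h
    exact hqp ((Nat.prime_dvd_prime_iff_eq hq Fact.out).1 (hq.dvd_of_dvd_pow h))
  obtain ⟨Q, hQn, heQ⟩ := cn_normal_sylow hCN hPn hP.isNilpotent hqP hu hu1 he'q he'1
    (((show Commute e u from heu).pow_left k).eq)
  have := sylow_le_fittingHall Q hQn heQ
  rw [hfh, Subgroup.mem_bot] at this
  exact he'1 this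

/-- `G` with no nontrivial normal Sylow subgroup and a normal subgroup `W` of prime order:
contradiction if all `q'`-elements act fixed point freely on `W`. -/
theorem no_order_q (hnn : fittingHall G = ⊥) {W : Subgroup G} (hWn : W.Normal) {q : ℕ}
    [Fact q.Prime] (hW : Nat.card W = q)
    (hf : ∀ e : G, ¬ q ∣ orderOf e → e ≠ 1 → ∀ u ∈ W, e * u = u * e → u = 1) : False := by
  have hW1 : W ≠ ⊥ := by
    rintro rfl
    rw [Subgroup.card_bot] at hW
    exact (Fact.out : q.Prime).ne_one hW.symm
  have hWq : IsPGroup q W := IsPGroup.of_card (n := 1) (by rw [hW, pow_one])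
  obtain ⟨w, hw, hw1⟩ := H21.exists_ne_one hW1
  set C := centralizer (W : Set G) with hC
  have hCn : C.Normal := by rw [hC]; infer_instance
  -- `C` is a `q`-group
  have hCq : IsPGroup q C := by
    rw [IsPGroup.iff_orderOf]
    intro c
    obtain ⟨m, hm, hmq⟩ := exists_pow_isPGroup (c : G) q
    by_contra hcon
    -- the `q'`-part of `c`
    obtain ⟨a, m', hm', h⟩ := Nat.exists_eq_pow_mul_and_not_dvd (n := orderOf (c : G)) (orderOf_pos _).ne' q
      (Fact.out : q.Prime).ne_one
    have h1 : orderOf ((c : G) ^ (q ^ a)) = m' := by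
      rw [orderOf_pow, h, Nat.gcd_eq_right (Dvd.intro _ rfl)]
      exact Nat.mul_div_cancel_left _ (pow_pos (Fact.out : q.Prime).pos a)
    have h2 : (c : G) ^ (q ^ a) ≠ 1 := by
      intro e
      rw [e, orderOf_one] at h1
      rw [← h1, mul_one] at h
      exact hcon ⟨a, by rw [← Subgroup.orderOf_coe, h]⟩
    refine hw1 (hf _ (by rw [h1]; exact hm') h2 w hw ?_)
    have h3 : (c : G) * w = w * c := H21.mem_cent_iff.1 c.2 w hw
    exact ((show Commute (c : G) w from h3).pow_left _).eq
  -- `C` contains the Sylow `q`-subgroups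
  obtain ⟨Q, hQ⟩ := hCq.exists_le_sylow
  have hQC : (Q : Subgroup G) ≤ C := by
    obtain ⟨z, hz, hz1, hzQ⟩ := exists_fixed_ne_one hWq Q.isPGroup' hW1 (by
      rw [(Subgroup.normalizer_eq_top_iff).2 hWn]; exact le_top)
    have h2 : W = zpowers z := by
      symm
      apply L.eq_of_le_of_card_le (by rwa [zpowers_le])
      rw [hW, Nat.card_zpowers]
      have h3 : orderOf z ∣ Nat.card W := Subgroup.orderOf_dvd_natCard _ hz
      rw [hW] at h3
      rcases (Nat.dvd_prime Fact.out).1 h3 with h | h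
      · exact absurd (orderOf_eq_one_iff.1 h) hz1
      · exact h.ge
    intro n hn
    rw [hC, h2, H21.cent_zpowers, H21.mem_cent_singleton]
    exact hzQ n hn
  have hQeq : (Q : Subgroup G) = C := le_antisymm hQC hQ
  have h4 := sylow_le_fittingHall Q (by rw [hQeq]; exact hCn)
  rw [hnn, le_bot_iff] at h4
  rw [h4] at hQeq
  have hWC : W ≤ C := by
    haveI : IsCyclic W := isCyclic_of_prime_card hW
    rw [hC]
    intro a ha
    rw [H21.mem_cent_iff]
    exact fun b hb => H21.comm_of_cyclic inferInstance a ha b hb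
  rw [← hQeq, le_bot_iff] at hWC
  exact hW1 hWC

end Cfsg.Agent.H18
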