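import Mathlib
import Cfsg.Prelude
import Cfsg.Agent.H18.PRes

/-!
# Parity transfer (helper18, S1924)
-/

set_option autoImplicit false
set_option linter.all false

namespace Cfsg.Agent.H18.DihTr

open Cfsg Subgroup

attribute [local instance] Fintype.ofFinite

open Classical in
theorem sign_neg {X : Type*} [Finite X] (σ : Equiv.Perm X) {m k : ℕ} (hσ : σ ^ 2 ^ (m + 1) = 1)
    (hk : Odd k) (hcard : Nat.card X = 2 ^ (m + 1) * k) (hfp : ∀ x : X, (σ ^ 2 ^ m) x ≠ x) :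
    Equiv.Perm.sign σ = -1 := by
  have hall : ∀ n ∈ σ.cycleType, n = 2 ^ (m + 1) := by
    intro n hn
    have h1 : n ∣ 2 ^ (m + 1) := (Equiv.Perm.dvd_of_mem_cycleType hn).trans (orderOf_dvd_of_pow_eq_one hσ)
    obtain ⟨j, hj, hj2⟩ := (Nat.dvd_prime_pow Nat.prime_two).1 h1
    by_contra hne
    have hjm : j ≤ m := by
      by_contra h2
      have h3 : j = m + 1 := by omega
      exact hne (by rw [hj2, h3])
    obtain ⟨c, τ, hst, hd, hc, hcn⟩ := Equiv.Perm.mem_cycleType_iff.1 hn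
    obtain ⟨a, ha⟩ : c.support.Nonempty := by
      rw [Finset.nonempty_iff_ne_empty]
      intro h2
      exact hc.ne_one (Equiv.Perm.support_eq_empty_iff.1 h2)
    have hcpow : c ^ 2 ^ m = 1 := by
      rw [← orderOf_dvd_iff_pow_eq_one, hc.orderOf, hcn, hj2]
      exact pow_dvd_pow 2 hjm
    apply hfp a
    have h4 : σ ^ 2 ^ m = c ^ 2 ^ m * τ ^ 2 ^ m := by
      rw [hst, hd.commute.mul_pow]
    rw [h4, hcpow, one_mul]
    have h5 : τ a = a := by
      rcases hd a with h6 | h6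
      · exact absurd h6 (Equiv.Perm.mem_support.1 ha)
      · exact h6
    exact Equiv.Perm.pow_apply_eq_self_of_apply_eq_self h5 _
  have hsum : σ.cycleType.sum = 2 ^ (m + 1) * k := by
    rw [Equiv.Perm.sum_cycleType, ← hcard, Nat.card_eq_fintype_card, ← Finset.card_univ]
    congr 1
    rw [Finset.eq_univ_iff_forall]
    intro x
    rw [Equiv.Perm.mem_support]
    intro h1
    exact hfp x (Equiv.Perm.pow_apply_eq_self_of_apply_eq_self h1 _)
  have hrep : σ.cycleType = Multiset.replicate (Multiset.card σ.cycleType) (2 ^ (m + 1)) :=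
    Multiset.eq_replicate_card.2 hall
  have hcd : Multiset.card σ.cycleType = k := by
    rw [hrep, Multiset.sum_replicate, smul_eq_mul, mul_comm] at hsum
    exact Nat.eq_of_mul_eq_mul_left (by positivity) hsum
  rw [Equiv.Perm.sign_of_cycleType, hsum, hcd]
  apply Odd.neg_one_pow
  exact Even.add_odd (Even.mul_right (by rw [pow_succ]; exact even_two.mul_left _) k) hk

/-- the parity homomorphism -/
theorem exists_hom {H : Type*} [Group H] [Finite H] {T : Subgroup H} {m k : ℕ}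
    (hk : Odd k) (hidx : T.index = 2 ^ (m + 1) * k) :
    ∃ χ : H →* ℤˣ, ∀ c : H, c ^ 2 ^ (m + 1) = 1 → (∀ g : H, g * c ^ 2 ^ m * g⁻¹ ∉ T) → χ c = -1 := by
  classical
  refine ⟨Equiv.Perm.sign.comp (MulAction.toPermHom H (H ⧸ T)), ?_⟩
  intro c hc hfp
  show Equiv.Perm.sign (MulAction.toPermHom H (H ⧸ T) c) = -1
  have h1 := sign_neg (MulAction.toPermHom H (H ⧸ T) c) (m := m) (k := k) ?_ hk ?_ ?_
  · convert h1
  · rw [← map_pow, hc, map_one]
  · exact hidx
  · intro x h2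
    rw [← map_pow] at h2
    obtain ⟨g, rfl⟩ := QuotientGroup.mk_surjective x
    have h3 : ((c ^ 2 ^ m * g : H) : H ⧸ T) = (g : H ⧸ T) := h2
    have h4 := QuotientGroup.eq.1 h3.symm
    apply hfp g⁻¹
    rw [inv_inv, mul_assoc]
    exact h4

variable {G : Type*} [Group G] [Finite G]

local notation "𝕆(" p ", " H ")" => Subgroup.map (Subgroup.subtype H) (Cfsg.pResidual p ↥H)

theorem zunit_odd {H : Type*} [Group H] (χ : H →* ℤˣ) {x : H} (hx : (orderOf x).Coprime 2) : χ x = 1 := by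
  have h1 : orderOf (χ x) ∣ orderOf x := orderOf_map_dvd χ x
  have h2 : orderOf (χ x) ∣ 2 := orderOf_dvd_of_pow_eq_one (Int.units_sq _)
  rw [← orderOf_eq_one_iff]
  exact Nat.eq_one_of_dvd_coprimes hx h1 h2

/-- index two subgroup from a parity homomorphism -/
theorem exists_index_two {H T : Subgroup G} {m k : ℕ} (hk : Odd k) (hidx : T.relIndex H = 2 ^ (m + 1) * k) :
    ∃ N : Subgroup G, N ≤ H ∧ 𝕆(2, H) ≤ N ∧ (N.relIndex H ∣ 2) ∧
      ∀ c ∈ H, c ^ 2 ^ (m + 1) = 1 → (∀ g ∈ H, g * c ^ 2 ^ m * g⁻¹ ∉ T) → c ∉ N ∧ ∀ d ∈ H, d ∉ N → c * d ∈ N := by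
  obtain ⟨χ, hχ⟩ := exists_hom (H := H) (T := T.subgroupOf H) (m := m) (k := k) hk hidx
  refine ⟨χ.ker.map H.subtype, map_subtype_le _, ?_, ?_, ?_⟩
  · rw [pRes_eq_closure, closure_le]
    rintro x ⟨hx, hx2⟩
    refine ⟨⟨x, hx⟩, ?_, rfl⟩
    apply zunit_odd χ
    rwa [Subgroup.orderOf_mk]
  · have h1 : (χ.ker.map H.subtype).relIndex H = χ.ker.index := by
      show ((χ.ker.map H.subtype).subgroupOf H).index = _
      rw [Subgroup.subgroupOf, Subgroup.comap_map_eq_self_of_injective H.subtype_injective]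
    rw [h1, Subgroup.index_ker]
    have h2 : Nat.card χ.range ∣ Nat.card ℤˣ := Subgroup.card_subgroup_dvd_card _
    have h3 : Nat.card ℤˣ = 2 := by
      rw [Nat.card_eq_fintype_card]; rfl
    rwa [h3] at h2
  · intro c hc hc1 hfp
    have h1 : χ ⟨c, hc⟩ = -1 := hχ ⟨c, hc⟩ (Subtype.ext hc1) (fun g hg => hfp g g.2 hg)
    constructor
    · rintro ⟨y, hy, hyc⟩
      have h2 : y = ⟨c, hc⟩ := Subtype.ext hyc
      have h3 : χ ⟨c, hc⟩ = 1 := by rw [← h2]; exact hy
      rw [h1] at h3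
      exact absurd h3 (by decide)
    · intro d hd hdN
      refine ⟨⟨c * d, mul_mem hc hd⟩, ?_, rfl⟩
      have h2 : χ ⟨d, hd⟩ ≠ 1 := fun h => hdN ⟨⟨d, hd⟩, h, rfl⟩
      have h3 : χ ⟨d, hd⟩ = -1 := by
        rcases Int.units_eq_one_or (χ ⟨d, hd⟩) with h | h
        · exact absurd h h2
        · exact h
      show χ (⟨c, hc⟩ * ⟨d, hd⟩) = 1
      rw [map_mul, h1, h3]; rfl

theorem cyc : ∀ (m : ℕ) (H T : Subgroup G) (c : G), c ∈ H → T ≤ 𝕆(2, H) → c ^ 2 ^ (m + 1) = 1 →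
    (∃ k, Odd k ∧ T.relIndex H = 2 ^ (m + 1) * k) → (∀ g ∈ H, g * c ^ 2 ^ m * g⁻¹ ∉ T) → c ^ 2 ^ m ∉ 𝕆(2, H) := by
  intro m
  induction m with
  | zero =>
    rintro H T c hcH hT hc ⟨k, hk, hidx⟩ hfp
    obtain ⟨N, hNH, hKN, hi, hN⟩ := exists_index_two hk hidx
    intro h
    apply (hN c hcH hc hfp).1
    rw [pow_zero, pow_one] at h
    exact hKN h
  | succ m ih =>
    rintro H T c hcH hT hc ⟨k, hk, hidx⟩ hfp
    obtain ⟨N, hNH, hKN, hi, hN⟩ := exists_index_two hk hidx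
    have hcN := hN c hcH hc hfp
    have hc2 : c ^ 2 ∈ N := by rw [pow_two]; exact hcN.2 c hcH hcN.1
    have hOe : 𝕆(2, N) = 𝕆(2, H) := pRes_eq_of_le hKN hNH
    have hpow : ∀ j : ℕ, (c ^ 2) ^ 2 ^ j = c ^ 2 ^ (j + 1) := fun j => by
      rw [← pow_mul, ← pow_succ']
    have hNi : N.relIndex H = 2 := by
      rcases (Nat.dvd_prime Nat.prime_two).1 hi with h1 | h1
      · exfalso
        apply hcN.1
        exact (relIndex_eq_one.1 h1) hcH
      · exact h1
    have hTN : T ≤ N := hT.trans hKN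
    have hidx2 : T.relIndex N = 2 ^ (m + 1) * k := by
      have h1 := relIndex_mul_relIndex T N H hTN hNH
      rw [hNi, hidx, pow_succ 2 (m + 1)] at h1
      have h2 : T.relIndex N * 2 = (2 ^ (m + 1) * k) * 2 := by rw [h1]; ring
      exact Nat.eq_of_mul_eq_mul_right (by norm_num) h2
    have := ih N T (c ^ 2) hc2 (by rw [hOe]; exact hT) (by rw [hpow]; exact hc) ⟨k, hk, hidx2⟩ (by
      intro g hg
      rw [hpow]
      exact hfp g (hNH hg))
    rw [hpow, hOe] at this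
    exact this

end Cfsg.Agent.H18.DihTr
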