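import Mathlib
import Cfsg.Prelude
import Cfsg.Agent.H18.DihTr
import Cfsg.Agent.H1.Hall
import Cfsg.Agent.H1.Cores

set_option autoImplicit false
set_option linter.all false

namespace Cfsg.Agent.H18.DihTr

open Cfsg Subgroup

local notation "𝕆(" p ", " H ")" => Subgroup.map (Subgroup.subtype H) (Cfsg.pResidual p ↥H)

theorem dih_out' {n : ℕ} (hn : 2 ≤ n) {C : Subgroup (DihedralGroup n)} (hC : IsCyclic C) (hi : C.index = 2)
    {x : DihedralGroup n} (hx : x ∉ C) : x * x = 1 := by
  haveI : NeZero n := ⟨by omega⟩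
  cases x with
  | sr i => exact DihedralGroup.sr_mul_self i
  | r i =>
    obtain ⟨⟨c, hcC⟩, hc⟩ := hC.exists_generator
    have hcz : C = zpowers c := by
      apply le_antisymm
      · intro y hy
        obtain ⟨k, hk⟩ := hc ⟨y, hy⟩
        exact ⟨k, congrArg Subtype.val hk⟩
      · rw [zpowers_le]; exact hcC
    have hcard : Nat.card C = n := by
      have h1 := Subgroup.card_mul_index C
      rw [hi, DihedralGroup.nat_card] at h1
      omega
    rw [hcz, Nat.card_zpowers] at hcard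
    cases c with
    | r j =>
      exfalso
      apply hx
      have h1 : zpowers (DihedralGroup.r j) ≤ zpowers (DihedralGroup.r (1 : ZMod n)) := by
        rw [zpowers_le]
        have h3 : DihedralGroup.r j = (DihedralGroup.r (1 : ZMod n)) ^ j.val := by
          rw [DihedralGroup.r_one_pow, ZMod.natCast_zmod_val]
        rw [h3]
        exact pow_mem (mem_zpowers _) _
      have h2 : zpowers (DihedralGroup.r j) = zpowers (DihedralGroup.r (1 : ZMod n)) := by
        apply Subgroup.eq_of_le_of_card_ge h1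
        rw [Nat.card_zpowers, Nat.card_zpowers, hcard, DihedralGroup.orderOf_r_one]
      rw [hcz, h2]
      have h3 : DihedralGroup.r i = (DihedralGroup.r (1 : ZMod n)) ^ i.val := by
        rw [DihedralGroup.r_one_pow, ZMod.natCast_zmod_val]
      rw [h3]
      exact pow_mem (mem_zpowers _) _
    | sr j =>
      rw [DihedralGroup.orderOf_sr] at hcard
      subst hcard
      have h3 : ∀ i : ZMod 2, i + i = 0 := by decide
      rw [DihedralGroup.r_mul_r, DihedralGroup.one_def, h3]

theorem dih_out {G : Type*} [Group G] [Finite G] {D C : Subgroup G} {n : ℕ} (hn : 2 ≤ n) (e : ↥D ≃* DihedralGroup n)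
    (hCD : C ≤ D) (hC : IsCyclic C) (hi : C.relIndex D = 2) {x : G} (hxD : x ∈ D) (hx : x ∉ C) : x * x = 1 := by
  have h1 : IsCyclic ((C.subgroupOf D).map e.toMonoidHom) := by
    haveI := hC
    haveI : IsCyclic (C.subgroupOf D) := isCyclic_of_surjective (subgroupOfEquivOfLe hCD).symm.toMonoidHom
      (subgroupOfEquivOfLe hCD).symm.surjective
    exact isCyclic_of_surjective ((C.subgroupOf D).equivMapOfInjective e.toMonoidHom e.injective).toMonoidHom
      ((C.subgroupOf D).equivMapOfInjective e.toMonoidHom e.injective).surjective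
  have h2 : ((C.subgroupOf D).map e.toMonoidHom).index = 2 := by
    rw [Subgroup.index_map_of_bijective e.bijective]
    exact hi
  have h3 : e ⟨x, hxD⟩ ∉ (C.subgroupOf D).map e.toMonoidHom := by
    rintro ⟨y, hy, hyx⟩
    have h4 : y = ⟨x, hxD⟩ := e.injective hyx
    rw [h4] at hy
    exact hx hy
  have h4 := dih_out' hn h1 h2 h3
  rw [← map_mul, ← map_one e] at h4
  exact congrArg Subtype.val (e.injective h4)

set_option maxHeartbeats 1000000 in
theorem final {G : Type*} [Group G] [Finite G] (L T S D C : Subgroup G) (hL : Cfsg.pResidual 2 ↥L = ⊤)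
    (hTL : T ≤ L) (hT2 : IsPGroup 2 T) (hTsyl : ¬ 2 ∣ T.relIndex L)
    (hS2 : IsPGroup 2 S) (hSsyl : ¬ 2 ∣ S.index) (hTS : T ≤ S)
    (hDS : D ≤ S) (hDih : ∃ n : ℕ, 2 ≤ n ∧ Nonempty (↥D ≃* DihedralGroup n)) (hDT : D ⊓ T = ⊥) (hTD : T ⊔ D = S) (hTDc : Nat.card T * Nat.card D = Nat.card S)
    (hCD : C ≤ D) (hC : IsCyclic ↥C) (hCi : C.relIndex D = 2)
    (h1 : ∀ x ∈ D, x ∉ C → orderOf x = 2 → ∀ g : G, g * x * g⁻¹ ∈ T ⊔ C → False)
    (h2 : ∀ c ∈ C, orderOf c = 2 → ∀ g : G, g * c * g⁻¹ ∈ T → False) :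
    ∃ K : Subgroup G, K.Normal ∧ K ⊔ D = ⊤ ∧
      ∀ T' : Subgroup G, T' ≤ L → IsPGroup 2 T' → ¬ 2 ∣ T'.relIndex L → T' ≤ K ∧ ¬ 2 ∣ T'.relIndex K := by
  haveI : Fact (Nat.Prime 2) := ⟨Nat.prime_two⟩
  obtain ⟨n, hn, ⟨e⟩⟩ := hDih
  have hDcard : Nat.card D = 2 * n := by
    rw [Nat.card_congr e.toEquiv, DihedralGroup.nat_card]
  have hCcard : Nat.card C = n := by
    have h3 := H1.card_mul_relIndex hCD
    rw [hCi, hDcard] at h3
    omega
  have hinv : ∀ x ∈ D, x ∉ C → x * x = 1 := fun x hx hxC => dih_out hn e hCD hC hCi hx hxC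
  have hinv2 : ∀ x ∈ D, x ∉ C → orderOf x = 2 := by
    intro x hx hxC
    apply orderOf_eq_prime
    · rw [pow_two]; exact hinv x hx hxC
    · rintro rfl; exact hxC (one_mem C)
  -- `S = D T` as a set
  have hprod : ∀ s ∈ S, ∃ d ∈ D, ∃ t ∈ T, s = d * t := by
    have h3 : IsComplement' (D.subgroupOf S) (T.subgroupOf S) := by
      apply isComplement'_of_card_mul_and_disjoint
      · rw [Nat.card_congr (subgroupOfEquivOfLe hDS).toEquiv, Nat.card_congr (subgroupOfEquivOfLe hTS).toEquiv,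
          mul_comm, hTDc]
      · rw [disjoint_iff, eq_bot_iff]
        intro y hy
        have h4 : (y : G) ∈ D ⊓ T := ⟨hy.1, hy.2⟩
        rw [hDT, mem_bot] at h4
        exact Subtype.ext h4
    intro s hs
    obtain ⟨⟨d, t⟩, hdt⟩ := h3.2 ⟨s, hs⟩
    exact ⟨d.1, d.2, t.1, t.2, (congrArg Subtype.val hdt).symm⟩
  have hMS : T ⊔ C ≤ S := sup_le hTS (hCD.trans hDS)
  -- membership of `d` in `M`
  have hdM : ∀ d ∈ D, d ∈ T ⊔ C ↔ d ∈ C := by
    intro d hd
    constructor
    · intro h3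
      by_contra h4
      exact h1 d hd h4 (hinv2 d hd h4) 1 (by rw [one_mul, inv_one, mul_one]; exact h3)
    · intro h3; exact (le_sup_right : C ≤ T ⊔ C) h3
  obtain ⟨a, ha, hab⟩ := relIindex_eq_two_iff'.1 hCi
  have hMi : (T ⊔ C).relIndex S = 2 := by
    rw [relIindex_eq_two_iff']
    refine ⟨a, hDS ha, ?_⟩
    intro b hb
    obtain ⟨d, hd, t, ht, rfl⟩ := hprod b hb
    have ht' : t ∈ T ⊔ C := (le_sup_left : T ≤ T ⊔ C) ht
    rw [← mul_assoc, Subgroup.mul_mem_cancel_right _ ht', Subgroup.mul_mem_cancel_right _ ht', hdM _ (mul_mem ha hd),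
      hdM _ hd]
    exact hab d hd
  have hodd : Odd S.index := by
    rw [← Nat.not_even_iff_odd]
    intro h3
    exact hSsyl h3.two_dvd
  have hMidx : (T ⊔ C).relIndex ⊤ = 2 ^ (0 + 1) * S.index := by
    rw [relIndex_top_right, ← relIndex_mul_index hMS, hMi, zero_add, pow_one]
  obtain ⟨N, -, hKN, hNi, hN⟩ := exists_index_two hodd hMidx
  set K := pResidual 2 G with hK
  have hKtop : 𝕆(2, (⊤ : Subgroup G)) = K := pRes_top
  rw [hKtop] at hKN
  have hout : ∀ x ∈ D, x ∉ C → x ∉ N ∧ ∀ d, d ∉ N → x * d ∈ N := by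
    intro x hx hxC
    have h3 := hN x (mem_top x) (by rw [zero_add, pow_one, pow_two]; exact hinv x hx hxC) (by
      intro g _ h3
      rw [pow_zero, pow_one] at h3
      exact h1 x hx hxC (hinv2 x hx hxC) g h3)
    exact ⟨h3.1, fun d hd => h3.2 d (mem_top d) hd⟩
  -- a witness outside
  have hCne : C ≠ D := by
    rintro rfl
    rw [relIndex_self] at hCi
    norm_num at hCi
  obtain ⟨x₀, hx₀D, hx₀C⟩ := SetLike.exists_of_lt (lt_of_le_of_ne hCD hCne)
  have hCN : C ≤ N := by
    intro c hc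
    by_contra h3
    have h4 := (hout x₀ hx₀D hx₀C).2 c h3
    have h5 : x₀ * c ∉ C := by
      intro h6
      apply hx₀C
      have := mul_mem h6 (inv_mem hc)
      rwa [mul_inv_cancel_right] at this
    exact (hout _ (mul_mem hx₀D (hCD hc)) h5).1 h4
  have hNi2 : N.index = 2 := by
    rw [relIndex_top_right] at hNi
    rcases (Nat.dvd_prime Nat.prime_two).1 hNi with h3 | h3
    · exfalso
      rw [Subgroup.index_eq_one] at h3
      apply (hout x₀ hx₀D hx₀C).1
      rw [h3]; exact mem_top _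
    · exact h3
  have hLK : L ≤ K := by
    have h3 : 𝕆(2, L) ≤ K := pRes_le_pResidual L
    rwa [hL, ← MonoidHom.range_eq_map, Subgroup.range_subtype] at h3
  have hTK : T ≤ K := hTL.trans hLK
  have hTN : T ≤ N := hTK.trans hKN
  have hON : 𝕆(2, N) = K := by
    rw [← hKtop]
    apply pRes_eq_of_le
    · rw [hKtop]; exact hKN
    · exact le_top
  -- the generator of `C`
  obtain ⟨⟨c, hcC⟩, hc⟩ := hC.exists_generator
  have hcz : C = zpowers c := by
    apply le_antisymm
    · intro y hy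
      obtain ⟨k, hk⟩ := hc ⟨y, hy⟩
      exact ⟨k, congrArg Subtype.val hk⟩
    · rw [zpowers_le]; exact hcC
  obtain ⟨j', hj'⟩ := IsPGroup.iff_card.1 (hS2.to_le (hCD.trans hDS))
  have hj0 : j' ≠ 0 := by
    rintro rfl
    rw [pow_zero, hCcard] at hj'
    omega
  obtain ⟨j, rfl⟩ := Nat.exists_eq_succ_of_ne_zero hj0
  have hord : orderOf c = 2 ^ (j + 1) := by
    rw [← Nat.card_zpowers, ← hcz, hj']
  have hTidx : T.relIndex N = 2 ^ (j + 1) * S.index := by
    have h3 : T.relIndex S = 2 * 2 ^ (j + 1) := by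
      have h4 := H1.card_mul_relIndex hTS
      rw [← hTDc, hDcard, ← hCcard, hj'] at h4
      exact Nat.eq_of_mul_eq_mul_left Nat.card_pos h4
    have h4 := relIndex_mul_index hTN
    have h5 := relIndex_mul_index hTS
    rw [hNi2] at h4
    rw [h3, ← h4] at h5
    have h6 : (2 ^ (j + 1) * S.index) * 2 = T.relIndex N * 2 := by rw [← h5]; ring
    exact (Nat.eq_of_mul_eq_mul_right (by norm_num) h6).symm
  have hc0 : orderOf (c ^ 2 ^ j) = 2 := by
    rw [orderOf_pow_of_dvd (by positivity) (by rw [hord]; exact pow_dvd_pow 2 (by omega)), hord, pow_succ,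
      Nat.mul_div_cancel_left _ (by positivity)]
  have hcK := cyc j N T c (hCN hcC) (by rw [hON]; exact hTK) (by rw [← hord]; exact pow_orderOf_eq_one c)
    ⟨S.index, hodd, hTidx⟩ (by
      intro g _ h3
      exact h2 _ (pow_mem hcC _) hc0 g h3)
  rw [hON] at hcK
  have hDK : ∀ y ∈ D, y ∈ K → y = 1 := by
    intro y hyD hyK
    have hyC : y ∈ C := by
      by_contra h3
      exact (hout y hyD h3).1 (hKN hyK)
    by_contra hy1
    apply hcK
    rw [hcz] at hyC
    obtain ⟨i, hi⟩ := (Submonoid.mem_powers_iff y c).1 (by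
      rw [← mem_powers_iff_mem_zpowers] at hyC
      exact hyC)
    have hi0 : i ≠ 0 := by
      rintro rfl
      apply hy1; rw [← hi, pow_zero]
    obtain ⟨a', b', hb', hi'⟩ := Nat.exists_eq_two_pow_mul_odd hi0
    have ha' : a' ≤ j := by
      by_contra h3
      apply hy1
      rw [← hi, ← orderOf_dvd_iff_pow_eq_one, hord, hi']
      exact Dvd.dvd.mul_right (pow_dvd_pow 2 (by omega)) _
    have h4 : y ^ 2 ^ (j - a') = c ^ 2 ^ j := by
      rw [← hi, ← pow_mul, hi']
      have h5 : 2 ^ a' * b' * 2 ^ (j - a') = 2 ^ j * b' := by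
        rw [show 2 ^ j = 2 ^ a' * 2 ^ (j - a') by rw [← pow_add]; congr 1; omega]
        ring
      rw [h5, pow_mul]
      obtain ⟨b'', hb''⟩ := hb'
      rw [hb'', pow_add, pow_mul, pow_one]
      have h6 : (c ^ 2 ^ j) ^ 2 = 1 := orderOf_dvd_iff_pow_eq_one.1 hc0.dvd
      rw [h6, one_pow, one_mul]
    rw [← h4]
    exact pow_mem hyK _
  have hKn : K.Normal := inferInstance
  have hsylS : ∃ P : Sylow 2 G, (P : Subgroup G) = S := by
    obtain ⟨P, hP⟩ := hS2.exists_le_sylow
    refine ⟨P, ?_⟩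
    have h3 : S.relIndex (P : Subgroup G) = 1 := by
      have h4 : S.relIndex (P : Subgroup G) ∣ S.index := by
        rw [← relIndex_mul_index hP]; exact dvd_mul_right _ _
      have h5 : S.relIndex (P : Subgroup G) ∣ Nat.card P := by
        rw [← H1.card_mul_relIndex hP]; exact dvd_mul_left _ _
      obtain ⟨k, hk⟩ := IsPGroup.iff_card.1 P.isPGroup'
      have hk' : Nat.card (P : Subgroup G) = 2 ^ k := hk
      rw [hk'] at h5
      exact Nat.eq_one_of_dvd_coprimes ((Nat.coprime_two_right.2 hodd).pow_right k) h4 h5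
    rw [relIndex_eq_one] at h3
    exact le_antisymm h3 hP
  have hKS : K ⊔ S = ⊤ := by
    obtain ⟨P, hP⟩ := hsylS
    rw [← hP, sup_comm]
    exact sylow_sup_pResidual P
  refine ⟨K, hKn, ?_, ?_⟩
  · rw [← hKS, ← hTD, ← sup_assoc, sup_of_le_left hTK]
  · intro T' hT'L hT'p hT'i
    refine ⟨hT'L.trans hLK, ?_⟩
    have hinf : K ⊓ S = T := by
      apply le_antisymm
      · rintro s ⟨hsK, hsS⟩
        obtain ⟨d, hd, t, ht, rfl⟩ := hprod s hsS
        have h3 : d ∈ K := by
          have h7 : d * t ∈ K := hsK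
          have := K.mul_mem h7 (K.inv_mem (hTK ht))
          rwa [mul_inv_cancel_right] at this
        rw [hDK d hd h3, one_mul]; exact ht
      · exact le_inf hTK hTS
    have hcardK : Nat.card K = Nat.card T * S.index := by
      have h3 := H1.card_sup_mul_card_inf_of_le_normalizer (H := K) (K := S)
        (by rw [normalizer_eq_top]; exact le_top)
      rw [hKS, hinf, Subgroup.card_top, ← Subgroup.card_mul_index S] at h3
      have h4 : Nat.card S * Nat.card K = Nat.card S * (Nat.card T * S.index) := by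
        rw [mul_comm (Nat.card S) (Nat.card K), ← h3]; ring
      exact Nat.eq_of_mul_eq_mul_left Nat.card_pos h4
    have hTT' : Nat.card T' = Nat.card T := by
      obtain ⟨s, hs⟩ := IsPGroup.iff_card.1 hT2
      obtain ⟨s', hs'⟩ := IsPGroup.iff_card.1 hT'p
      have h3 := H1.card_mul_relIndex hTL
      have h4 := H1.card_mul_relIndex hT'L
      apply Nat.dvd_antisymm
      · have h5 : Nat.card T' ∣ Nat.card T * T.relIndex L := by rw [h3, ← h4]; exact dvd_mul_right _ _
        rw [hs'] at h5 ⊢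
        refine Nat.Coprime.dvd_of_dvd_mul_right ?_ h5
        exact Nat.Coprime.pow_left s' ((Nat.Prime.coprime_iff_not_dvd Nat.prime_two).2 hTsyl)
      · have h5 : Nat.card T ∣ Nat.card T' * T'.relIndex L := by rw [h4, ← h3]; exact dvd_mul_right _ _
        rw [hs] at h5 ⊢
        refine Nat.Coprime.dvd_of_dvd_mul_right ?_ h5
        exact Nat.Coprime.pow_left s ((Nat.Prime.coprime_iff_not_dvd Nat.prime_two).2 hT'i)
    have h5 := H1.card_mul_relIndex (hT'L.trans hLK)
    rw [hTT', hcardK] at h5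
    rw [Nat.eq_of_mul_eq_mul_left Nat.card_pos h5]
    exact hSsyl

end Cfsg.Agent.H18.DihTr
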