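import Cfsg.Agent.H10.AxB
import Cfsg.Agent.H23.Coprime4
import Cfsg.Agent.H18.PCore
import Cfsg.Agent.H18.FrattiniP
import Cfsg.Agent.H18.Basics

/-!
# dual `A × B` lemma, and `[R,U]` centralizes `E` (helper18)
-/

set_option autoImplicit false
set_option linter.style.haveILetI false
open Cfsg
open scoped commutatorElement

namespace Cfsg.Agent.H18

variable {G : Type*} [Group G] {p : ℕ}

/-- dual `A × B` lemma: if `A` is a `p'`-group, `B` a `p`-group, `[A, B] = 1` and `[Q, A] ≤ [Q, B]`
then `[Q, A] = 1`. -/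
theorem dual_axb [Finite G] [hp : Fact p.Prime] {A B Q : Subgroup G}
    (hAB : ⁅A, B⁆ = ⊥) (hB : IsPGroup p B) (hA : (Nat.card A).Coprime p) (hQ : IsPGroup p Q)
    (hAQ : A ≤ Subgroup.normalizer (Q : Set G)) (hBQ : B ≤ Subgroup.normalizer (Q : Set G))
    (h : ⁅Q, A⁆ ≤ ⁅Q, B⁆) : ⁅Q, A⁆ = ⊥ := by
  have hcop : (Nat.card A).Coprime (Nat.card Q) := H23.card_coprime_of_isPGroup hQ hA
  have hQs : Group.IsSolvable Q := H23.isSolvable_of_isPGroup hQ
  have h1 := H23.commutator_sup_centralizer hAQ hcop (Or.inr hQs)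
  set K := Q ⊓ Subgroup.centralizer (A : Set G) with hK
  have hBA : B ≤ Subgroup.centralizer (A : Set G) := by
    rw [Subgroup.commutator_comm] at hAB
    exact Subgroup.commutator_eq_bot_iff_le_centralizer.1 hAB
  have hBK : B ≤ Subgroup.normalizer (K : Set G) :=
    le_normalizer_inf hBQ (le_normalizer_centralizer (hBA.trans (Subgroup.centralizer_le_normalizer _)))
  set P := Q ⊔ B with hP
  have hPp : IsPGroup p P := hQ.to_sup_of_normal_left' hB hBQ
  have hKP : K ⊔ B ≤ P := sup_le (inf_le_left.trans le_sup_left) le_sup_right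
  have h2 : K ⊔ B = P := by
    apply H23.eq_of_sup_frattini_map hKP
    have h3 : ⁅Q, B⁆ ≤ (frattini P).map P.subtype := by
      have h4 : ⁅Q, B⁆ ≤ ⁅P, P⁆ := Subgroup.commutator_mono le_sup_left le_sup_right
      refine h4.trans ?_
      rw [← Subgroup.map_subtype_commutator]
      apply Subgroup.map_mono
      exact H2.commutator_le_frattini hPp
    refine sup_le ?_ (le_sup_right.trans le_sup_left)
    rw [← h1]
    exact sup_le ((h.trans h3).trans le_sup_right) (le_sup_left.trans le_sup_left)
  have h3 : Q ≤ K := by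
    intro q hq
    have h4 : q ∈ K ⊔ B := by rw [h2]; exact Subgroup.mem_sup_left hq
    obtain ⟨k, hk, b, hb, hkb⟩ := (H23.mem_sup_iff_of_le_normalizer hBK).1 h4
    have h5 : b ∈ K := by
      refine Subgroup.mem_inf.2 ⟨?_, hBA hb⟩
      have : b = k⁻¹ * q := by rw [← hkb]; group
      rw [this]
      exact Q.mul_mem (Q.inv_mem hk.1) hq
    rw [← hkb]
    exact K.mul_mem hk h5
  rw [Subgroup.commutator_eq_bot_iff_le_centralizer]
  exact h3.trans inf_le_right

theorem ru_centralizes [Finite G] [hp : Fact p.Prime] (E : Subgroup G) [hEn : E.Normal]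
    (hE : IsPGroup p E) (U : Subgroup G) (hU : IsElementaryAbelian p U) (hnc : ¬ IsCyclic U)
    (hcond : (∀ u ∈ U, u ≠ 1 → E ⊓ Subgroup.centralizer (U : Set G) =
      E ⊓ Subgroup.centralizer ({u} : Set G)) ∨
      (∀ u ∈ U, u ≠ 1 → ⁅E, U⁆ = ⁅E, Subgroup.zpowers u⁆))
    (R : Subgroup G) (hR : ¬ p ∣ Nat.card R) (hRU : U ≤ Subgroup.normalizer (R : Set G)) :
    ⁅R, U⁆ ≤ Subgroup.centralizer (E : Set G) := by
  have hUp : IsPGroup p U := by
    intro x
    exact ⟨1, Subtype.ext (by rw [pow_one]; exact hU.2 x x.2)⟩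
  have hRc : (Nat.card R).Coprime p := by
    rw [Nat.coprime_comm]; exact (Nat.Prime.coprime_iff_not_dvd hp.out).2 hR
  have hcop : (Nat.card U).Coprime (Nat.card R) := (H23.card_coprime_of_isPGroup hUp hRc).symm
  have hnE : ∀ A : Subgroup G, A ≤ Subgroup.normalizer (E : Set G) := fun A =>
    le_normalizer_of_normal
  have hUc : ∀ u ∈ U, U ≤ Subgroup.centralizer ({u} : Set G) := by
    intro u hu x hx
    rw [Subgroup.mem_centralizer_iff]
    rintro _ rfl
    exact congrArg Subtype.val (hU.1.is_comm.comm ⟨_, hu⟩ ⟨x, hx⟩)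
  have key : ∀ u ∈ U, u ≠ 1 → ⁅R ⊓ Subgroup.centralizer ({u} : Set G), U⁆ ≤
      Subgroup.centralizer (E : Set G) := by
    intro u hu hu1
    set R₁ := R ⊓ Subgroup.centralizer ({u} : Set G) with hR₁
    have hzc : Subgroup.centralizer ((Subgroup.zpowers u : Subgroup G) : Set G) =
        Subgroup.centralizer ({u} : Set G) := by
      rw [Subgroup.zpowers_eq_closure, Subgroup.centralizer_closure]
    have hzU : Subgroup.zpowers u ≤ U := (Subgroup.zpowers_le).2 hu
    have hUN : U ≤ Subgroup.normalizer (R₁ : Set G) := by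
      refine le_normalizer_inf hRU ?_
      rw [← hzc]
      refine le_normalizer_centralizer ?_
      refine le_trans ?_ (Subgroup.centralizer_le_normalizer _)
      rw [hzc]
      exact hUc u hu
    have hD1 : ⁅R₁, U⁆ ≤ R₁ := H23.commutator_le_of_le_normalizer hUN
    have hDc : (Nat.card (⁅R₁, U⁆ : Subgroup G)).Coprime p := Nat.Coprime.coprime_dvd_left
      (Subgroup.card_dvd_of_le (hD1.trans inf_le_left)) hRc
    have hDu : ⁅⁅R₁, U⁆, Subgroup.zpowers u⁆ = ⊥ := by
      rw [Subgroup.commutator_eq_bot_iff_le_centralizer, hzc]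
      exact hD1.trans inf_le_right
    have hzp : IsPGroup p (Subgroup.zpowers u) := hUp.to_le hzU
    have hR1z : R₁ ≤ Subgroup.normalizer ((Subgroup.zpowers u : Subgroup G) : Set G) := by
      refine le_trans ?_ (Subgroup.centralizer_le_normalizer _)
      rw [hzc]; exact inf_le_right
    rw [Subgroup.le_centralizer_iff, ← Subgroup.commutator_eq_bot_iff_le_centralizer]
    rcases hcond with hc | hc
    · refine H10.axb_coprime hDu hzp hDc hE (hnE _) (hnE _) ?_
      rw [hzc, ← hc u hu hu1]
      set W := E ⊓ Subgroup.centralizer (U : Set G) with hW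
      rw [Subgroup.commutator_comm]
      have hWU : ⁅W, U⁆ = ⊥ := by
        rw [Subgroup.commutator_eq_bot_iff_le_centralizer]; exact inf_le_right
      apply Subgroup.commutator_commutator_eq_bot_of_rotate
      · rw [Subgroup.commutator_comm U W, hWU, Subgroup.commutator_bot_left]
      · have h1 : ⁅W, R₁⁆ ≤ W := by
          apply H23.commutator_le_of_le_normalizer
          rw [hc u hu hu1, ← hzc]
          exact le_normalizer_inf (hnE _) (le_normalizer_centralizer hR1z)
        rw [← le_bot_iff, ← hWU]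
        exact Subgroup.commutator_mono h1 le_rfl
    · refine dual_axb hDu hzp hDc hE (hnE _) (hnE _) ?_
      have h1 : R₁ ≤ Subgroup.normalizer ((⁅E, Subgroup.zpowers u⁆ : Subgroup G) : Set G) :=
        le_normalizer_commutator (hnE _) hR1z
      rw [Subgroup.commutator_comm E ⁅R₁, U⁆]
      have h2 := hc u hu hu1
      rw [← h2] at h1 ⊢
      apply three_subgroups_le h1 (Subgroup.normalizer_commutator_ge_right E U)
        (Subgroup.normalizer_commutator_ge_left E U)
      · rw [Subgroup.commutator_comm U E]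
        exact H23.commutator_le_of_le_normalizer h1
      · exact Subgroup.commutator_mono (H23.commutator_le_of_le_normalizer (hnE _)) le_rfl
  have hCn : (Subgroup.centralizer (E : Set G)).Normal := inferInstance
  set π := QuotientGroup.mk' (Subgroup.centralizer (E : Set G)) with hπ
  have hker : ∀ x : G, x ∈ Subgroup.centralizer (E : Set G) ↔ π x = 1 := by
    intro x
    rw [← MonoidHom.mem_ker, hπ, QuotientGroup.ker_mk']
  have hRT : R ≤ (Subgroup.centralizer ((U.map π : Subgroup _) : Set (G ⧸ _))).comap π := by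
    rw [← H23.iSup_centralizer_of_not_isCyclic hU.1 hnc hRU hcop]
    refine iSup_le ?_
    rintro ⟨u, hu, hu1⟩ x hx
    rw [Subgroup.mem_comap, Subgroup.mem_centralizer_iff]
    rintro _ ⟨v, hv, rfl⟩
    have h3 : ⁅x, v⁆ ∈ Subgroup.centralizer (E : Set G) :=
      key u hu hu1 (Subgroup.commutator_mem_commutator hx hv)
    rw [hker, map_commutatorElement, commutatorElement_eq_one_iff_mul_comm] at h3
    exact h3.symm
  rw [Subgroup.commutator_le]
  intro x hx v hv
  rw [hker, map_commutatorElement, commutatorElement_eq_one_iff_mul_comm]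
  exact (Subgroup.mem_centralizer_iff.1 (hRT hx) (π v) ⟨v, hv, rfl⟩).symm

end Cfsg.Agent.H18
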