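import Mathlib
import Cfsg.Prelude
import Cfsg.Agent.H18.E8c
import Cfsg.Agent.H18.FrattiniP
import Cfsg.Agent.H1.Hall
import Cfsg.Agent.H1.Coprime

set_option autoImplicit false
set_option linter.all false

namespace Cfsg.Agent.H18.E8

open Subgroup
open scoped commutatorElement

variable {S : Type*} [Group S] [Finite S]

theorem centerX (X : Subgroup S) : (center ↥X).map X.subtype = X ⊓ centralizer (X : Set S) := by
  ext y
  constructor
  · rintro ⟨z, hz, rfl⟩
    refine ⟨z.2, ?_⟩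
    apply mem_centralizer_iff.2
    intro w hw
    exact congrArg Subtype.val (mem_center_iff.1 hz ⟨w, hw⟩)
  · rintro ⟨hy, hyc⟩
    refine ⟨⟨y, hy⟩, ?_, rfl⟩
    show (⟨y, hy⟩ : X) ∈ center X
    rw [mem_center_iff]
    intro w
    exact Subtype.ext (mem_centralizer_iff.1 hyc w w.2)

theorem special_of {X : Subgroup S} (hX : IsPGroup 2 X) (h1 : frat X = X ⊓ centralizer (X : Set S))
    (h2 : ⁅X, X⁆ = X ⊓ centralizer (X : Set S)) : Cfsg.IsSpecial 2 ↥X := by
  refine ⟨hX, ?_, ?_⟩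
  · apply Subgroup.map_injective X.subtype_injective
    rw [centerX]; exact h1
  · apply Subgroup.map_injective X.subtype_injective
    rw [centerX, ← h2, _root_.commutator_def, Subgroup.map_commutator, ← MonoidHom.range_eq_map,
      Subgroup.range_subtype]

theorem card_center (X : Subgroup S) : Nat.card (center ↥X) = Nat.card ↥(X ⊓ centralizer (X : Set S)) := by
  rw [← centerX, card_map']

/-- The standing hypotheses -/
structure Hyp (X K : Subgroup S) : Prop where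
  hX : IsPGroup 2 X
  hK : (Nat.card K).Coprime 2
  hKX : K ≤ normalizer (X : Set S)
  hc : ¬ X ≤ centralizer (K : Set S)
  hmin : ∀ R : Subgroup S, R ≤ X → K ≤ normalizer (R : Set S) → R ≠ X → NoE R
  hA : ∃ A : Subgroup S, A ≤ X ∧ (∀ a ∈ A, ∀ b ∈ A, a * b = b * a) ∧ Nat.card A = 8
  hnab : ¬ ∀ a ∈ X, ∀ b ∈ X, a * b = b * a

variable {X K : Subgroup S}

theorem Hyp.fratne (h : Hyp X K) : frat X ≠ X := by
  intro hF
  apply h.hnab
  have hXne : X ≠ ⊥ := by
    intro h1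
    apply h.hnab
    intro a ha b hb
    rw [h1, mem_bot] at ha hb
    rw [ha, hb]
  exfalso
  have h1 : frattini ↥X = ⊤ := by
    apply Subgroup.map_injective X.subtype_injective
    rw [← MonoidHom.range_eq_map, Subgroup.range_subtype]; exact hF
  have h2 : (⊥ : Subgroup X) = ⊤ := by
    apply frattini_nongenerating
    rw [h1, bot_sup_eq]
  haveI : Nontrivial X := (Subgroup.nontrivial_iff_ne_bot X).2 hXne
  exact bot_ne_top h2

theorem Hyp.Kfrat (h : Hyp X K) : K ≤ normalizer ((frat X : Subgroup S) : Set S) :=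
  h.hKX.trans (normalizer_le_normalizer_frat X)

theorem Hyp.comm_le (h : Hyp X K) : ⁅X, X⁆ ≤ frat X := commutator_le_frat h.hX

theorem Hyp.sq_mem (h : Hyp X K) {a : S} (ha : a ∈ X) : a ^ 2 ∈ frat X := pow_mem_frat h.hX ha

theorem Hyp.norm_of_ge (h : Hyp X K) {Y : Subgroup S} (h1 : frat X ≤ Y) (h2 : Y ≤ X) :
    X ≤ normalizer (Y : Set S) := by
  refine H23.le_normalizer_of_conj_mem ?_
  intro g hg y hy
  have h3 : g * y * g⁻¹ = ⁅g, y⁆ * y := by rw [commutatorElement_def]; group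
  rw [h3]
  exact mul_mem (h1 (h.comm_le (commutator_mem_commutator hg (h2 hy)))) hy

theorem Hyp.solv (h : Hyp X K) : Group.IsSolvable X := H23.isSolvable_of_isPGroup h.hX

theorem Hyp.not_comm_le (h : Hyp X K) : ¬ ⁅X, K⁆ ≤ frat X := fun h1 =>
  h.hc (H23.le_centralizer_of_commutator_le_frattini h.hKX (coprime_of h.hK h.hX) (Or.inr h.solv) h1)

theorem Hyp.XK_eq (h : Hyp X K) (h1 : ⁅X, K⁆ ⊔ frat X = X) : ⁅X, K⁆ = X :=
  H23.eq_of_sup_frattini_map (H23.commutator_le_of_le_normalizer h.hKX) h1.ge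

theorem Hyp.XK_norm (h : Hyp X K) : K ≤ normalizer ((⁅X, K⁆ : Subgroup S) : Set S) :=
  H1.right_le_normalizer_commutator X K

/-- members of `X` centralized by `K` -/
theorem Hyp.cent_le (h : Hyp X K) (h1 : ⁅X, K⁆ = X) {Y : Subgroup S} (hY : Y ≤ X)
    (hYK : Y ≤ centralizer (K : Set S)) : Y ≤ ⁅X, X⁆ := by
  have := H23.commutator_inf_centralizer_le_derived h.hKX (coprime_of h.hK h.hX)
  rw [h1] at this
  exact (le_inf hY hYK).trans this

theorem Hyp.red (h : Hyp X K) {Y : Subgroup S} (h1 : frat X ≤ Y) (h2 : Y ≤ X) (h3 : Y ≠ frat X)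
    (h4 : Y ≠ X) (h5 : K ≤ normalizer (Y : Set S)) :
    ∃ Y₁ : Subgroup S, frat X ≤ Y₁ ∧ Y₁ ≤ X ∧ Y₁ ≠ frat X ∧ Y₁ ≠ X ∧ K ≤ normalizer (Y₁ : Set S) ∧
      ¬ Y₁ ≤ centralizer (K : Set S) := by
  by_cases hYc : Y ≤ centralizer (K : Set S)
  · have hle : ⁅X, K⁆ ≤ X := H23.commutator_le_of_le_normalizer h.hKX
    have hne : ⁅X, K⁆ ⊔ frat X ≠ X := by
      intro h6
      have h7 := h.XK_eq h6
      exact h3 (le_antisymm ((h.cent_le h7 h2 hYc).trans h.comm_le) h1)
    refine ⟨⁅X, K⁆ ⊔ frat X, le_sup_right, sup_le hle (frat_le X), ?_, hne, ?_, ?_⟩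
    · intro h6
      apply h.not_comm_le
      rw [← h6]; exact le_sup_left
    · intro k hk
      have h7 := h.XK_norm hk
      have h8 := h.Kfrat hk
      rw [H18.mem_normalizer_iff_map] at h7 h8 ⊢
      rw [Subgroup.map_sup, h7, h8]
    · intro h6
      have h7 : ⁅X, K⁆ ≤ centralizer (K : Set S) := le_sup_left.trans h6
      have h8 : ⁅⁅X, K⁆, K⁆ = ⊥ := by
        rw [commutator_eq_bot_iff_le_centralizer]; exact h7
      rw [H23.commutator_commutator_eq h.hKX (coprime_of h.hK h.hX)] at h8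
      apply h.not_comm_le
      rw [h8]; exact bot_le
  · exact ⟨Y, h1, h2, h3, h4, h5, hYc⟩

theorem Hyp.card_gt (h : Hyp X K) : 16 ≤ Nat.card X := by
  obtain ⟨A, hAX, hAc, hA8⟩ := h.hA
  have h1 : Nat.card A ∣ Nat.card X := Subgroup.card_dvd_of_le hAX
  have h2 : Nat.card A ≠ Nat.card X := by
    intro h3
    have : A = X := Subgroup.eq_of_le_of_card_ge hAX h3.ge
    apply h.hnab
    rw [← this]; exact hAc
  rw [hA8] at h1 h2
  obtain ⟨k, hk⟩ := h1
  have h3 : 0 < Nat.card X := Nat.card_pos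
  have h4 : k ≠ 0 := by rintro rfl; omega
  have h5 : k ≠ 1 := by rintro rfl; omega
  omega

end Cfsg.Agent.H18.E8
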