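import Mathlib
import Cfsg.Prelude
import Cfsg.Agent.H18.E8d

set_option autoImplicit false
set_option linter.all false

namespace Cfsg.Agent.H18.E8

open Subgroup
open scoped commutatorElement

variable {S : Type*} [Group S] [Finite S] {X K : Subgroup S}

/-- normalizer of the relative centralizer -/
theorem norm_cent {K X Y : Subgroup S} (h1 : K ≤ normalizer (X : Set S)) (h2 : K ≤ normalizer (Y : Set S)) :
    K ≤ normalizer ((X ⊓ centralizer (Y : Set S) : Subgroup S) : Set S) := by
  refine H23.le_normalizer_of_conj_mem ?_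
  intro k hk c hc
  refine ⟨(mem_normalizer_iff.1 (h1 hk) c).1 hc.1, ?_⟩
  apply mem_centralizer_iff.2
  intro y hy
  have h3 : k⁻¹ * y * k ∈ Y := by
    have := (mem_normalizer_iff.1 (inv_mem (h2 hk)) y).1 hy
    rwa [inv_inv] at this
  have h4 := mem_centralizer_iff.1 hc.2 _ h3
  calc y * (k * c * k⁻¹) = k * (k⁻¹ * y * k * c) * k⁻¹ := by group
    _ = k * (c * (k⁻¹ * y * k)) * k⁻¹ := by rw [h4]
    _ = k * c * k⁻¹ * y := by group

/-- abelian of exponent dividing four and cyclic implies order at most four -/
theorem card_le_of_exp {B : Subgroup S} (hB : IsCyclic B) (h4 : ∀ b ∈ B, b ^ 4 = 1) : Nat.card B ≤ 4 := by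
  obtain ⟨g, hg⟩ := hB.exists_generator
  have h1 : orderOf g = Nat.card B := orderOf_eq_card_of_forall_mem_zpowers hg
  have h2 : g ^ 4 = 1 := Subtype.ext (h4 g g.2)
  rw [← h1]
  exact Nat.le_of_dvd (by norm_num) (orderOf_dvd_of_pow_eq_one h2)

theorem two_mul_card_le {H H' : Subgroup S} (h : H ≤ H') (hne : H ≠ H') :
    2 * Nat.card H ≤ Nat.card H' := by
  obtain ⟨k, hk⟩ := Subgroup.card_dvd_of_le h
  have h1 : 0 < Nat.card H' := Nat.card_pos
  have hk0 : k ≠ 0 := by rintro rfl; rw [mul_zero] at hk; omega
  have hk1 : k ≠ 1 := by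
    rintro rfl
    rw [mul_one] at hk
    exact hne (Subgroup.eq_of_le_of_card_ge h hk.le)
  rw [hk, mul_comm]
  exact Nat.mul_le_mul_left _ (by omega)

set_option maxHeartbeats 1000000 in
theorem Hyp.reducible (h : Hyp X K) {Y : Subgroup S} (h1 : frat X ≤ Y) (h2 : Y ≤ X) (h3 : Y ≠ frat X)
    (h4 : Y ≠ X) (h5 : K ≤ normalizer (Y : Set S)) (h6 : ¬ Y ≤ centralizer (K : Set S)) :
    (Cfsg.IsExtraspecial 2 ↥X ∧ 32 ≤ Nat.card ↥X) ∨
    (∃ (X₀ : Subgroup S) (k : ℕ), X₀ ≤ X ∧ X₀.relIndex X = 2 ∧
      Nonempty (↥X₀ ≃* QuaternionGroup (2 ^ (k + 1))) ∧ X₀ ⊔ (X ⊓ centralizer (X₀ : Set S)) = X) := by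
  have hYE := h.hmin Y h2 h5 h4
  have hYp : IsPGroup 2 Y := h.hX.to_le h2
  have hXY := h.norm_of_ge h1 h2
  rcases lemmaQ hYE hYp h.hK h5 h6 with ⟨hY4, -⟩ | ⟨u, x, hq⟩
  · -- V4
    exfalso
    have h7 : frat X = ⊥ := V4_inv hY4 h.hK h5 h6 h1 h.Kfrat h3.symm
    apply h.hnab
    intro a ha b hb
    have h8 := h.comm_le (commutator_mem_commutator ha hb)
    rw [h7, mem_bot, commutatorElement_eq_one_iff_mul_comm] at h8
    exact h8
  · -- Q8
    have hFle : frat X ≤ zpowers (u ^ 2) := hq.inv h.hK h5 h6 h1 h.Kfrat h3.symm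
    have huX : u ∈ X := h2 hq.hu
    have hxX : x ∈ X := h2 hq.hx
    have hu2F : u ^ 2 ∈ frat X := by
      have h8 := h.comm_le (commutator_mem_commutator hxX huX)
      have h9 : ⁅x, u⁆ = (u ^ 2)⁻¹ := by
        rw [commutatorElement_def, hq.conj]; group
      rw [h9] at h8
      exact inv_mem_iff.1 h8
    have hF : frat X = zpowers (u ^ 2) := le_antisymm hFle (zpowers_le.2 hu2F)
    set C := X ⊓ centralizer (Y : Set S) with hC
    have hsup : Y ⊔ C = X := by
      apply le_antisymm (sup_le h2 inf_le_left)
      intro g hg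
      have h8 : ∀ y ∈ Y, g * y * g⁻¹ * y⁻¹ ∈ zpowers (u ^ 2) := fun y hy => by
        rw [← hF]
        exact h.comm_le (commutator_mem_commutator hg (h2 hy))
      obtain ⟨r, hr, hrc⟩ := hq.inner (h8 u hq.hu) (h8 x hq.hx)
      have h9 : g = r * (r⁻¹ * g) := by group
      rw [h9]
      exact Subgroup.mul_mem_sup hr ⟨Subgroup.mul_mem _ (Subgroup.inv_mem _ (h2 hr)) hg, hrc⟩
    have hKC : K ≤ normalizer (C : Set S) := norm_cent h.hKX h5
    have hCX : C ≠ X := by
      intro h8
      apply hq.not_comm
      have h9 : x ∈ C := by rw [h8]; exact hxX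
      exact (mem_centralizer_iff.1 h9.2 u hq.hu).symm
    have hCE := h.hmin C inf_le_left hKC hCX
    have hCp : IsPGroup 2 C := h.hX.to_le inf_le_left
    have hu2Y : u ^ 2 ∈ centralizer (Y : Set S) := by
      apply hq.cent_of
      · rw [← pow_succ, ← pow_succ']
      · have h8 : x * u ^ 2 * x⁻¹ = (u ^ 2)⁻¹ := by rw [← conj_pow, hq.conj, inv_pow]
        have h9 : (u ^ 2)⁻¹ = u ^ 2 := by
          rw [inv_eq_iff_mul_eq_one, ← pow_add]; exact hq.u4
        rw [h9] at h8
        exact (mul_inv_eq_iff_eq_mul.1 h8).symm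
    have hinf : Y ⊓ C = zpowers (u ^ 2) := by
      apply le_antisymm
      · have h8 : K ≤ normalizer ((Y ⊓ centralizer (Y : Set S) : Subgroup S) : Set S) := norm_cent h5 h5
        have h9 : Y ⊓ centralizer (Y : Set S) ≠ Y := by
          intro h10
          apply hq.not_comm
          have h11 : x ∈ Y ⊓ centralizer (Y : Set S) := by rw [h10]; exact hq.hx
          exact (mem_centralizer_iff.1 h11.2 u hq.hu).symm
        have h10 := hq.inv h.hK h5 h6 inf_le_left h8 h9
        exact (le_inf inf_le_left (inf_le_right.trans inf_le_right)).trans h10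
      · rw [zpowers_le]
        refine ⟨pow_mem hq.hu 2, pow_mem huX 2, ?_⟩
        exact hu2Y
    have hCY : C ≤ normalizer (Y : Set S) := inf_le_left.trans hXY
    have hcard : Nat.card X = 4 * Nat.card C := by
      have h8 := H1.card_sup_mul_card_inf_of_le_normalizer hCY
      rw [hsup, hinf, hq.zcard, hq.card] at h8
      omega
    have h4C : ∀ c ∈ C, c ^ 4 = 1 := by
      intro c hc
      have h8 := h.sq_mem hc.1
      rw [hF, hq.mem_z] at h8
      have h9 : c ^ 4 = (c ^ 2) ^ 2 := by rw [← pow_mul]
      rw [h9]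
      rcases h8 with h8 | h8
      · rw [h8, one_pow]
      · rw [h8, ← pow_mul]; exact hq.u4
    have h16 := h.card_gt
    by_cases hab : ∀ a ∈ C, ∀ b ∈ C, a * b = b * a
    · right
      have hC4 : Nat.card C ≤ 4 := by
        by_cases hcyc : IsCyclic C
        · exact card_le_of_exp hcyc h4C
        · exact hCE.card_le hCp le_rfl hab hcyc
      refine ⟨Y, 0, h2, ?_, hq.iso, hsup⟩
      have h8 := Subgroup.index_mul_card (Y.subgroupOf X)
      rw [Nat.card_congr (Subgroup.subgroupOfEquivOfLe h2).toEquiv, hq.card] at h8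
      have h9 : Y.relIndex X * 8 = Nat.card X := h8
      omega
    · left
      push Not at hab
      obtain ⟨a, ha, b, hb, hab⟩ := hab
      -- the centre
      have hZle : X ⊓ centralizer (X : Set S) ≤ frat X := by
        intro z hz
        by_contra hzF
        have hzC : z ∈ C := ⟨hz.1, centralizer_le (fun y hy => h2 hy) hz.2⟩
        have hzc : ∀ g ∈ X, g * z = z * g := fun g hg => mem_centralizer_iff.1 hz.2 g hg
        -- `⟨u², z, a⟩`
        have hc1 : IsMulCommutative (zpowers (u ^ 2)) := inferInstance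
        have hz1 : z ∈ centralizer (zpowers (u ^ 2) : Set S) := by
          rw [mem_centralizer_iff]
          intro y hy
          rw [SetLike.mem_coe, ← hF] at hy
          exact hzc y (frat_le X hy)
        have hc2 := H23.isMulCommutative_sup_zpowers hc1 hz1
        have haX : a ∈ X := ha.1
        have ha1 : a ∈ centralizer ((zpowers (u ^ 2) ⊔ zpowers z : Subgroup S) : Set S) := by
          have hle : zpowers (u ^ 2) ⊔ zpowers z ≤ centralizer ({a} : Set S) := by
            rw [sup_le_iff, zpowers_le, zpowers_le]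
            constructor
            · rw [mem_centralizer_singleton_iff]
              exact mem_centralizer_iff.1 ha.2 _ (pow_mem hq.hu 2)
            · rw [mem_centralizer_singleton_iff]
              exact (hzc a haX).symm
          rw [mem_centralizer_iff]
          intro y hy
          exact mem_centralizer_singleton_iff.1 (hle hy)
        have hc3 := H23.isMulCommutative_sup_zpowers hc2 ha1
        set B := (zpowers (u ^ 2) ⊔ zpowers z) ⊔ zpowers a with hBdef
        have hu2C : u ^ 2 ∈ C := ⟨pow_mem huX 2, hu2Y⟩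
        have hBC : B ≤ C := by
          rw [hBdef, sup_le_iff, sup_le_iff, zpowers_le, zpowers_le, zpowers_le]
          exact ⟨⟨hu2C, hzC⟩, ha⟩
        have hBc : ∀ y ∈ B, ∀ w ∈ B, y * w = w * y := fun y hy w hw =>
          congrArg Subtype.val (hc3.is_comm.comm (⟨y, hy⟩ : B) ⟨w, hw⟩)
        have hBp : IsPGroup 2 B := hCp.to_le hBC
        have hB4 : Nat.card B ≤ 4 := by
          by_cases hcyc : IsCyclic B
          · exact card_le_of_exp hcyc (fun b hb => h4C b (hBC hb))
          · exact hCE.card_le hBp hBC hBc hcyc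
        have hd1 : 2 * Nat.card (zpowers (u ^ 2)) ≤ Nat.card (zpowers (u ^ 2) ⊔ zpowers z : Subgroup S) := by
          apply two_mul_card_le le_sup_left
          intro h10
          apply hzF
          rw [hF, h10]
          exact (le_sup_right : zpowers z ≤ zpowers (u ^ 2) ⊔ zpowers z) (mem_zpowers z)
        have hd2 : 2 * Nat.card (zpowers (u ^ 2) ⊔ zpowers z : Subgroup S) ≤ Nat.card B := by
          apply two_mul_card_le le_sup_left
          intro h10
          apply hab
          have h11 : a ∈ zpowers (u ^ 2) ⊔ zpowers z := by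
            rw [h10]
            exact (le_sup_right : zpowers a ≤ _) (mem_zpowers a)
          have hle : zpowers (u ^ 2) ⊔ zpowers z ≤ centralizer ({b} : Set S) := by
            rw [sup_le_iff, zpowers_le, zpowers_le]
            constructor
            · rw [mem_centralizer_singleton_iff]
              exact mem_centralizer_iff.1 hb.2 _ (pow_mem hq.hu 2)
            · rw [mem_centralizer_singleton_iff]
              exact (hzc b hb.1).symm
          exact mem_centralizer_singleton_iff.1 (hle h11)
        rw [hq.zcard] at hd1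
        omega
      have hZeq : frat X = X ⊓ centralizer (X : Set S) := by
        refine le_antisymm ?_ hZle
        rw [hF, zpowers_le]
        refine ⟨pow_mem huX 2, ?_⟩
        have hle : X ≤ centralizer ({u ^ 2} : Set S) := by
          rw [← hsup, sup_le_iff]
          constructor
          · intro y hy
            rw [mem_centralizer_singleton_iff]
            exact mem_centralizer_iff.1 hu2Y y hy
          · intro y hy
            rw [mem_centralizer_singleton_iff]
            exact (mem_centralizer_iff.1 hy.2 _ (pow_mem hq.hu 2)).symm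
        apply mem_centralizer_iff.2
        intro y hy
        exact mem_centralizer_singleton_iff.1 (hle hy)
      have hXX : ⁅X, X⁆ = X ⊓ centralizer (X : Set S) := by
        rw [← hZeq]
        refine le_antisymm h.comm_le ?_
        rw [hF, zpowers_le]
        have h8 := commutator_mem_commutator hxX huX
        have h9 : ⁅x, u⁆ = (u ^ 2)⁻¹ := by
          rw [commutatorElement_def, hq.conj]; group
        rw [h9] at h8
        exact inv_mem_iff.1 h8
      refine ⟨⟨special_of h.hX hZeq hXX, ?_⟩, ?_⟩
      · rw [card_center, ← hZeq, hF, hq.zcard]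
      · have h8 : 4 < Nat.card C := by
          by_contra h9
          push Not at h9
          haveI : Fact (Nat.Prime 2) := ⟨Nat.prime_two⟩
          have h10 := H23.isMulCommutative_of_card_le_sq hCp (by norm_num; exact h9)
          exact hab (congrArg Subtype.val (h10.is_comm.comm (⟨a, ha⟩ : C) ⟨b, hb⟩))
        obtain ⟨k, hk⟩ := IsPGroup.iff_card.1 hCp
        have hk3 : 3 ≤ k := by
          by_contra h9
          have : 2 ^ k ≤ 2 ^ 2 := Nat.pow_le_pow_right (by norm_num) (by omega)
          omega
        have : 2 ^ 3 ≤ 2 ^ k := Nat.pow_le_pow_right (by norm_num) hk3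
        omega

end Cfsg.Agent.H18.E8
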