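import Mathlib
import Cfsg.Prelude
import Cfsg.Agent.H18.E8e

set_option autoImplicit false
set_option linter.all false

namespace Cfsg.Agent.H18.E8

open Subgroup
open scoped commutatorElement

variable {S : Type*} [Group S] [Finite S] {X K : Subgroup S}

theorem sup_norm {K Y W : Subgroup S} (h1 : K ≤ normalizer (Y : Set S)) (h2 : K ≤ normalizer (W : Set S)) :
    K ≤ normalizer ((Y ⊔ W : Subgroup S) : Set S) := by
  intro k hk
  have h7 := h1 hk
  have h8 := h2 hk
  rw [H18.mem_normalizer_iff_map] at h7 h8 ⊢
  rw [Subgroup.map_sup, h7, h8]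

theorem comm_norm {K Y W : Subgroup S} (h1 : K ≤ normalizer (Y : Set S)) (h2 : K ≤ normalizer (W : Set S)) :
    K ≤ normalizer ((⁅Y, W⁆ : Subgroup S) : Set S) := by
  intro k hk
  have h7 := h1 hk
  have h8 := h2 hk
  rw [H18.mem_normalizer_iff_map] at h7 h8 ⊢
  rw [Subgroup.map_commutator, h7, h8]

theorem Hyp.Z_ne (h : Hyp X K) : X ⊓ centralizer (X : Set S) ≠ ⊥ := by
  intro h1
  have hXne : X ≠ ⊥ := by
    intro h1
    apply h.hnab
    intro a ha b hb
    rw [h1, mem_bot] at ha hb
    rw [ha, hb]
  haveI : Nontrivial X := (Subgroup.nontrivial_iff_ne_bot X).2 hXne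
  haveI := h.hX.center_nontrivial
  have h2 : Nat.card (center ↥X) = 1 := by rw [card_center, h1, Subgroup.card_bot]
  have h3 : 1 < Nat.card (center ↥X) := Finite.one_lt_card
  omega

theorem Hyp.comm_ne (h : Hyp X K) : ⁅X, X⁆ ≠ ⊥ := by
  intro h1
  apply h.hnab
  intro a ha b hb
  have h2 := commutator_mem_commutator ha hb
  rw [h1, mem_bot, commutatorElement_eq_one_iff_mul_comm] at h2
  exact h2

/-- excluding order sixteen -/
theorem Hyp.card_ne (h : Hyp X K) (hZF : frat X = X ⊓ centralizer (X : Set S))
    (hF2 : Nat.card (frat X) = 2) : Nat.card X ≠ 16 := by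
  intro h16
  obtain ⟨A, hAX, hAc, hA8⟩ := h.hA
  have hAne : A ≠ X := by
    intro h1; apply h.hnab; rw [← h1]; exact hAc
  have hFA : frat X ≤ A := by
    by_contra hcon
    have h1 : 2 * Nat.card A ≤ Nat.card (A ⊔ frat X : Subgroup S) := by
      apply two_mul_card_le le_sup_left
      intro h2
      apply hcon
      rw [h2]; exact le_sup_right
    have h2 : A ⊔ frat X = X := by
      apply Subgroup.eq_of_le_of_card_ge (sup_le hAX (frat_le X))
      omega
    have h3 : X ≤ centralizer (A : Set S) := by
      rw [← h2, sup_le_iff]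
      constructor
      · intro a ha
        rw [mem_centralizer_iff]
        intro b hb
        exact hAc b hb a ha
      · rw [hZF]
        intro z hz
        exact centralizer_le (fun y hy => hAX hy) hz.2
    have h4 : X ≤ centralizer (X : Set S) := by
      intro y hy
      have h5 : A ⊔ frat X ≤ centralizer ({y} : Set S) := by
        rw [sup_le_iff]
        constructor
        · intro a ha
          rw [mem_centralizer_singleton_iff]
          exact mem_centralizer_iff.1 (h3 hy) a ha
        · rw [hZF]
          intro z hz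
          rw [mem_centralizer_singleton_iff]
          exact (mem_centralizer_iff.1 hz.2 y hy).symm
      rw [h2] at h5
      rw [mem_centralizer_iff]
      intro w hw
      exact mem_centralizer_singleton_iff.1 (h5 hw)
    apply h.hnab
    intro a ha b hb
    exact mem_centralizer_iff.1 (h4 hb) a ha
  obtain ⟨x, hxX, hxA⟩ := SetLike.exists_of_lt (lt_of_le_of_ne hAX hAne)
  -- the centralizer of `x` in `X`
  set Cx := X ⊓ centralizer ({x} : Set S) with hCx
  have hCxcard : 8 ≤ Nat.card Cx := by
    have hZ : (frat X).subgroupOf X ≤ center X := by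
      intro z hz
      rw [mem_subgroupOf, hZF] at hz
      rw [mem_center_iff]
      intro g
      exact Subtype.ext (mem_centralizer_iff.1 hz.2 g g.2)
    have h1 := H23.index_centralizer_le_card (G := X) (Z := (frat X).subgroupOf X) hZ (x := ⟨x, hxX⟩) (by
      intro g
      rw [mem_subgroupOf]
      first
      | exact h.comm_le (commutator_mem_commutator hxX g.2)
      | exact h.comm_le (commutator_mem_commutator g.2 hxX))
    rw [Nat.card_congr (Subgroup.subgroupOfEquivOfLe (frat_le X)).toEquiv, hF2] at h1
    have h2 := Subgroup.card_mul_index (centralizer ({(⟨x, hxX⟩ : X)} : Set X))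
    have h3 : (centralizer ({(⟨x, hxX⟩ : X)} : Set X)).map X.subtype = Cx := by
      ext y
      constructor
      · rintro ⟨w, hw, rfl⟩
        refine ⟨w.2, ?_⟩
        apply mem_centralizer_singleton_iff.2
        exact congrArg Subtype.val (mem_centralizer_singleton_iff.1 hw)
      · rintro ⟨hy, hyc⟩
        refine ⟨⟨y, hy⟩, ?_, rfl⟩
        show (⟨y, hy⟩ : X) ∈ centralizer ({(⟨x, hxX⟩ : X)} : Set X)
        rw [mem_centralizer_singleton_iff]
        exact Subtype.ext (mem_centralizer_singleton_iff.1 hyc)
    rw [← h3, card_map']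
    rw [h16] at h2
    have h4 : (centralizer ({(⟨x, hxX⟩ : X)} : Set X)).index ≠ 0 := Subgroup.index_ne_zero_of_finite
    nlinarith
  have hCxA : Cx ≤ normalizer (A : Set S) := inf_le_left.trans (h.norm_of_ge hFA hAX)
  have h1 := H1.card_sup_mul_card_inf_of_le_normalizer hCxA
  have h2 : Nat.card (A ⊔ Cx : Subgroup S) ≤ 16 := by
    rw [← h16]
    exact Subgroup.card_le_of_le (sup_le hAX inf_le_left)
  have h3 : 4 ≤ Nat.card (A ⊓ Cx : Subgroup S) := by
    rw [hA8] at h1
    nlinarith
  -- it is central
  have h4 : A ⊓ Cx ≤ frat X := by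
    rw [hZF]
    have hAx : A ⊔ zpowers x = X := by
      apply Subgroup.eq_of_le_of_card_ge (sup_le hAX (zpowers_le.2 hxX))
      have : 2 * Nat.card A ≤ Nat.card (A ⊔ zpowers x : Subgroup S) := by
        apply two_mul_card_le le_sup_left
        intro h5
        apply hxA
        rw [h5]
        exact (le_sup_right : zpowers x ≤ A ⊔ zpowers x) (mem_zpowers x)
      omega
    intro y hy
    refine ⟨hAX hy.1, ?_⟩
    have h5 : A ⊔ zpowers x ≤ centralizer ({y} : Set S) := by
      rw [sup_le_iff, zpowers_le]
      constructor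
      · intro a ha
        rw [mem_centralizer_singleton_iff]
        exact hAc a ha y hy.1
      · rw [mem_centralizer_singleton_iff]
        exact (mem_centralizer_singleton_iff.1 hy.2.2).symm
    rw [hAx] at h5
    apply mem_centralizer_iff.2
    intro w hw
    exact mem_centralizer_singleton_iff.1 (h5 hw)
  have h5 := Subgroup.card_le_of_le h4
  omega

set_option maxHeartbeats 1000000 in
theorem Hyp.irreducible (h : Hyp X K)
    (hirr : ∀ Y : Subgroup S, frat X ≤ Y → Y ≤ X → K ≤ normalizer (Y : Set S) → Y = frat X ∨ Y = X) :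
    (Cfsg.IsExtraspecial 2 ↥X ∧ 32 ≤ Nat.card ↥X) ∨
    (Cfsg.IsSpecial 2 ↥X ∧ Nat.card ↥(center ↥X) = 4) := by
  set Z := X ⊓ centralizer (X : Set S) with hZ
  have hKZ : K ≤ normalizer (Z : Set S) := norm_cent h.hKX h.hKX
  have hZF : Z ≤ frat X := by
    rcases hirr (Z ⊔ frat X) le_sup_right (sup_le inf_le_left (frat_le X)) (sup_norm hKZ h.Kfrat) with h1 | h1
    · rw [← h1]; exact le_sup_left
    · exfalso
      have h2 : Z = X := H23.eq_of_sup_frattini_map inf_le_left h1.ge
      apply h.hnab
      intro a ha b hb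
      have h3 : b ∈ Z := by rw [h2]; exact hb
      exact mem_centralizer_iff.1 h3.2 a ha
  have hXK : ⁅X, K⁆ = X := by
    rcases hirr (⁅X, K⁆ ⊔ frat X) le_sup_right
      (sup_le (H23.commutator_le_of_le_normalizer h.hKX) (frat_le X)) (sup_norm h.XK_norm h.Kfrat) with h1 | h1
    · exfalso
      apply h.not_comm_le
      rw [← h1]; exact le_sup_left
    · exact h.XK_eq h1
  have hFE : NoE (frat X) := h.hmin _ (frat_le X) h.Kfrat h.fratne
  have hFp : IsPGroup 2 (frat X) := h.hX.to_le (frat_le X)
  have hXF : X ≤ normalizer ((frat X : Subgroup S) : Set S) := h.norm_of_ge le_rfl (frat_le X)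
  have hKXX : K ≤ normalizer ((⁅X, X⁆ : Subgroup S) : Set S) := comm_norm h.hKX h.hKX
  by_cases hFK : frat X ≤ centralizer (K : Set S)
  · have hFXX : frat X = ⁅X, X⁆ := le_antisymm (h.cent_le hXK (frat_le X) hFK) h.comm_le
    have hXF0 : ⁅X, frat X⁆ = ⊥ := by
      have h1 : ⁅⁅K, frat X⁆, X⁆ = ⊥ := by
        have : ⁅K, frat X⁆ = ⊥ := by
          rw [Subgroup.commutator_comm, commutator_eq_bot_iff_le_centralizer]; exact hFK
        rw [this, Subgroup.commutator_bot_left]
      have h2 : ⁅⁅frat X, X⁆, K⁆ = ⊥ := by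
        rw [commutator_eq_bot_iff_le_centralizer]
        refine le_trans ?_ hFK
        exact H23.commutator_le_of_le_normalizer hXF
      have h3 := Subgroup.commutator_commutator_eq_bot_of_rotate h1 h2
      rw [hXK] at h3
      exact h3
    have hFZ : frat X = Z := by
      refine le_antisymm (le_inf (frat_le X) ?_) hZF
      rw [← commutator_eq_bot_iff_le_centralizer, Subgroup.commutator_comm]; exact hXF0
    have hcentral : ∀ z ∈ frat X, ∀ g ∈ X, g * z = z * g := by
      intro z hz g hg
      rw [hFZ] at hz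
      exact mem_centralizer_iff.1 hz.2 g hg
    -- exponent two
    have hexp : ∀ z ∈ frat X, z * z = 1 := by
      let T : Subgroup S :=
        { carrier := {z | z ∈ frat X ∧ z * z = 1}
          one_mem' := ⟨one_mem _, one_mul 1⟩
          mul_mem' := fun {a b} ha hb => ⟨mul_mem ha.1 hb.1, by
            have h1 : b * a = a * b := hcentral a ha.1 b (frat_le X hb.1)
            calc a * b * (a * b) = a * (b * a) * b := by group
              _ = a * (a * b) * b := by rw [h1]
              _ = (a * a) * (b * b) := by group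
              _ = 1 := by rw [ha.2, hb.2, one_mul]⟩
          inv_mem' := fun {a} ha => ⟨inv_mem ha.1, by
            rw [← mul_inv_rev, ha.2, inv_one]⟩ }
      have h1 : ⁅X, X⁆ ≤ T := by
        rw [Subgroup.commutator_le]
        intro a ha b hb
        have h2 : ⁅a, b⁆ ∈ frat X := h.comm_le (commutator_mem_commutator ha hb)
        refine ⟨h2, ?_⟩
        have h3 : a ^ 2 * b = b * a ^ 2 := (hcentral _ (h.sq_mem ha) b hb).symm
        obtain ⟨c, hc⟩ : ∃ c, c = ⁅a, b⁆ := ⟨_, rfl⟩
        have h4 : a * b = c * (b * a) := by rw [hc, commutatorElement_def]; group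
        have h5 : a * c = c * a := by rw [hc]; exact hcentral _ h2 a ha
        have h6 : a ^ 2 * b = c * c * (b * a ^ 2) := by
          calc a ^ 2 * b = a * (a * b) := by rw [pow_two, mul_assoc]
            _ = a * (c * (b * a)) := by rw [h4]
            _ = (a * c) * b * a := by simp only [mul_assoc]
            _ = c * (a * b) * a := by rw [h5]; simp only [mul_assoc]
            _ = c * (c * (b * a)) * a := by rw [h4]
            _ = c * c * (b * a ^ 2) := by rw [pow_two]; simp only [mul_assoc]
        rw [← h3] at h6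
        rw [← hc]
        exact (mul_eq_right.1 h6.symm)
      intro z hz
      rw [hFXX] at hz
      exact (h1 hz).2
    have hFcomm : ∀ a ∈ frat X, ∀ b ∈ frat X, a * b = b * a := fun a ha b hb =>
      hcentral b hb a (frat_le X ha)
    have hF4 : Nat.card (frat X) ≤ 4 := by
      by_cases hcyc : IsCyclic (frat X)
      · refine card_le_of_exp hcyc (fun b hb => ?_)
        have : b ^ 4 = (b * b) * (b * b) := by rw [show (4 : ℕ) = 2 + 2 from rfl, pow_add, pow_two]
        rw [this, hexp b hb, one_mul]
      · exact hFE.card_le hFp le_rfl hFcomm hcyc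
    have hXX : ⁅X, X⁆ = X ⊓ centralizer (X : Set S) := by rw [← hFXX]; exact hFZ
    obtain ⟨k, hk⟩ := IsPGroup.iff_card.1 hFp
    have hFne : Nat.card (frat X) ≠ 1 := by
      intro h1
      have h2 := Subgroup.card_eq_one.1 h1
      apply h.comm_ne
      rw [← hFXX]; exact h2
    have hk0 : k ≠ 0 := by
      rintro rfl
      exact hFne (by rw [hk, pow_zero])
    have hk2 : k ≤ 2 := by
      by_contra h1
      have : 2 ^ 3 ≤ 2 ^ k := Nat.pow_le_pow_right (by norm_num) (by omega)
      omega
    have hsp := special_of h.hX hFZ hXX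
    by_cases hk1 : k = 1
    · left
      have hF2 : Nat.card (frat X) = 2 := by rw [hk, hk1, pow_one]
      refine ⟨⟨hsp, ?_⟩, ?_⟩
      · rw [card_center]
        show Nat.card Z = 2
        rw [← hFZ, hF2]
      · have h16 := h.card_gt
        have hne := h.card_ne hFZ hF2
        obtain ⟨m, hm⟩ := IsPGroup.iff_card.1 h.hX
        have hm4 : 4 < m := by
          by_contra h1
          have h2 : 2 ^ m ≤ 2 ^ 4 := Nat.pow_le_pow_right (by norm_num) (by omega)
          omega
        have : 2 ^ 5 ≤ 2 ^ m := Nat.pow_le_pow_right (by norm_num) (by omega)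
        omega
    · right
      refine ⟨hsp, ?_⟩
      rw [card_center]
      show Nat.card Z = 4
      rw [← hFZ, hk, show k = 2 by omega]; norm_num
  · rcases lemmaQ hFE hFp h.hK h.Kfrat hFK with ⟨hF4, -⟩ | ⟨u, x, hq⟩
    · right
      have hZeq : Z = frat X := by
        by_contra hne
        exact h.Z_ne (V4_inv hF4 h.hK h.Kfrat hFK hZF hKZ hne)
      have hXXeq : ⁅X, X⁆ = frat X := by
        by_contra hne
        exact h.comm_ne (V4_inv hF4 h.hK h.Kfrat hFK h.comm_le hKXX hne)
      refine ⟨special_of h.hX hZeq.symm (by rw [hXXeq]; exact hZeq.symm), ?_⟩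
      rw [card_center]
      show Nat.card Z = 4
      rw [hZeq, hF4]
    · exfalso
      have hFne : frat X ≠ ⊥ := by
        intro h1
        have h2 := hq.card
        rw [h1, Subgroup.card_bot] at h2
        norm_num at h2
      have hlt : ⁅frat X, X⁆ < frat X := H23.commutator_lt_of_isPGroup hFp h.hX hXF hFne
      have hM := hq.inv h.hK h.Kfrat hFK hlt.le (comm_norm h.Kfrat h.hKX) hlt.ne
      have hsup : X ≤ (X ⊓ centralizer ((frat X : Subgroup S) : Set S)) ⊔ frat X := by
        intro g hg
        have h8 : ∀ y ∈ frat X, g * y * g⁻¹ * y⁻¹ ∈ zpowers (u ^ 2) := fun y hy => by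
          apply hM
          rw [Subgroup.commutator_comm]
          exact commutator_mem_commutator hg hy
        obtain ⟨r, hr, hrc⟩ := hq.inner (h8 u hq.hu) (h8 x hq.hx)
        have h9 : g = r * (r⁻¹ * g) := by group
        rw [h9, sup_comm]
        exact Subgroup.mul_mem_sup hr ⟨Subgroup.mul_mem _ (Subgroup.inv_mem _ (frat_le X hr)) hg, hrc⟩
      have h10 := H23.eq_of_sup_frattini_map inf_le_left hsup
      apply hq.not_comm
      have h11 : x ∈ X ⊓ centralizer ((frat X : Subgroup S) : Set S) := by
        rw [h10]; exact frat_le X hq.hx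
      exact (mem_centralizer_iff.1 h11.2 u hq.hu).symm

end Cfsg.Agent.H18.E8
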