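import Mathlib
import Cfsg.Prelude
import Cfsg.Agent.H18.E8f
import Cfsg.Agent.H23.PCompl

set_option autoImplicit false
set_option linter.all false

namespace Cfsg.Agent.H18.E8

open Subgroup
open scoped commutatorElement

variable {S : Type*} [Group S] [Finite S]

theorem Q8.sq_mem {R : Subgroup S} {u x : S} (h : Q8 R u x) {y : S} (hy : y ∈ R) :
    y * y ∈ zpowers (u ^ 2) := by
  rcases h.mem hy with hyu | ⟨w, hw, rfl⟩
  · obtain ⟨i, rfl⟩ := hyu
    refine ⟨i, ?_⟩
    show (u ^ 2) ^ i = u ^ i * u ^ i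
    rw [← zpow_natCast, ← zpow_mul, ← zpow_add]
    congr 1
    push_cast; ring
  · rw [h.sq_out hw]; exact mem_zpowers _

theorem Q8.card_le {P : Subgroup S} [hPn : P.Normal] {u x : S} (hS : IsPGroup 2 S) (h : Q8 P u x)
    (hC : centralizer (P : Set S) ≤ P) : Nat.card S ≤ 16 := by
  set Z := zpowers (u ^ 2) with hZ
  have hZn : Z.Normal := by
    refine ⟨fun n hn g => ?_⟩
    obtain ⟨i, rfl⟩ := hn
    show g * (u ^ 2) ^ i * g⁻¹ ∈ Z
    rw [← conj_zpow, ← conj_pow]
    apply zpow_mem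
    rw [pow_two]
    exact h.sq_mem (hPn.conj_mem u h.hu g)
  have hZP : Z ≤ P := by rw [hZ, zpowers_le]; exact pow_mem h.hu 2
  have hker : ∀ y : S, QuotientGroup.mk' Z y = 1 ↔ y ∈ Z := fun y => QuotientGroup.eq_one_iff y
  haveI : (P.map (QuotientGroup.mk' Z)).Normal := hPn.map _ (QuotientGroup.mk'_surjective Z)
  have hcard : Nat.card (P.map (QuotientGroup.mk' Z)) = 2 ^ 2 := by
    have h1 := H23.card_comap_mk' Z (P.map (QuotientGroup.mk' Z))
    rw [Subgroup.comap_map_eq, QuotientGroup.ker_mk', sup_of_le_left hZP, h.card] at h1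
    have hz2 : Nat.card Z = 2 := h.zcard
    rw [hz2] at h1
    omega
  have hcent : centralizer ((P.map (QuotientGroup.mk' Z) : Subgroup (S ⧸ Z)) : Set (S ⧸ Z)) ≤
      P.map (QuotientGroup.mk' Z) := by
    intro c hc
    obtain ⟨g, rfl⟩ := QuotientGroup.mk'_surjective Z c
    have h1 : ∀ y ∈ P, g * y * g⁻¹ * y⁻¹ ∈ Z := by
      intro y hy
      rw [← hker]
      have h2 := mem_centralizer_iff.1 hc _ (mem_map_of_mem (QuotientGroup.mk' Z) hy)
      rw [map_mul, map_mul, map_mul, map_inv, map_inv, ← h2]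
      group
    obtain ⟨r, hr, hrc⟩ := h.inner (h1 u h.hu) (h1 x h.hx)
    have h2 : g = r * (r⁻¹ * g) := by group
    apply mem_map_of_mem
    rw [h2]
    exact P.mul_mem hr (hC hrc)
  haveI : Fact (Nat.Prime 2) := ⟨Nat.prime_two⟩
  have h1 := H23.card_le_of_normal_sq (hS.to_quotient Z) hcard hcent
  have h2 := Subgroup.card_eq_card_quotient_mul_card_subgroup Z
  have hz2 : Nat.card Z = 2 := h.zcard
  rw [h2, hz2]
  omega

theorem Q8.subgroupOf {P T : Subgroup S} {u x : S} (h : Q8 P u x) (hPT : P ≤ T) :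
    Q8 (P.subgroupOf T) (⟨u, hPT h.hu⟩ : T) ⟨x, hPT h.hx⟩ := by
  have hsub : (zpowers u).subgroupOf T = zpowers (⟨u, hPT h.hu⟩ : T) := by
    apply Subgroup.map_injective T.subtype_injective
    rw [MonoidHom.map_zpowers, Subgroup.subgroupOf_map_subtype, inf_of_le_left (h.ule.trans hPT)]; rfl
  refine ⟨h.hu, h.hx, by rw [Subgroup.orderOf_mk, h.ord], ?_, ?_, Subtype.ext h.conj, Subtype.ext h.sq⟩
  · rw [← hsub, relIndex_subgroupOf hPT, h.ri]
  · rw [← hsub, mem_subgroupOf]; exact h.xu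

theorem cent_sub {P T : Subgroup S} (hPT : P ≤ T) (hC : T ⊓ centralizer (P : Set S) ≤ P) :
    centralizer ((P.subgroupOf T : Subgroup T) : Set T) ≤ P.subgroupOf T := by
  intro c hc
  rw [mem_subgroupOf]
  apply hC
  refine ⟨c.2, ?_⟩
  apply mem_centralizer_iff.2
  intro y hy
  exact congrArg Subtype.val (mem_centralizer_iff.1 hc ⟨y, hPT hy⟩ hy)

theorem Q8.card_le' {P T : Subgroup S} {u x : S} (h : Q8 P u x) (hT : IsPGroup 2 T) (hPT : P ≤ T)
    (hTP : T ≤ normalizer (P : Set S)) (hC : T ⊓ centralizer (P : Set S) ≤ P) : Nat.card T ≤ 16 := by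
  haveI : (P.subgroupOf T).Normal := (normal_subgroupOf_iff_le_normalizer hPT).2 hTP
  exact (h.subgroupOf hPT).card_le hT (cent_sub hPT hC)

theorem V4_card_le' {P T : Subgroup S} (h : Nat.card P = 4) (hT : IsPGroup 2 T) (hPT : P ≤ T)
    (hTP : T ≤ normalizer (P : Set S)) (hC : T ⊓ centralizer (P : Set S) ≤ P) : Nat.card T ≤ 8 := by
  haveI : Fact (Nat.Prime 2) := ⟨Nat.prime_two⟩
  haveI : (P.subgroupOf T).Normal := (normal_subgroupOf_iff_le_normalizer hPT).2 hTP
  have h1 := H23.card_le_of_normal_sq hT (E := P.subgroupOf T)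
    (by rw [Nat.card_congr (Subgroup.subgroupOfEquivOfLe hPT).toEquiv, h]; norm_num) (cent_sub hPT hC)
  omega

theorem Q8.change {P : Subgroup S} {u x : S} (h : Q8 P u x) {w : S} (hw : w ∈ P) (hw2 : w * w ≠ 1) :
    ∃ v, Q8 P w v := by
  have hww : w * w = u ^ 2 := by
    have := h.sq_mem hw
    rw [h.mem_z] at this
    rcases this with h1 | h1
    · exact absurd h1 hw2
    · exact h1
  have hord : orderOf w = 4 := by
    have h1 : w ^ 2 ≠ 1 := by rw [pow_two]; exact hw2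
    have h2 : w ^ (2 ^ 2) = 1 := by
      have : w ^ (2 ^ 2) = (w * w) ^ 2 := by rw [← pow_two, ← pow_mul]; norm_num
      rw [this, hww, ← pow_mul]; exact h.u4
    haveI : Fact (Nat.Prime 2) := ⟨Nat.prime_two⟩
    have h3 := orderOf_eq_prime_pow (x := w) (p := 2) (n := 1) (by rw [pow_one]; exact h1) h2
    rw [h3]; norm_num
  have hri : (zpowers w).relIndex P = 2 := by
    have hle : zpowers w ≤ P := by rw [zpowers_le]; exact hw
    have h3 := Subgroup.index_mul_card ((zpowers w).subgroupOf P)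
    rw [Nat.card_congr (Subgroup.subgroupOfEquivOfLe hle).toEquiv, Nat.card_zpowers, hord, h.card] at h3
    have h4 : (zpowers w).relIndex P * 4 = 8 := h3
    omega
  have hcz : ∀ g ∈ P, g * w * g⁻¹ = w⁻¹ → g ∉ zpowers w := by
    rintro g hg h1 ⟨i, rfl⟩
    have h2 : w ^ i * w * (w ^ i)⁻¹ = w⁻¹ := h1
    have h3 : w ^ i * w * (w ^ i)⁻¹ = w := by group
    rw [h3] at h2
    apply hw2
    nth_rewrite 2 [h2]
    exact mul_inv_cancel w
  rcases h.mem hw with hwu | ⟨c, hc, rfl⟩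
  · have hconj : x * w * x⁻¹ = w⁻¹ := by
      obtain ⟨i, rfl⟩ := hwu
      show x * u ^ i * x⁻¹ = (u ^ i)⁻¹
      rw [← conj_zpow, h.conj, inv_zpow]
    exact ⟨x, hw, h.hx, hord, hri, hcz x h.hx hconj, hconj, by rw [h.sq, pow_two w, hww]⟩
  · have hconj : u * (c * x) * u⁻¹ = (c * x)⁻¹ := by
      have h1 : u ^ 2 * (c * x) = (c * x)⁻¹ := by
        rw [eq_inv_iff_mul_eq_one, mul_assoc, hww, ← pow_add]; exact h.u4
      rw [← h1]
      have h4 : x * u⁻¹ * x⁻¹ = u := by
        have := congrArg (·⁻¹) h.conj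
        simp only [mul_inv_rev, inv_inv] at this
        rw [← mul_assoc] at this
        exact this
      obtain ⟨i, rfl⟩ := hc
      show u * (u ^ i * x) * u⁻¹ = u ^ 2 * (u ^ i * x)
      calc u * (u ^ i * x) * u⁻¹ = u * u ^ i * (x * u⁻¹ * x⁻¹) * x := by group
        _ = u ^ 2 * (u ^ i * x) := by rw [h4]; group
    exact ⟨u, hw, h.hu, hord, hri, hcz u h.hu hconj, hconj, by rw [pow_two (c * x), hww, pow_two]⟩

end Cfsg.Agent.H18.E8
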