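import Mathlib
import Cfsg.Prelude
import Cfsg.Agent.H18.E8g
import Cfsg.Agent.H23.PCompl
import Cfsg.Agent.H1.Cores

set_option autoImplicit false
set_option linter.all false

namespace Cfsg.Agent.H18.E8

open Subgroup
open scoped commutatorElement

variable {S : Type*} [Group S] [Finite S]

/-- excluding `V4` -/
theorem partA_V4 {A P : Subgroup S} (hA8 : Nat.card A = 8) (hAc : ∀ a ∈ A, ∀ b ∈ A, a * b = b * a)
    (hT : IsPGroup 2 (A ⊔ P : Subgroup S)) (hAP : A ≤ normalizer (P : Set S))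
    (hC : centralizer (P : Set S) ≤ P) (hP : Nat.card P = 4) : False := by
  have h1 := V4_card_le' hP hT le_sup_right (sup_le hAP le_normalizer) (inf_le_right.trans hC)
  have h2 : A = A ⊔ P := Subgroup.eq_of_le_of_card_ge le_sup_left (by rw [hA8]; exact h1)
  have hPA : P ≤ A := by rw [h2]; exact le_sup_right
  have h3 : A ≤ P := by
    intro a ha
    apply hC
    rw [mem_centralizer_iff]
    intro y hy
    exact hAc y (hPA hy) a ha
  have := Subgroup.card_le_of_le h3
  omega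

theorem partA_Q8 {A P : Subgroup S} (hA8 : Nat.card A = 8) (hAc : ∀ a ∈ A, ∀ b ∈ A, a * b = b * a)
    (hAnc : ¬ IsCyclic A)
    (hT : IsPGroup 2 (A ⊔ P : Subgroup S)) (hAP : A ≤ normalizer (P : Set S))
    (hC : centralizer (P : Set S) ≤ P) {u x : S} (h : Q8 P u x) : False := by
  have h1 := h.card_le' hT le_sup_right (sup_le hAP le_normalizer) (inf_le_right.trans hC)
  have h2 := H1.card_sup_mul_card_inf_of_le_normalizer hAP
  rw [sup_comm] at h1
  have h3 : 4 ≤ Nat.card (P ⊓ A : Subgroup S) := by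
    rw [hA8, h.card] at h2
    nlinarith
  -- an element of order four in `A ∩ P`
  have h4 : ∃ w ∈ P ⊓ A, w * w ≠ 1 := by
    by_contra hcon
    push Not at hcon
    have h5 : P ⊓ A ≤ zpowers (u ^ 2) := fun w hw => h.invol hw.1 (hcon w hw)
    have h6 := Subgroup.card_le_of_le h5
    rw [h.zcard] at h6
    omega
  obtain ⟨w, ⟨hwP, hwA⟩, hw2⟩ := h4
  obtain ⟨v, hq⟩ := h.change hwP hw2
  -- `A` is not inside `P`
  have h5 : ¬ A ≤ P := by
    intro h6
    have h7 : A = P := Subgroup.eq_of_le_of_card_ge h6 (by rw [hA8, h.card])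
    apply h.not_comm
    exact hAc x (by rw [h7]; exact h.hx) u (by rw [h7]; exact h.hu)
  obtain ⟨a, haA, haP⟩ := SetLike.not_le_iff_exists.1 h5
  have hwle : zpowers w ≤ A := by rw [zpowers_le]; exact hwA
  -- `|A : ⟨w⟩| = 2`
  have hri : (zpowers w).relIndex A = 2 := by
    have h3 := Subgroup.index_mul_card ((zpowers w).subgroupOf A)
    rw [Nat.card_congr (Subgroup.subgroupOfEquivOfLe hwle).toEquiv, Nat.card_zpowers, hq.ord, hA8] at h3
    have h4 : (zpowers w).relIndex A * 4 = 8 := h3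
    omega
  have haw : a ∉ zpowers w := fun h6 => haP (hq.ule h6)
  have ha2 : a * a ∈ zpowers w := by
    have h6 := Subgroup.mul_mem_iff_of_index_two (H := (zpowers w).subgroupOf A) hri (a := ⟨a, haA⟩)
      (b := ⟨a, haA⟩)
    have h7 : a * a ∈ zpowers w ↔ (a ∈ zpowers w ↔ a ∈ zpowers w) := h6
    rw [h7]
  -- it lies in `⟨w²⟩`
  have ha4 : (a * a) * (a * a) = 1 := by
    by_contra h6
    apply hAnc
    have hpow : a ^ 4 ≠ 1 := by
      intro h7
      apply h6
      rw [← h7, show (4 : ℕ) = 2 + 2 from rfl, pow_add, pow_two]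
    have hpow8 : a ^ 8 = 1 := by
      have h7 := orderOf_dvd_natCard (⟨a, haA⟩ : A)
      rw [Subgroup.orderOf_mk, hA8] at h7
      exact orderOf_dvd_iff_pow_eq_one.1 h7
    haveI : Fact (Nat.Prime 2) := ⟨Nat.prime_two⟩
    have h8 := orderOf_eq_prime_pow (x := a) (p := 2) (n := 2) (by norm_num; exact hpow) (by norm_num; exact hpow8)
    exact isCyclic_of_orderOf_eq_card (⟨a, haA⟩ : A) (by rw [Subgroup.orderOf_mk, h8, hA8]; norm_num)
  have ha2z : a * a ∈ zpowers (w ^ 2) := hq.invol (hq.ule ha2) ha4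
  have hz : ∀ y ∈ zpowers (w ^ 2), y * v = v * y := by
    intro y hy
    rw [hq.mem_z] at hy
    rcases hy with rfl | rfl
    · rw [one_mul, mul_one]
    · have h8 : v * w ^ 2 * v⁻¹ = (w ^ 2)⁻¹ := by rw [← conj_pow, hq.conj, inv_pow]
      have h9 : (w ^ 2)⁻¹ = w ^ 2 := by
        rw [inv_eq_iff_mul_eq_one, ← pow_add]; exact hq.u4
      rw [h9] at h8
      exact (mul_inv_eq_iff_eq_mul.1 h8).symm
  have haw' : a * w = w * a := hAc a haA w hwA
  -- `a v a⁻¹ = w^i v`
  have hav : a * v * a⁻¹ ∈ P := (mem_normalizer_iff.1 (hAP haA) v).1 hq.hx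
  have havn : a * v * a⁻¹ ∉ zpowers w := by
    intro h6
    have h7 : a ∈ normalizer ((zpowers w : Subgroup S) : Set S) := by
      have : A ≤ normalizer ((zpowers w : Subgroup S) : Set S) := by
        refine H23.le_normalizer_of_conj_mem ?_
        rintro g hg y hy
        rw [hAc g hg y (hwle hy), mul_inv_cancel_right]
        exact hy
      exact this haA
    exact hq.xu ((mem_normalizer_iff.1 h7 v).2 h6)
  rcases hq.mem hav with h6 | ⟨c, hc, hc2⟩
  · exact havn h6
  · have hac : a * c = c * a := hAc a haA c (hwle hc)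
    -- `c² = 1`
    have h7 : a * a * v * (a * a)⁻¹ = v := by
      rw [hz _ ha2z, mul_inv_cancel_right]
    have h8 : a * a * v * (a * a)⁻¹ = c * c * v := by
      calc a * a * v * (a * a)⁻¹ = a * (a * v * a⁻¹) * a⁻¹ := by group
        _ = (a * c) * v * a⁻¹ := by rw [hc2]; group
        _ = c * (a * v * a⁻¹) := by rw [hac]; group
        _ = c * c * v := by rw [hc2]; group
    rw [h7] at h8
    have h9 : c * c = 1 := by
      have := h8.symm
      exact mul_eq_right.1 this
    have h10 : c ∈ zpowers (w ^ 2) := hq.invol (hq.ule hc) h9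
    -- so `a` acts as an inner automorphism
    have h11 : a * w * a⁻¹ * w⁻¹ ∈ zpowers (w ^ 2) := by
      rw [haw', mul_inv_cancel_right, mul_inv_cancel]; exact one_mem _
    have h12 : a * v * a⁻¹ * v⁻¹ ∈ zpowers (w ^ 2) := by
      rw [hc2, mul_inv_cancel_right]; exact h10
    obtain ⟨r, hr, hrc⟩ := hq.inner h11 h12
    apply haP
    have h13 : a = r * (r⁻¹ * a) := by group
    rw [h13]
    exact P.mul_mem hr (hC hrc)

/-- `K` does not centralize a subgroup containing its own centralizer -/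
theorem not_le_cent {K P : Subgroup S} (hK : H23.IsPCompl 2 K) (hP : IsPGroup 2 P)
    (hC : centralizer (P : Set S) ≤ P) (h : P ≤ centralizer (K : Set S)) : IsPGroup 2 S ∧ K = ⊥ := by
  have h1 : K ≤ P := by
    intro k hk
    apply hC
    rw [mem_centralizer_iff]
    intro y hy
    exact (mem_centralizer_iff.1 (h hy) k hk).symm
  have h2 : K = ⊥ := by
    obtain ⟨m, hm⟩ := IsPGroup.iff_card.1 (hP.to_le h1)
    have h3 := hK.1
    rw [hm] at h3
    rw [← Subgroup.card_eq_one, hm]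
    rcases Nat.eq_zero_or_pos m with h4 | h4
    · rw [h4, pow_zero]
    · exfalso
      have := (Nat.coprime_pow_left_iff h4 2 2).1 h3
      norm_num at this
  refine ⟨?_, h2⟩
  obtain ⟨n, hn⟩ := hK.2
  rw [h2, Subgroup.index_bot] at hn
  exact IsPGroup.of_card hn

set_option maxHeartbeats 1000000 in
theorem final [Group.IsSolvable S] (hO : Cfsg.pPrimeCore 2 S = ⊥)
    (h8 : ∃ A : Subgroup S, IsMulCommutative ↥A ∧ ¬ IsCyclic ↥A ∧ Nat.card ↥A = 8)
    (hmin : ∀ R : Subgroup S, R ≠ ⊤ → (∃ k : ℕ, R.index = 2 ^ k) →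
      ¬ ∃ A : Subgroup S, A ≤ R ∧ IsMulCommutative ↥A ∧ ¬ IsCyclic ↥A ∧ Nat.card ↥A = 8)
    (X : Sylow 2 S) :
    (X : Subgroup S).Normal ∧
      (IsMulCommutative ↥X ∨
        (Cfsg.IsExtraspecial 2 ↥X ∧ 32 ≤ Nat.card ↥X) ∨
        (∃ (X₀ : Subgroup S) (k : ℕ), X₀ ≤ (X : Subgroup S) ∧ X₀.relIndex (X : Subgroup S) = 2 ∧
          Nonempty (↥X₀ ≃* QuaternionGroup (2 ^ (k + 1))) ∧ X₀ ⊔ ((X : Subgroup S) ⊓ Subgroup.centralizer (X₀ : Set S)) = (X : Subgroup S)) ∨
        (Cfsg.IsSpecial 2 ↥X ∧ Nat.card ↥(Subgroup.center ↥X) = 4)) := by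
  haveI : Fact (Nat.Prime 2) := ⟨Nat.prime_two⟩
  have hS : Cfsg.IsPSolvable 2 S := H23.isPSolvable_of_isSolvable inferInstance
  obtain ⟨K, hK⟩ := H23.pcompl_exists hS
  obtain ⟨A, hAcomm, hAnc, hA8⟩ := h8
  have hAc : ∀ a ∈ A, ∀ b ∈ A, a * b = b * a := fun a ha b hb =>
    congrArg Subtype.val (hAcomm.is_comm.comm (⟨a, ha⟩ : A) ⟨b, hb⟩)
  have hAp : IsPGroup 2 A := IsPGroup.of_card (n := 3) (by rw [hA8]; norm_num)
  have hXp : IsPGroup 2 (X : Subgroup S) := X.isPGroup'
  -- minimality for `K`-invariant subgroups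
  have hKmin : ∀ R : Subgroup S, R ≤ (X : Subgroup S) → K ≤ normalizer (R : Set S) → R ≠ X → NoE R := by
    intro R hRX hKR hne
    have hRp : IsPGroup 2 R := hXp.to_le hRX
    have hcard : Nat.card (R ⊔ K : Subgroup S) = Nat.card R * Nat.card K := by
      have h1 := H1.card_sup_mul_card_inf_of_le_normalizer hKR
      have h2 : R ⊓ K = ⊥ := by
        rw [← Subgroup.card_eq_one]
        have h3 : Nat.card (R ⊓ K : Subgroup S) ∣ Nat.card R := Subgroup.card_dvd_of_le inf_le_left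
        have h4 : Nat.card (R ⊓ K : Subgroup S) ∣ Nat.card K := Subgroup.card_dvd_of_le inf_le_right
        exact Nat.eq_one_of_dvd_coprimes (coprime_of hK.1 hRp).symm h3 h4
      rw [h2, Subgroup.card_bot, mul_one] at h1
      exact h1
    obtain ⟨n, hn⟩ := hK.2
    have hXK : Nat.card X * Nat.card K ≤ Nat.card S := by
      have h1 : Nat.card X ∣ K.index := by
        have h2 : Nat.card X ∣ Nat.card K * K.index := by
          rw [Subgroup.card_mul_index]; exact Subgroup.card_subgroup_dvd_card _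
        exact (coprime_of hK.1 hXp).symm.dvd_of_dvd_mul_left h2
      have h2 : Nat.card X ≤ K.index := Nat.le_of_dvd (by rw [hn]; positivity) h1
      calc Nat.card X * Nat.card K ≤ K.index * Nat.card K := Nat.mul_le_mul_right _ h2
        _ = Nat.card S := Subgroup.index_mul_card K
    have hne2 : R ⊔ K ≠ ⊤ := by
      intro h1
      rw [h1, Subgroup.card_top] at hcard
      have h2 := two_mul_card_le hRX hne
      have h3 : 0 < Nat.card R := Nat.card_pos
      have h4 : 0 < Nat.card K := Nat.card_pos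
      have h5 : 2 * Nat.card R * Nat.card K ≤ Nat.card R * Nat.card K := by
        rw [← hcard]
        exact (Nat.mul_le_mul_right _ h2).trans hXK
      nlinarith [Nat.mul_pos h3 h4]
    have hidx : ∃ k : ℕ, (R ⊔ K : Subgroup S).index = 2 ^ k := by
      have h1 : (R ⊔ K : Subgroup S).index ∣ K.index := Subgroup.index_dvd_of_le le_sup_right
      rw [hn] at h1
      obtain ⟨k, -, hk⟩ := (Nat.dvd_prime_pow Nat.prime_two).1 h1
      exact ⟨k, hk⟩
    rintro ⟨B, hB, h1⟩
    exact hmin _ hne2 hidx ⟨B, hB.trans le_sup_left, h1⟩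
  -- `X` is normal
  have hPX : Cfsg.pCore 2 S = X := by
    by_contra hne
    have hPn : (Cfsg.pCore 2 S).Normal := H1.pCore_normal 2 S
    have hPp : IsPGroup 2 (Cfsg.pCore 2 S) := H1.pCore_isPGroup 2 S
    have hC := H23.centralizer_pCore_le hS hO
    have hnorm : ∀ B : Subgroup S, B ≤ normalizer ((Cfsg.pCore 2 S : Subgroup S) : Set S) := fun B => by
      rw [Subgroup.normalizer_eq_top]; exact le_top
    have hNo := hKmin _ (H1.pCore_le_sylow X) (hnorm K) hne
    have hPK : ¬ Cfsg.pCore 2 S ≤ centralizer (K : Set S) := by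
      intro h
      have h1 := (not_le_cent hK hPp hC h).1
      have h2 : (⊤ : Subgroup S) ≤ Cfsg.pCore 2 S := H1.le_pCore inferInstance (h1.to_subgroup ⊤)
      apply hne
      exact le_antisymm (H1.pCore_le_sylow X) (le_top.trans h2)
    have hT : IsPGroup 2 (A ⊔ Cfsg.pCore 2 S : Subgroup S) := hAp.to_sup_of_normal_right hPp
    rcases lemmaQ hNo hPp hK.1 (hnorm K) hPK with ⟨h4, -⟩ | ⟨u, x, hq⟩
    · exact partA_V4 hA8 hAc hT (hnorm A) hC h4
    · exact partA_Q8 hA8 hAc hAnc hT (hnorm A) hC hq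
  have hXn : (X : Subgroup S).Normal := by rw [← hPX]; exact H1.pCore_normal 2 S
  refine ⟨hXn, ?_⟩
  by_cases hXab : ∀ a ∈ (X : Subgroup S), ∀ b ∈ (X : Subgroup S), a * b = b * a
  · left
    exact ⟨⟨fun a b => Subtype.ext (hXab a a.2 b b.2)⟩⟩
  right
  have hAX : A ≤ X := by
    have h1 : IsPGroup 2 (A ⊔ X : Subgroup S) := hAp.to_sup_of_normal_right hXp
    have h2 := X.is_maximal' h1 le_sup_right
    calc A ≤ A ⊔ X := le_sup_left
      _ = X := h2
  have hC : centralizer ((X : Subgroup S) : Set S) ≤ X := by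
    have := H23.centralizer_pCore_le hS hO
    rwa [hPX] at this
  have hnorm : ∀ B : Subgroup S, B ≤ normalizer ((X : Subgroup S) : Set S) := fun B => by
    rw [Subgroup.normalizer_eq_top]; exact le_top
  have hyp : Hyp (X : Subgroup S) K := by
    refine ⟨hXp, hK.1, hnorm K, ?_, hKmin, ⟨A, hAX, hAc, hA8⟩, hXab⟩
    intro h
    obtain ⟨hSp, hKbot⟩ := not_le_cent hK hXp hC h
    -- `A` has 2-power index
    have h1 : A = ⊤ := by
      by_contra h2
      obtain ⟨n, hn⟩ := IsPGroup.iff_card.1 hSp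
      obtain ⟨k, -, hk⟩ := (Nat.dvd_prime_pow Nat.prime_two).1 (hn ▸ Subgroup.index_dvd_card A : A.index ∣ 2 ^ n)
      exact hmin A h2 ⟨k, hk⟩ ⟨A, le_rfl, hAcomm, hAnc, hA8⟩
    apply hXab
    intro a _ b _
    exact hAc a (by rw [h1]; exact mem_top a) b (by rw [h1]; exact mem_top b)
  by_cases hirr : ∀ Y : Subgroup S, frat (X : Subgroup S) ≤ Y → Y ≤ X → K ≤ normalizer (Y : Set S) →
      Y = frat (X : Subgroup S) ∨ Y = X
  · rcases hyp.irreducible hirr with h | h
    · exact Or.inl h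
    · exact Or.inr (Or.inr h)
  · push Not at hirr
    obtain ⟨Y, h1, h2, h3, h4, h5⟩ := hirr
    obtain ⟨Y₁, g1, g2, g3, g4, g5, g6⟩ := hyp.red h1 h2 h4 h5 h3
    rcases hyp.reducible g1 g2 g3 g4 g5 g6 with h | h
    · exact Or.inl h
    · exact Or.inr (Or.inl h)

end Cfsg.Agent.H18.E8
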