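import Cfsg.Agent.H18.SimpEnd
import Cfsg.Agent.H18.PCore
import Cfsg.Agent.H23.Coprime2
import Cfsg.Prelude.Def_Transfer

/-!
# extraspecial groups acting faithfully on elementary abelian `r`-groups (helper18)
-/

set_option autoImplicit false
set_option linter.style.haveILetI false
open Cfsg
open scoped commutatorElement

namespace Cfsg.Agent.H18

open scoped IsMulCommutative in
/-- conjugation action as additive endomorphisms -/
def conjEnd {G : Type*} [Group G] (E W : Subgroup G) [IsMulCommutative W]
    (h : E ≤ Subgroup.normalizer (W : Set G)) : E →* AddMonoid.End (Additive W) where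
  toFun e :=
    { toFun := fun w => Additive.ofMul ⟨(e : G) * (Additive.toMul w : W) * (e : G)⁻¹,
        H23.mem_normalizer_conj h e.2 (Additive.toMul w : W).2⟩
      map_zero' := by
        apply Additive.toMul.injective
        apply Subtype.ext
        simp
      map_add' := by
        intro a b
        apply Additive.toMul.injective
        apply Subtype.ext
        simp [mul_assoc] }
  map_one' := by
    refine AddMonoidHom.ext fun w => ?_
    apply Additive.toMul.injective
    apply Subtype.ext
    show ((1 : E) : G) * ((Additive.toMul w : W) : G) * ((1 : E) : G)⁻¹ = ((Additive.toMul w : W) : G)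
    simp
  map_mul' := by
    intro a b
    refine AddMonoidHom.ext fun w => ?_
    apply Additive.toMul.injective
    apply Subtype.ext
    show ((a * b : E) : G) * ((Additive.toMul w : W) : G) * ((a * b : E) : G)⁻¹ =
      (a : G) * ((b : G) * ((Additive.toMul w : W) : G) * (b : G)⁻¹) * (a : G)⁻¹
    simp [mul_assoc]

theorem conjEnd_apply {G : Type*} [Group G] (E W : Subgroup G) [IsMulCommutative W]
    (h : E ≤ Subgroup.normalizer (W : Set G)) (e : E) (w : W) :
    ((Additive.toMul (conjEnd E W h e (Additive.ofMul w)) : W) : G) = e * w * (e : G)⁻¹ := rfl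

open scoped IsMulCommutative in
theorem extra_faithful {G : Type*} [Group G] [Finite G] {p r : ℕ} [hp : Fact p.Prime]
    [hr : Fact r.Prime] (hpr : p ≠ r) (E A : Subgroup G) (w : ℕ) (hE : IsExtraspecial p E)
    (hEcard : Nat.card E = p ^ (2 * w + 1)) (hA : IsElementaryAbelian r A)
    (hnorm : E ≤ Subgroup.normalizer (A : Set G))
    (hfaith : E ⊓ Subgroup.centralizer (A : Set G) = ⊥) (n : ℕ)
    (hmin : ∀ k : ℕ, 1 ≤ k → p ∣ r ^ k - 1 → n ≤ k) : r ^ (n * p ^ w) ≤ Nat.card A := by
  obtain ⟨⟨hEp, -, hE2⟩, hE3⟩ := hE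
  set Z : Subgroup G := (Subgroup.center E).map E.subtype with hZ
  have hZE : Z ≤ E := Subgroup.map_subtype_le _
  have hZcard : Nat.card Z = p := by
    rw [hZ, Subgroup.card_map_of_injective E.subtype_injective, hE3]
  have hZA : Z ≤ Subgroup.normalizer (A : Set G) := hZE.trans hnorm
  have hEZ : E ≤ Subgroup.centralizer (Z : Set G) := by
    intro e he
    rw [Subgroup.mem_centralizer_iff]
    rintro _ ⟨c, hc, rfl⟩
    exact (congrArg Subtype.val (Subgroup.mem_center_iff.1 hc ⟨e, he⟩)).symm
  have hEZn : E ≤ Subgroup.normalizer (Z : Set G) := hEZ.trans (Subgroup.centralizer_le_normalizer _)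
  have hAp : IsPGroup r A := fun x => ⟨1, Subtype.ext (by rw [pow_one]; exact hA.2 x x.2)⟩
  have hcop : (Nat.card Z).Coprime (Nat.card A) := by
    obtain ⟨k, hk⟩ := IsPGroup.iff_card.1 hAp
    rw [hZcard, hk]
    exact Nat.Coprime.pow_right _ ((Nat.coprime_primes hp.out hr.out).2 hpr)
  set B : Subgroup G := ⁅A, Z⁆ with hB
  have hBA : B ≤ A := H23.commutator_le_of_le_normalizer hZA
  have hBC : B ⊓ Subgroup.centralizer (Z : Set G) = ⊥ :=
    H23.commutator_inf_centralizer_of_abelian hZA hcop hA.1
  have hEB : E ≤ Subgroup.normalizer (B : Set G) := le_normalizer_commutator hnorm hEZn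
  have hB1 : B ≠ ⊥ := by
    intro h
    rw [hB, Subgroup.commutator_eq_bot_iff_le_centralizer, Subgroup.le_centralizer_iff] at h
    have h2 : Z ≤ ⊥ := by rw [← hfaith]; exact le_inf hZE h
    rw [le_bot_iff] at h2
    rw [h2, Subgroup.card_bot] at hZcard
    exact hp.out.one_lt.ne hZcard
  -- minimal invariant subgroup
  obtain ⟨W, hW⟩ := (Set.toFinite {W : Subgroup G | W ≠ ⊥ ∧ W ≤ B ∧
    E ≤ Subgroup.normalizer (W : Set G)}).exists_minimal ⟨B, hB1, le_rfl, hEB⟩
  obtain ⟨⟨hW1, hWB, hEW⟩, hWmin⟩ := hW
  haveI hWc : IsMulCommutative W := by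
    refine ⟨⟨?_⟩⟩
    rintro ⟨x, hx⟩ ⟨y, hy⟩
    have h := congrArg Subtype.val (hA.1.is_comm.comm ⟨x, hBA (hWB hx)⟩ ⟨y, hBA (hWB hy)⟩)
    exact Subtype.ext h
  haveI hWnt : Nontrivial W := (Subgroup.nontrivial_iff_ne_bot W).2 hW1
  haveI : Nontrivial (Additive W) := hWnt
  haveI : Finite (Additive W) := inferInstanceAs (Finite W)
  set ρ := conjEnd E W hEW with hρ
  have hs : ∀ U : AddSubgroup (Additive W), (∀ e : E, ∀ u ∈ U, ρ e u ∈ U) → U = ⊥ ∨ U = ⊤ := by
    intro U hU
    set U' : Subgroup G := (AddSubgroup.toSubgroup' U).map W.subtype with hU'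
    have hU'W : U' ≤ W := Subgroup.map_subtype_le _
    have hEU : E ≤ Subgroup.normalizer (U' : Set G) := by
      apply H23.le_normalizer_of_conj_mem
      rintro e he _ ⟨u, hu, rfl⟩
      exact ⟨_, hU ⟨e, he⟩ (Additive.ofMul u) hu, rfl⟩
    by_cases h0 : U' = ⊥
    · left
      rw [hU', Subgroup.map_eq_bot_iff_of_injective _ W.subtype_injective] at h0
      rw [eq_bot_iff]
      intro u hu
      have : Additive.toMul u ∈ (⊥ : Subgroup W) := by rw [← h0]; exact hu
      exact this
    · right
      have h1 := hWmin ⟨h0, hU'W.trans hWB, hEU⟩ hU'W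
      rw [eq_top_iff]
      intro u _
      obtain ⟨u', hu', huu⟩ := h1 (Additive.toMul u : W).2
      have : u' = (Additive.toMul u : W) := Subtype.ext huu
      rw [this] at hu'
      exact hu'
  obtain ⟨T, hT⟩ : ∃ T : Subgroup.center E, T ≠ 1 := by
    have : Nontrivial (Subgroup.center E) := by
      apply Finite.one_lt_card_iff_nontrivial.1
      rw [hE3]; exact hp.out.one_lt
    exact exists_ne 1
  have hTZ : ∀ c : Subgroup.center E, c ∈ Subgroup.zpowers T := by
    intro c
    have h1 : Subgroup.zpowers T = ⊤ := by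
      have h2 := Subgroup.card_subgroup_dvd_card (Subgroup.zpowers T)
      rw [hE3] at h2
      rcases (Nat.dvd_prime hp.out).1 h2 with h3 | h3
      · exact absurd (Subgroup.zpowers_eq_bot.1 (Subgroup.card_eq_one.1 h3)) hT
      · exact Subgroup.eq_top_of_card_eq _ (by rw [h3, hE3])
    rw [h1]; trivial
  have hρker : ∀ c : Subgroup.center E, c ≠ 1 → ρ (c : E) ≠ 1 := by
    intro c hc hρc
    apply hW1
    rw [eq_bot_iff, ← hBC]
    refine le_inf hWB ?_
    intro x hx
    rw [Subgroup.mem_centralizer_iff]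
    have hcx : ((c : E) : G) * x * ((c : E) : G)⁻¹ = x := by
      have h1 := DFunLike.congr_fun hρc (Additive.ofMul (⟨x, hx⟩ : W))
      have h2 := congrArg (fun y => ((Additive.toMul y : W) : G)) h1
      exact h2
    have hgen : Subgroup.zpowers c = ⊤ := by
      have h2 := Subgroup.card_subgroup_dvd_card (Subgroup.zpowers c)
      rw [hE3] at h2
      rcases (Nat.dvd_prime hp.out).1 h2 with h3 | h3
      · exact absurd (Subgroup.zpowers_eq_bot.1 (Subgroup.card_eq_one.1 h3)) hc
      · exact Subgroup.eq_top_of_card_eq _ (by rw [h3, hE3])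
    rintro _ ⟨d, hd, rfl⟩
    have h3 : (⟨d, hd⟩ : Subgroup.center E) ∈ Subgroup.zpowers c := by rw [hgen]; trivial
    obtain ⟨k, hk⟩ := h3
    have h4 : Commute ((c : E) : G) x := by
      rw [commute_iff_eq]
      rw [mul_inv_eq_iff_eq_mul] at hcx
      exact hcx
    have h5 : Commute ((((c : E) : G)) ^ k) x := h4.zpow_left k
    have h6 : (E.subtype d : G) = ((c : E) : G) ^ k := by
      have h7 := congrArg (fun y : Subgroup.center E => ((y : E) : G)) hk
      simpa using h7.symm
    rw [h6]
    exact h5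
  have hinj : ∀ a b : E, a ∈ Subgroup.center E → b ∈ Subgroup.center E → ρ a = ρ b → a = b := by
    intro a b ha hb hab
    by_contra hne
    have h1 : (⟨a * b⁻¹, (Subgroup.center E).mul_mem ha ((Subgroup.center E).inv_mem hb)⟩ :
        Subgroup.center E) ≠ 1 := by
      intro h
      apply hne
      have := congrArg Subtype.val h
      exact mul_inv_eq_one.1 this
    apply hρker _ h1
    show ρ (a * b⁻¹) = 1
    rw [map_mul, hab, ← map_mul, mul_inv_cancel, map_one]
  have hcomm : ∀ x y : E, ⁅x, y⁆ ∈ Subgroup.center E := by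
    intro x y
    rw [← hE2]
    exact Subgroup.commutator_mem_commutator trivial trivial
  have hVcard : Nat.card (Additive W) = Nat.card W := rfl
  have hb := SimpEnd.bound ρ hs (ι := E ⧸ Subgroup.center E) (fun i => Quotient.out i) hcomm
    (by
      intro i j hij
      by_contra hc
      push Not at hc
      apply hij
      rw [← QuotientGroup.out_eq' i, ← QuotientGroup.out_eq' j, QuotientGroup.eq,
        Subgroup.mem_center_iff]
      intro x
      have h1 := hinj _ _ (hcomm x⁻¹ (Quotient.out i)) (hcomm x⁻¹ (Quotient.out j)) (hc x⁻¹)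
      rw [commutatorElement_def, commutatorElement_def, inv_inv] at h1
      generalize Quotient.out i = a at h1 ⊢
      generalize Quotient.out j = b at h1 ⊢
      calc x * (a⁻¹ * b) = a⁻¹ * x * (x⁻¹ * a * x * a⁻¹) * b := by group
        _ = a⁻¹ * x * (x⁻¹ * b * x * b⁻¹) * b := by rw [h1]
        _ = a⁻¹ * b * x := by group)
    hp.out T.2 (by
      have h1 : T ^ p = 1 := by rw [← hE3]; exact pow_card_eq_one'
      have h2 := congrArg Subtype.val h1
      rw [← map_pow]
      have h3 : (T : E) ^ p = 1 := h2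
      rw [h3, map_one]) (hρker T hT) (r := r) (N := p ^ w) (n := n) hr.out
    (by
      rw [hVcard]
      exact IsPGroup.iff_card.1 (hAp.to_le (hWB.trans hBA)))
    (by
      have h1 := Subgroup.card_eq_card_quotient_mul_card_subgroup (Subgroup.center E)
      rw [hEcard, hE3, pow_succ] at h1
      have h2 := Nat.eq_of_mul_eq_mul_right hp.out.pos h1
      rw [← h2, ← pow_mul, mul_comm])
    hmin
  rw [hVcard] at hb
  exact hb.trans (Nat.le_of_dvd Nat.card_pos (Subgroup.card_dvd_of_le (hWB.trans hBA)))

end Cfsg.Agent.H18
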