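import Mathlib
import Cfsg.Prelude
import Cfsg.Agent.H1.Cores
import Cfsg.Agent.H1.Hall
import Cfsg.Agent.H23.ActLem
import Cfsg.Agent.H18.PCore
import Cfsg.Agent.H18.PRes
import Cfsg.Agent.H18.MaxSub3

/-!
# Subgroups with normal Sylow `p`-subgroup and cyclic quotient (helper18, S4082, S4083)
-/

set_option autoImplicit false
set_option linter.all false

namespace Cfsg.Agent.H18.PCyc

open Cfsg Subgroup

variable {G : Type*} [Group G] [Finite G] {p : ℕ} [hp : Fact p.Prime]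

/-- elements modulo `T` -/
theorem exists_eq_mul {H : Type*} [Group H] {T : Subgroup H} [T.Normal] {g : H} (hg : T ⊔ zpowers g = ⊤) (h : H) :
    ∃ t ∈ T, ∃ k : ℤ, h = t * g ^ k := by
  have h1 : h ∈ T ⊔ zpowers g := by rw [hg]; exact mem_top h
  rw [Subgroup.mem_sup_of_normal_left] at h1
  obtain ⟨t, ht, y, ⟨k, rfl⟩, rfl⟩ := h1
  exact ⟨t, ht, k, rfl⟩

theorem quot_cyclic {H : Type*} [Group H] {T S : Subgroup H} [T.Normal] [S.Normal] (hTS : T ≤ S) {g : H}
    (hg : T ⊔ zpowers g = ⊤) : IsCyclic (H ⧸ S) := by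
  refine ⟨⟨QuotientGroup.mk g, ?_⟩⟩
  intro x
  obtain ⟨h, rfl⟩ := QuotientGroup.mk_surjective x
  obtain ⟨t, ht, k, rfl⟩ := exists_eq_mul hg h
  refine ⟨k, ?_⟩
  show (QuotientGroup.mk g : H ⧸ S) ^ k = _
  rw [← QuotientGroup.mk_zpow, QuotientGroup.eq]
  have h1 : (g ^ k)⁻¹ * (t * g ^ k) = (g ^ k)⁻¹ * t * (g ^ k)⁻¹⁻¹ := by group
  rw [h1]
  exact hTS (Subgroup.Normal.conj_mem inferInstance t ht _)

/-- tool 2 -/
theorem hyp_of {H : Type*} [Group H] [Finite H] {T : Subgroup H} [T.Normal] (hT : IsPGroup p T) {g : H}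
    (hg : T ⊔ zpowers g = ⊤) : (∀ S : Sylow p H, (S : Subgroup H).Normal) ∧
      (∀ (S : Sylow p H) [(S : Subgroup H).Normal], IsCyclic (H ⧸ (S : Subgroup H))) := by
  have hTS : ∀ S : Sylow p H, T ≤ (S : Subgroup H) := fun S =>
    (H1.le_pCore inferInstance hT).trans (H1.pCore_le_sylow S)
  have hcyc : IsCyclic (H ⧸ T) := quot_cyclic le_rfl hg
  refine ⟨fun S => ⟨?_⟩, fun S hS => quot_cyclic (hTS S) hg⟩
  intro s hs h
  have hcomm : ∀ a b : H ⧸ T, a * b = b * a := by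
    letI := IsCyclic.commGroup (α := H ⧸ T)
    exact fun a b => mul_comm a b
  have h1 : s⁻¹ * (h * s * h⁻¹) ∈ T := by
    rw [← QuotientGroup.eq_one_iff, QuotientGroup.mk_mul, QuotientGroup.mk_mul, QuotientGroup.mk_mul,
      QuotientGroup.mk_inv, QuotientGroup.mk_inv, hcomm (h : H ⧸ T) (s : H ⧸ T)]
    group
  have h2 : h * s * h⁻¹ = s * (s⁻¹ * (h * s * h⁻¹)) := by group
  rw [h2]
  exact S.mul_mem hs (hTS S h1)

/-- tool 2 in an ambient group -/
theorem hyp_of' {T : Subgroup G} (hT : IsPGroup p T) {g : G} (hgT : g ∈ normalizer (T : Set G)) {H : Subgroup G}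
    (hH : H = T ⊔ zpowers g) : (∀ S : Sylow p H, (S : Subgroup H).Normal) ∧
      (∀ (S : Sylow p H) [(S : Subgroup H).Normal], IsCyclic (H ⧸ (S : Subgroup H))) := by
  subst hH
  have hTH : T ≤ T ⊔ zpowers g := le_sup_left
  have hgH : g ∈ T ⊔ zpowers g := (le_sup_right : zpowers g ≤ _) (mem_zpowers g)
  have hn : T ⊔ zpowers g ≤ normalizer (T : Set G) := sup_le le_normalizer (zpowers_le.2 hgT)
  haveI : (T.subgroupOf (T ⊔ zpowers g)).Normal := (normal_subgroupOf_iff_le_normalizer hTH).2 hn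
  refine hyp_of (T := T.subgroupOf (T ⊔ zpowers g)) ?_ (g := ⟨g, hgH⟩) ?_
  · exact hT.of_injective (subgroupOfEquivOfLe hTH).toMonoidHom (subgroupOfEquivOfLe hTH).injective
  · apply Subgroup.map_injective (T ⊔ zpowers g).subtype_injective
    rw [Subgroup.map_sup, Subgroup.map_subgroupOf_eq_of_le hTH, MonoidHom.map_zpowers, ← MonoidHom.range_eq_map,
      Subgroup.range_subtype]
    rfl

/-- tool 1 -/
theorem exists_gen {H : Subgroup G} (h1 : ∀ S : Sylow p H, (S : Subgroup H).Normal)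
    (h2 : ∀ (S : Sylow p H) [(S : Subgroup H).Normal], IsCyclic (H ⧸ (S : Subgroup H))) :
    ∃ (T : Subgroup G) (g : G), IsPGroup p T ∧ T ≤ H ∧ H ≤ normalizer (T : Set G) ∧ g ∈ H ∧
      (orderOf g).Coprime p ∧ H = T ⊔ zpowers g := by
  obtain ⟨S⟩ : Nonempty (Sylow p H) := inferInstance
  haveI := h1 S
  have hcyc := h2 S
  obtain ⟨x, hx⟩ := hcyc.exists_generator
  obtain ⟨g₀, rfl⟩ := QuotientGroup.mk_surjective x
  obtain ⟨k, hk⟩ := exists_pow_coprime (p := p) g₀
  have hpk : 0 < p ^ k := pow_pos hp.out.pos k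
  have hcop : (Nat.card (H ⧸ (S : Subgroup H))).Coprime (p ^ k) := by
    apply Nat.Coprime.pow_right
    rw [Nat.coprime_comm, hp.out.coprime_iff_not_dvd]
    exact S.not_dvd_index
  have hgen : zpowers (QuotientGroup.mk (g₀ ^ p ^ k) : H ⧸ (S : Subgroup H)) = ⊤ := by
    have h3 : zpowers (QuotientGroup.mk g₀ : H ⧸ (S : Subgroup H)) = ⊤ := by
      rw [eq_top_iff]; intro y _; exact hx y
    rw [QuotientGroup.mk_pow]
    apply Subgroup.eq_top_of_card_eq
    rw [Nat.card_zpowers]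
    have h4 : orderOf (QuotientGroup.mk g₀ : H ⧸ (S : Subgroup H)) = Nat.card (H ⧸ (S : Subgroup H)) := by
      rw [← Nat.card_zpowers, h3, Subgroup.card_top]
    rw [Nat.Coprime.orderOf_pow (by rw [h4]; exact hcop), h4]
  have hsup : (S : Subgroup H) ⊔ zpowers (g₀ ^ p ^ k) = ⊤ := by
    have h3 : ((S : Subgroup H) ⊔ zpowers (g₀ ^ p ^ k)).map (QuotientGroup.mk' (S : Subgroup H)) = ⊤ := by
      rw [eq_top_iff, ← hgen, zpowers_le]
      exact mem_map_of_mem _ ((le_sup_right : zpowers (g₀ ^ p ^ k) ≤ _) (mem_zpowers _))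
    have h4 := congrArg (Subgroup.comap (QuotientGroup.mk' (S : Subgroup H))) h3
    rwa [Subgroup.comap_map_eq, QuotientGroup.ker_mk', Subgroup.comap_top, sup_of_le_left (le_sup_left)] at h4
  refine ⟨(S : Subgroup H).map H.subtype, (g₀ ^ p ^ k : H), ?_, map_subtype_le _, ?_, (g₀ ^ p ^ k : H).2, ?_, ?_⟩
  · exact S.isPGroup'.map _
  · exact le_normalizer_map_sub (h1 S)
  · rw [Subgroup.orderOf_coe]; exact hk
  · have h3 := congrArg (Subgroup.map H.subtype) hsup
    rw [Subgroup.map_sup, MonoidHom.map_zpowers, ← MonoidHom.range_eq_map, Subgroup.range_subtype] at h3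
    exact h3.symm

theorem cyc_of {H T : Subgroup G} {g : G} (hT : IsCyclic T) (hTp : IsPGroup p T) (hc : ∀ x ∈ T, g * x = x * g)
    (hco : (orderOf g).Coprime p) (hH : H = T ⊔ zpowers g) : IsCyclic H := by
  obtain ⟨⟨s, hsT⟩, hs⟩ := hT.exists_generator
  have hsz : T = zpowers s := by
    apply le_antisymm
    · intro y hy
      obtain ⟨k, hk⟩ := hs ⟨y, hy⟩
      exact ⟨k, congrArg Subtype.val hk⟩
    · rw [zpowers_le]; exact hsT
  have hcomm : Commute s g := (hc s hsT).symm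
  have hcop : (orderOf s).Coprime (orderOf g) := by
    rw [hsz] at hTp
    obtain ⟨k, hk⟩ := IsPGroup.iff_card.1 hTp
    rw [Nat.card_zpowers] at hk
    rw [hk]
    exact (Nat.Coprime.pow_right k hco).symm
  have hord := hcomm.orderOf_mul_eq_mul_orderOf_of_coprime hcop
  have hsgH : s * g ∈ H := by
    rw [hH]
    exact mul_mem ((le_sup_left : T ≤ _) hsT) ((le_sup_right : zpowers g ≤ _) (mem_zpowers g))
  have hnorm : zpowers g ≤ normalizer (T : Set G) := by
    rw [zpowers_le, mem_normalizer_iff]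
    intro x
    rw [hsz]
    constructor
    · intro hx
      have h1 : g * x = x * g := by rw [← hsz] at hx; exact hc x hx
      rw [h1, mul_inv_cancel_right]; exact hx
    · intro hx
      have h1 : g * (g * x * g⁻¹) = (g * x * g⁻¹) * g := hc _ (by rw [hsz]; exact hx)
      have h2 : g * x * g⁻¹ = x := by
        have h3 : g * (g * x * g⁻¹) = g * x := by rw [h1, inv_mul_cancel_right]
        exact mul_left_cancel h3
      rwa [h2] at hx
  have h1 := H1.card_sup_mul_card_inf_of_le_normalizer hnorm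
  rw [← hH, Nat.card_zpowers, show Nat.card T = orderOf s by rw [hsz, Nat.card_zpowers], ← hord] at h1
  have h2 : orderOf (s * g) ∣ Nat.card H := by
    have := orderOf_dvd_natCard (⟨s * g, hsgH⟩ : H)
    rwa [Subgroup.orderOf_mk] at this
  have h3 : Nat.card H ∣ orderOf (s * g) := by rw [← h1]; exact dvd_mul_right _ _
  exact isCyclic_of_orderOf_eq_card (⟨s * g, hsgH⟩ : H) (by
    rw [Subgroup.orderOf_mk]; exact Nat.dvd_antisymm h2 h3)

end Cfsg.Agent.H18.PCyc
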