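import Mathlib
import Cfsg.Prelude
import Cfsg.Agent.H18.PCyc
import Cfsg.Agent.H18.E8c
import Cfsg.Agent.H4.DihEquiv
import Cfsg.Agent.H4.DihFus
import Cfsg.Agent.H5.Klein2
import Cfsg.Agent.H5.Small

set_option autoImplicit false
set_option linter.all false

namespace Cfsg.Agent.H18.PCyc

open Cfsg Subgroup

/-- dihedral data inside a group -/
def DD {G : Type*} [Group G] (R : Subgroup G) (u t : G) : Prop :=
  u ∈ R ∧ t ∈ R ∧ t * t = 1 ∧ t * u * t⁻¹ = u⁻¹ ∧ t ∉ zpowers u ∧ ∀ g ∈ R, g ∈ zpowers u ∨ t * g ∈ zpowers u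

theorem sub_dih {S : Type*} [Group S] {m : ℕ} {x y : S} (h : H4.DR S m x y) (R : Subgroup S) :
    IsCyclic R ∨ ∃ u t, DD R u t := by
  by_cases hR : R ≤ zpowers x
  · left
    exact isCyclic_of_injective (Subgroup.inclusion hR) (Subgroup.inclusion_injective hR)
  right
  obtain ⟨t, htR, htx⟩ := SetLike.not_le_iff_exists.1 hR
  have hcyc : IsCyclic (R ⊓ zpowers x : Subgroup S) :=
    isCyclic_of_injective (Subgroup.inclusion (inf_le_right : R ⊓ zpowers x ≤ zpowers x)) (Subgroup.inclusion_injective _)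
  obtain ⟨⟨u, hu⟩, hgen⟩ := hcyc.exists_generator
  have hUz : R ⊓ zpowers x = zpowers u := by
    apply le_antisymm
    · intro y hy
      obtain ⟨k, hk⟩ := hgen ⟨y, hy⟩
      exact ⟨k, congrArg Subtype.val hk⟩
    · rw [zpowers_le]; exact hu
  have hyk : ∀ k : ℤ, y * x ^ k = (x ^ k)⁻¹ * y := by
    intro k
    have h1 : y * x ^ k * y⁻¹ = (x ^ k)⁻¹ := by rw [← conj_zpow, h.rel, inv_zpow]
    rw [← h1, inv_mul_cancel_right]
  obtain ⟨k, hk⟩ : ∃ k : ℤ, t = x ^ k * y := by
    rcases h.cov t with ⟨k, hk⟩ | h1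
    · exact absurd ⟨k, hk.symm⟩ htx
    · exact h1
  have htt : t * t = 1 := by
    calc t * t = x ^ k * (y * x ^ k) * y := by rw [hk]; group
      _ = y * y := by rw [hyk]; group
      _ = 1 := h.yy
  have htu : t * u * t⁻¹ = u⁻¹ := by
    obtain ⟨j, hj⟩ : u ∈ zpowers x := hu.2
    have hj' : x ^ j = u := hj
    have htinv : t⁻¹ = t := inv_eq_of_mul_eq_one_left htt
    calc t * u * t⁻¹ = t * u * t := by rw [htinv]
      _ = x ^ k * (y * x ^ (j + k)) * y := by rw [← hj', hk, zpow_add]; group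
      _ = x ^ k * (x ^ (j + k))⁻¹ * (y * y) := by rw [hyk]; group
      _ = (x ^ j)⁻¹ := by rw [h.yy, zpow_add]; group
      _ = u⁻¹ := by rw [hj']
  refine ⟨u, t, hu.1, htR, htt, htu, ?_, ?_⟩
  · intro h1
    apply htx
    rw [← hUz] at h1
    exact h1.2
  · intro g hg
    rw [← hUz]
    rcases h.cov g with ⟨l, hl⟩ | ⟨l, hl⟩
    · left; exact ⟨hg, l, hl.symm⟩
    · right
      refine ⟨mul_mem htR hg, ⟨k - l, ?_⟩⟩
      show x ^ (k - l) = t * g
      calc x ^ (k - l) = x ^ k * (x ^ l)⁻¹ * (y * y) := by rw [h.yy, mul_one, zpow_sub]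
        _ = x ^ k * ((x ^ l)⁻¹ * y) * y := by group
        _ = t * g := by rw [← hyk, hk, hl]; group

theorem DD.map {S G : Type*} [Group S] [Group G] {R : Subgroup S} {u t : S} (h : DD R u t) (φ : S →* G)
    (hφ : Function.Injective φ) : DD (R.map φ) (φ u) (φ t) := by
  obtain ⟨h1, h2, h3, h4, h5, h6⟩ := h
  refine ⟨mem_map_of_mem _ h1, mem_map_of_mem _ h2, by rw [← map_mul, h3, map_one], ?_, ?_, ?_⟩
  · rw [← map_mul, ← map_inv, ← map_mul, h4, map_inv]
  · rintro ⟨k, hk⟩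
    apply h5
    refine ⟨k, hφ ?_⟩
    show φ (u ^ k) = φ t
    rw [map_zpow]; exact hk
  · rintro _ ⟨g, hg, rfl⟩
    rcases h6 g hg with ⟨k, hk⟩ | ⟨k, hk⟩
    · left
      exact ⟨k, by rw [← hk]; exact (map_zpow φ u k).symm⟩
    · right
      refine ⟨k, ?_⟩
      show φ u ^ k = φ t * φ g
      rw [← map_mul, ← hk]; exact (map_zpow φ u k).symm

variable {G : Type*} [Group G] [Finite G]

/-- 2-subgroups of a group with dihedral Sylow 2-subgroup -/
theorem two_sub {P : Sylow 2 G} {m : ℕ} (hm : 2 ≤ m) (e : (P : Subgroup G) ≃* DihedralGroup m) {T : Subgroup G}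
    (hT : IsPGroup 2 T) : IsCyclic T ∨ ∃ u t, DD T u t := by
  haveI : Fact (Nat.Prime 2) := ⟨Nat.prime_two⟩
  obtain ⟨x, y, hxy⟩ := H4.exists_DR hm e
  obtain ⟨Q, hQ⟩ := hT.exists_le_sylow
  obtain ⟨g, hg⟩ := MulAction.exists_smul_eq G P Q
  -- the injection
  let φ : (P : Subgroup G) →* G := (MulAut.conj g).toMonoidHom.comp (P : Subgroup G).subtype
  have hφ : Function.Injective φ := (MulAut.conj g).injective.comp (P : Subgroup G).subtype_injective
  have hTφ : (T.comap φ).map φ = T := by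
    rw [Subgroup.map_comap_eq, inf_eq_right]
    intro z hz
    have h1 : z ∈ (Q : Subgroup G) := hQ hz
    rw [← hg] at h1
    obtain ⟨w, hw, hwz⟩ := h1
    exact ⟨⟨w, hw⟩, hwz⟩
  rcases sub_dih hxy (T.comap φ) with h | ⟨u, t, h⟩
  · left
    rw [← hTφ]
    exact isCyclic_of_surjective ((T.comap φ).equivMapOfInjective φ hφ).toMonoidHom
      ((T.comap φ).equivMapOfInjective φ hφ).surjective
  · right
    have := h.map φ hφ
    rw [hTφ] at this
    exact ⟨_, _, this⟩

/-- a four-subgroup from two commuting involutions -/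
theorem exists_four {z t : G} (hz : z * z = 1) (ht : t * t = 1) (hz1 : z ≠ 1) (ht1 : t ≠ 1) (hzt : z ≠ t)
    (hc : z * t = t * z) : ∃ K : Subgroup G, Nat.card K = 4 ∧ (∀ k ∈ K, k ^ 2 = 1) ∧ z ∈ K ∧ t ∈ K ∧
      K ≤ zpowers z ⊔ zpowers t := by
  have h2 : ∀ w : G, w * w = 1 → w ≠ 1 → Nat.card (zpowers w) = 2 := by
    intro w hw hw1
    rw [Nat.card_zpowers]
    exact orderOf_eq_prime (by rw [pow_two]; exact hw) hw1
  have hmem : ∀ w : G, w * w = 1 → ∀ v ∈ zpowers w, v = 1 ∨ v = w := by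
    rintro w hw v ⟨k, rfl⟩
    rcases Int.even_or_odd' k with ⟨j, rfl | rfl⟩
    · left
      show w ^ (2 * j) = 1
      rw [zpow_mul, zpow_ofNat, pow_two, hw, one_zpow]
    · right
      show w ^ (2 * j + 1) = w
      rw [zpow_add, zpow_mul, zpow_ofNat, pow_two, hw, one_zpow, one_mul, zpow_one]
  have hn : zpowers t ≤ normalizer ((zpowers z : Subgroup G) : Set G) := by
    refine H23.le_normalizer_of_conj_mem ?_
    intro a ha b hb
    rcases hmem t ht a ha with rfl | rfl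
    · rw [one_mul, inv_one, mul_one]; exact hb
    · rcases hmem z hz b hb with rfl | rfl
      · rw [mul_one, mul_inv_cancel]; exact one_mem _
      · rw [← hc, mul_inv_cancel_right]; exact mem_zpowers _
  have hinf : zpowers z ⊓ zpowers t = ⊥ := by
    rw [eq_bot_iff]
    rintro v ⟨hv1, hv2⟩
    rcases hmem z hz v hv1 with h | h
    · exact h
    · rcases hmem t ht v hv2 with h' | h'
      · exact h'
      · exact absurd (h.symm.trans h') hzt
  refine ⟨zpowers z ⊔ zpowers t, ?_, ?_, (le_sup_left : zpowers z ≤ _) (mem_zpowers z),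
    (le_sup_right : zpowers t ≤ _) (mem_zpowers t), le_rfl⟩
  · have h3 := H1.card_sup_mul_card_inf_of_le_normalizer hn
    rw [hinf, Subgroup.card_bot, mul_one, h2 z hz hz1, h2 t ht ht1] at h3
    exact h3
  · intro k hk
    rw [sup_comm, mem_sup_iff_of_le_normalizer' hn] at hk
    obtain ⟨a, ha, b, hb, rfl⟩ := hk
    rcases hmem z hz a ha with rfl | rfl <;> rcases hmem t ht b hb with rfl | rfl
    · rw [one_mul, one_pow]
    · rw [one_mul, pow_two, ht]
    · rw [mul_one, pow_two, hz]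
    · rw [pow_two]
      calc a * b * (a * b) = a * (b * a) * b := by group
        _ = (a * a) * (b * b) := by rw [← hc]; group
        _ = 1 := by rw [hz, ht, one_mul]

end Cfsg.Agent.H18.PCyc
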