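import Mathlib
import Cfsg.Prelude
import Cfsg.Agent.H18.PCyc2
import Cfsg.Agent.H5.Dk22
import Cfsg.Agent.H5.Dk14

set_option autoImplicit false
set_option linter.all false

namespace Cfsg.Agent.H18.PCyc

open Cfsg Subgroup

variable {G : Type*} [Group G] [Finite G]

/-- self-centralizing four-groups -/
def FourC (G : Type*) [Group G] : Prop :=
  ∀ K : Subgroup G, Nat.card K = 4 → (∀ k ∈ K, k ^ 2 = 1) → centralizer (K : Set G) = K

theorem fourC_of {P : Sylow 2 G} (h : ∀ K : Subgroup G, K ≤ P → Nat.card K = 4 → (∀ k ∈ K, k ^ 2 = 1) →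
    centralizer (K : Set G) = K) : FourC G := by
  haveI : Fact (Nat.Prime 2) := ⟨Nat.prime_two⟩
  intro K hK hK2
  have hKp : IsPGroup 2 K := IsPGroup.of_card (n := 2) (by rw [hK]; norm_num)
  obtain ⟨Q, hQ⟩ := hKp.exists_le_sylow
  obtain ⟨g, hg⟩ := MulAction.exists_smul_eq G Q P
  set K' := K.map (MulAut.conj g).toMonoidHom with hK'
  have hK'P : K' ≤ P := by
    rw [← hg]
    exact Subgroup.map_mono hQ
  have hcard : Nat.card K' = 4 := by
    rw [← hK]
    exact Nat.card_congr (K.equivMapOfInjective _ (MulAut.conj g).injective).symm.toEquiv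
  have h2 : ∀ k ∈ K', k ^ 2 = 1 := by
    rintro _ ⟨k, hk, rfl⟩
    rw [← map_pow, hK2 k hk, map_one]
  have h3 := h K' hK'P hcard h2
  apply le_antisymm
  · intro c hc
    have h4 : g * c * g⁻¹ ∈ centralizer (K' : Set G) := by
      rw [mem_centralizer_iff]
      rintro _ ⟨k, hk, rfl⟩
      show g * k * g⁻¹ * (g * c * g⁻¹) = g * c * g⁻¹ * (g * k * g⁻¹)
      have h5 := mem_centralizer_iff.1 hc k hk
      calc g * k * g⁻¹ * (g * c * g⁻¹) = g * (k * c) * g⁻¹ := by group
        _ = g * (c * k) * g⁻¹ := by rw [h5]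
        _ = g * c * g⁻¹ * (g * k * g⁻¹) := by group
    rw [h3] at h4
    obtain ⟨k, hk, hk2⟩ := h4
    have h5 : g * k * g⁻¹ = g * c * g⁻¹ := hk2
    have h6 : k = c := mul_left_cancel (mul_right_cancel h5)
    rwa [← h6]
  · intro c hc
    rw [mem_centralizer_iff]
    intro k hk
    have h4 : ∀ w ∈ K, w⁻¹ = w := fun w hw => inv_eq_of_mul_eq_one_left (by rw [← pow_two]; exact hK2 w hw)
    have h5 := h4 (k * c) (K.mul_mem hk hc)
    rw [mul_inv_rev, h4 k hk, h4 c hc] at h5
    exact h5.symm

theorem star (h : FourC G) {z t c : G} (hz : z * z = 1) (ht : t * t = 1) (hz1 : z ≠ 1) (ht1 : t ≠ 1) (hzt : z ≠ t)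
    (hc : z * t = t * z) (h1 : c * z = z * c) (h2 : c * t = t * c) : c * c = 1 := by
  obtain ⟨K, hK4, hK2, -, -, hK⟩ := exists_four hz ht hz1 ht1 hzt hc
  have h3 : c ∈ centralizer (K : Set G) := by
    have hle : zpowers z ⊔ zpowers t ≤ centralizer ({c} : Set G) := by
      rw [sup_le_iff, zpowers_le, zpowers_le, mem_centralizer_singleton_iff, mem_centralizer_singleton_iff]
      exact ⟨h1.symm, h2.symm⟩
    rw [mem_centralizer_iff]
    intro y hy
    exact mem_centralizer_singleton_iff.1 (hle (hK hy))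
  rw [h K hK4 hK2] at h3
  rw [← pow_two]; exact hK2 c h3

/-- the conclusion for one subgroup -/
theorem conclude (hF : FourC G) {P : Sylow 2 G} {m : ℕ} (hm : 2 ≤ m) (e : (P : Subgroup G) ≃* DihedralGroup m)
    {H : Subgroup G} (h1 : ∀ S : Sylow 2 H, (S : Subgroup H).Normal)
    (h2 : ∀ (S : Sylow 2 H) [(S : Subgroup H).Normal], IsCyclic (H ⧸ (S : Subgroup H))) :
    IsCyclic H ∨ (∃ n : ℕ, Nonempty (H ≃* DihedralGroup (2 ^ n))) ∨ Nonempty (H ≃* alternatingGroup (Fin 4)) := by
  haveI : Fact (Nat.Prime 2) := ⟨Nat.prime_two⟩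
  obtain ⟨T, g, hTp, hTH, hHT, hgH, hgo, hH⟩ := exists_gen h1 h2
  have hgT : g ∈ normalizer (T : Set G) := hHT hgH
  rcases two_sub hm e hTp with hTc | ⟨u, t, hu, ht, htt, htu, htn, hcov⟩
  · left
    exact cyc_of hTc hTp (H23.commute_of_cyclic_two hTc hTp hgT hgo) hgo hH
  -- dihedral
  obtain ⟨eT⟩ := H4.dihedral_equiv hu ht rfl htt htu htn hcov
  have huo : ∃ k, orderOf u = 2 ^ k := by
    have h3 := orderOf_dvd_natCard (⟨u, hu⟩ : T)
    rw [Subgroup.orderOf_mk] at h3
    obtain ⟨k, hk⟩ := IsPGroup.iff_card.1 hTp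
    rw [hk] at h3
    obtain ⟨j, -, hj⟩ := (Nat.dvd_prime_pow Nat.prime_two).1 h3
    exact ⟨j, hj⟩
  obtain ⟨k, hk⟩ := huo
  have hTcard : Nat.card T = 2 * 2 ^ k := by
    rw [Nat.card_congr eT.toEquiv, DihedralGroup.nat_card, hk]
  have htinv : t⁻¹ = t := inv_eq_of_mul_eq_one_left htt
  have ht1 : t ≠ 1 := by rintro rfl; exact htn (one_mem _)
  by_cases hk0 : k = 0
  · left
    subst hk0
    rw [pow_zero, orderOf_eq_one_iff] at hk
    subst hk
    have hTc : IsCyclic T := isCyclic_of_prime_card (p := 2) (by rw [hTcard]; norm_num)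
    exact cyc_of hTc hTp (H23.commute_of_cyclic_two hTc hTp hgT hgo) hgo hH
  right
  by_cases hg1 : g = 1
  · left
    have hHT' : H = T := by
      rw [hH, hg1, zpowers_one_eq_bot, sup_bot_eq]
    rw [hHT']
    exact ⟨k, by rw [← hk]; exact ⟨eT⟩⟩
  by_cases hk1 : k = 1
  · -- the four-group case
    right
    subst hk1
    have hT4 : Nat.card T = 4 := by rw [hTcard]; norm_num
    have huu : u * u = 1 := by
      rw [← pow_two]
      apply orderOf_dvd_iff_pow_eq_one.1
      rw [hk, pow_one]
    have htu' : t * u = u * t := by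
      have h3 : u⁻¹ = u := inv_eq_of_mul_eq_one_left huu
      rw [h3] at htu
      exact mul_inv_eq_iff_eq_mul.1 htu
    have humem : ∀ w ∈ zpowers u, w = 1 ∨ w = u := by
      rintro w ⟨j, rfl⟩
      rcases Int.even_or_odd' j with ⟨i, rfl | rfl⟩
      · left
        show u ^ (2 * i) = 1
        rw [zpow_mul, zpow_ofNat, pow_two, huu, one_zpow]
      · right
        show u ^ (2 * i + 1) = u
        rw [zpow_add, zpow_mul, zpow_ofNat, pow_two, huu, one_zpow, one_mul, zpow_one]
    have hT2 : ∀ w ∈ T, w ^ 2 = 1 := by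
      intro w hw
      rw [pow_two]
      rcases hcov w hw with h3 | h3
      · rcases humem w h3 with rfl | rfl
        · rw [one_mul]
        · exact huu
      · rcases humem _ h3 with h4 | h4
        · have : w = t := by
            rw [← htinv]; exact eq_inv_of_mul_eq_one_right h4
          rw [this]; exact htt
        · have : w = t * u := by
            rw [← h4, ← mul_assoc, htt, one_mul]
          rw [this]
          calc t * u * (t * u) = t * (u * t) * u := by group
            _ = (t * t) * (u * u) := by rw [← htu']; group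
            _ = 1 := by rw [htt, huu, one_mul]
    have hTC := hF T hT4 hT2
    -- inside `H`
    have hVe : (T.subgroupOf H) ≃* T := subgroupOfEquivOfLe hTH
    haveI hVn : (T.subgroupOf H).Normal := (normal_subgroupOf_iff_le_normalizer hTH).2 hHT
    have hV2 : ∀ v : T.subgroupOf H, v ^ 2 = 1 := by
      intro v
      apply Subtype.ext; apply Subtype.ext
      exact hT2 v.1.1 v.2
    have hVcard : Nat.card (T.subgroupOf H) = 4 := by rw [Nat.card_congr hVe.toEquiv, hT4]
    have hV : IsKleinFour (T.subgroupOf H) := by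
      refine ⟨hVcard, ?_⟩
      have h3 : Monoid.exponent (T.subgroupOf H) ∣ 2 := Monoid.exponent_dvd_of_forall_pow_eq_one hV2
      rcases (Nat.dvd_prime Nat.prime_two).1 h3 with h4 | h4
      · exfalso
        rw [Monoid.exp_eq_one_iff] at h4
        have : Nat.card (T.subgroupOf H) = 1 := Nat.card_unique
        omega
      · exact h4
    have hVC : centralizer ((T.subgroupOf H : Subgroup H) : Set H) = T.subgroupOf H := by
      apply le_antisymm
      · intro c hc
        rw [mem_subgroupOf, ← hTC, mem_centralizer_iff]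
        intro y hy
        exact congrArg Subtype.val (mem_centralizer_iff.1 hc ⟨y, hTH hy⟩ hy)
      · intro c hc
        rw [mem_centralizer_iff]
        intro y hy
        apply Subtype.ext
        have h3 : (c : G) ∈ centralizer (T : Set G) := by rw [hTC]; exact hc
        exact mem_centralizer_iff.1 h3 y hy
    obtain ⟨j, hj6, hj⟩ := H5.card_normalizer_klein hV hVC
    rw [normalizer_eq_top, Subgroup.card_top] at hj
    -- `j` is odd
    have hcH : Nat.card H = 4 * orderOf g := by
      have h3 := H1.card_sup_mul_card_inf_of_le_normalizer (H := T) (K := zpowers g) (zpowers_le.2 hgT)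
      rw [← hH, hT4, Nat.card_zpowers] at h3
      have h4 : T ⊓ zpowers g = ⊥ := by
        rw [eq_bot_iff]
        rintro w ⟨hw1, hw2⟩
        have h5 : w ^ 2 = 1 := hT2 w hw1
        have h6 : orderOf w ∣ orderOf g := by
          have := orderOf_dvd_natCard (⟨w, hw2⟩ : zpowers g)
          rwa [Subgroup.orderOf_mk, Nat.card_zpowers] at this
        have h7 : orderOf w ∣ 2 := orderOf_dvd_of_pow_eq_one h5
        exact orderOf_eq_one_iff.1 (Nat.eq_one_of_dvd_coprimes hgo h6 h7)
      rw [h4, Subgroup.card_bot, mul_one] at h3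
      exact h3
    have hjg : j = orderOf g := by omega
    have hj1 : j ≠ 1 := by
      intro h3
      rw [h3] at hjg
      exact hg1 (orderOf_eq_one_iff.1 hjg.symm)
    have hj3 : j = 3 := by
      have h3 : j ≤ 6 := Nat.le_of_dvd (by norm_num) hj6
      have h4 : ¬ 2 ∣ j := by
        rw [hjg]
        intro h5
        have := Nat.eq_one_of_dvd_coprimes hgo h5 dvd_rfl
        norm_num at this
      interval_cases j <;> omega
    have h12 : Nat.card H = 12 := by rw [hj, hj3]
    obtain ⟨f, hf, h4⟩ := H5.perm4_of_klein (T.subgroupOf H) hV hVC (by rw [h12]; norm_num)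
    exact H5.equiv_alternating_of_injective f hf 4 h4 (by rw [h12]; rfl)
  · -- large dihedral case
    exfalso
    have hk2 : 2 ≤ k := by omega
    have huz : zpowers u ≤ T := zpowers_le.2 hu
    have hri : (zpowers u).relIndex T = 2 := by
      have h3 := H1.card_mul_relIndex huz
      rw [Nat.card_zpowers, hk, hTcard, mul_comm 2] at h3
      exact Nat.eq_of_mul_eq_mul_left (by positivity) h3
    -- `g` normalizes `⟨u⟩`
    have hgu : g * u * g⁻¹ ∈ zpowers u := by
      have h3 : g * u * g⁻¹ ∈ T := (mem_normalizer_iff.1 hgT u).1 hu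
      rcases hcov _ h3 with h4 | ⟨i, hi⟩
      · exact h4
      · exfalso
        have h5 : g * u * g⁻¹ = t * u ^ i := by
          have : u ^ i = t * (g * u * g⁻¹) := hi
          rw [this, ← mul_assoc, htt, one_mul]
        have h6 : (g * u * g⁻¹) * (g * u * g⁻¹) = 1 := by
          rw [h5]
          have h7 : t * u ^ i * t⁻¹ = (u ^ i)⁻¹ := by rw [← conj_zpow, htu, inv_zpow]
          calc t * u ^ i * (t * u ^ i) = (t * u ^ i * t⁻¹) * (t * t) * u ^ i := by group
            _ = 1 := by rw [h7, htt, mul_one, inv_mul_cancel]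
        have h7 : u * u = 1 := by
          have : g * (u * u) * g⁻¹ = 1 := by rw [← h6]; group
          have h8 := congrArg (fun w => g⁻¹ * w * g) this
          have h9 : g⁻¹ * (g * (u * u) * g⁻¹) * g = u * u := by group
          rw [h9] at h8
          rw [h8]; group
        have h8 : orderOf u ∣ 2 := orderOf_dvd_of_pow_eq_one (by rw [pow_two]; exact h7)
        rw [hk] at h8
        have h9 := Nat.le_of_dvd (by norm_num) h8
        have h10 : 2 ^ 2 ≤ 2 ^ k := Nat.pow_le_pow_right (by norm_num) hk2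
        omega
    have hgu' : zpowers g ≤ normalizer ((zpowers u : Subgroup G) : Set G) := by
      rw [zpowers_le, mem_normalizer_iff_map]
      apply Subgroup.eq_of_le_of_card_ge
      · rintro _ ⟨_, ⟨i, rfl⟩, rfl⟩
        show g * u ^ i * g⁻¹ ∈ zpowers u
        rw [← conj_zpow]
        exact zpow_mem hgu i
      · exact (Nat.card_congr ((zpowers u).equivMapOfInjective _ (MulAut.conj g).injective).toEquiv).le
    have hcent := E8.cent_of_index_two (U := zpowers u) (R := T) (K := zpowers g) huz inferInstance hTp hri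
      (zpowers_le.2 hgT) hgu' (by rw [Nat.card_zpowers]; exact hgo)
    have hcg : ∀ w ∈ T, g * w = w * g := fun w hw => mem_centralizer_iff.1 (hcent hw) g (mem_zpowers g)
    -- the central involution
    obtain ⟨k', rfl⟩ := Nat.exists_eq_add_of_le hk2
    set z := u ^ 2 ^ (1 + k') with hz
    have hzz : z * z = 1 := by
      rw [hz, ← pow_add, ← two_mul, ← pow_succ']
      apply orderOf_dvd_iff_pow_eq_one.1
      rw [hk]
      exact pow_dvd_pow 2 (by omega)
    have hz1 : z ≠ 1 := by
      intro h3
      have h4 := orderOf_dvd_of_pow_eq_one h3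
      rw [hk] at h4
      have h5 := Nat.le_of_dvd (by positivity) h4
      have h6 : 2 ^ (1 + k') < 2 ^ (2 + k') := Nat.pow_lt_pow_right (by norm_num) (by omega)
      omega
    have hzT : z ∈ T := pow_mem hu _
    have hzt : z ≠ t := by
      intro h3
      apply htn
      rw [← h3]
      exact pow_mem (mem_zpowers u) _
    have hczt : z * t = t * z := by
      have h3 : t * z * t⁻¹ = z⁻¹ := by rw [hz, ← conj_pow, htu, inv_pow]
      have h4 : z⁻¹ = z := inv_eq_of_mul_eq_one_left hzz
      rw [h4] at h3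
      exact (mul_inv_eq_iff_eq_mul.1 h3).symm
    have hgg := star hF hzz htt hz1 ht1 hzt hczt (hcg z hzT) (hcg t ht)
    apply hg1
    have h3 : orderOf g ∣ 2 := orderOf_dvd_of_pow_eq_one (by rw [pow_two]; exact hgg)
    exact orderOf_eq_one_iff.1 (Nat.eq_one_of_dvd_coprimes hgo dvd_rfl h3)

end Cfsg.Agent.H18.PCyc
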