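import Cfsg.Agent.H18.PCyc
import Cfsg.Agent.H4.DihEquiv
import Mathlib

/-! Restricted `p`-by-cyclic subgroups, `p` odd (S4082). -/

set_option autoImplicit false
open Subgroup

namespace Cfsg.Agent.H18.PCyc

open Cfsg.Agent.H18

variable {G : Type*} [Group G] [Finite G] {p : ℕ} [hp : Fact p.Prime]

/-- the restricted condition -/
def Restr (G : Type*) [Group G] (p : ℕ) : Prop :=
  ∀ H : Subgroup G, (∀ S : Sylow p ↥H, (S : Subgroup ↥H).Normal) →
        (∀ (S : Sylow p ↥H) [(S : Subgroup ↥H).Normal], IsCyclic (↥H ⧸ (S : Subgroup ↥H))) →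
        IsCyclic H ∨ (∃ n : ℕ, Nonempty (H ≃* DihedralGroup (p ^ n)))

set_option maxHeartbeats 1000000 in
/-- an element normalizing but not centralizing a `p`-subgroup is an involution inverting it -/
theorem invert_of_restr (hp2 : p ≠ 2) (h : Restr G p) {T : Subgroup G} (hT : IsPGroup p T) {x : G}
    (hx : x ∈ normalizer (T : Set G)) (hxc : x ∉ centralizer (T : Set G)) :
    x * x = 1 ∧ ∀ t ∈ T, x * t * x⁻¹ = t⁻¹ := by
  obtain ⟨a1, a2⟩ := hyp_of' hT hx (rfl : T ⊔ zpowers x = T ⊔ zpowers x)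
  have hTH : T ≤ T ⊔ zpowers x := le_sup_left
  have hxH : x ∈ T ⊔ zpowers x := (le_sup_right : zpowers x ≤ _) (mem_zpowers x)
  rcases h _ a1 a2 with h1 | ⟨n, ⟨e⟩⟩
  · exfalso
    apply hxc
    rw [mem_centralizer_iff]
    intro t ht
    have := (IsCyclic.commGroup (α := (T ⊔ zpowers x : Subgroup G))).mul_comm (⟨t, hTH ht⟩) ⟨x, hxH⟩
    exact congrArg Subtype.val this
  · have hrot : ∀ t (ht : t ∈ T), ∃ i, e ⟨t, hTH ht⟩ = DihedralGroup.r i := by
      intro t ht
      rcases hc : e ⟨t, hTH ht⟩ with i | i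
      · exact ⟨i, rfl⟩
      · exfalso
        have h2 : orderOf (e ⟨t, hTH ht⟩) = 2 := by rw [hc, DihedralGroup.orderOf_sr]
        rw [MulEquiv.orderOf_eq, Subgroup.orderOf_mk] at h2
        obtain ⟨k, hk⟩ := (IsPGroup.iff_orderOf.1 hT) ⟨t, ht⟩
        rw [Subgroup.orderOf_mk, h2] at hk
        have h3 : 2 ∣ p ^ k := by rw [← hk]
        have h4 := (Nat.prime_dvd_prime_iff_eq Nat.prime_two hp.out).1 (Nat.Prime.dvd_of_dvd_pow Nat.prime_two h3)
        exact hp2 h4.symm
    rcases hc : e ⟨x, hxH⟩ with j | j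
    · exfalso
      apply hxc
      rw [mem_centralizer_iff]
      intro t ht
      obtain ⟨i, hi⟩ := hrot t ht
      have h2 : (⟨t, hTH ht⟩ : (T ⊔ zpowers x : Subgroup G)) * ⟨x, hxH⟩ = ⟨x, hxH⟩ * ⟨t, hTH ht⟩ := by
        apply e.injective
        rw [map_mul, map_mul, hi, hc, DihedralGroup.r_mul_r, DihedralGroup.r_mul_r, add_comm]
      exact congrArg Subtype.val h2
    · constructor
      · have h2 : (⟨x, hxH⟩ : (T ⊔ zpowers x : Subgroup G)) * ⟨x, hxH⟩ = 1 := by
          apply e.injective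
          rw [map_mul, hc, DihedralGroup.sr_mul_self, map_one]
        exact congrArg Subtype.val h2
      · intro t ht
        obtain ⟨i, hi⟩ := hrot t ht
        have h2 : (⟨x, hxH⟩ : (T ⊔ zpowers x : Subgroup G)) * ⟨t, hTH ht⟩ * (⟨x, hxH⟩)⁻¹ = (⟨t, hTH ht⟩)⁻¹ := by
          apply e.injective
          rw [map_mul, map_mul, map_inv, map_inv, hi, hc, DihedralGroup.inv_sr, DihedralGroup.inv_r,
            DihedralGroup.sr_mul_r, DihedralGroup.sr_mul_sr]
          congr 1
          ring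
        exact congrArg Subtype.val h2

theorem odd_trivial (hp2 : p ≠ 2) {T : Subgroup G} (hT : IsPGroup p T) {t : G} (ht : t ∈ T) (h : t = t⁻¹) : t = 1 := by
  obtain ⟨k, hk⟩ := (IsPGroup.iff_orderOf.1 hT) ⟨t, ht⟩
  rw [Subgroup.orderOf_mk] at hk
  have h2 : orderOf t ∣ 2 := orderOf_dvd_of_pow_eq_one (by rw [pow_two]; nth_rewrite 1 [h]; exact inv_mul_cancel t)
  rcases (Nat.dvd_prime Nat.prime_two).1 h2 with h3 | h3
  · exact orderOf_eq_one_iff.1 h3
  · exfalso
    have h3 : 2 ∣ p ^ k := by rw [← hk, h3]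
    have h4 := (Nat.prime_dvd_prime_iff_eq Nat.prime_two hp.out).1 (Nat.Prime.dvd_of_dvd_pow Nat.prime_two h3)
    exact hp2 h4.symm

set_option maxHeartbeats 1000000 in
theorem odd_fwd (hp2 : p ≠ 2) (P : Sylow p G) (h : Restr G p) :
    (IsCyclic P ∧
      (Subgroup.normalizer ((P : Subgroup G) : Set G) = Subgroup.centralizer ((P : Subgroup G) : Set G) ∨
       ((Subgroup.centralizer ((P : Subgroup G) : Set G)).relIndex (Subgroup.normalizer ((P : Subgroup G) : Set G)) = 2 ∧
        ∀ Q : Subgroup G, Q ≤ P → Nat.card Q = p →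
          IsMulCommutative ↥(Subgroup.centralizer (Q : Set G)) ∧
          ∀ x : G, x ∈ Subgroup.normalizer (Q : Set G) → x ∉ Subgroup.centralizer (Q : Set G) →
            orderOf x = 2 ∧ ∀ c : G, c ∈ Subgroup.centralizer (Q : Set G) → x * c * x⁻¹ = c⁻¹))) := by
  have hPT : (P : Subgroup G) = (P : Subgroup G) ⊔ zpowers (1 : G) := by simp
  obtain ⟨a1, a2⟩ := hyp_of' P.2 (one_mem _) hPT
  have hPc : IsCyclic P := by
    rcases h P a1 a2 with h1 | ⟨n, ⟨e⟩⟩
    · exact h1
    · exfalso
      obtain ⟨k, hk⟩ := IsPGroup.iff_card.1 P.2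
      have h4 := (Nat.card_congr e.toEquiv).symm.trans hk
      rw [DihedralGroup.nat_card] at h4
      have h3 : 2 ∣ p ^ k := by rw [← h4]; exact dvd_mul_right _ _
      have h4 := (Nat.prime_dvd_prime_iff_eq Nat.prime_two hp.out).1 (Nat.Prime.dvd_of_dvd_pow Nat.prime_two h3)
      exact hp2 h4.symm
  refine ⟨hPc, ?_⟩
  have hcomm : ∀ a ∈ (P : Subgroup G), ∀ b ∈ (P : Subgroup G), a * b = b * a := by
    intro a ha b hb
    have := (IsCyclic.commGroup (α := P)).mul_comm ⟨a, ha⟩ ⟨b, hb⟩
    exact congrArg Subtype.val this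
  by_cases hNC : normalizer ((P : Subgroup G) : Set G) ≤ centralizer ((P : Subgroup G) : Set G)
  · left
    refine le_antisymm hNC ?_
    intro c hc
    rw [mem_normalizer_iff]
    intro k
    have hcK : ∀ k ∈ (P : Subgroup G), k * c = c * k := fun k hk => mem_centralizer_iff.1 hc k hk
    constructor
    · intro hk
      rw [← hcK k hk]
      simpa using hk
    · intro hk
      have h3 := hcK _ hk
      have h4 : k = c * k * c⁻¹ := by
        have : c⁻¹ * (c * k * c⁻¹ * c) = c⁻¹ * (c * (c * k * c⁻¹)) := by rw [h3]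
        calc k = c⁻¹ * (c * k * c⁻¹ * c) := by group
          _ = c⁻¹ * (c * (c * k * c⁻¹)) := this
          _ = c * k * c⁻¹ := by group
      rw [h4]; exact hk
  right
  obtain ⟨y, hyN, hyC⟩ := SetLike.not_le_iff_exists.1 hNC
  obtain ⟨hy2, hyinv⟩ := invert_of_restr hp2 h P.2 hyN hyC
  refine ⟨?_, ?_⟩
  · rw [relIndex_eq_two_iff_exists_notMem_and]
    refine ⟨y, hyN, hyC, fun b hb => ?_⟩
    by_cases hbC : b ∈ centralizer ((P : Subgroup G) : Set G)
    · exact Or.inr hbC
    · left
      obtain ⟨hb2, hbinv⟩ := invert_of_restr hp2 h P.2 hb hbC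
      rw [mem_centralizer_iff]
      intro t ht
      have h5 : (b * y) * t * (b * y)⁻¹ = t := by
        calc (b * y) * t * (b * y)⁻¹ = b * (y * t * y⁻¹) * b⁻¹ := by group
          _ = t := by rw [hyinv t ht, hbinv _ (inv_mem ht), inv_inv]
      rw [mul_inv_eq_iff_eq_mul] at h5
      exact h5.symm
  · intro Q hQ hQp
    have hQpg : IsPGroup p Q := P.2.to_le hQ
    have key : ∀ x : G, x ∈ Subgroup.normalizer (Q : Set G) → x ∉ Subgroup.centralizer (Q : Set G) →
            orderOf x = 2 ∧ ∀ c : G, c ∈ Subgroup.centralizer (Q : Set G) → x * c * x⁻¹ = c⁻¹ := by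
      intro x hx hxc
      have hx2 := (invert_of_restr hp2 h hQpg hx hxc).1
      refine ⟨orderOf_eq_prime (by rw [pow_two]; exact hx2) (by rintro rfl; exact hxc (one_mem _)), ?_⟩
      intro c hc
      have hcN : c ∈ normalizer (Q : Set G) := by
        rw [mem_normalizer_iff]
        intro k
        have hcK : ∀ k ∈ Q, k * c = c * k := fun k hk => mem_centralizer_iff.1 hc k hk
        constructor
        · intro hk
          rw [← hcK k hk]
          simpa using hk
        · intro hk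
          have h3 := hcK _ hk
          have h4 : k = c * k * c⁻¹ := by
            have : c⁻¹ * (c * k * c⁻¹ * c) = c⁻¹ * (c * (c * k * c⁻¹)) := by rw [h3]
            calc k = c⁻¹ * (c * k * c⁻¹ * c) := by group
              _ = c⁻¹ * (c * (c * k * c⁻¹)) := this
              _ = c * k * c⁻¹ := by group
          rw [h4]; exact hk
      have hxc2 : x * c ∉ centralizer (Q : Set G) := by
        intro h5
        apply hxc
        have : x = x * c * c⁻¹ := by group
        rw [this]
        exact mul_mem h5 (inv_mem hc)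
      have h6 := (invert_of_restr hp2 h hQpg (mul_mem hx hcN) hxc2).1
      have h7 : x⁻¹ = x := inv_eq_of_mul_eq_one_left hx2
      rw [h7]
      apply eq_inv_of_mul_eq_one_left
      calc x * c * x * c = x * c * (x * c) := by group
        _ = 1 := h6
    refine ⟨?_, key⟩
    have hyQN : y ∈ normalizer (Q : Set G) := by
      rw [mem_normalizer_iff]
      have h7 : y⁻¹ = y := inv_eq_of_mul_eq_one_left hy2
      have h8 : ∀ q ∈ Q, y * q * y⁻¹ ∈ Q := fun q hq => by rw [hyinv q (hQ hq)]; exact inv_mem hq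
      intro q
      refine ⟨h8 q, fun h9 => ?_⟩
      have h10 := h8 _ h9
      have h11 : y * (y * q * y⁻¹) * y⁻¹ = q := by
        calc y * (y * q * y⁻¹) * y⁻¹ = (y * y) * q * (y * y)⁻¹ := by group
          _ = q := by rw [hy2]; group
      rwa [h11] at h10
    have hyQC : y ∉ centralizer (Q : Set G) := by
      intro h5
      have h6 : Q ≤ ⊥ := by
        intro q hq
        rw [mem_bot]
        apply odd_trivial hp2 hQpg hq
        have h8 := hyinv q (hQ hq)
        have h9 := mem_centralizer_iff.1 h5 q hq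
        rw [← h9] at h8
        simpa using h8
      rw [le_bot_iff] at h6
      rw [h6, Subgroup.card_bot] at hQp
      exact hp.out.one_lt.ne hQp
    have h12 := (key y hyQN hyQC).2
    refine ⟨⟨?_⟩⟩
    rintro ⟨a, ha⟩ ⟨b, hb⟩
    apply Subtype.ext
    show a * b = b * a
    have h13 := h12 _ (mul_mem ha hb)
    have h14 : y * (a * b) * y⁻¹ = (y * a * y⁻¹) * (y * b * y⁻¹) := by group
    rw [h14, h12 a ha, h12 b hb] at h13
    have h15 := congrArg (·⁻¹) h13
    simp only [mul_inv_rev, inv_inv] at h15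
    exact h15.symm

end Cfsg.Agent.H18.PCyc
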