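import Cfsg.Agent.H18.Large
import Cfsg.Agent.H19.FStar

set_option autoImplicit false
open Cfsg
open scoped commutatorElement

namespace Cfsg.Agent.H18

variable {G : Type*} [Group G] {p : ℕ}

/-- characteristic `p` for a subgroup -/
def CP (p : ℕ) (K : Subgroup G) : Prop :=
  Subgroup.centralizer (pCore p ↥K : Set ↥K) ≤ pCore p ↥K

theorem CP.map_injective [Finite G] {G' : Type*} [Group G'] {p : ℕ} {f : G →* G'}
    (hf : Function.Injective f) {K : Subgroup G} (h : CP p K) : CP p (K.map f) :=
  H19.charP_of_equiv (K.equivMapOfInjective f hf) h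

theorem CP.of_map_injective {G' : Type*} [Group G'] [Finite G] {p : ℕ} {f : G →* G'}
    (hf : Function.Injective f) {K : Subgroup G} (h : CP p (K.map f)) : CP p K :=
  H19.charP_of_equiv (K.equivMapOfInjective f hf).symm h

theorem CP.cj [Finite G] {K : Subgroup G} (h : CP p K) (g : G) : CP p (L.cj g K) :=
  h.map_injective (MulAut.conj g).injective

theorem cp_cj_iff [Finite G] {K : Subgroup G} {g : G} : CP p (L.cj g K) ↔ CP p K :=
  ⟨fun h => CP.of_map_injective (MulAut.conj g).injective h, fun h => h.cj g⟩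

theorem cp_iff {K : Subgroup G} : CP p K ↔
    K ⊓ Subgroup.centralizer ((pCoreOf p K : Subgroup G) : Set G) ≤ pCoreOf p K :=
  charP_iff_pCoreOf

theorem CP.normal [Finite G] [Fact p.Prime] {N H : Subgroup G} (h : CP p H) (hNH : N ≤ H)
    (hn : H ≤ Subgroup.normalizer (N : Set G)) : CP p N :=
  cp_iff.2 (charP_normal hNH hn (cp_iff.1 h))

theorem CP.normalizer_of_central [Finite G] [Fact p.Prime] {X : Subgroup G} (hX : IsPGroup p X)
    {z : G} (hz : z ∈ X) (hzX : ∀ x ∈ X, x * z = z * x)
    (h : CP p (Subgroup.centralizer ({z} : Set G))) : CP p (Subgroup.normalizer (X : Set G)) := by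
  refine H19.charP_normalizer_of_centralizer hX ?_
  set C := Subgroup.centralizer ({z} : Set G) with hC
  have hXC : X ≤ C := fun x hx => by
    rw [hC, commute_iff_mem_centralizer_singleton]
    exact (hzX x hx).symm
  have h1 := H19.charP_centralizer h (X.subgroupOf C) (isPGroup_subgroupOf hX)
  have h2 : CP p (Subgroup.centralizer ((X.subgroupOf C : Subgroup ↥C) : Set ↥C)) := h1
  have h3 := h2.map_injective C.subtype_injective
  have h4 : (Subgroup.centralizer ((X.subgroupOf C : Subgroup ↥C) : Set ↥C)).map C.subtype =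
      Subgroup.centralizer (X : Set G) := by
    ext y
    constructor
    · rintro ⟨w, hw, rfl⟩
      rw [Subgroup.mem_centralizer_iff]
      intro x hx
      exact congrArg Subtype.val (Subgroup.mem_centralizer_iff.1 hw ⟨x, hXC hx⟩
        (by rw [SetLike.mem_coe, Subgroup.mem_subgroupOf]; exact hx))
    · intro hy
      rw [Subgroup.mem_centralizer_iff] at hy
      refine ⟨⟨y, ?_⟩, ?_, rfl⟩
      · rw [hC, commute_iff_mem_centralizer_singleton]
        exact hy z hz
      · rw [SetLike.mem_coe, Subgroup.mem_centralizer_iff]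
        rintro x hx
        exact Subtype.ext (hy x hx)
  rw [h4] at h3
  exact h3

theorem CP.centralizer_of_zpowers [Finite G] [Fact p.Prime] {z : G}
    (h : CP p (Subgroup.normalizer ((Subgroup.zpowers z : Subgroup G) : Set G))) :
    CP p (Subgroup.centralizer ({z} : Set G)) := by
  have e : Subgroup.centralizer ({z} : Set G) =
      Subgroup.centralizer ((Subgroup.zpowers z : Subgroup G) : Set G) := by
    ext x
    rw [commute_iff_mem_centralizer_singleton, Subgroup.mem_centralizer_iff]
    constructor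
    · intro hx y hy
      obtain ⟨k, rfl⟩ := Subgroup.mem_zpowers_iff.1 hy
      exact (show Commute z x from hx).zpow_left k
    · intro hx
      exact hx z (Subgroup.mem_zpowers z)
  rw [e]
  exact h.normal (Subgroup.centralizer_le_normalizer _)
    (le_normalizer_centralizer le_rfl)

theorem exists_orderOf_of_isPGroup [Finite G] [Fact p.Prime] {K : Subgroup G} (hK : IsPGroup p K)
    (hne : K ≠ ⊥) : ∃ z ∈ K, orderOf z = p := by
  have hnt : Nontrivial K := (Subgroup.nontrivial_iff_ne_bot K).2 hne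
  obtain ⟨n, hn, hc⟩ := (IsPGroup.nontrivial_iff_card hK).1 hnt
  obtain ⟨z, hz⟩ := exists_prime_orderOf_dvd_card' (G := K) p (by
    rw [hc]; exact dvd_pow_self p (by omega))
  exact ⟨z, z.2, by rw [← hz]; exact (Subgroup.orderOf_coe z)⟩

theorem exists_central_of_normal [Finite G] [Fact p.Prime] {R T : Subgroup G} (hR : IsPGroup p R)
    (hT : L.SylIn p T ⊤) (hne : R ≠ ⊥) (hTR : T ≤ Subgroup.normalizer (R : Set G)) :
    ∃ z ∈ R, z ∈ T ∧ orderOf z = p ∧ z ∈ Subgroup.centralizer (T : Set G) ∧ R ≤ T := by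
  have h1 := inf_centralizer_ne_bot hR hT.isPGroup hTR hne
  obtain ⟨z, hz, ho⟩ := exists_orderOf_of_isPGroup (hR.to_le inf_le_left) h1
  have h2 : T ⊔ R = T := by
    have := isPGroup_sup_of_le_normalizer hT.isPGroup hR hTR
    exact (hT.eq_of_le this le_top le_sup_left).symm
  have h3 : R ≤ T := by rw [← h2]; exact le_sup_right
  exact ⟨z, hz.1, h3 hz.1, ho, hz.2, h3⟩

theorem mem_omegaZ_iff_of_order {p : ℕ} {T : Subgroup G} {z : G} (hz : z ∈ T)
    (hc : z ∈ Subgroup.centralizer (T : Set G)) (ho : orderOf z = p) :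
    z ∈ omegaOne p (T ⊓ Subgroup.centralizer (T : Set G)) :=
  mem_omegaOne (Subgroup.mem_inf.2 ⟨hz, hc⟩) (by rw [← ho]; exact pow_orderOf_eq_one z)

theorem omegaOne_le' {p : ℕ} (H : Subgroup G) : omegaOne p H ≤ H := omegaOne_le H

theorem parChar_iff [Finite G] [Fact p.Prime] (S : Sylow p G) :
    IsOfParabolicCharacteristic p G ↔ ∀ z : G, z ≠ 1 →
      z ∈ omegaOne p ((S : Subgroup G) ⊓ Subgroup.centralizer ((S : Subgroup G) : Set G)) →
        CP p (Subgroup.centralizer ({z} : Set G)) := by
  have hS : L.SylIn p (S : Subgroup G) ⊤ := L.sylIn_top S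
  constructor
  · intro h z hz1 hz
    have hz' := omegaOne_le _ hz
    apply CP.centralizer_of_zpowers
    refine h (Subgroup.zpowers z) ?_ ?_ ⟨S, ?_⟩
    · exact hS.isPGroup.to_le (Subgroup.zpowers_le.2 hz'.1)
    · rwa [Ne, Subgroup.zpowers_eq_bot]
    · refine le_trans ?_ (Subgroup.centralizer_le_normalizer _)
      rw [Subgroup.le_centralizer_iff, Subgroup.zpowers_le]
      exact hz'.2
  · intro h R hR hR1 hpar
    obtain ⟨T, hT⟩ := hpar
    obtain ⟨g, hg⟩ := MulAction.exists_smul_eq G T S
    have hTS : L.cj g (T : Subgroup G) = (S : Subgroup G) := by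
      rw [← hg]; rfl
    have h1 : (S : Subgroup G) ≤ Subgroup.normalizer ((L.cj g R : Subgroup G) : Set G) := by
      rw [← hTS]
      exact (L.cj_mono hT).trans (L.nz_cj g R).ge
    obtain ⟨z, hzR, hzS, ho, hzc, hRS⟩ := exists_central_of_normal (L.cj_isPGroup (g := g) hR) hS
      (by rwa [Ne, L.cj_eq_bot]) h1
    have hz1 : z ≠ 1 := by
      rintro rfl
      rw [orderOf_one] at ho
      exact (Fact.out (p := p.Prime)).one_lt.ne ho
    have h2 := h z hz1 (mem_omegaZ_iff_of_order hzS hzc ho)
    have h3 : CP p (Subgroup.normalizer ((L.cj g R : Subgroup G) : Set G)) :=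
      CP.normalizer_of_central (L.cj_isPGroup hR) hzR
        (fun x hx => Subgroup.mem_centralizer_iff.1 hzc x (hRS hx)) h2
    have h4 : Subgroup.normalizer ((L.cj g R : Subgroup G) : Set G) =
        L.cj g (Subgroup.normalizer (R : Set G)) := L.nz_cj g R
    rw [h4, cp_cj_iff] at h3
    exact h3

theorem local_of_orderP [Finite G] [Fact p.Prime] (hdiv : p ∣ Nat.card G) (S : Sylow p G)
    (h : ∀ z : G, z ∈ (S : Subgroup G) → orderOf z = p →
      CP p (Subgroup.centralizer ({z} : Set G))) : IsOfLocalCharacteristic p G := by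
  have hS : L.SylIn p (S : Subgroup G) ⊤ := L.sylIn_top S
  refine ⟨hdiv, fun T hT hT1 => ?_⟩
  obtain ⟨g, -, hg⟩ := hS.exists_conj_le hT le_top
  have hT' : IsPGroup p (L.cj g T) := L.cj_isPGroup hT
  have h1 : L.cj g T ⊓ Subgroup.centralizer ((L.cj g T : Subgroup G) : Set G) ≠ ⊥ :=
    inf_centralizer_ne_bot hT' hT' Subgroup.le_normalizer (by rwa [Ne, L.cj_eq_bot])
  obtain ⟨z, hz, ho⟩ := exists_orderOf_of_isPGroup (hT'.to_le inf_le_left) h1
  have h3 : CP p (Subgroup.normalizer ((L.cj g T : Subgroup G) : Set G)) :=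
    CP.normalizer_of_central hT' hz.1
      (fun x hx => Subgroup.mem_centralizer_iff.1 hz.2 x hx) (h z (hg hz.1) ho)
  have h4 : Subgroup.normalizer ((L.cj g T : Subgroup G) : Set G) =
      L.cj g (Subgroup.normalizer (T : Set G)) := L.nz_cj g T
  rw [h4, cp_cj_iff] at h3
  exact h3

end Cfsg.Agent.H18
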