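import Mathlib
import Cfsg.Prelude
import Cfsg.Agent.H2.OmegaZ
import Cfsg.Agent.H2.CopQuot
import Cfsg.Agent.H10.PLoc
import Cfsg.Agent.H19.ZpStar
import Cfsg.Agent.H23.PSolvable
import Cfsg.Agent.S0618

/-!
# Characteristic subgroups of a Sylow subgroup with a nontrivial `p'`-action (helper18, for S4411)
-/

set_option autoImplicit false
set_option linter.all false

namespace Cfsg.Agent.H18.QA

open Subgroup Pointwise

universe u

/-- the automizer of `K` is not a `p`-group -/
def QAct (p : ℕ) {X : Type*} [Group X] (K : Subgroup X) : Prop :=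
  ∃ y ∈ normalizer (K : Set X), ∀ j : ℕ, y ^ p ^ j ∉ centralizer (K : Set X)

/-- pull back characteristic subgroups along a surjection with characteristic kernel -/
theorem comap_characteristic {A B : Type*} [Group A] [Group B] (π : A →* B)
    (hπ : Function.Surjective π) (hk : π.ker.Characteristic) {K : Subgroup B}
    (hK : K.Characteristic) : (K.comap π).Characteristic := by
  rw [Subgroup.characteristic_iff_comap_eq]
  intro φ
  -- the induced automorphism of `B`
  have hker : ∀ a, φ a ∈ π.ker ↔ a ∈ π.ker := by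
    intro a
    have h1 := Subgroup.characteristic_iff_comap_eq.1 hk φ
    have h2 : a ∈ π.ker.comap φ.toMonoidHom ↔ a ∈ π.ker := by rw [h1]
    exact h2
  let f : A →* B := π.comp φ.toMonoidHom
  have hf : Function.Surjective f := hπ.comp φ.surjective
  have hfk : f.ker = π.ker := by
    ext a
    rw [MonoidHom.mem_ker]
    exact hker a
  let e₁ : A ⧸ π.ker ≃* B := QuotientGroup.quotientKerEquivOfSurjective π hπ
  let e₂ : A ⧸ f.ker ≃* B := QuotientGroup.quotientKerEquivOfSurjective f hf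
  let e : B ≃* B := (e₁.symm.trans (QuotientGroup.quotientMulEquivOfEq hfk.symm)).trans e₂
  have he : ∀ a, e (π a) = π (φ a) := by
    intro a
    have h1 : e₁.symm (π a) = (a : A ⧸ π.ker) := by
      rw [MulEquiv.symm_apply_eq]
      rfl
    show e₂ (QuotientGroup.quotientMulEquivOfEq hfk.symm (e₁.symm (π a))) = _
    rw [h1]
    rfl
  have hKe := Subgroup.characteristic_iff_comap_eq.1 hK e
  ext a
  rw [Subgroup.mem_comap, Subgroup.mem_comap, Subgroup.mem_comap]
  have h1 : π (φ a) ∈ K ↔ e (π a) ∈ K := by rw [he]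
  have h2 : e (π a) ∈ K ↔ π a ∈ K := by
    have h3 : π a ∈ K.comap e.toMonoidHom ↔ π a ∈ K := by rw [hKe]
    exact h3
  exact h1.trans h2

variable {p : ℕ} [hp : Fact p.Prime]

/-- in a quotient: lifting the conclusion -/
theorem lift_char {X : Type*} [Group X] [Finite X] (M : Subgroup X) [M.Normal] (P : Sylow p X)
    (hk : (M.subgroupOf (P : Subgroup X)).Characteristic)
    (hcase : M ≤ (P : Subgroup X) ∨ (Nat.card M).Coprime p)
    (P' : Sylow p (X ⧸ M)) (hP' : (P' : Subgroup (X ⧸ M)) = (P : Subgroup X).map (QuotientGroup.mk' M))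
    {K' : Subgroup ↥(P' : Subgroup (X ⧸ M))} (hK' : K'.Characteristic)
    (hQ : QAct p (K'.map (P' : Subgroup (X ⧸ M)).subtype)) :
    ∃ K : Subgroup ↥(P : Subgroup X), K.Characteristic ∧ QAct p (K.map (P : Subgroup X).subtype) := by
  let π : ↥(P : Subgroup X) →* ↥(P' : Subgroup (X ⧸ M)) :=
    { toFun := fun x => ⟨QuotientGroup.mk' M x, by rw [hP']; exact ⟨x, x.2, rfl⟩⟩
      map_one' := Subtype.ext (map_one _)
      map_mul' := fun a b => Subtype.ext (map_mul _ _ _) }
  have hπ : Function.Surjective π := by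
    rintro ⟨y, hy⟩
    rw [hP'] at hy
    obtain ⟨x, hx, rfl⟩ := hy
    exact ⟨⟨x, hx⟩, rfl⟩
  have hker : π.ker = M.subgroupOf (P : Subgroup X) := by
    ext x
    rw [MonoidHom.mem_ker, Subgroup.mem_subgroupOf]
    constructor
    · intro h
      have := congrArg Subtype.val h
      exact (QuotientGroup.eq_one_iff (x : X)).1 this
    · intro h
      exact Subtype.ext ((QuotientGroup.eq_one_iff (x : X)).2 h)
  have hchar := comap_characteristic π hπ (hker ▸ hk) hK'
  set K := K'.comap π with hK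
  refine ⟨K, hchar, ?_⟩
  set L := K.map (P : Subgroup X).subtype with hL
  set L' := K'.map (P' : Subgroup (X ⧸ M)).subtype with hL'
  have hmem : ∀ x : X, x ∈ L ↔ x ∈ (P : Subgroup X) ∧ (x : X ⧸ M) ∈ L' := by
    intro x
    constructor
    · rintro ⟨k, hk, rfl⟩
      exact ⟨k.2, ⟨π k, hk, rfl⟩⟩
    · rintro ⟨hx, ⟨k', hk', hk2⟩⟩
      refine ⟨⟨x, hx⟩, ?_, rfl⟩
      show π ⟨x, hx⟩ ∈ K'
      have : π ⟨x, hx⟩ = k' := Subtype.ext hk2.symm
      rw [this]; exact hk'
  have hmap : L.map (QuotientGroup.mk' M) = L' := by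
    ext y
    constructor
    · rintro ⟨x, hx, rfl⟩
      exact ((hmem x).1 hx).2
    · rintro ⟨k', hk', rfl⟩
      obtain ⟨x, rfl⟩ := hπ k'
      exact ⟨x, ⟨x, hk', rfl⟩, rfl⟩
  -- lifting elements of the normalizer
  obtain ⟨y', hy', hy2⟩ := hQ
  have hlift : ∃ y ∈ normalizer (L : Set X), (y : X ⧸ M) = y' := by
    obtain ⟨y, rfl⟩ := QuotientGroup.mk_surjective y'
    rcases hcase with hM | hM
    · refine ⟨y, ?_, rfl⟩
      have hLc : ∀ x : X, x ∈ L ↔ (x : X ⧸ M) ∈ L' := by
        intro x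
        rw [hmem]
        refine ⟨fun h => h.2, fun h => ⟨?_, h⟩⟩
        rw [← hmap] at h
        obtain ⟨l, hl, hl2⟩ := h
        have h1 : l⁻¹ * x ∈ M := QuotientGroup.eq.1 hl2
        have h2 := mul_mem ((hmem l).1 hl).1 (hM h1)
        rwa [mul_inv_cancel_left] at h2
      rw [mem_normalizer_iff]
      intro x
      rw [hLc, hLc]
      exact mem_normalizer_iff.1 hy' (x : X ⧸ M)
    · have hPL : IsPGroup p L := P.2.to_le (Subgroup.map_subtype_le _)
      have h1 := H10.normalizer_map_mk hPL hM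
      rw [hmap] at h1
      rw [h1] at hy'
      obtain ⟨y₁, hy₁, h2⟩ := hy'
      exact ⟨y₁, hy₁, h2⟩
  obtain ⟨y, hy, rfl⟩ := hlift
  refine ⟨y, hy, fun j hj => hy2 j ?_⟩
  rw [mem_centralizer_iff] at hj ⊢
  intro l' hl'
  have hl'' : l' ∈ L.map (QuotientGroup.mk' M) := by rw [hmap]; exact hl'
  obtain ⟨l, hl, rfl⟩ := hl''
  have := hj l hl
  exact congrArg (QuotientGroup.mk' M) this

end Cfsg.Agent.H18.QA
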