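import Mathlib
import Cfsg.Prelude
import Cfsg.Agent.H18.QAct1
import Cfsg.Agent.H18.MaxSub3

set_option autoImplicit false
set_option linter.all false

namespace Cfsg.Agent.H18.QA

open Subgroup Pointwise

universe u

def e3 : Matrix.SpecialLinearGroup (Fin 2) (ZMod 2) := ⟨!![1, 1; 1, 0], by decide⟩

def e2 : Matrix.SpecialLinearGroup (Fin 2) (ZMod 3) := ⟨!![-1, 0; 0, -1], by decide⟩

theorem three_dvd_sl : 3 ∣ Nat.card (Matrix.SpecialLinearGroup (Fin 2) (ZMod 2)) := by
  have h : orderOf e3 = 3 := by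
    apply orderOf_eq_prime
    · decide
    · decide
  rw [← h]
  exact orderOf_dvd_natCard _

theorem two_dvd_sl : 2 ∣ Nat.card (Matrix.SpecialLinearGroup (Fin 2) (ZMod 3)) := by
  have h : orderOf e2 = 2 := by
    apply orderOf_eq_prime
    · decide
    · decide
  have h2 := orderOf_dvd_natCard e2
  rwa [h] at h2

/-- Thompson factorization -/
theorem factorizable {p : ℕ} [hp : Fact p.Prime] {X : Type*} [Group X] [Finite X]
    (hs : Cfsg.IsPSolvable p X) (h2 : p = 2 → ¬ 3 ∣ Nat.card X) (h3 : p = 3 → ¬ 2 ∣ Nat.card X)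
    (hO : Cfsg.pPrimeCore p X = ⊥) : Cfsg.IsThompsonFactorizable p X := by
  by_contra hnf
  obtain ⟨hp23, E, -, -, -, hn, ⟨e⟩⟩ := Cfsg.Agent.S0618.result hs hO hnf
  have hdvd : Nat.card (Matrix.SpecialLinearGroup (Fin 2) (ZMod p)) ∣ Nat.card X := by
    rw [← Nat.card_congr e.toEquiv]
    exact (Subgroup.card_quotient_dvd_card _).trans (Subgroup.card_subgroup_dvd_card E)
  rcases hp23 with rfl | rfl
  · exact h2 rfl (three_dvd_sl.trans hdvd)
  · exact h3 rfl (two_dvd_sl.trans hdvd)

theorem oz_le_J {p : ℕ} [hp : Fact p.Prime] {X : Type*} [Group X] [Finite X] (P : Subgroup X) :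
    Cfsg.omegaOne p (P ⊓ centralizer (P : Set X)) ≤ Cfsg.thompsonSubgroupOf p P := by
  obtain ⟨A, hA⟩ := H2.exists_eaIn p P
  refine le_trans ?_ hA.le_thompson
  have hZP : Cfsg.omegaOne p (P ⊓ centralizer (P : Set X)) ≤ P := (H2.omegaOne_le _ _).trans inf_le_left
  have hB : Cfsg.IsElementaryAbelian p (A ⊔ Cfsg.omegaOne p (P ⊓ centralizer (P : Set X))) := by
    apply H2.isElementaryAbelian_sup hA.2.1 (H2.oz_isElementaryAbelian P)
    intro a ha z hz
    exact (H2.mem_oz_iff.1 hz).2.1 a (hA.1 ha)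
  have h1 : A = A ⊔ Cfsg.omegaOne p (P ⊓ centralizer (P : Set X)) := by
    apply Subgroup.eq_of_le_of_card_ge le_sup_left
    exact hA.2.2 _ (sup_le hA.1 hZP) hB
  rw [h1]
  exact le_sup_right

/-- a subgroup with `p`-group automizer is `P` times centralizer -/
theorem normalizer_le_of_not_qact {p : ℕ} [hp : Fact p.Prime] {X : Type*} [Group X] [Finite X]
    (P : Sylow p X) {K : Subgroup X} (hK : (P : Subgroup X) ≤ normalizer (K : Set X))
    (hq : ¬ QAct p K) {n : X} (hn : n ∈ normalizer (K : Set X)) :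
    ∃ u ∈ (P : Subgroup X), ∃ c ∈ centralizer (K : Set X), n = u * c := by
  set N := normalizer (K : Set X) with hN
  set C : Subgroup N := (centralizer (K : Set X)).subgroupOf N with hC
  haveI : C.Normal := by
    rw [hC]; infer_instance
  have hpg : IsPGroup p (N ⧸ C) := by
    intro y
    obtain ⟨y, rfl⟩ := QuotientGroup.mk_surjective y
    unfold QAct at hq
    push Not at hq
    obtain ⟨j, hj⟩ := hq y y.2
    refine ⟨j, ?_⟩
    rw [← QuotientGroup.mk_pow, QuotientGroup.eq_one_iff, hC, mem_subgroupOf]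
    exact hj
  let PN : Sylow p N := P.subtype hK
  have hsurj := QuotientGroup.mk'_surjective C
  have htop : ((PN.mapSurjective hsurj : Sylow p (N ⧸ C)) : Subgroup (N ⧸ C)) = ⊤ := by
    have h1 : IsPGroup p (⊤ : Subgroup (N ⧸ C)) := hpg.to_subgroup ⊤
    exact ((PN.mapSurjective hsurj).is_maximal' h1 le_top).symm
  rw [Sylow.coe_mapSurjective] at htop
  have h2 : (QuotientGroup.mk' C ⟨n, hn⟩) ∈ (PN : Subgroup N).map (QuotientGroup.mk' C) := by
    rw [htop]; exact mem_top _
  obtain ⟨u, hu, hu2⟩ := h2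
  have h3 : u⁻¹ * ⟨n, hn⟩ ∈ C := QuotientGroup.eq.1 hu2
  rw [hC, mem_subgroupOf] at h3
  refine ⟨u, hu, _, h3, ?_⟩
  show n = (u : X) * ((u : X)⁻¹ * n)
  rw [mul_inv_cancel_left]

theorem isPGroup_of_quotient_bot {p : ℕ} {X : Type*} [Group X] {M : Subgroup X} [M.Normal] (hM : M = ⊥)
    (h : IsPGroup p (X ⧸ M)) : IsPGroup p X := by
  subst hM
  exact h.of_equiv QuotientGroup.quotientBot

theorem card_quot_lt {X : Type*} [Group X] [Finite X] {n : ℕ} (hn : Nat.card X = n) {M : Subgroup X}
    (hM : M ≠ ⊥) : Nat.card (X ⧸ M) < n := by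
  have h1 := card_eq_card_quotient_mul_card_subgroup M
  have h2 : 1 < Nat.card M := (one_lt_card_iff_ne_bot M).mpr hM
  have h3 : 0 < Nat.card (X ⧸ M) := Nat.card_pos
  rw [← hn]
  nlinarith

set_option maxHeartbeats 1000000 in
theorem lemB (p : ℕ) [hp : Fact p.Prime] : ∀ (n : ℕ) (X : Type u) [Group X] [Finite X], Nat.card X = n →
    Cfsg.IsPSolvable p X → (p = 2 → ¬ 3 ∣ Nat.card X) → (p = 3 → ¬ 2 ∣ Nat.card X) →
    ¬ IsPGroup p (X ⧸ Cfsg.pPrimeCore p X) → ∀ P : Sylow p X,
    ∃ K : Subgroup ↥(P : Subgroup X), K.Characteristic ∧ QAct p (K.map (P : Subgroup X).subtype) := by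
  intro n
  induction n using Nat.strong_induction_on with
  | _ n ih =>
  intro X _ _ hn hs h2 h3 hnp P
  by_cases hM : Cfsg.pPrimeCore p X = ⊥
  · by_contra hcon
    push Not at hcon
    have hX : ¬ IsPGroup p X := fun h => hnp (h.to_quotient _)
    have hfac := factorizable hs h2 h3 hM
    set J := Cfsg.thompsonSubgroupOf p (P : Subgroup X) with hJ
    set Z₁ := Cfsg.omegaOne p ((P : Subgroup X) ⊓ centralizer ((P : Subgroup X) : Set X)) with hZ₁
    have hJQ : ¬ QAct p J := hcon (Cfsg.thompsonSubgroup p (P : Subgroup X)) inferInstance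
    have hPJ : (P : Subgroup X) ≤ normalizer (J : Set X) :=
      H18.le_normalizer_map_sub (K := (P : Subgroup X)) (C := Cfsg.thompsonSubgroup p (P : Subgroup X))
        inferInstance
    have hZJ : Z₁ ≤ J := oz_le_J (P : Subgroup X)
    have hPZ : (P : Subgroup X) ≤ centralizer (Z₁ : Set X) := by
      intro x hx
      rw [mem_centralizer_iff]
      intro z hz
      exact ((H2.mem_oz_iff.1 hz).2.1 x hx).symm
    have hcent : Z₁ ≤ center X := by
      intro z hz
      rw [mem_center_iff]
      intro g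
      obtain ⟨x, hx, c, hc, n', hn', rfl⟩ := hfac P g
      rw [hM, mem_bot] at hx
      subst hx
      obtain ⟨u, hu, d, hd, rfl⟩ := normalizer_le_of_not_qact P hPJ hJQ hn'
      have h1 : c ∈ centralizer (Z₁ : Set X) := hc
      have h4 : u ∈ centralizer (Z₁ : Set X) := hPZ hu
      have h5 : d ∈ centralizer (Z₁ : Set X) := centralizer_le (fun z hz => hZJ hz) hd
      have h6 : (1 : X) * c * (u * d) ∈ centralizer (Z₁ : Set X) :=
        mul_mem (mul_mem (one_mem _) h1) (mul_mem h4 h5)
      exact (mem_centralizer_iff.1 h6 z hz).symm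
    haveI hZn : Z₁.Normal := ⟨fun z hz g => by
      rw [mem_center_iff.1 (hcent hz) g, mul_inv_cancel_right]; exact hz⟩
    have hZP : Z₁ ≤ (P : Subgroup X) := (H2.omegaOne_le _ _).trans inf_le_left
    have hZne : Z₁ ≠ ⊥ := by
      intro hbot
      have hP1 : (P : Subgroup X) = ⊥ := by
        by_contra hPne
        haveI : Nontrivial (P : Subgroup X) := (Subgroup.nontrivial_iff_ne_bot _).2 hPne
        haveI := P.2.center_nontrivial
        have hdvd : p ∣ Nat.card (center (P : Subgroup X)) := by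
          obtain ⟨k, hk⟩ := IsPGroup.iff_card.1 (P.2.to_subgroup (center (P : Subgroup X)))
          have h1 : 1 < Nat.card (center (P : Subgroup X)) := Finite.one_lt_card
          rw [hk] at h1 ⊢
          have hk0 : k ≠ 0 := by
            rintro rfl
            simp at h1
          exact dvd_pow_self _ hk0
        obtain ⟨z, hz⟩ := exists_prime_orderOf_dvd_card' p hdvd
        have hzZ : ((z : (P : Subgroup X)) : X) ∈ Z₁ := by
          rw [hZ₁, H2.mem_oz_iff]
          refine ⟨z.1.2, ?_, ?_⟩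
          · intro s hs
            exact congrArg Subtype.val (mem_center_iff.1 z.2 ⟨s, hs⟩)
          · have h1 : z ^ p = 1 := orderOf_dvd_iff_pow_eq_one.1 hz.dvd
            exact congrArg (fun u : center (P : Subgroup X) => ((u : (P : Subgroup X)) : X)) h1
        rw [hbot, mem_bot] at hzZ
        have h1 : z = 1 := Subtype.ext (Subtype.ext hzZ)
        rw [h1, orderOf_one] at hz
        exact hp.out.one_lt.ne hz
      apply hX
      have h1 : (Nat.card X).Coprime p := by
        rw [Nat.coprime_comm, Nat.Prime.coprime_iff_not_dvd hp.out]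
        intro h1
        have h4 : p ∣ Nat.card (P : Subgroup X) := P.dvd_card_of_dvd_card h1
        rw [hP1, Subgroup.card_bot] at h4
        exact hp.out.one_lt.ne' (Nat.dvd_one.1 h4)
      have h4 : (⊤ : Subgroup X) ≤ Cfsg.pPrimeCore p X :=
        H1.le_pPrimeCore inferInstance (by rw [Subgroup.card_top]; exact h1)
      rw [hM] at h4
      intro x
      exact ⟨0, by
        have := h4 (mem_top x)
        rw [mem_bot] at this
        rw [this, one_pow]⟩
    have hZpow : ∀ z ∈ Z₁, z ^ p = 1 := fun z hz => (H2.mem_oz_iff.1 hz).2.2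
    have hZpg : IsPGroup p Z₁ := P.2.to_le hZP
    have hO : Cfsg.pPrimeCore p (X ⧸ Z₁) = ⊥ := by
      haveI := H1.pPrimeCore_normal p (X ⧸ Z₁)
      set N := (Cfsg.pPrimeCore p (X ⧸ Z₁)).comap (QuotientGroup.mk' Z₁) with hN
      have hZN : Z₁ ≤ N := by
        intro z hz
        rw [hN, mem_comap]
        have : QuotientGroup.mk' Z₁ z = 1 := (QuotientGroup.eq_one_iff z).2 hz
        rw [this]; exact one_mem _
      have hrel : (Z₁.relIndex N).Coprime p := by
        have h1 : Nat.card Z₁ * Z₁.relIndex N = Nat.card N := H1.card_mul_relIndex hZN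
        have h4 : Nat.card N = Nat.card Z₁ * Nat.card (Cfsg.pPrimeCore p (X ⧸ Z₁)) :=
          H23.card_comap_mk' Z₁ _
        rw [h4] at h1
        have h5 := Nat.eq_of_mul_eq_mul_left Nat.card_pos h1
        rw [h5]
        exact H1.pPrimeCore_coprime p _
      have h1 := H19.eq_of_central_of_coprime_index hM (inferInstance : N.Normal) hZN hZpg hcent hrel
      rw [eq_bot_iff]
      intro y hy
      obtain ⟨x, rfl⟩ := QuotientGroup.mk_surjective y
      have h4 : x ∈ N := hy
      rw [h1] at h4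
      exact (QuotientGroup.eq_one_iff x).2 h4
    have hnp' : ¬ IsPGroup p ((X ⧸ Z₁) ⧸ Cfsg.pPrimeCore p (X ⧸ Z₁)) := by
      intro h
      have h1 := isPGroup_of_quotient_bot hO h
      apply hX
      intro x
      obtain ⟨k, hk⟩ := h1 (x : X ⧸ Z₁)
      rw [← QuotientGroup.mk_pow, QuotientGroup.eq_one_iff] at hk
      exact ⟨k + 1, by rw [pow_succ, pow_mul]; exact hZpow _ hk⟩
    have hcard : Nat.card (X ⧸ Z₁) < n := card_quot_lt hn hZne
    obtain ⟨K', hK', hQ'⟩ := ih _ hcard (X ⧸ Z₁) rfl (H23.isPSolvable_quotient Z₁ hs)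
      (fun h => fun h' => h2 h (h'.trans (Subgroup.card_quotient_dvd_card _)))
      (fun h => fun h' => h3 h (h'.trans (Subgroup.card_quotient_dvd_card _))) hnp'
      (P.mapSurjective (QuotientGroup.mk'_surjective Z₁))
    have hchar : (Z₁.subgroupOf (P : Subgroup X)).Characteristic := by
      rw [Subgroup.characteristic_iff_comap_le]
      intro φ x hx
      rw [mem_comap, mem_subgroupOf] at hx
      obtain ⟨h1, h4, h5⟩ := H2.mem_oz_iff.1 hx
      rw [mem_subgroupOf]
      apply H2.mem_oz_iff.2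
      refine ⟨x.2, ?_, ?_⟩
      · intro s hs
        have h6 : φ ⟨s, hs⟩ * φ x = φ x * φ ⟨s, hs⟩ := Subtype.ext (h4 _ (φ ⟨s, hs⟩).2)
        rw [← map_mul, ← map_mul] at h6
        exact congrArg Subtype.val (φ.injective h6)
      · have h6 : (φ x) ^ p = 1 := Subtype.ext h5
        rw [← map_pow] at h6
        have h7 : x ^ p = 1 := φ.injective (by rw [h6, map_one])
        exact congrArg Subtype.val h7
    obtain ⟨K, hK, hQ⟩ := lift_char Z₁ P hchar (Or.inl hZP) (P.mapSurjective (QuotientGroup.mk'_surjective Z₁))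
      (Sylow.coe_mapSurjective _ _) hK' hQ'
    exact hcon K hK hQ
  · haveI := H1.pPrimeCore_normal p X
    set M := Cfsg.pPrimeCore p X with hMdef
    have hcop : (Nat.card M).Coprime p := H1.pPrimeCore_coprime p X
    have hcard : Nat.card (X ⧸ M) < n := card_quot_lt hn hM
    have hnp' : ¬ IsPGroup p ((X ⧸ M) ⧸ Cfsg.pPrimeCore p (X ⧸ M)) := by
      intro h
      exact hnp (isPGroup_of_quotient_bot (H23.pPrimeCore_quotient_eq_bot p X) h)
    obtain ⟨K', hK', hQ'⟩ := ih _ hcard (X ⧸ M) rfl (H23.isPSolvable_quotient M hs)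
      (fun h => fun h' => h2 h (h'.trans (Subgroup.card_quotient_dvd_card _)))
      (fun h => fun h' => h3 h (h'.trans (Subgroup.card_quotient_dvd_card _))) hnp'
      (P.mapSurjective (QuotientGroup.mk'_surjective M))
    have hchar : (M.subgroupOf (P : Subgroup X)).Characteristic := by
      have h1 : M.subgroupOf (P : Subgroup X) = ⊥ := by
        have h4 := H2.inf_eq_bot_of_isPGroup_of_coprime P.2 hcop
        rw [Subgroup.subgroupOf_eq_bot, disjoint_iff, inf_comm]
        exact h4
      rw [h1]; infer_instance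
    exact lift_char M P hchar (Or.inr hcop) (P.mapSurjective (QuotientGroup.mk'_surjective M))
      (Sylow.coe_mapSurjective _ _) hK' hQ'

end Cfsg.Agent.H18.QA
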