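import Mathlib
import Cfsg.Prelude
import Cfsg.Agent.H18.QAct2

set_option autoImplicit false
set_option linter.all false

namespace Cfsg.Agent.H18.QA

open Subgroup Pointwise

universe u

def HallPQ (p q : ℕ) {X : Type*} [Group X] (L : Subgroup X) : Prop :=
  (∀ r : ℕ, r.Prime → r ∣ Nat.card L → r = p ∨ r = q) ∧ ¬ p ∣ L.index ∧ ¬ q ∣ L.index

theorem hallPQ_sub {p q : ℕ} [hp : Fact p.Prime] [hq : Fact q.Prime] {X : Type*} [Group X] {Y : Subgroup X}
    (h1 : ¬ p ∣ Y.index) (h2 : ¬ q ∣ Y.index) {L : Subgroup Y} (hL : HallPQ p q L) :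
    HallPQ p q (L.map Y.subtype) := by
  refine ⟨?_, ?_, ?_⟩
  · rw [H1.card_map_subtype]; exact hL.1
  · rw [Subgroup.index_map_subtype, hp.out.dvd_mul]
    push Not
    exact ⟨hL.2.1, h1⟩
  · rw [Subgroup.index_map_subtype, hq.out.dvd_mul]
    push Not
    exact ⟨hL.2.2, h2⟩

theorem hallPQ_comap {p q : ℕ} [hp : Fact p.Prime] [hq : Fact q.Prime] {X : Type*} [Group X] [Finite X]
    {N : Subgroup X} [N.Normal] (hN : ∀ r : ℕ, r.Prime → r ∣ Nat.card N → r = p ∨ r = q)
    {L : Subgroup (X ⧸ N)} (hL : HallPQ p q L) :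
    HallPQ p q (L.comap (QuotientGroup.mk' N)) := by
  have hi : (L.comap (QuotientGroup.mk' N)).index = L.index :=
    Subgroup.index_comap_of_surjective _ (QuotientGroup.mk'_surjective N)
  refine ⟨?_, ?_, ?_⟩
  · intro r hr hd
    rw [H23.card_comap_mk' N L, hr.dvd_mul] at hd
    rcases hd with hd | hd
    · exact hN r hr hd
    · exact hL.1 r hr hd
  · rw [hi]; exact hL.2.1
  · rw [hi]; exact hL.2.2

set_option maxHeartbeats 1000000 in
theorem exists_hallPQ (p q : ℕ) [hp : Fact p.Prime] [hq : Fact q.Prime] (hpq : p ≠ q) :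
    ∀ (n : ℕ) (X : Type u) [Group X] [Finite X], Nat.card X = n → Cfsg.IsPSolvable p X →
    ∃ L : Subgroup X, HallPQ p q L := by
  intro n
  induction n using Nat.strong_induction_on with
  | _ n ih =>
  intro X _ _ hn hs
  rcases subsingleton_or_nontrivial X with hsub | hnt
  · refine ⟨⊤, ?_, ?_, ?_⟩
    · intro r hr hd
      rw [Subgroup.card_top, Nat.card_unique] at hd
      exact absurd (Nat.dvd_one.1 hd) hr.one_lt.ne'
    · rw [Subgroup.index_top]; intro h; exact hp.out.one_lt.ne' (Nat.dvd_one.1 h)
    · rw [Subgroup.index_top]; intro h; exact hq.out.one_lt.ne' (Nat.dvd_one.1 h)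
  -- lifting through normal `p`- or `q`-subgroups
  have hlift : ∀ N : Subgroup X, N.Normal → N ≠ ⊥ →
      (∀ r : ℕ, r.Prime → r ∣ Nat.card N → r = p ∨ r = q) → ∃ L : Subgroup X, HallPQ p q L := by
    intro N hN hNe hNr
    haveI := hN
    obtain ⟨L, hL⟩ := ih _ (card_quot_lt hn hNe) (X ⧸ N) rfl (H23.isPSolvable_quotient N hs)
    exact ⟨_, hallPQ_comap hNr hL⟩
  have hpow : ∀ (r s : ℕ) (N : Subgroup X), s.Prime → r.Prime → IsPGroup s N → r ∣ Nat.card N → r = s := by
    intro r s N hs' hr hN hd
    haveI : Fact s.Prime := ⟨hs'⟩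
    obtain ⟨k, hk⟩ := IsPGroup.iff_card.1 hN
    rw [hk] at hd
    exact (Nat.prime_dvd_prime_iff_eq hr hs').1 (hr.dvd_of_dvd_pow hd)
  rcases H23.pCore_ne_bot_or hs with h | h
  · exact hlift _ (H1.pCore_normal p X) h (fun r hr hd => Or.inl (hpow r p _ hp.out hr (H1.pCore_isPGroup p X) hd))
  haveI := H1.pPrimeCore_normal p X
  set N := Cfsg.pPrimeCore p X with hN
  have hNc : (Nat.card N).Coprime p := H1.pPrimeCore_coprime p X
  have hNp : ¬ p ∣ Nat.card N := by
    rw [← Nat.Prime.coprime_iff_not_dvd hp.out]; exact hNc.symm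
  by_cases hqN : q ∣ Nat.card N
  · obtain ⟨S⟩ : Nonempty (Sylow q N) := inferInstance
    set S' := (S : Subgroup N).map N.subtype with hS'
    have hS'q : IsPGroup q S' := S.2.map _
    have hS'ne : S' ≠ ⊥ := by
      intro hb
      have h1 : q ∣ Nat.card (S : Subgroup N) := S.dvd_card_of_dvd_card hqN
      rw [← H1.card_map_subtype (S : Subgroup N), ← hS', hb, Subgroup.card_bot] at h1
      exact hq.out.one_lt.ne' (Nat.dvd_one.1 h1)
    by_cases hn' : S'.Normal
    · exact hlift S' hn' hS'ne (fun r hr hd => Or.inr (hpow r q _ hq.out hr hS'q hd))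
    · set Y := normalizer (S' : Set X) with hY
      have hYne : Y ≠ ⊤ := by
        intro h1
        exact hn' (normalizer_eq_top_iff.1 h1)
      have hfr : Y ⊔ N = ⊤ := S.normalizer_sup_eq_top
      have hidx : Y.index = Y.relIndex N := by
        rw [← Subgroup.relIndex_top_right, ← hfr]
        exact H2.relIndex_sup_eq_relIndex_of_normal Y N
      have hS'Y : S' ≤ Y := le_normalizer
      have hYp : ¬ p ∣ Y.index := by
        intro h1
        rw [hidx] at h1
        exact hNp (h1.trans (Subgroup.relIndex_dvd_card _ _))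
      have hYq : ¬ q ∣ Y.index := by
        intro h1
        rw [hidx] at h1
        have h2 : Y.relIndex N ∣ S'.relIndex N := Subgroup.relIndex_dvd_of_le_left N hS'Y
        have h3 : S'.relIndex N = (S : Subgroup N).index := by
          have h4 : S'.subgroupOf N = (S : Subgroup N) :=
            Subgroup.comap_map_eq_self_of_injective N.subtype_injective _
          rw [Subgroup.relIndex, h4]
        rw [h3] at h2
        exact S.not_dvd_index (h1.trans h2)
      obtain ⟨L, hL⟩ := ih _ (by
        rw [← hn]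
        have h1 := Subgroup.index_mul_card Y
        have h2 : 1 < Y.index := by
          have h3 : Y.index ≠ 1 := fun h => hYne (Subgroup.index_eq_one.1 h)
          have h4 : Y.index ≠ 0 := Subgroup.index_ne_zero_of_finite
          omega
        have h3 : 0 < Nat.card Y := Nat.card_pos
        nlinarith) Y rfl (H23.isPSolvable_subgroup Y hs)
      exact ⟨_, hallPQ_sub hYp hYq hL⟩
  · obtain ⟨L', hL'⟩ := ih _ (card_quot_lt hn h) (X ⧸ N) rfl (H23.isPSolvable_quotient N hs)
    set K := L'.comap (QuotientGroup.mk' N) with hK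
    have hi : K.index = L'.index := Subgroup.index_comap_of_surjective _ (QuotientGroup.mk'_surjective N)
    by_cases hKtop : K = ⊤
    · have hcardq : ∀ r : ℕ, r.Prime → r ∣ N.index → r = p ∨ r = q := by
        intro r hr hd
        apply hL'.1 r hr
        have h1 : L' = ⊤ := by
          rw [← Subgroup.index_eq_one, ← hi, hKtop, Subgroup.index_top]
        rw [h1, Subgroup.card_top]
        exact hd
      have hcop : (Nat.card N).Coprime N.index := by
        rw [Nat.coprime_iff_gcd_eq_one]
        by_contra hne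
        obtain ⟨r, hr, hd⟩ := Nat.exists_prime_and_dvd hne
        rcases hcardq r hr (hd.trans (Nat.gcd_dvd_right _ _)) with rfl | rfl
        · exact hNp (hd.trans (Nat.gcd_dvd_left _ _))
        · exact hqN (hd.trans (Nat.gcd_dvd_left _ _))
      obtain ⟨H, hH⟩ := Subgroup.exists_right_complement'_of_coprime hcop
      have h1 : Nat.card N * Nat.card H = Nat.card X := hH.card_mul
      have h2 : Nat.card N * N.index = Nat.card X := Subgroup.card_mul_index N
      have h3 : Nat.card H = N.index := Nat.eq_of_mul_eq_mul_left Nat.card_pos (h1.trans h2.symm)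
      have h4 : H.index = Nat.card N := by
        have h5 := Subgroup.card_mul_index H
        rw [← h1, mul_comm (Nat.card N)] at h5
        exact Nat.eq_of_mul_eq_mul_left Nat.card_pos h5
      refine ⟨H, ?_, ?_, ?_⟩
      · rw [h3]; exact hcardq
      · rw [h4]; exact hNp
      · rw [h4]; exact hqN
    · obtain ⟨L, hL⟩ := ih _ (by
        rw [← hn]
        have h1 := Subgroup.index_mul_card K
        have h2 : 1 < K.index := by
          have h3 : K.index ≠ 1 := fun h => hKtop (Subgroup.index_eq_one.1 h)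
          have h4 : K.index ≠ 0 := Subgroup.index_ne_zero_of_finite
          omega
        have h3 : 0 < Nat.card K := Nat.card_pos
        nlinarith) K rfl (H23.isPSolvable_subgroup K hs)
      exact ⟨_, hallPQ_sub (by rw [hi]; exact hL'.2.1) (by rw [hi]; exact hL'.2.2) hL⟩

end Cfsg.Agent.H18.QA
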