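import Mathlib
import Cfsg.Prelude
import Cfsg.Agent.H18.QAct3
import Cfsg.Agent.H23.Coprime3

set_option autoImplicit false
set_option linter.all false

namespace Cfsg.Agent.H18.QA

open Subgroup Pointwise

universe u

variable {G : Type u} [Group G] [Finite G]

/-- the quotient `N_G(K) / C_G(K)` has order divisible by `q` -/
def QD (q : ℕ) {G : Type*} [Group G] (K : Subgroup G) : Prop :=
  q ∣ ((centralizer (K : Set G)).subgroupOf (normalizer (K : Set G))).index

/-- a normal subgroup of index divisible by `q` misses a `q`-element of every supplement -/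
theorem exists_q_elt {N : Type*} [Group N] [Finite N] {q : ℕ} [hq : Fact q.Prime] (C R : Subgroup N)
    [C.Normal] (hRC : R ⊔ C = ⊤) (h : q ∣ C.index) : ∃ y ∈ R, y ∉ C ∧ ∃ k : ℕ, y ^ q ^ k = 1 := by
  have hidx : C.index = C.relIndex R := by
    rw [← Subgroup.relIndex_top_right, ← hRC, Subgroup.relIndex_sup_right]
  obtain ⟨Q⟩ : Nonempty (Sylow q R) := inferInstance
  by_contra hcon
  push Not at hcon
  have hQC : (Q : Subgroup R) ≤ C.subgroupOf R := by
    intro x hx
    rw [mem_subgroupOf]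
    by_contra hxC
    obtain ⟨k, hk⟩ := Q.2 ⟨x, hx⟩
    have hk' : (x : N) ^ q ^ k = 1 := congrArg (fun u : (Q : Subgroup R) => ((u : R) : N)) hk
    exact hcon x x.2 hxC k hk'
  have h1 : (C.subgroupOf R).index ∣ (Q : Subgroup R).index := Subgroup.index_dvd_of_le hQC
  rw [hidx] at h
  exact Q.not_dvd_index (h.trans h1)

theorem qd_of_elt {q : ℕ} [hq : Fact q.Prime] {K : Subgroup G} {y : G}
    (hy : y ∈ normalizer (K : Set G)) (hyC : y ∉ centralizer (K : Set G)) (h : ∃ k : ℕ, y ^ q ^ k = 1) :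
    QD q K := by
  obtain ⟨k, hk⟩ := h
  have h1 : orderOf ((⟨y, hy⟩ : normalizer (K : Set G)) : normalizer (K : Set G) ⧸
      (centralizer (K : Set G)).subgroupOf (normalizer (K : Set G))) ∣ q ^ k := by
    apply orderOf_dvd_of_pow_eq_one
    rw [← QuotientGroup.mk_pow, QuotientGroup.eq_one_iff, mem_subgroupOf]
    show y ^ q ^ k ∈ _
    rw [hk]; exact one_mem _
  obtain ⟨j, -, hj⟩ := (Nat.dvd_prime_pow hq.out).1 h1
  have hj0 : j ≠ 0 := by
    rintro rfl
    rw [pow_zero, orderOf_eq_one_iff, QuotientGroup.eq_one_iff, mem_subgroupOf] at hj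
    exact hyC hj
  have h2 := orderOf_dvd_natCard ((⟨y, hy⟩ : normalizer (K : Set G)) : normalizer (K : Set G) ⧸
      (centralizer (K : Set G)).subgroupOf (normalizer (K : Set G)))
  rw [hj] at h2
  exact (dvd_pow_self q hj0).trans h2

/-- from `QAct` in a `{p,q}`-subgroup -/
theorem qd_of_qact {p q : ℕ} [hp : Fact p.Prime] [hq : Fact q.Prime] {X : Type*} [Group X] [Finite X]
    (ι : X →* G) (hι : Function.Injective ι) (hX : ∀ r : ℕ, r.Prime → r ∣ Nat.card X → r = p ∨ r = q)
    {K : Subgroup X} (hK : QAct p K) : QD q (K.map ι) := by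
  obtain ⟨y, hy, hy2⟩ := hK
  have hyN : ι y ∈ normalizer ((K.map ι : Subgroup G) : Set G) := by
    rw [mem_normalizer_iff]
    intro x
    constructor
    · rintro ⟨k, hk, rfl⟩
      exact ⟨y * k * y⁻¹, (mem_normalizer_iff.1 hy k).1 hk, by simp⟩
    · rintro ⟨k, hk, hk2⟩
      refine ⟨y⁻¹ * k * y, ?_, ?_⟩
      · have := (mem_normalizer_iff.1 (inv_mem hy) k).1 hk
        rwa [inv_inv] at this
      · rw [map_mul, map_mul, map_inv, hk2]; group
  have hyC : ∀ j, (ι y) ^ p ^ j ∉ centralizer ((K.map ι : Subgroup G) : Set G) := by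
    intro j hj
    apply hy2 j
    rw [mem_centralizer_iff] at hj ⊢
    intro k hk
    apply hι
    rw [map_mul, map_mul, map_pow]
    exact hj (ι k) ⟨k, hk, rfl⟩
  set C := (centralizer ((K.map ι : Subgroup G) : Set G)).subgroupOf (normalizer ((K.map ι : Subgroup G) : Set G)) with hC
  set Y : normalizer ((K.map ι : Subgroup G) : Set G) ⧸ C := ((⟨ι y, hyN⟩ : normalizer ((K.map ι : Subgroup G) : Set G)) : _ ⧸ C) with hY
  have hpow : ∀ m : ℕ, Y ^ m = 1 ↔ (ι y) ^ m ∈ centralizer ((K.map ι : Subgroup G) : Set G) := by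
    intro m
    rw [hY, ← QuotientGroup.mk_pow, QuotientGroup.eq_one_iff, hC, mem_subgroupOf]
    rfl
  have hord : orderOf Y ∣ Nat.card X := by
    apply orderOf_dvd_of_pow_eq_one
    rw [hpow, ← map_pow, pow_card_eq_one', map_one]
    exact one_mem _
  have hqd : q ∣ orderOf Y := by
    by_contra hn
    have hne : orderOf Y ≠ 0 := (orderOf_pos Y).ne'
    have h1 : orderOf Y = p ^ (orderOf Y).primeFactorsList.length := by
      apply Nat.eq_prime_pow_of_unique_prime_dvd hne
      intro d hd hdd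
      rcases hX d hd (hdd.trans hord) with h | h
      · exact h
      · rw [h] at hdd; exact absurd hdd hn
    have h2 : Y ^ p ^ (orderOf Y).primeFactorsList.length = 1 := by
      rw [← h1]; exact pow_orderOf_eq_one Y
    exact hyC _ ((hpow _).1 h2)
  exact hqd.trans (orderOf_dvd_natCard Y)

set_option maxHeartbeats 1000000 in
/-- enlarging `H` so that its centralizer has central Sylow subgroup -/
theorem enlarge {p q : ℕ} [hp : Fact p.Prime] [hq : Fact q.Prime] {H : Subgroup G} (hH : IsPGroup p H)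
    (hqd : QD q H) (N : Subgroup G) (hN : N = normalizer (H : Set G)) (P₀ : Sylow p N) :
    ∃ H₁ : Subgroup G, IsPGroup p H₁ ∧
      (P₀ : Subgroup N).map N.subtype ≤ normalizer (H₁ : Set G) ∧
      (∃ y ∈ normalizer (H₁ : Set G), y ∉ centralizer (H₁ : Set G) ∧ ∃ k : ℕ, y ^ q ^ k = 1) ∧
      (∀ u ∈ centralizer (H₁ : Set G), (∃ k : ℕ, u ^ p ^ k = 1) → u ∈ H₁) := by
  subst hN
  let N := normalizer (H : Set G)
  let C : Subgroup N := (centralizer (H : Set G)).subgroupOf N
  have hC : C = (centralizer (H : Set G)).subgroupOf N := rfl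
  haveI hCn : C.Normal := by rw [hC]; infer_instance
  obtain ⟨T, hT⟩ := H2.exists_sylow_of_normal P₀ C
  set T' : Subgroup N := (T : Subgroup C).map C.subtype with hT'
  have hT'eq : T' = (P₀ : Subgroup N) ⊓ C := by
    rw [hT', hT, Subgroup.subgroupOf_map_subtype]
  have hfr : normalizer (T' : Set N) ⊔ C = ⊤ := T.normalizer_sup_eq_top
  obtain ⟨y, hyR, hyC, hyq⟩ := exists_q_elt C (normalizer (T' : Set N)) hfr hqd
  set T₁ : Subgroup G := T'.map N.subtype with hT₁
  have hHN : H ≤ N := le_normalizer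
  have hHP : H.subgroupOf N ≤ (P₀ : Subgroup N) := by
    haveI : (H.subgroupOf N).Normal := normal_in_normalizer
    have h1 : IsPGroup p (H.subgroupOf N) := hH.comap_subtype
    exact (H1.le_pCore this h1).trans (H1.pCore_le_sylow P₀)
  set P := (P₀ : Subgroup N).map N.subtype with hP
  have hHP' : H ≤ P := by
    intro x hx
    exact ⟨⟨x, hHN hx⟩, hHP (mem_subgroupOf.2 hx), rfl⟩
  have hTP : T₁ ≤ P := by
    rw [hT₁, hP, hT'eq]
    exact Subgroup.map_mono inf_le_left
  have hPg : IsPGroup p P := P₀.2.map _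
  have hP_T : P ≤ normalizer (T₁ : Set G) := by
    refine H23.le_normalizer_of_conj_mem ?_
    rintro _ ⟨g, hg, rfl⟩ _ ⟨t, ht, rfl⟩
    have ht1 : t ∈ (P₀ : Subgroup (normalizer (H : Set G))) ⊓ C := by rw [← hT'eq]; exact ht
    have hg1 : g ∈ (P₀ : Subgroup (normalizer (H : Set G))) := hg
    have h2 : g * t * g⁻¹ ∈ (P₀ : Subgroup (normalizer (H : Set G))) ⊓ C :=
      ⟨Subgroup.mul_mem _ (Subgroup.mul_mem _ hg1 ht1.1) (Subgroup.inv_mem _ hg1), hCn.conj_mem t ht1.2 g⟩
    rw [← hT'eq] at h2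
    exact ⟨g * t * g⁻¹, h2, rfl⟩
  have hy_T : (y : G) ∈ normalizer (T₁ : Set G) := by
    rw [mem_normalizer_iff]
    intro x
    constructor
    · rintro ⟨t, ht, rfl⟩
      exact ⟨y * t * y⁻¹, (mem_normalizer_iff.1 hyR t).1 ht, rfl⟩
    · rintro ⟨t, ht, ht2⟩
      refine ⟨y⁻¹ * t * y, ?_, ?_⟩
      · have := (mem_normalizer_iff.1 (inv_mem hyR) t).1 ht
        rwa [inv_inv] at this
      · have h1 : (t : G) = (y : G) * x * (y : G)⁻¹ := ht2
        show (y : G)⁻¹ * (t : G) * (y : G) = x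
        rw [h1]; group
  have hsupn : ∀ g : G, g ∈ normalizer (H : Set G) → g ∈ normalizer (T₁ : Set G) →
      g ∈ normalizer ((H ⊔ T₁ : Subgroup G) : Set G) := by
    intro g h1 h2
    rw [H18.mem_normalizer_iff_map] at h1 h2 ⊢
    rw [Subgroup.map_sup, h1, h2]
  refine ⟨H ⊔ T₁, hPg.to_le (sup_le hHP' hTP), ?_, ⟨y, ?_, ?_, ?_⟩, ?_⟩
  · intro g hg
    have hgN : g ∈ N := by
      obtain ⟨g', _, rfl⟩ := hg
      exact g'.2
    exact hsupn g hgN (hP_T hg)
  · exact hsupn y y.2 hy_T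
  · intro h
    apply hyC
    rw [hC, mem_subgroupOf]
    exact centralizer_le (fun x hx => (le_sup_left : H ≤ H ⊔ T₁) hx) h
  · obtain ⟨k, hk⟩ := hyq
    exact ⟨k, congrArg Subtype.val hk⟩
  · intro u hu huk
    have huH : u ∈ centralizer (H : Set G) :=
      centralizer_le (fun x hx => (le_sup_left : H ≤ H ⊔ T₁) hx) hu
    have huT : ∀ t ∈ T₁, t * u = u * t := fun t ht =>
      mem_centralizer_iff.1 hu t ((le_sup_right : T₁ ≤ H ⊔ T₁) ht)
    have huN : u ∈ N := Subgroup.centralizer_le_normalizer (H : Set G) huH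
    have huC : (⟨u, huN⟩ : N) ∈ C := by rw [hC, mem_subgroupOf]; exact huH
    set u' : C := ⟨⟨u, huN⟩, huC⟩ with hu'
    -- `T ⟨u⟩` is a `p`-group
    have hup : IsPGroup p (zpowers u') := by
      obtain ⟨k, hk⟩ := huk
      have hk' : u' ^ p ^ k = 1 := Subtype.ext (Subtype.ext hk)
      rintro ⟨_, ⟨j, rfl⟩⟩
      refine ⟨k, Subtype.ext ?_⟩
      show ((u' ^ j) ^ p ^ k : C) = 1
      rw [← zpow_natCast, ← zpow_mul, mul_comm, zpow_mul, zpow_natCast, hk', one_zpow]
    have hnorm : zpowers u' ≤ normalizer ((T : Subgroup C) : Set C) := by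
      rw [zpowers_le]
      apply Subgroup.centralizer_le_normalizer
      rw [mem_centralizer_iff]
      intro t ht
      apply Subtype.ext
      apply Subtype.ext
      exact huT _ ⟨_, ⟨t, ht, rfl⟩, rfl⟩
    have hsup : IsPGroup p ((T : Subgroup C) ⊔ zpowers u' : Subgroup C) := by
      have := IsPGroup.to_sup_of_normal_right' hup T.2 hnorm
      rwa [sup_comm] at this
    have h1 := T.is_maximal' hsup le_sup_left
    have h2 : u' ∈ (T : Subgroup C) := by
      rw [← h1]
      exact (le_sup_right : zpowers u' ≤ (T : Subgroup C) ⊔ zpowers u') (mem_zpowers u')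
    exact (le_sup_right : T₁ ≤ H ⊔ T₁) ⟨_, ⟨u', h2, rfl⟩, rfl⟩

end Cfsg.Agent.H18.QA
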