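import Mathlib
import Cfsg.Prelude
import Cfsg.Agent.H18.QAct4
import Cfsg.Agent.H1.Coprime2

set_option autoImplicit false
set_option linter.all false

namespace Cfsg.Agent.H18.QA

open Subgroup Pointwise

universe u

variable {G : Type u} [Group G] [Finite G]

theorem qd_iff {q : ℕ} [hq : Fact q.Prime] {K : Subgroup G} :
    QD q K ↔ ∃ y ∈ normalizer (K : Set G), y ∉ centralizer (K : Set G) ∧ ∃ k : ℕ, y ^ q ^ k = 1 := by
  constructor
  · intro h
    obtain ⟨y, -, hy, k, hk⟩ := exists_q_elt ((centralizer (K : Set G)).subgroupOf (normalizer (K : Set G)))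
      ⊤ (top_sup_eq _) h
    exact ⟨y, y.2, fun h => hy (mem_subgroupOf.2 h), k, congrArg Subtype.val hk⟩
  · rintro ⟨y, hy, hyC, h⟩
    exact qd_of_elt hy hyC h

theorem qd_conj {q : ℕ} [hq : Fact q.Prime] {K : Subgroup G} (h : QD q K) (g : G) :
    QD q (K.map (MulAut.conj g).toMonoidHom) := by
  obtain ⟨y, hy, hyC, k, hk⟩ := qd_iff.1 h
  rw [qd_iff]
  refine ⟨g * y * g⁻¹, ?_, ?_, k, ?_⟩
  · rw [mem_normalizer_iff]
    intro x
    constructor
    · rintro ⟨u, hu, rfl⟩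
      refine ⟨y * u * y⁻¹, (mem_normalizer_iff.1 hy u).1 hu, ?_⟩
      show g * (y * u * y⁻¹) * g⁻¹ = g * y * g⁻¹ * (g * u * g⁻¹) * (g * y * g⁻¹)⁻¹
      group
    · rintro ⟨u, hu, hu2⟩
      have hu3 : g * u * g⁻¹ = g * y * g⁻¹ * x * (g * y * g⁻¹)⁻¹ := hu2
      refine ⟨y⁻¹ * u * y, ?_, ?_⟩
      · have := (mem_normalizer_iff.1 (inv_mem hy) u).1 hu
        rwa [inv_inv] at this
      · show g * (y⁻¹ * u * y) * g⁻¹ = x
        have : u = g⁻¹ * (g * y * g⁻¹ * x * (g * y * g⁻¹)⁻¹) * g := by rw [← hu3]; group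
        rw [this]; group
  · intro hc
    apply hyC
    rw [mem_centralizer_iff] at hc ⊢
    intro u hu
    have h1 := hc (g * u * g⁻¹) ⟨u, hu, rfl⟩
    have h2 : g * (u * y) * g⁻¹ = g * (y * u) * g⁻¹ := by
      calc g * (u * y) * g⁻¹ = g * u * g⁻¹ * (g * y * g⁻¹) := by group
        _ = g * y * g⁻¹ * (g * u * g⁻¹) := h1
        _ = g * (y * u) * g⁻¹ := by group
    exact mul_left_cancel (mul_right_cancel h2)
  · have : (g * y * g⁻¹) ^ q ^ k = g * y ^ q ^ k * g⁻¹ := conj_pow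
    rw [this, hk, mul_one, mul_inv_cancel]

/-- the normalizer is `p`-solvable -/
theorem normalizer_pSolvable {p : ℕ} [hp : Fact p.Prime] {H₁ : Subgroup G} (hH : IsPGroup p H₁)
    (hsol : Cfsg.IsPSolvable p (↥(normalizer (H₁ : Set G)) ⧸
      (centralizer (H₁ : Set G)).subgroupOf (normalizer (H₁ : Set G))))
    (hu : ∀ u ∈ centralizer (H₁ : Set G), (∃ k : ℕ, u ^ p ^ k = 1) → u ∈ H₁) :
    Cfsg.IsPSolvable p ↥(normalizer (H₁ : Set G)) := by
  set C := (centralizer (H₁ : Set G)).subgroupOf (normalizer (H₁ : Set G)) with hC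
  haveI : C.Normal := by rw [hC]; infer_instance
  refine H23.isPSolvable_of_extension C ?_ hsol
  let Z : Subgroup C := (H₁.subgroupOf (normalizer (H₁ : Set G))).subgroupOf C
  have hmem : ∀ u : C, u ∈ Z ↔ ((u : normalizer (H₁ : Set G)) : G) ∈ H₁ := by
    intro u
    show u ∈ (H₁.subgroupOf (normalizer (H₁ : Set G))).subgroupOf C ↔ _
    rw [mem_subgroupOf, mem_subgroupOf]
  have hcen : ∀ u : C, ∀ z ∈ Z, u * z = z * u := by
    intro u z hz
    apply Subtype.ext
    apply Subtype.ext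
    have h1 : ((u : normalizer (H₁ : Set G)) : G) ∈ centralizer (H₁ : Set G) := mem_subgroupOf.1 u.2
    exact (mem_centralizer_iff.1 h1 _ ((hmem z).1 hz)).symm
  haveI : Z.Normal := ⟨fun z hz g => by rw [hcen g z hz, mul_inv_cancel_right]; exact hz⟩
  have hZp : IsPGroup p Z := by
    rintro ⟨z, hz⟩
    obtain ⟨k, hk⟩ := hH ⟨_, (hmem z).1 hz⟩
    refine ⟨k, Subtype.ext (Subtype.ext (Subtype.ext ?_))⟩
    have hk2 : (((z : C) : normalizer (H₁ : Set G)) : G) ^ p ^ k = 1 := congrArg Subtype.val hk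
    exact hk2
  have hcop : (Nat.card (C ⧸ Z)).Coprime p := by
    rw [Nat.coprime_comm, Nat.Prime.coprime_iff_not_dvd hp.out]
    intro h
    obtain ⟨y, hyR, hyC, k, hk⟩ := exists_q_elt Z ⊤ (top_sup_eq _) h
    apply hyC
    rw [hmem]
    exact hu _ (mem_subgroupOf.1 y.2) ⟨k, congrArg (fun u : C => ((u : normalizer (H₁ : Set G)) : G)) hk⟩
  refine H23.isPSolvable_of_quotient Z (Or.inl (IsPGroup.iff_card.1 hZp)) ?_
  exact H23.isPSolvable_of_card_coprime hcop

set_option maxHeartbeats 1000000 in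
theorem final {p q : ℕ} [hp : Fact p.Prime] [hq : Fact q.Prime] (hpq : p ≠ q)
    (h23 : ¬ ((p = 2 ∧ q = 3) ∨ (p = 3 ∧ q = 2)))
    (hsol : ∀ H : Subgroup G, IsPGroup p ↥H →
      Cfsg.IsPSolvable p (↥(Subgroup.normalizer (H : Set G)) ⧸ (Subgroup.centralizer (H : Set G)).subgroupOf (Subgroup.normalizer (H : Set G))))
    {H₁ : Subgroup G} (hH₁ : IsPGroup p H₁) (X : Subgroup G) (hX : X = normalizer (H₁ : Set G))
    (hy : ∃ y ∈ normalizer (H₁ : Set G), y ∉ centralizer (H₁ : Set G) ∧ ∃ k : ℕ, y ^ q ^ k = 1)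
    (hu : ∀ u ∈ centralizer (H₁ : Set G), (∃ k : ℕ, u ^ p ^ k = 1) → u ∈ H₁) :
    ∃ (P : Subgroup G) (K : Subgroup G), IsPGroup p P ∧ K ≤ P ∧ QD q K ∧
      normalizer (P : Set G) ≤ normalizer (K : Set G) ∧ Nat.card P = p ^ (Nat.card X).factorization p := by
  have hXs : Cfsg.IsPSolvable p X := by rw [hX]; exact normalizer_pSolvable hH₁ (hsol H₁ hH₁) hu
  obtain ⟨L, hL1, hL2, hL3⟩ := exists_hallPQ p q hpq _ X rfl hXs
  have hH₁X : H₁ ≤ X := by rw [hX]; exact le_normalizer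
  obtain ⟨PL⟩ : Nonempty (Sylow p L) := inferInstance
  have hcardL : Nat.card L * L.index = Nat.card X := Subgroup.card_mul_index L
  have hfac : (Nat.card L).factorization p = (Nat.card X).factorization p := by
    rw [← hcardL, Nat.factorization_mul Nat.card_pos.ne' Subgroup.index_ne_zero_of_finite,
      Finsupp.add_apply, Nat.factorization_eq_zero_of_not_dvd hL2, add_zero]
  -- the Sylow subgroup of `L` is Sylow in `X`
  have hH₁L : H₁.subgroupOf X ≤ L := by
    haveI hn : (H₁.subgroupOf X).Normal := by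
      rw [hX]; exact normal_in_normalizer
    have h1 : IsPGroup p (H₁.subgroupOf X) := hH₁.comap_subtype
    have h2 : IsPGroup p ((PL : Subgroup L).map L.subtype) := PL.2.map _
    have h3 : ¬ p ∣ ((PL : Subgroup L).map L.subtype).index := by
      rw [Subgroup.index_map_subtype, hp.out.dvd_mul]
      push Not
      exact ⟨PL.not_dvd_index, hL2⟩
    let PX : Sylow p X := h2.toSylow h3
    have h4 : H₁.subgroupOf X ≤ (PX : Subgroup X) := (H1.le_pCore hn h1).trans (H1.pCore_le_sylow PX)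
    exact h4.trans (Subgroup.map_subtype_le _)
  have hLnp : ¬ IsPGroup p (L ⧸ Cfsg.pPrimeCore p L) := by
    intro hpg
    haveI := H1.pPrimeCore_normal p L
    obtain ⟨QL⟩ : Nonempty (Sylow q L) := inferInstance
    -- `QL ≤ O_{p'}(L)`
    have h1 : (QL : Subgroup L) ≤ Cfsg.pPrimeCore p L := by
      intro x hx
      obtain ⟨k, hk⟩ := QL.2 ⟨x, hx⟩
      have hk' : x ^ q ^ k = 1 := congrArg Subtype.val hk
      obtain ⟨j, hj⟩ := hpg (x : L ⧸ Cfsg.pPrimeCore p L)
      have h2 : orderOf (x : L ⧸ Cfsg.pPrimeCore p L) ∣ q ^ k := by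
        apply orderOf_dvd_of_pow_eq_one
        rw [← QuotientGroup.mk_pow, hk', QuotientGroup.mk_one]
      have h3 : orderOf (x : L ⧸ Cfsg.pPrimeCore p L) ∣ p ^ j := orderOf_dvd_of_pow_eq_one hj
      have h4 : (q ^ k).Coprime (p ^ j) :=
        Nat.Coprime.pow _ _ ((Nat.coprime_primes hq.out hp.out).2 hpq.symm)
      have h5 : orderOf (x : L ⧸ Cfsg.pPrimeCore p L) ∣ 1 := by
        rw [← Nat.Coprime.gcd_eq_one h4]; exact Nat.dvd_gcd h2 h3
      have h6 := orderOf_eq_one_iff.1 (Nat.dvd_one.1 h5)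
      exact (QuotientGroup.eq_one_iff x).1 h6
    -- hence it centralizes `H₁`
    let H₂ : Subgroup L := (H₁.subgroupOf X).subgroupOf L
    have hH₂n : H₂.Normal := by
      haveI hn : (H₁.subgroupOf X).Normal := by
        rw [hX]; exact normal_in_normalizer
      show ((H₁.subgroupOf X).subgroupOf L).Normal
      infer_instance
    have hH₂p : IsPGroup p H₂ := (hH₁.comap_subtype (K := X)).comap_subtype
    have hcomm : ∀ x ∈ (QL : Subgroup L), ∀ h ∈ H₂, x * h = h * x := by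
      intro x hx h hh
      have h2 := H2.inf_eq_bot_of_isPGroup_of_coprime hH₂p (H1.pPrimeCore_coprime p L)
      have h3 : x * h * x⁻¹ * h⁻¹ ∈ H₂ ⊓ Cfsg.pPrimeCore p L := by
        refine ⟨Subgroup.mul_mem _ (hH₂n.conj_mem h hh x) (Subgroup.inv_mem _ hh), ?_⟩
        have h4 : h * x⁻¹ * h⁻¹ ∈ Cfsg.pPrimeCore p L :=
          (H1.pPrimeCore_normal p L).conj_mem _ (Subgroup.inv_mem _ (h1 hx)) h
        have h5 := Subgroup.mul_mem _ (h1 hx) h4
        have e : x * h * x⁻¹ * h⁻¹ = x * (h * x⁻¹ * h⁻¹) := by group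
        rw [e]; exact h5
      rw [h2, mem_bot] at h3
      have h4 := eq_mul_of_mul_inv_eq h3
      rw [one_mul] at h4
      exact (eq_mul_of_mul_inv_eq h4)
    -- but a Sylow `q`-subgroup of `X` does not
    obtain ⟨y, hyN, hyC, hyq⟩ := hy
    have hQ2 : IsPGroup q ((QL : Subgroup L).map L.subtype) := QL.2.map _
    have hQ3 : ¬ q ∣ ((QL : Subgroup L).map L.subtype).index := by
      rw [Subgroup.index_map_subtype, hq.out.dvd_mul]
      push Not
      exact ⟨QL.not_dvd_index, hL3⟩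
    let QX : Sylow q X := hQ2.toSylow hQ3
    have hyX : y ∈ X := by rw [hX]; exact hyN
    have hyp : IsPGroup q (zpowers (⟨y, hyX⟩ : X)) := by
      obtain ⟨k, hk⟩ := hyq
      have hk' : (⟨y, hyX⟩ : X) ^ q ^ k = 1 := Subtype.ext hk
      rintro ⟨_, ⟨j, rfl⟩⟩
      refine ⟨k, Subtype.ext ?_⟩
      show (((⟨y, hyX⟩ : X) ^ j) ^ q ^ k : X) = 1
      rw [← zpow_natCast, ← zpow_mul, mul_comm, zpow_mul, zpow_natCast, hk', one_zpow]
    obtain ⟨Q', hQ'⟩ := hyp.exists_le_sylow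
    obtain ⟨g, hg⟩ := MulAction.exists_smul_eq X Q' QX
    have h2 : g * ⟨y, hyX⟩ * g⁻¹ ∈ (QX : Subgroup X) := by
      rw [← hg]
      exact ⟨_, hQ' (mem_zpowers _), rfl⟩
    obtain ⟨x, hx, hx2⟩ := h2
    apply hyC
    rw [mem_centralizer_iff]
    intro h hh
    have hgN : (g : G) ∈ normalizer (H₁ : Set G) := by rw [← hX]; exact g.2
    have h3 : (g : G) * h * (g : G)⁻¹ ∈ H₁ := (mem_normalizer_iff.1 hgN h).1 hh
    have h4 : (⟨(g : G) * h * (g : G)⁻¹, hH₁X h3⟩ : X) ∈ L := hH₁L (mem_subgroupOf.2 h3)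
    have h5 := hcomm x hx ⟨⟨(g : G) * h * (g : G)⁻¹, hH₁X h3⟩, h4⟩ (mem_subgroupOf.2 (mem_subgroupOf.2 h3))
    have h6 := congrArg (fun u : L => ((u : X) : G)) h5
    have h7 : ((x : X) : G) = (g : G) * y * (g : G)⁻¹ := congrArg Subtype.val hx2
    have h8 : ((x : X) : G) * ((g : G) * h * (g : G)⁻¹) = ((g : G) * h * (g : G)⁻¹) * ((x : X) : G) := h6
    rw [h7] at h8
    have h9 : (g : G) * (y * h) * (g : G)⁻¹ = (g : G) * (h * y) * (g : G)⁻¹ := by
      calc (g : G) * (y * h) * (g : G)⁻¹ = (g : G) * y * (g : G)⁻¹ * ((g : G) * h * (g : G)⁻¹) := by group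
        _ = ((g : G) * h * (g : G)⁻¹) * ((g : G) * y * (g : G)⁻¹) := h8
        _ = (g : G) * (h * y) * (g : G)⁻¹ := by group
    exact (mul_left_cancel (mul_right_cancel h9)).symm
  have hc2 : p = 2 → ¬ 3 ∣ Nat.card L := by
    intro h h'
    rcases hL1 3 Nat.prime_three h' with h3 | h3
    · omega
    · exact h23 (Or.inl ⟨h, h3.symm⟩)
  have hc3 : p = 3 → ¬ 2 ∣ Nat.card L := by
    intro h h'
    rcases hL1 2 Nat.prime_two h' with h3 | h3
    · omega
    · exact h23 (Or.inr ⟨h, h3.symm⟩)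
  obtain ⟨K, hKc, hKQ⟩ := lemB p _ L rfl (H23.isPSolvable_subgroup L hXs) hc2 hc3 hLnp PL
  let ι : L →* G := X.subtype.comp L.subtype
  have hι : Function.Injective ι := X.subtype_injective.comp L.subtype_injective
  have hqd : QD q ((K.map (PL : Subgroup L).subtype).map ι) := qd_of_qact ι hι hL1 hKQ
  set P : Subgroup G := (PL : Subgroup L).map ι with hP
  refine ⟨P, _, PL.2.map _, Subgroup.map_mono (Subgroup.map_subtype_le _), hqd, ?_, ?_⟩
  · let e : (PL : Subgroup L) ≃* P := (PL : Subgroup L).equivMapOfInjective ι hι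
    have hch : (K.comap e.symm.toMonoidHom).Characteristic := by
      apply comap_characteristic _ e.symm.surjective _ hKc
      have : e.symm.toMonoidHom.ker = ⊥ := (MonoidHom.ker_eq_bot_iff _).2 e.symm.injective
      rw [this]; infer_instance
    have h1 := H23.normalizer_le_normalizer_map (P := P) (K.comap e.symm.toMonoidHom)
    have h2 : (K.comap e.symm.toMonoidHom).map P.subtype = (K.map (PL : Subgroup L).subtype).map ι := by
      ext x
      constructor
      · rintro ⟨y, hy, rfl⟩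
        obtain ⟨z, rfl⟩ := e.surjective y
        have hz : z ∈ K := by
          have h3 : e.symm (e z) ∈ K := hy
          rwa [e.symm_apply_apply] at h3
        exact ⟨z, ⟨z, hz, rfl⟩, rfl⟩
      · rintro ⟨_, ⟨z, hz, rfl⟩, rfl⟩
        refine ⟨e z, ?_, rfl⟩
        show e.symm (e z) ∈ K
        rw [e.symm_apply_apply]; exact hz
    rw [h2] at h1
    exact h1
  · rw [hP, Subgroup.card_map_of_injective hι, ← hfac]
    exact PL.card_eq_multiplicity

end Cfsg.Agent.H18.QA
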