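import Mathlib

/-!
# groups acting irreducibly on finite abelian groups: the endomorphism field, and a dimension bound
for extraspecial-like groups (helper18)
-/

set_option autoImplicit false
set_option linter.style.haveILetI false

namespace Cfsg.Agent.H18.SimpEnd

open scoped commutatorElement

variable {V : Type*} [AddCommGroup V] {E : Type*} [Group E]

/-- subring generated by the image of the group -/
def imgRing (ρ : E →* AddMonoid.End V) : Subring (AddMonoid.End V) :=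
  Subring.closure (Set.range ρ)

theorem mem_imgRing (ρ : E →* AddMonoid.End V) (e : E) : ρ e ∈ imgRing ρ :=
  Subring.subset_closure ⟨e, rfl⟩

/-- the commuting ring -/
abbrev D (ρ : E →* AddMonoid.End V) : Type _ := Module.End (imgRing ρ) V

theorem commute_of_center (ρ : E →* AddMonoid.End V) {c : E} (hc : c ∈ Subgroup.center E)
    (s : imgRing ρ) : ρ c * (s : AddMonoid.End V) = s * ρ c := by
  have h : imgRing ρ ≤ Subring.centralizer {ρ c} := by
    rw [imgRing, Subring.closure_le]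
    rintro _ ⟨e, rfl⟩
    rw [SetLike.mem_coe, Subring.mem_centralizer_iff]
    rintro _ rfl
    rw [← map_mul, ← map_mul, Subgroup.mem_center_iff.1 hc e]
  exact Subring.mem_centralizer_iff.1 (h s.2) _ rfl

/-- central elements give elements of the commuting ring -/
def cen (ρ : E →* AddMonoid.End V) {c : E} (hc : c ∈ Subgroup.center E) : D ρ where
  toFun v := ρ c v
  map_add' := by intro a b; exact map_add (ρ c) a b
  map_smul' := by
    intro s v
    have h := commute_of_center ρ hc s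
    exact DFunLike.congr_fun h v

theorem cen_apply (ρ : E →* AddMonoid.End V) {c : E} (hc : c ∈ Subgroup.center E) (v : V) :
    cen ρ hc v = ρ c v := rfl

theorem isSimple (ρ : E →* AddMonoid.End V) [Nontrivial V]
    (hs : ∀ W : AddSubgroup V, (∀ e : E, ∀ w ∈ W, ρ e w ∈ W) → W = ⊥ ∨ W = ⊤) :
    IsSimpleModule (imgRing ρ) V := by
  rw [isSimpleModule_iff]
  refine ⟨?_⟩
  intro W
  rcases hs W.toAddSubgroup (fun e w hw => W.smul_mem ⟨ρ e, mem_imgRing ρ e⟩ hw) with h | h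
  · left
    rw [← Submodule.toAddSubgroup_inj, h]
    rfl
  · right
    rw [← Submodule.toAddSubgroup_inj, h]
    rfl

theorem finite_D (ρ : E →* AddMonoid.End V) [Finite V] : Finite (D ρ) :=
  Finite.of_injective (fun f : D ρ => (f : V → V)) DFunLike.coe_injective

theorem D_comm (ρ : E →* AddMonoid.End V) [Finite V] [Nontrivial V]
    (hs : ∀ W : AddSubgroup V, (∀ e : E, ∀ w ∈ W, ρ e w ∈ W) → W = ⊥ ∨ W = ⊤) (a b : D ρ) :
    a * b = b * a := by
  classical
  haveI := isSimple ρ hs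
  haveI := finite_D ρ
  letI : Field (D ρ) := littleWedderburn (D ρ)
  exact mul_comm a b

theorem D_mul_eq_zero (ρ : E →* AddMonoid.End V) [Nontrivial V]
    (hs : ∀ W : AddSubgroup V, (∀ e : E, ∀ w ∈ W, ρ e w ∈ W) → W = ⊥ ∨ W = ⊤) {a b : D ρ}
    (h : a * b = 0) : a = 0 ∨ b = 0 := by
  classical
  haveI := isSimple ρ hs
  exact mul_eq_zero.1 h

/-- the action of `e` is linear over the commuting ring -/
def L (ρ : E →* AddMonoid.End V) (e : E) : V →ₗ[D ρ] V where
  toFun v := ρ e v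
  map_add' := by intro a b; exact map_add (ρ e) a b
  map_smul' := by
    intro d v
    have h := d.map_smul ⟨ρ e, mem_imgRing ρ e⟩ v
    exact h.symm

theorem L_apply (ρ : E →* AddMonoid.End V) (e : E) (v : V) : L ρ e v = ρ e v := rfl

theorem D_smul (ρ : E →* AddMonoid.End V) (d : D ρ) (v : V) : d • v = d v := rfl

theorem sum_conj (ρ : E →* AddMonoid.End V) {ι : Type*} (s : Finset ι) (g : ι → D ρ) (e : ι → E)
    (hcomm : ∀ x y : E, ⁅x, y⁆ ∈ Subgroup.center E)
    (h : ∀ v, ∑ i ∈ s, g i (ρ (e i) v) = 0) (x : E) :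
    ∀ v, ∑ i ∈ s, (g i * cen ρ (hcomm x (e i))) (ρ (e i) v) = 0 := by
  intro v
  have h1 := h (ρ x⁻¹ v)
  have h2 : (L ρ x) (∑ i ∈ s, g i (ρ (e i) (ρ x⁻¹ v))) = 0 := by rw [h1, map_zero]
  rw [map_sum] at h2
  rw [← h2]
  refine Finset.sum_congr rfl fun i _ => ?_
  have h3 : L ρ x (g i • ρ (e i) (ρ x⁻¹ v)) = g i • L ρ x (ρ (e i) (ρ x⁻¹ v)) := (L ρ x).map_smul _ _
  rw [D_smul, D_smul] at h3
  rw [h3, L_apply]
  show g i (ρ ⁅x, e i⁆ (ρ (e i) v)) = _
  congr 1
  have h4 : ρ ⁅x, e i⁆ (ρ (e i) v) = (ρ ⁅x, e i⁆ * ρ (e i)) v := rfl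
  have h5 : ρ x (ρ (e i) (ρ x⁻¹ v)) = (ρ x * (ρ (e i) * ρ x⁻¹)) v := rfl
  rw [h4, h5, ← map_mul, ← map_mul, ← map_mul]
  congr 2
  rw [commutatorElement_def]
  group

theorem coeff_zero (ρ : E →* AddMonoid.End V) [Nontrivial V]
    (hs : ∀ W : AddSubgroup V, (∀ e : E, ∀ w ∈ W, ρ e w ∈ W) → W = ⊥ ∨ W = ⊤)
    {ι : Type*} (e : ι → E)
    (hcomm : ∀ x y : E, ⁅x, y⁆ ∈ Subgroup.center E)
    (hsep : ∀ i j, i ≠ j → ∃ x : E, ρ ⁅x, e i⁆ ≠ ρ ⁅x, e j⁆) (s : Finset ι) :
    ∀ g : ι → D ρ, (∀ v, ∑ i ∈ s, g i (ρ (e i) v) = 0) → ∀ i ∈ s, g i = 0 := by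
  classical
  induction s using Finset.induction_on with
  | empty => intro g _ i hi; exact absurd hi (Finset.notMem_empty i)
  | insert j s hj ih =>
    intro g hg
    have key : ∀ k ∈ s, g k = 0 := by
      intro k hk
      have hkj : k ≠ j := fun h => hj (h ▸ hk)
      obtain ⟨x, hx⟩ := hsep k j hkj
      have h1 := sum_conj ρ (insert j s) g e hcomm hg x
      have h2 : ∀ v, ∑ i ∈ s, (g i * (cen ρ (hcomm x (e i)) - cen ρ (hcomm x (e j)))) (ρ (e i) v) = 0 := by
        intro v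
        have h3 := h1 v
        have h4 := hg (ρ ⁅x, e j⁆ v)
        rw [Finset.sum_insert hj] at h3 h4
        have hcc : ∀ i, g i (ρ (e i) (ρ ⁅x, e j⁆ v)) = (g i * cen ρ (hcomm x (e j))) (ρ (e i) v) := by
          intro i
          show _ = g i (ρ ⁅x, e j⁆ (ρ (e i) v))
          congr 1
          have h5 : ρ (e i) (ρ ⁅x, e j⁆ v) = (ρ (e i) * ρ ⁅x, e j⁆) v := rfl
          have h6 : ρ ⁅x, e j⁆ (ρ (e i) v) = (ρ ⁅x, e j⁆ * ρ (e i)) v := rfl
          rw [h5, h6, ← map_mul, ← map_mul, Subgroup.mem_center_iff.1 (hcomm x (e j)) (e i)]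
        rw [hcc] at h4
        have h7 : ∑ i ∈ s, (g i * (cen ρ (hcomm x (e i)) - cen ρ (hcomm x (e j)))) (ρ (e i) v) =
            ∑ i ∈ s, (g i * cen ρ (hcomm x (e i))) (ρ (e i) v) -
              ∑ i ∈ s, (g i * cen ρ (hcomm x (e j))) (ρ (e i) v) := by
          rw [← Finset.sum_sub_distrib]
          refine Finset.sum_congr rfl fun i _ => ?_
          have h10 : g i * (cen ρ (hcomm x (e i)) - cen ρ (hcomm x (e j))) =
            g i * cen ρ (hcomm x (e i)) - g i * cen ρ (hcomm x (e j)) := mul_sub _ _ _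
          rw [h10]
          rfl
        rw [h7]
        have h8 : ∑ i ∈ s, (g i * cen ρ (hcomm x (e j))) (ρ (e i) v) =
            ∑ i ∈ s, g i (ρ (e i) (ρ ⁅x, e j⁆ v)) :=
          Finset.sum_congr rfl fun i _ => (hcc i).symm
        rw [h8]
        rw [← sub_eq_zero_of_eq (h3.trans h4.symm)]
        abel
      have h3 := ih _ h2 k hk
      rcases D_mul_eq_zero ρ hs h3 with h4 | h4
      · exact h4
      · exfalso
        apply hx
        rw [sub_eq_zero] at h4
        ext v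
        exact DFunLike.congr_fun h4 v
    intro i hi
    rcases Finset.mem_insert.1 hi with rfl | hi
    · ext v
      have h1 := hg (ρ (e i)⁻¹ v)
      rw [Finset.sum_insert hj, Finset.sum_eq_zero (fun k hk => by rw [key k hk]; rfl), add_zero] at h1
      have h5 : ρ (e i) (ρ (e i)⁻¹ v) = (ρ (e i) * ρ (e i)⁻¹) v := rfl
      rw [h5, ← map_mul, mul_inv_cancel, map_one] at h1
      exact h1
    · exact key i hi

theorem card_le_of_linInd {K W ι : Type*} [Field K] [AddCommGroup W] [Module K W] [Finite K]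
    [Finite W] [Finite ι] (M : ι → (W →ₗ[K] W)) (hM : LinearIndependent K M) :
    Nat.card ι ≤ Module.finrank K W ^ 2 ∧ Nat.card W = Nat.card K ^ Module.finrank K W := by
  classical
  haveI : Module.Finite K W := Module.Finite.of_finite
  haveI := Fintype.ofFinite ι
  haveI := Fintype.ofFinite K
  haveI := Fintype.ofFinite W
  refine ⟨?_, ?_⟩
  · have h1 := hM.fintype_card_le_finrank
    rw [Module.finrank_linearMap] at h1
    rw [Nat.card_eq_fintype_card, sq]
    exact h1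
  · rw [Nat.card_eq_fintype_card, Nat.card_eq_fintype_card]
    exact Module.card_eq_pow_finrank

theorem main_aux (ρ : E →* AddMonoid.End V) [Nontrivial V] [Finite V]
    (hs : ∀ W : AddSubgroup V, (∀ e : E, ∀ w ∈ W, ρ e w ∈ W) → W = ⊥ ∨ W = ⊤)
    {ι : Type*} [Finite ι] (e : ι → E)
    (hcomm : ∀ x y : E, ⁅x, y⁆ ∈ Subgroup.center E)
    (hsep : ∀ i j, i ≠ j → ∃ x : E, ρ ⁅x, e i⁆ ≠ ρ ⁅x, e j⁆)
    {p : ℕ} (hp : p.Prime) {T : E} (hT : T ∈ Subgroup.center E) (hTp : ρ T ^ p = 1) (hT1 : ρ T ≠ 1) :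
    ∃ d : ℕ, Nat.card ι ≤ d ^ 2 ∧ Nat.card V = Nat.card (D ρ) ^ d ∧ p ∣ Nat.card (D ρ) - 1 := by
  classical
  haveI := isSimple ρ hs
  haveI := finite_D ρ
  letI hF : Field (D ρ) :=
    { (inferInstance : DivisionRing (D ρ)) with mul_comm := D_comm ρ hs }
  have h1 : LinearIndependent (D ρ) (fun i => L ρ (e i)) := by
    rw [linearIndependent_iff']
    intro s g hg
    apply coeff_zero ρ hs e hcomm hsep s g
    intro v
    have h2 := LinearMap.congr_fun hg v
    rw [LinearMap.sum_apply] at h2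
    exact h2
  obtain ⟨h2, h3⟩ := card_le_of_linInd _ h1
  refine ⟨_, h2, h3, ?_⟩
  set t : D ρ := cen ρ hT with ht
  have ht1 : t ≠ 1 := by
    intro h
    apply hT1
    ext v
    exact DFunLike.congr_fun h v
  have htp : t ^ p = 1 := by
    have h4 : ∀ (n : ℕ) (v : V), (t ^ n) v = (ρ T ^ n) v := by
      intro n
      induction n with
      | zero => intro v; rfl
      | succ n ih =>
        intro v
        rw [pow_succ, pow_succ]
        exact ih (ρ T v)
    ext v
    rw [h4, hTp]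
    rfl
  have ht0 : t ≠ 0 := by
    intro h
    rw [h, zero_pow hp.ne_zero] at htp
    exact zero_ne_one htp
  have hord : orderOf (Units.mk0 t ht0) = p := by
    haveI : Fact p.Prime := ⟨hp⟩
    apply orderOf_eq_prime
    · exact Units.ext htp
    · intro h
      exact ht1 (congrArg Units.val h)
  have h5 := orderOf_dvd_natCard (Units.mk0 t ht0)
  rw [hord, Nat.card_units] at h5
  exact h5

theorem bound (ρ : E →* AddMonoid.End V) [Nontrivial V] [Finite V]
    (hs : ∀ W : AddSubgroup V, (∀ e : E, ∀ w ∈ W, ρ e w ∈ W) → W = ⊥ ∨ W = ⊤)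
    {ι : Type*} [Finite ι] (e : ι → E)
    (hcomm : ∀ x y : E, ⁅x, y⁆ ∈ Subgroup.center E)
    (hsep : ∀ i j, i ≠ j → ∃ x : E, ρ ⁅x, e i⁆ ≠ ρ ⁅x, e j⁆)
    {p : ℕ} (hp : p.Prime) {T : E} (hT : T ∈ Subgroup.center E) (hTp : ρ T ^ p = 1) (hT1 : ρ T ≠ 1)
    {r N n : ℕ} (hr : r.Prime) (hV : ∃ k, Nat.card V = r ^ k) (hN : N ^ 2 ≤ Nat.card ι)
    (hmin : ∀ k : ℕ, 1 ≤ k → p ∣ r ^ k - 1 → n ≤ k) : r ^ (n * N) ≤ Nat.card V := by
  obtain ⟨d, h1, h2, h3⟩ := main_aux ρ hs e hcomm hsep hp hT hTp hT1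
  have hd : N ≤ d := by
    by_contra hc
    push Not at hc
    have := Nat.pow_lt_pow_left hc (two_ne_zero)
    omega
  obtain ⟨k, hk⟩ := hV
  have hV1 : 1 < Nat.card V := Finite.one_lt_card
  have hd0 : d ≠ 0 := by
    rintro rfl
    rw [pow_zero] at h2
    omega
  have h4 : Nat.card (D ρ) ∣ r ^ k := by
    rw [← hk, h2]
    exact dvd_pow_self _ hd0
  obtain ⟨m, -, hm⟩ := (Nat.dvd_prime_pow hr).1 h4
  have hm0 : 1 ≤ m := by
    rcases Nat.eq_zero_or_pos m with h0 | h0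
    · rw [h0, pow_zero] at hm
      rw [hm, one_pow] at h2
      omega
    · exact h0
  rw [hm] at h3
  have h5 := hmin m hm0 h3
  rw [h2, hm, ← pow_mul]
  exact Nat.pow_le_pow_right hr.pos (Nat.mul_le_mul h5 hd)

end Cfsg.Agent.H18.SimpEnd
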