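import Mathlib
import Cfsg.Prelude
import Cfsg.Agent.H18.DLen1

set_option autoImplicit false
open Cfsg

namespace Cfsg.Agent.H18

open Subgroup

theorem z2cases (a : ZMod 2) : a = 0 ∨ a = 1 := by
  revert a; decide


set_option maxHeartbeats 1000000 in
theorem core407 {S : Type*} [Group S] [Finite S] (A X : Subgroup S) [A.Normal]
    {M : Type*} [AddCommGroup M] [Module (ZMod 2) M] (ρ : Representation (ZMod 2) S M)
    (hfaith : Function.Injective ρ)
    (hirr : ∀ N : Submodule (ZMod 2) M, (∀ s : S, ∀ m ∈ N, ρ s m ∈ N) → N = ⊥ ∨ N = ⊤)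
    (hAX : A ⊔ X = ⊤) (t s z a b : S)
    (htt : t * t = 1) (hss : s * s = 1) (hzz : z * z = 1) (hst : s * t = t * s * z)
    (hzt : z * t = t * z) (hzs : z * s = s * z) (hab : a * b = b * a) (hb3 : b * b * b = 1)
    (hta : t * a = a * t) (htb : t * b = b * b * t) (hsb : s * b = a * s) (hsa : s * a = b * s)
    (hza : z * a = a * a * z) (hzb : z * b = b * b * z) (ha1 : a ≠ 1) (hz1 : z ≠ 1)
    (hX : ∀ x ∈ X, x = 1 ∨ x = z ∨ x = t ∨ x = t * z ∨ x = s ∨ x = s * z ∨ x = t * s ∨ x = t * s * z)
    (htX : t ∈ X) (hsX : s ∈ X) (hzX : z ∈ X)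
    (hA : ∀ x ∈ A, ∃ i j : ℕ, x = a ^ i * b ^ j) (haA : a ∈ A) (hbA : b ∈ A)
    (hm : ∃ m : M, m ≠ 0 ∧ ρ a m = m) :
    Nat.card M = 16 ∧
      ∃! B : Subgroup S, B ≤ X ∧ Nat.card ↥B = 4 ∧ (∀ b ∈ B, b ^ 2 = 1) ∧
        Nat.card {m : M // ∀ b ∈ B, ρ b m = m} = 2 := by
  classical
  have mu : ∀ (g h : S) (v : M), ρ g (ρ h v) = ρ (g * h) v := by
    intro g h v
    rw [map_mul]; rfl
  have ne : ∀ v : M, v + v = 0 := fun v => ZModModule.add_self v
  have ne2 : ∀ v w : M, v + w = 0 → v = w := by
    intro v w h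
    have := ne w
    exact add_right_cancel (h.trans this.symm)
  have hts : t * s = s * t * z := by
    rw [hst, mul_assoc (t * s), hzz, mul_one]
  have sh : ∀ g b : S, b * b * b = 1 → g * b = b * b * g → b * g = g * (b * b) := by
    intro g b hb3 h
    symm
    calc g * (b * b) = (g * b) * b := (mul_assoc _ _ _).symm
      _ = (b * b * g) * b := by rw [h]
      _ = b * b * (g * b) := mul_assoc _ _ _
      _ = b * b * (b * b * g) := by rw [h]
      _ = (b * b * b) * b * g := by simp only [mul_assoc]
      _ = b * g := by rw [hb3, one_mul]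
  have ha3 : a * a * a = 1 := by
    have h1 : a * a * a * s = s := by
      calc a * a * a * s = a * (a * (a * s)) := by simp only [mul_assoc]
        _ = a * (a * (s * b)) := by rw [hsb]
        _ = a * ((a * s) * b) := by simp only [mul_assoc]
        _ = a * (s * b * b) := by rw [hsb]
        _ = (a * s) * b * b := by simp only [mul_assoc]
        _ = s * (b * b * b) := by rw [← hsb]; simp only [mul_assoc]
        _ = s := by rw [hb3, mul_one]
    exact mul_eq_right.1 h1
  have hbt := sh t b hb3 htb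
  have hbz := sh z b hb3 hzb
  have haz := sh z a ha3 hza
  -- invariance
  have inv : ∀ W : Submodule (ZMod 2) M, (∀ w ∈ W, ρ a w ∈ W) → (∀ w ∈ W, ρ b w ∈ W) →
      (∀ w ∈ W, ρ t w ∈ W) → (∀ w ∈ W, ρ s w ∈ W) → (∀ w ∈ W, ρ z w ∈ W) → W = ⊥ ∨ W = ⊤ := by
    intro W h1 h2 h3 h4 h5
    apply hirr
    intro g w hw
    have hg : g ∈ A ⊔ X := by rw [hAX]; trivial
    rw [mem_sup_of_normal_left] at hg
    obtain ⟨x, hx, y, hy, rfl⟩ := hg
    rw [← mu]
    have hy' : ρ y w ∈ W := by
      rcases hX y hy with rfl | rfl | rfl | rfl | rfl | rfl | rfl | rfl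
      · rw [map_one]; exact hw
      · exact h5 w hw
      · exact h3 w hw
      · rw [← mu]; exact h3 _ (h5 w hw)
      · exact h4 w hw
      · rw [← mu]; exact h4 _ (h5 w hw)
      · rw [← mu]; exact h3 _ (h4 w hw)
      · rw [← mu, ← mu]; exact h3 _ (h4 _ (h5 w hw))
    obtain ⟨i, j, rfl⟩ := hA x hx
    rw [← mu]
    have hpow : ∀ g : S, (∀ w ∈ W, ρ g w ∈ W) → ∀ i : ℕ, ∀ w ∈ W, ρ (g ^ i) w ∈ W := by
      intro g hg i
      induction i with
      | zero => intro w hw; rw [pow_zero, map_one]; exact hw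
      | succ i ih => intro w hw; rw [pow_succ, ← mu]; exact ih _ (hg w hw)
    exact hpow a h1 i _ (hpow b h2 j _ hy')
  -- common fixed points of a and b are trivial
  have fix0 : ∀ v : M, ρ a v = v → ρ b v = v → v = 0 := by
    let W : Submodule (ZMod 2) M :=
      { carrier := {v | ρ a v = v ∧ ρ b v = v}
        add_mem' := by
          rintro u v ⟨h1, h2⟩ ⟨h3, h4⟩
          exact ⟨by rw [map_add, h1, h3], by rw [map_add, h2, h4]⟩
        zero_mem' := ⟨map_zero _, map_zero _⟩
        smul_mem' := by
          rintro c v ⟨h1, h2⟩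
          exact ⟨by rw [map_smul, h1], by rw [map_smul, h2]⟩ }
    rcases inv W (by
        rintro w ⟨h1, h2⟩; rw [h1]; exact ⟨h1, h2⟩) (by
        rintro w ⟨h1, h2⟩; rw [h2]; exact ⟨h1, h2⟩) (by
        rintro w ⟨h1, h2⟩
        refine ⟨?_, ?_⟩
        · rw [mu, ← hta, ← mu, h1]
        · rw [mu, hbt, ← mu, ← mu, h2, h2]) (by
        rintro w ⟨h1, h2⟩
        refine ⟨?_, ?_⟩
        · rw [mu, ← hsb, ← mu, h2]
        · rw [mu, ← hsa, ← mu, h1]) (by
        rintro w ⟨h1, h2⟩
        refine ⟨?_, ?_⟩
        · rw [mu, haz, ← mu, ← mu, h1, h1]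
        · rw [mu, hbz, ← mu, ← mu, h2, h2]) with h | h
    · intro v h1 h2
      have : v ∈ W := ⟨h1, h2⟩
      rw [h] at this
      exact (Submodule.mem_bot _).1 this
    · exfalso
      apply ha1
      apply hfaith
      apply LinearMap.ext
      intro v
      have : v ∈ W := by rw [h]; trivial
      rw [map_one, Module.End.one_apply]
      exact this.1
  -- the vector m
  have htz2 : t * z * (t * z) = 1 := by
    calc t * z * (t * z) = t * (z * t) * z := by simp only [mul_assoc]
      _ = (t * t) * (z * z) := by rw [hzt]; simp only [mul_assoc]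
      _ = 1 := by rw [htt, hzz, one_mul]
  obtain ⟨m, hm0, hma, hmtz, hmt⟩ : ∃ m : M, m ≠ 0 ∧ ρ a m = m ∧ ρ (t * z) m = m ∧ ρ t m = m := by
    obtain ⟨m, hm0, hma⟩ := hm
    obtain ⟨m₁, h1, h2, h3⟩ : ∃ m : M, m ≠ 0 ∧ ρ a m = m ∧ ρ (t * z) m = m := by
      by_cases h : ρ (t * z) m = m
      · exact ⟨m, hm0, hma, h⟩
      · refine ⟨m + ρ (t * z) m, fun h' => h (ne2 _ _ h').symm, ?_, ?_⟩
        · rw [map_add, hma, mu]
          have : a * (t * z) = t * z * (a * a) := by
            calc a * (t * z) = (a * t) * z := (mul_assoc _ _ _).symm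
              _ = t * (a * z) := by rw [← hta, mul_assoc]
              _ = _ := by rw [haz]; simp only [mul_assoc]
          rw [this, ← mu (t * z), ← mu a a, hma, hma]
        · rw [map_add, mu, htz2, map_one, Module.End.one_apply, add_comm]
    by_cases h : ρ t m₁ = m₁
    · exact ⟨m₁, h1, h2, h3, h⟩
    · refine ⟨m₁ + ρ t m₁, fun h' => h (ne2 _ _ h').symm, ?_, ?_, ?_⟩
      · rw [map_add, h2, mu, ← hta, ← mu, h2]
      · rw [map_add, h3, mu]
        have : t * z * t = t * (t * z) := by
          rw [mul_assoc, hzt]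
        rw [this, ← mu, h3]
      · rw [map_add, mu, htt, map_one, Module.End.one_apply, add_comm]
  have hmz : ρ z m = m := by
    have h1 : z = t * (t * z) := by rw [← mul_assoc, htt, one_mul]
    rw [h1, ← mu, hmtz, hmt]
  set n := ρ b m with hn
  have hbn : ρ b n = m + n := by
    have h1 : m + n + ρ b n = 0 := by
      apply fix0
      · rw [map_add, map_add, hma, hn, mu a b, mu b b, mu a (b * b), hab,
          show a * (b * b) = b * b * a by rw [← mul_assoc, hab, mul_assoc, hab, ← mul_assoc],
          ← mu b a, ← mu (b * b) a, hma]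
      · rw [map_add, map_add, ← hn, mu b b n, hn, mu (b * b) b, hb3, map_one, Module.End.one_apply]
        abel
    exact (ne2 _ _ h1).symm
  have han : ρ a n = n := by
    rw [hn, mu, hab, ← mu, hma]
  set k := ρ s m with hk
  set l := ρ s n with hl
  have hak : ρ a k = l := by
    rw [hk, mu, ← hsb, ← mu]
  have hal : ρ a l = k + l := by
    rw [hl, mu, ← hsb, ← mu, hbn, map_add]
  have hbk : ρ b k = k := by
    rw [hk, mu, ← hsa, ← mu, hma]
  have hbl : ρ b l = l := by
    rw [hl, mu, ← hsa, ← mu, han]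
  have htn : ρ t n = m + n := by
    rw [hn, mu, htb, ← mu, hmt, ← mu, hbn]
  have hzn : ρ z n = m + n := by
    rw [hn, mu, hzb, ← mu, hmz, ← mu, hbn]
  have htk : ρ t k = k := by
    rw [hk, mu, hts, ← mu, ← mu, hmz, hmt]
  have htl : ρ t l = l := by
    have : ρ t (m + n) = n := by
      rw [map_add, hmt, htn, ← add_assoc, ne, zero_add]
    rw [hl, mu, hts, ← mu, ← mu, hzn, this]
  have hsk : ρ s k = m := by
    rw [hk, mu, hss, map_one]; rfl
  have hsl : ρ s l = n := by
    rw [hl, mu, hss, map_one]; rfl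
  have hzk : ρ z k = k := by
    rw [hk, mu, hzs, ← mu, hmz]
  have hzl : ρ z l = k + l := by
    rw [hl, mu, hzs, ← mu, hzn, map_add]
  -- spanning
  have span : ∀ v : M, ∃ α β γ δ : ZMod 2, v = α • m + β • n + γ • k + δ • l := by
    let W : Submodule (ZMod 2) M :=
      { carrier := {v | ∃ α β γ δ : ZMod 2, v = α • m + β • n + γ • k + δ • l}
        add_mem' := by
          rintro _ _ ⟨α, β, γ, δ, rfl⟩ ⟨α', β', γ', δ', rfl⟩
          exact ⟨α + α', β + β', γ + γ', δ + δ', by simp only [add_smul]; abel⟩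
        zero_mem' := ⟨0, 0, 0, 0, by simp⟩
        smul_mem' := by
          rintro c _ ⟨α, β, γ, δ, rfl⟩
          exact ⟨c * α, c * β, c * γ, c * δ, by simp only [smul_add, mul_smul]⟩ }
    have hmW : m ∈ W := ⟨1, 0, 0, 0, by simp⟩
    have hnW : n ∈ W := ⟨0, 1, 0, 0, by simp⟩
    have hkW : k ∈ W := ⟨0, 0, 1, 0, by simp⟩
    have hlW : l ∈ W := ⟨0, 0, 0, 1, by simp⟩
    have gen : ∀ g, ρ g m ∈ W → ρ g n ∈ W → ρ g k ∈ W → ρ g l ∈ W → ∀ w ∈ W, ρ g w ∈ W := by
      rintro g h1 h2 h3 h4 _ ⟨α, β, γ, δ, rfl⟩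
      simp only [map_add, map_smul]
      exact W.add_mem (W.add_mem (W.add_mem (W.smul_mem _ h1) (W.smul_mem _ h2)) (W.smul_mem _ h3))
        (W.smul_mem _ h4)
    rcases inv W (gen a (by rw [hma]; exact hmW) (by rw [han]; exact hnW) (by rw [hak]; exact hlW)
        (by rw [hal]; exact W.add_mem hkW hlW))
      (gen b hnW (by rw [hbn]; exact W.add_mem hmW hnW) (by rw [hbk]; exact hkW)
        (by rw [hbl]; exact hlW))
      (gen t (by rw [hmt]; exact hmW) (by rw [htn]; exact W.add_mem hmW hnW) (by rw [htk]; exact hkW)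
        (by rw [htl]; exact hlW))
      (gen s hkW hlW (by rw [hsk]; exact hmW) (by rw [hsl]; exact hnW))
      (gen z (by rw [hmz]; exact hmW) (by rw [hzn]; exact W.add_mem hmW hnW) (by rw [hzk]; exact hkW)
        (by rw [hzl]; exact W.add_mem hkW hlW)) with h | h
    · exfalso
      rw [h] at hmW
      exact hm0 ((Submodule.mem_bot _).1 hmW)
    · intro v
      have : v ∈ W := by rw [h]; trivial
      exact this
  have hmn : m ≠ n := by
    intro h
    apply hm0
    exact fix0 m hma (by rw [← hn, ← h])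
  have hn0 : n ≠ 0 := by
    intro h
    rw [h, map_zero] at hbn
    exact hm0 (by simpa using hbn.symm)
  have ind2 : ∀ α β : ZMod 2, α • m + β • n = 0 → α = 0 ∧ β = 0 := by
    intro α β h
    rcases z2cases α with rfl | rfl <;> rcases z2cases β with rfl | rfl
    · exact ⟨rfl, rfl⟩
    · simp at h; exact absurd h hn0
    · simp at h; exact absurd h hm0
    · simp at h; exact absurd (ne2 _ _ h) hmn
  have ind : ∀ α β γ δ : ZMod 2, α • m + β • n + γ • k + δ • l = 0 → α = 0 ∧ β = 0 ∧ γ = 0 ∧ δ = 0 := by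
    intro α β γ δ h
    have h1 : α • m + β • n = γ • k + δ • l := by
      apply ne2
      rw [← add_assoc]; exact h
    have h2 : α • m + β • n = 0 := by
      apply fix0
      · rw [map_add, map_smul, map_smul, hma, han]
      · rw [h1, map_add, map_smul, map_smul, hbk, hbl]
    obtain ⟨h3, h4⟩ := ind2 α β h2
    rw [h2] at h1
    have h5 : γ • m + δ • n = 0 := by
      have := congrArg (ρ s) h1
      rw [map_zero, map_add, map_smul, map_smul, hsk, hsl] at this
      exact this.symm
    obtain ⟨h6, h7⟩ := ind2 γ δ h5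
    exact ⟨h3, h4, h6, h7⟩
  have indeq : ∀ α β γ δ α' β' γ' δ' : ZMod 2, α • m + β • n + γ • k + δ • l =
      α' • m + β' • n + γ' • k + δ' • l → α = α' ∧ β = β' ∧ γ = γ' ∧ δ = δ' := by
    intro α β γ δ α' β' γ' δ' h
    have h1 := ind (α - α') (β - β') (γ - γ') (δ - δ') (by
      simp only [sub_smul]
      have : α • m - α' • m + (β • n - β' • n) + (γ • k - γ' • k) + (δ • l - δ' • l) =
        (α • m + β • n + γ • k + δ • l) - (α' • m + β' • n + γ' • k + δ' • l) := by abel
      rw [this, h, sub_self])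
    exact ⟨sub_eq_zero.1 h1.1, sub_eq_zero.1 h1.2.1, sub_eq_zero.1 h1.2.2.1, sub_eq_zero.1 h1.2.2.2⟩
  have hcard : Nat.card M = 16 := by
    let f : ZMod 2 × ZMod 2 × ZMod 2 × ZMod 2 → M := fun x =>
      x.1 • m + x.2.1 • n + x.2.2.1 • k + x.2.2.2 • l
    have hf : Function.Bijective f := by
      constructor
      · rintro ⟨α, β, γ, δ⟩ ⟨α', β', γ', δ'⟩ h
        obtain ⟨rfl, rfl, rfl, rfl⟩ := indeq _ _ _ _ _ _ _ _ h
        rfl
      · intro v
        obtain ⟨α, β, γ, δ, rfl⟩ := span v
        exact ⟨(α, β, γ, δ), rfl⟩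
    rw [← Nat.card_congr (Equiv.ofBijective f hf)]
    simp [Nat.card_prod]
  -- the two four-groups
  have hts1 : t * s * (t * s) = z := by
    calc t * s * (t * s) = t * (s * t) * s := by simp only [mul_assoc]
      _ = t * (t * s * z) * s := by rw [hst]
      _ = (t * t) * s * (z * s) := by simp only [mul_assoc]
      _ = (t * t) * (s * s) * z := by rw [hzs]; simp only [mul_assoc]
      _ = z := by rw [htt, hss, one_mul, one_mul]
  have hzt1 : z ≠ t := by
    rintro rfl
    exact hz1 (mul_eq_left.1 (hst.trans (by rw [hzs])).symm)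
  have hzs1 : z ≠ s := by
    rintro rfl
    rw [hzt] at hst
    apply hz1
    exact (mul_eq_left.1 hst.symm)
  have hs1 : s ≠ 1 := by
    rintro rfl
    rw [one_mul, mul_one] at hst
    exact hz1 (mul_eq_left.1 hst.symm)
  have ht1 : t ≠ 1 := by
    rintro rfl
    rw [one_mul, mul_one] at hst
    exact hz1 (mul_eq_left.1 hst.symm)
  have hsz2 : s * z * (s * z) = 1 := by
    calc s * z * (s * z) = s * (z * s) * z := by simp only [mul_assoc]
      _ = (s * s) * (z * z) := by rw [hzs]; simp only [mul_assoc]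
      _ = 1 := by rw [hss, hzz, one_mul]
  let B₂ : Subgroup S :=
    { carrier := {1, z, s, s * z}
      one_mem' := by simp
      mul_mem' := by
        rintro x y (rfl | rfl | rfl | rfl) (rfl | rfl | rfl | rfl)
        · simp
        · simp
        · simp
        · simp
        · simp
        · simp [hzz]
        · simp [hzs]
        · rw [← mul_assoc, hzs, mul_assoc, hzz]; simp
        · simp
        · simp
        · simp [hss]
        · rw [← mul_assoc, hss]; simp
        · simp
        · rw [mul_assoc, hzz]; simp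
        · rw [mul_assoc, hzs, ← mul_assoc, hss]; simp
        · rw [hsz2]; simp
      inv_mem' := by
        rintro x (rfl | rfl | rfl | rfl)
        · simp
        · rw [inv_eq_of_mul_eq_one_left hzz]; simp
        · rw [inv_eq_of_mul_eq_one_left hss]; simp
        · rw [inv_eq_of_mul_eq_one_left hsz2]; simp }
  have hB₂ : ∀ x, x ∈ B₂ ↔ x = 1 ∨ x = z ∨ x = s ∨ x = s * z := fun x => Iff.rfl
  have hB₂c : Nat.card B₂ = 4 := by
    have h1 : ((B₂ : Subgroup S) : Set S) = (({1, z, s, s * z} : Finset S) : Set S) := by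
      ext x; simp [B₂]
    have h2 : Nat.card B₂ = Nat.card ((B₂ : Subgroup S) : Set S) := rfl
    rw [h2, h1, Nat.card_coe_set_eq, Set.ncard_coe_finset]
    rw [Finset.card_insert_of_notMem, Finset.card_insert_of_notMem, Finset.card_insert_of_notMem,
      Finset.card_singleton]
    · simp only [Finset.mem_singleton]
      intro h; exact hz1 (mul_eq_left.1 h.symm)
    · simp only [Finset.mem_insert, Finset.mem_singleton, not_or]
      exact ⟨hzs1, fun h => hs1 (mul_eq_right.1 h.symm)⟩
    · simp only [Finset.mem_insert, Finset.mem_singleton, not_or]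
      refine ⟨Ne.symm hz1, Ne.symm hs1, fun h => ?_⟩
      apply hzs1
      have h1 : s * z = z * z := by rw [← h, hzz]
      exact (mul_right_cancel h1).symm
  have hB₂X : B₂ ≤ X := by
    intro x hx
    rcases (hB₂ x).1 hx with rfl | rfl | rfl | rfl
    · exact one_mem _
    · exact hzX
    · exact hsX
    · exact X.mul_mem hsX hzX
  have hB₂2 : ∀ x ∈ B₂, x ^ 2 = 1 := by
    intro x hx
    rw [sq]
    rcases (hB₂ x).1 hx with rfl | rfl | rfl | rfl
    · exact one_mul _
    · exact hzz
    · exact hss
    · exact hsz2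
  have hfix : Nat.card {v : M // ∀ x ∈ B₂, ρ x v = v} = 2 := by
    have h1 : {v : M | ∀ x ∈ B₂, ρ x v = v} = {0, m + k} := by
      ext v
      simp only [Set.mem_setOf_eq, Set.mem_insert_iff, Set.mem_singleton_iff]
      constructor
      · intro h
        have e1 := h z ((hB₂ z).2 (Or.inr (Or.inl rfl)))
        have e2 := h s ((hB₂ s).2 (Or.inr (Or.inr (Or.inl rfl))))
        obtain ⟨α, β, γ, δ, rfl⟩ := span v
        simp only [map_add, map_smul, hmz, hzn, hzk, hzl] at e1
        simp only [map_add, map_smul, ← hk, ← hl, hsk, hsl] at e2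
        have e3 := indeq (α + β) β (γ + δ) δ α β γ δ (by
          rw [← e1]; simp only [add_smul, smul_add]; abel)
        have e4 := indeq γ δ α β α β γ δ (by
          rw [← e2]; abel)
        have e5 : β = 0 := by simpa using e3.1
        have e6 : δ = 0 := by simpa using e3.2.2.1
        rw [e5, e6, e4.1]
        rcases z2cases α with rfl | rfl
        · left; simp
        · right; simp
      · rintro (rfl | rfl) x hx
        · exact map_zero _
        · rcases (hB₂ x).1 hx with rfl | rfl | rfl | rfl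
          · rw [map_one]; rfl
          · rw [map_add, hmz, hzk]
          · rw [map_add, ← hk, hsk, add_comm]
          · rw [← mu, map_add, hmz, hzk, map_add, ← hk, hsk, add_comm]
    show Nat.card ↥{v : M | ∀ x ∈ B₂, ρ x v = v} = 2
    rw [h1, Nat.card_coe_set_eq, Set.ncard_pair]
    intro h
    have := ind 1 0 1 0 (by rw [← sub_eq_zero.2 h.symm]; simp)
    exact one_ne_zero this.1
  refine ⟨hcard, B₂, ⟨hB₂X, hB₂c, hB₂2, hfix⟩, ?_⟩
  rintro B ⟨hBX, hBc, hB2, hBf⟩
  -- elements of B
  have hel : ∀ x ∈ B, x = 1 ∨ x = z ∨ x = t ∨ x = t * z ∨ x = s ∨ x = s * z := by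
    intro x hx
    have h1 := hB2 x hx
    rw [sq] at h1
    rcases hX x (hBX hx) with rfl | rfl | rfl | rfl | rfl | rfl | rfl | rfl
    · tauto
    · tauto
    · tauto
    · tauto
    · tauto
    · tauto
    · exact absurd (hts1.symm.trans h1) hz1
    · exfalso
      apply hz1
      rw [← h1]
      have hzts : z * (t * s) = t * s * z := by
        rw [← mul_assoc, hzt, mul_assoc, hzs, mul_assoc]
      calc z = t * s * (t * s) * (z * z) := by rw [hts1, hzz, mul_one]
        _ = t * s * ((t * s * z) * z) := by simp only [mul_assoc]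
        _ = t * s * (z * (t * s) * z) := by rw [hzts]
        _ = t * s * z * (t * s * z) := by simp only [mul_assoc]
  have czt : Commute z t := hzt
  have czs : Commute z s := hzs
  have cts : ¬ Commute t s := by
    intro h
    have h1 : s * t = s * t * z := by rw [← h.eq] at hst ⊢; exact hst
    exact hz1 (mul_eq_left.1 h1.symm)
  have htzz : t * z * z = t := by rw [mul_assoc, hzz, mul_one]
  have hszz : s * z * z = s := by rw [mul_assoc, hzz, mul_one]
  by_cases hcase : ∃ x ∈ B, x = t ∨ x = t * z
  · exfalso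
    obtain ⟨x, hx, hx'⟩ := hcase
    -- no s, sz in B
    have hno : ∀ y ∈ B, y ≠ s ∧ y ≠ s * z := by
      intro y hy
      by_contra hcon
      have hy' : y = s ∨ y = s * z := by tauto
      have hxy := hB2 _ (B.mul_mem hx hy)
      have hx2 := hB2 _ hx
      have hy2 := hB2 _ hy
      rw [sq] at hxy hx2 hy2
      have hcomm : Commute x y := by
        have h1 : x * y = (x * y)⁻¹ := eq_inv_of_mul_eq_one_left hxy
        rw [mul_inv_rev, inv_eq_of_mul_eq_one_left hx2, inv_eq_of_mul_eq_one_left hy2] at h1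
        exact h1
      have cy : Commute z y := by
        rcases hy' with rfl | rfl
        · exact czs
        · exact czs.mul_right (Commute.refl z)
      have ct : Commute t y := by
        rcases hx' with h | h
        · rw [← h]; exact hcomm
        · have h2 := hcomm.mul_left cy
          rw [h, htzz] at h2
          exact h2
      rcases hy' with h | h
      · rw [h] at ct; exact cts ct
      · have h2 := ct.mul_right czt.symm
        rw [h, hszz] at h2
        exact cts h2
    have hsub : ({0, m, k} : Set M) ⊆ {v : M | ∀ x ∈ B, ρ x v = v} := by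
      rintro v (rfl | rfl | rfl) y hy
      · exact map_zero _
      · rcases hel y hy with rfl | rfl | rfl | rfl | h | h
        · rw [map_one]; rfl
        · exact hmz
        · exact hmt
        · exact hmtz
        · exact absurd h (hno y hy).1
        · exact absurd h (hno y hy).2
      · rcases hel y hy with rfl | rfl | rfl | rfl | h | h
        · rw [map_one]; rfl
        · exact hzk
        · exact htk
        · rw [← mu, hzk, htk]
        · exact absurd h (hno y hy).1
        · exact absurd h (hno y hy).2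
    haveI : Finite M := by
      apply Nat.finite_of_card_ne_zero
      rw [hcard]; norm_num
    have h1 := Set.ncard_le_ncard hsub (Set.toFinite _)
    have h2 : ({0, m, k} : Set M).ncard = 3 := by
      rw [Set.ncard_eq_three]
      refine ⟨0, m, k, Ne.symm hm0, ?_, ?_, rfl⟩
      · intro h
        have := (ind 0 0 1 0 (by rw [← h]; simp)).2.2.1
        exact one_ne_zero this
      · intro h
        have := (ind 1 0 1 0 (by rw [← h]; simp [ne])).1
        exact one_ne_zero this
    have h3 : {v : M | ∀ x ∈ B, ρ x v = v}.ncard = 2 := by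
      rw [← Nat.card_coe_set_eq]; exact hBf
    omega
  · push Not at hcase
    have hle : B ≤ B₂ := by
      intro x hx
      have := hcase x hx
      rw [hB₂]
      rcases hel x hx with h | h | h | h | h | h
      · exact Or.inl h
      · exact Or.inr (Or.inl h)
      · exact absurd h this.1
      · exact absurd h this.2
      · exact Or.inr (Or.inr (Or.inl h))
      · exact Or.inr (Or.inr (Or.inr h))
    exact eq_of_le_of_card_ge hle (by rw [hBc, hB₂c])

end Cfsg.Agent.H18
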