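import Mathlib.FieldTheory.Finite.Basic
import Mathlib.Algebra.Field.Subfield.Basic

/-!
# Additive maps compatible with the norm of a quadratic extension in characteristic two (helper18)
-/

set_option autoImplicit false
set_option linter.style.haveILetI false
set_option maxHeartbeats 1000000

namespace Cfsg.Agent.H18.SuSq

variable {F : Type*} [Field F] {σ : F →+* F}

theorem eq_of_add_zero (h2 : ∀ x : F, x + x = 0) {a b : F} (h : a + b = 0) : a = b := by
  have h1 := h2 b
  exact add_right_cancel (h.trans h1.symm)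

theorem exists_tr' (h2 : ∀ x : F, x + x = 0) (hσ1 : σ ≠ RingHom.id F) (hσ2 : ∀ a, σ (σ a) = a) {k : F}
    (hk : σ k = k) : ∃ d : F, d + σ d = k := by
  obtain ⟨e, he⟩ : ∃ e : F, e + σ e ≠ 0 := by
    by_contra hcon
    push Not at hcon
    apply hσ1
    ext x
    exact (eq_of_add_zero h2 (hcon x)).symm
  have hfix : σ (e + σ e) = e + σ e := by rw [map_add, hσ2, add_comm]
  refine ⟨k * e / (e + σ e), ?_⟩
  rw [map_div₀, map_mul, hfix, hk]
  field_simp

theorem core [Fintype F] (h2 : ∀ x : F, x + x = 0) (hσ1 : σ ≠ RingHom.id F) (hσ2 : ∀ a, σ (σ a) = a)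
    (A : F →+ F) (hA : ∀ x, A (A x) = x) (B : F → F)
    (hBadd : ∀ s t, σ s = s → σ t = t → B (s + t) = B s + B t)
    (hN : ∀ a, A a * σ (A a) = B (a * σ a)) (hA1 : A 1 = 1) (a : F) :
    A a * σ (A a) = a * σ a := by
  have hNf : ∀ a, σ (a * σ a) = a * σ a := fun a => by rw [map_mul, hσ2, mul_comm]
  have hff : ∀ a b, σ (a * σ b + σ a * b) = a * σ b + σ a * b := fun a b => by
    rw [map_add, map_mul, map_mul, hσ2, hσ2]; ring
  have hf : ∀ a b, A a * σ (A b) + σ (A a) * A b = B (a * σ b + σ a * b) := by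
    intro a b
    have h3 := hN (a + b)
    have h4 : (a + b) * σ (a + b) = a * σ a + b * σ b + (a * σ b + σ a * b) := by rw [map_add]; ring
    rw [h4, hBadd _ _ (by rw [map_add, hNf, hNf]) (hff a b), hBadd _ _ (hNf a) (hNf b), ← hN a, ← hN b, map_add, map_add] at h3
    linear_combination h3
  have hB0 : B 0 = 0 := by
    have := hBadd 0 0 (map_zero σ) (map_zero σ)
    rw [add_zero] at this
    exact left_eq_add.1 this
  have hTr : ∀ w, A w + σ (A w) = B (w + σ w) := by
    intro w
    have h3 := hf 1 w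
    rw [hA1, map_one, one_mul, one_mul, one_mul, one_mul] at h3
    rw [add_comm w, ← h3, add_comm]
  have hfixA : ∀ v, σ v = v → σ (A v) = A v := by
    intro v hv
    have h3 := hTr v
    rw [hv, h2, hB0] at h3
    exact (eq_of_add_zero h2 h3).symm
  have hmul : ∀ v t, σ v = v → σ t = t → B (v * t) = A v * B t := by
    intro v t hv ht
    obtain ⟨w, hw⟩ := exists_tr' h2 hσ1 hσ2 ht
    have h3 := hf v w
    rw [hfixA v hv, hv] at h3
    have h4 := hTr w
    rw [hw] at h4
    have h5 : v * σ w + v * w = v * t := by rw [← hw]; ring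
    rw [h5] at h3
    rw [← h3, ← h4]; ring
  have hB1 : B 1 = 1 := by
    have h3 := hN 1
    rw [hA1, map_one, one_mul] at h3
    exact h3.symm
  have hAB : ∀ v, σ v = v → B v = A v := by
    intro v hv
    have h3 := hmul v 1 hv (map_one σ)
    rwa [mul_one, hB1, mul_one] at h3
  by_cases hall : ∀ v, σ v = v → A v = v
  · rw [hN, hAB _ (hNf a), hall _ (hNf a)]
  exfalso
  push Not at hall
  obtain ⟨v0, hv0, hv0A⟩ := hall
  obtain ⟨y0, hy0⟩ : ∃ y0, σ y0 ≠ y0 := by
    by_contra hcon
    push Not at hcon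
    exact hσ1 (RingHom.ext hcon)
  have hnd : ∀ z, (∀ y, y * σ z + σ y * z = 0) → z = 0 := by
    intro z hz
    have h3 := hz 1
    rw [map_one, one_mul, one_mul] at h3
    have h4 : σ z = z := eq_of_add_zero h2 h3
    have h5 := hz y0
    rw [h4, ← add_mul] at h5
    rcases mul_eq_zero.1 h5 with h6 | h6
    · exact absurd (eq_of_add_zero h2 h6).symm hy0
    · exact h6
  have hsemi : ∀ v w, σ v = v → A (v * w) = A v * A w := by
    intro v w hv
    rw [← sub_eq_zero]
    apply hnd
    intro y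
    have h3 := hf (A y) (v * w)
    have h4 := hf (A y) w
    rw [hA] at h3 h4
    have h5 : A y * σ (v * w) + σ (A y) * (v * w) = v * (A y * σ w + σ (A y) * w) := by
      rw [map_mul, hv]; ring
    rw [h5, hmul v _ hv (hff _ _), ← h4] at h3
    have h6 : σ (A (v * w) - A v * A w) = σ (A (v * w)) - A v * σ (A w) := by
      rw [map_sub σ, map_mul σ, hfixA v hv]
    rw [h6]
    linear_combination h3
  obtain ⟨w, hwA, hwσ⟩ : ∃ w, A w = w ∧ σ w ≠ w := by
    by_contra hcon
    push Not at hcon
    have h3 : σ (y0 + A y0) = y0 + A y0 := hcon _ (by rw [map_add, hA, add_comm])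
    have h4 : σ (v0 * y0 + A (v0 * y0)) = v0 * y0 + A (v0 * y0) := hcon _ (by rw [map_add, hA, add_comm])
    rw [hsemi v0 y0 hv0, map_add, map_mul, map_mul, hv0, hfixA v0 hv0] at h4
    rw [map_add] at h3
    have h5 : (v0 - A v0) * (σ y0 - y0) = 0 := by linear_combination h4 - A v0 * h3
    rcases mul_eq_zero.1 h5 with h6 | h6
    · exact hv0A (sub_eq_zero.1 h6).symm
    · exact hy0 (sub_eq_zero.1 h6)
  -- the subfield
  obtain ⟨C, hC⟩ : ∃ C : Subfield F, ∀ x, x ∈ C ↔ σ x = x ∧ A x = x := by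
    refine ⟨{ carrier := {x | σ x = x ∧ A x = x}
              mul_mem' := ?_
              one_mem' := ⟨map_one σ, hA1⟩
              add_mem' := ?_
              zero_mem' := ⟨map_zero σ, map_zero A⟩
              neg_mem' := ?_
              inv_mem' := ?_ }, fun x => Iff.rfl⟩
    · rintro x y ⟨hx1, hx2⟩ ⟨hy1, hy2⟩
      exact ⟨by rw [map_mul, hx1, hy1], by rw [hsemi x y hx1, hx2, hy2]⟩
    · rintro x y ⟨hx1, hx2⟩ ⟨hy1, hy2⟩
      exact ⟨by rw [map_add, hx1, hy1], by rw [map_add, hx2, hy2]⟩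
    · rintro x ⟨hx1, hx2⟩
      exact ⟨by rw [map_neg, hx1], by rw [map_neg, hx2]⟩
    · rintro x ⟨hx1, hx2⟩
      refine ⟨by rw [map_inv₀, hx1], ?_⟩
      by_cases hx0 : x = 0
      · rw [hx0, inv_zero, map_zero]
      have h3 := hsemi x x⁻¹ hx1
      rw [mul_inv_cancel₀ hx0, hA1, hx2] at h3
      exact (inv_eq_of_mul_eq_one_right h3.symm).symm
  haveI : CharP F 2 := by
    have h3 : (2 : F) = 0 := by have := h2 1; rw [one_add_one_eq_two] at this; exact this
    exact CharTwo.of_one_ne_zero_of_two_eq_zero one_ne_zero h3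
  haveI : CharP C 2 := by
    have h3 : (2 : C) = 0 := by
      apply Subtype.ext
      have := h2 1; rw [one_add_one_eq_two] at this; exact this
    exact CharTwo.of_one_ne_zero_of_two_eq_zero one_ne_zero h3
  haveI : Fact (Nat.Prime 2) := ⟨Nat.prime_two⟩
  classical
  haveI : Fintype C := Fintype.ofFinite _
  obtain ⟨⟨k, hk0⟩, -, hk⟩ := FiniteField.card C 2
  have hk' : Fintype.card C = 2 ^ k := hk
  have hadd : ∀ x y : F, (x + y) ^ Fintype.card C = x ^ Fintype.card C + y ^ Fintype.card C := by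
    intro x y
    rw [hk']
    exact add_pow_char_pow x y 2 k
  have hCpow : ∀ x, σ x = x → A x = x → x ^ Fintype.card C = x := by
    intro x hx1 hx2
    have h3 := FiniteField.pow_card (⟨x, (hC x).2 ⟨hx1, hx2⟩⟩ : C)
    exact congrArg Subtype.val h3
  -- quadratic elements
  have hquad : ∀ x x' : F, (x + x') ^ Fintype.card C = x + x' → (x * x') ^ Fintype.card C = x * x' →
      (x ^ Fintype.card C) ^ Fintype.card C = x := by
    intro x x' h3 h4
    obtain ⟨y, hy⟩ : ∃ y, y = x ^ Fintype.card C := ⟨_, rfl⟩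
    obtain ⟨y', hy'⟩ : ∃ y', y' = x' ^ Fintype.card C := ⟨_, rfl⟩
    rw [hadd, ← hy, ← hy'] at h3
    rw [mul_pow, ← hy, ← hy'] at h4
    rw [← hy]
    have h5 : (y - x) * (y - x') = 0 := by linear_combination y * h3 - h4
    rcases mul_eq_zero.1 h5 with h6 | h6
    · rw [sub_eq_zero.1 h6, ← hy]; exact sub_eq_zero.1 h6
    · have h7 := sub_eq_zero.1 h6
      rw [h7] at h3
      have h8 : y' = x := by linear_combination h3
      rw [h7, ← hy', h8]
  have hFq : ∀ t, σ t = t → (t ^ Fintype.card C) ^ Fintype.card C = t := by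
    intro t ht
    apply hquad t (A t)
    · apply hCpow
      · rw [map_add, ht, hfixA t ht]
      · rw [map_add, hA, add_comm]
    · apply hCpow
      · rw [map_mul, ht, hfixA t ht]
      · rw [hsemi t (A t) ht, hA, mul_comm]
  have hwq : (w ^ Fintype.card C) ^ Fintype.card C = w := by
    apply hquad w (σ w)
    · apply hCpow
      · rw [map_add, hσ2, add_comm]
      · rw [← hAB _ (by rw [map_add, hσ2, add_comm]), ← hTr, hwA]
    · apply hCpow
      · exact hNf w
      · rw [← hAB _ (hNf w), ← hN, hwA]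
  have hall : ∀ x : F, (x ^ Fintype.card C) ^ Fintype.card C = x := by
    intro x
    have hw0 : w + σ w ≠ 0 := fun h => hwσ (eq_of_add_zero h2 h).symm
    obtain ⟨b, hb⟩ : ∃ b, b = (x + σ x) / (w + σ w) := ⟨_, rfl⟩
    have hb1 : σ b = b := by
      rw [hb, map_div₀, map_add, map_add, hσ2, hσ2, add_comm (σ x), add_comm (σ w)]
    have hb2 : b * (w + σ w) = x + σ x := by rw [hb]; field_simp
    obtain ⟨c, hc⟩ : ∃ c, c = x + b * w := ⟨_, rfl⟩
    have hc1 : σ c = c := by
      rw [hc, map_add, map_mul, hb1]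
      apply eq_of_add_zero h2
      linear_combination hb2 + h2 x + h2 (σ x)
    have hx : x = c + b * w := by rw [hc]; linear_combination -h2 (b * w)
    rw [hx, hadd, hadd, mul_pow, mul_pow, hFq c hc1, hFq b hb1, hwq]
  -- counting
  have hcard1 : Fintype.card F ≤ Fintype.card C * Fintype.card C := by
    have h3 : ∀ x : Fˣ, x ^ (Fintype.card C * Fintype.card C - 1) = 1 := by
      intro x
      have hpos : 0 < Fintype.card C * Fintype.card C := Nat.mul_pos Fintype.card_pos Fintype.card_pos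
      apply Units.ext
      rw [Units.val_pow_eq_pow_val, Units.val_one]
      have h4 := hall x
      rw [← pow_mul] at h4
      have h5 : (x : F) ^ (Fintype.card C * Fintype.card C - 1) * x = 1 * x := by
        rw [← pow_succ, Nat.sub_add_cancel hpos, h4, one_mul]
      exact mul_right_cancel₀ x.ne_zero h5
    have h4 := (FiniteField.forall_pow_eq_one_iff F _).1 h3
    have h5 : 1 < Fintype.card C := Fintype.one_lt_card
    have h6 : 1 < Fintype.card C * Fintype.card C := by nlinarith
    have h7 := Nat.le_of_dvd (by omega) h4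
    omega
  haveI : Fintype {x : F // σ x = x} := Fintype.ofFinite _
  have hcard2 : Fintype.card {x : F // σ x = x} * Fintype.card {x : F // σ x = x} ≤ Fintype.card F := by
    rw [← Fintype.card_prod]
    refine Fintype.card_le_of_injective (fun ab : {x : F // σ x = x} × {x : F // σ x = x} => ab.1.1 + ab.2.1 * w) ?_
    rintro ⟨⟨a, ha⟩, ⟨b, hb⟩⟩ ⟨⟨c, hc⟩, ⟨d, hd⟩⟩ h3
    have h4 : a + b * w = c + d * w := h3
    have h5 := congrArg σ h4
    rw [map_add, map_add, map_mul, map_mul, ha, hb, hc, hd] at h5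
    have h6 : (b - d) * (w - σ w) = 0 := by linear_combination h4 - h5
    have h7 : b = d := by
      rcases mul_eq_zero.1 h6 with h7 | h7
      · exact sub_eq_zero.1 h7
      · exact absurd (sub_eq_zero.1 h7).symm hwσ
    subst h7
    have h8 : a = c := add_right_cancel h4
    subst h8
    rfl
  have hcard3 : Fintype.card C < Fintype.card {x : F // σ x = x} := by
    refine Fintype.card_lt_of_injective_of_notMem (fun x : C => (⟨x.1, ((hC x.1).1 x.2).1⟩ : {x : F // σ x = x})) ?_
      (b := ⟨v0, hv0⟩) ?_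
    · intro x y hxy
      exact Subtype.ext (congrArg (fun z : {x : F // σ x = x} => z.1) hxy)
    · rintro ⟨x, hx⟩
      have h3 : x.1 = v0 := congrArg (fun z : {x : F // σ x = x} => z.1) hx
      apply hv0A
      rw [← h3]
      exact ((hC x.1).1 x.2).2
  nlinarith

theorem main [Fintype F] (h2 : ∀ x : F, x + x = 0) (hσ1 : σ ≠ RingHom.id F) (hσ2 : ∀ a, σ (σ a) = a)
    (A : F →+ F) (hA : ∀ x, A (A x) = x) (B : F → F)
    (hBadd : ∀ s t, σ s = s → σ t = t → B (s + t) = B s + B t)
    (hN : ∀ a, A a * σ (A a) = B (a * σ a)) (a : F) :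
    A a * σ (A a) = a * σ a := by
  by_cases hid : ∀ x, A x = x
  · rw [hid]
  push Not at hid
  obtain ⟨x, hx⟩ := hid
  obtain ⟨u, hu⟩ : ∃ u, u = x + A x := ⟨_, rfl⟩
  have hu0 : u ≠ 0 := by
    intro h
    rw [hu] at h
    exact hx (eq_of_add_zero h2 h).symm
  have hAu : A u = u := by rw [hu, map_add, hA, add_comm]
  have hσu0 : σ u ≠ 0 := fun h => hu0 ((map_eq_zero σ).1 h)
  let A' : F →+ F := (AddMonoidHom.mulLeft u⁻¹).comp (A.comp (AddMonoidHom.mulLeft u))
  have hA' : ∀ x, A' x = u⁻¹ * A (u * x) := fun x => rfl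
  have hA'' : ∀ x, A (u * x) = u * A' x := fun x => by rw [hA']; field_simp
  have h3 := core h2 hσ1 hσ2 A' (fun x => by rw [hA' (A' x), ← hA'', hA]; field_simp)
    (fun t => B (u * σ u * t) / (u * σ u)) (by
      intro s t hs ht
      have hf : ∀ s, σ s = s → σ (u * σ u * s) = u * σ u * s := by
        intro s hs
        rw [map_mul, map_mul, hσ2, hs]; ring
      show B (u * σ u * (s + t)) / (u * σ u) = B (u * σ u * s) / (u * σ u) + B (u * σ u * t) / (u * σ u)
      rw [mul_add, hBadd _ _ (hf s hs) (hf t ht), add_div]) (by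
      intro a
      have h4 := hN (u * a)
      rw [hA'', map_mul, map_mul] at h4
      have h5 : u * a * (σ u * σ a) = u * σ u * (a * σ a) := by ring
      rw [h5] at h4
      show A' a * σ (A' a) = B (u * σ u * (a * σ a)) / (u * σ u)
      rw [← h4]
      field_simp) (by rw [hA', mul_one, hAu]; field_simp) (u⁻¹ * a)
  rw [hA', ← mul_assoc, mul_inv_cancel₀ hu0, one_mul, map_mul, map_mul, map_inv₀] at h3
  field_simp at h3
  exact h3

end Cfsg.Agent.H18.SuSq
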