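import Cfsg.Agent.H18.SuSq
import Mathlib.GroupTheory.Index

/-!
# Automorphisms of groups of Suzuki type (squares are norms) (helper18)
-/

set_option autoImplicit false
set_option linter.style.haveILetI false
set_option maxHeartbeats 1000000

namespace Cfsg.Agent.H18.SuSq

variable {F : Type*} [Field F] {σ : F →+* F}

structure Coord (σ : F →+* F) (S : Type*) [Group S] (c d : S → F) : Prop where
  cmul : ∀ g h, c (g * h) = c g + c h
  dmul : ∀ g h, d (g * h) = d g + d h - σ (c h) * c g
  inj : ∀ g h, c g = c h → d g = d h → g = h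
  rel : ∀ g, d g + σ (d g) = -(c g * σ (c g))
  surj : ∀ e, ∃ g, c g = e

theorem Coord.comp {S T : Type*} [Group S] [Group T] {c d : S → F} (h : Coord σ S c d) (e : T ≃* S) :
    Coord σ T (fun t => c (e t)) (fun t => d (e t)) where
  cmul g k := by rw [map_mul, h.cmul]
  dmul g k := by rw [map_mul, h.dmul]
  inj g k h1 h2 := e.injective (h.inj _ _ h1 h2)
  rel g := h.rel _
  surj x := by
    obtain ⟨g, hg⟩ := h.surj x
    exact ⟨e.symm g, by rw [MulEquiv.apply_symm_apply, hg]⟩

theorem Coord.aut_fix [Fintype F] (h2 : ∀ x : F, x + x = 0) (hσ1 : σ ≠ RingHom.id F) (hσ2 : ∀ a, σ (σ a) = a)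
    {S : Type*} [Group S] {c d : S → F} (h : Coord σ S c d) (α : MulAut S) (s : S) (hα : ∀ x, α (α x) = s * x * s⁻¹)
    {z : S} (hz : z ∈ Subgroup.center S) : α z = z := by
  have hneg : ∀ x : F, -x = x := fun x => (neg_eq_of_add_eq_zero_left (h2 x))
  have hc1 : c 1 = 0 := by
    have := h.cmul 1 1
    rw [mul_one] at this
    exact left_eq_add.1 this
  have hcinv : ∀ g, c g⁻¹ = - c g := by
    intro g
    have := h.cmul g⁻¹ g
    rw [inv_mul_cancel, hc1] at this
    exact (neg_eq_of_add_eq_zero_left this.symm).symm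
  have hcen1 : ∀ z, c z = 0 → z ∈ Subgroup.center S := by
    intro z hz
    rw [Subgroup.mem_center_iff]
    intro g
    apply h.inj
    · rw [h.cmul, h.cmul, add_comm]
    · rw [h.dmul, h.dmul, hz, map_zero, zero_mul, mul_zero, sub_zero, sub_zero, add_comm]
  have hcen2 : ∀ z ∈ Subgroup.center S, c z = 0 := by
    intro z hz
    have h3 : ∀ e : F, σ (c z) * e = σ e * c z := by
      intro e
      obtain ⟨g, hg⟩ := h.surj e
      have h4 := congrArg d ((Subgroup.mem_center_iff.1 hz) g)
      rw [h.dmul, h.dmul, hg] at h4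
      linear_combination -h4
    obtain ⟨y0, hy0⟩ : ∃ y0, σ y0 ≠ y0 := by
      by_contra hcon
      push Not at hcon
      exact hσ1 (RingHom.ext hcon)
    have h5 := h3 1
    rw [mul_one, map_one, one_mul] at h5
    have h6 := h3 y0
    rw [h5] at h6
    have h7 : (y0 - σ y0) * c z = 0 := by linear_combination h6
    rcases mul_eq_zero.1 h7 with h8 | h8
    · exact absurd (sub_eq_zero.1 h8).symm hy0
    · exact h8
  have hcα : ∀ z, c z = 0 → c (α z) = 0 := by
    intro z hz
    apply hcen2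
    rw [Subgroup.mem_center_iff]
    intro g
    obtain ⟨g, rfl⟩ := α.surjective g
    rw [← map_mul, ← map_mul, (Subgroup.mem_center_iff.1 (hcen1 z hz)) g]
  choose g hg using h.surj
  have hAx : ∀ x, c (α x) = c (α (g (c x))) := by
    intro x
    have h3 : c ((g (c x))⁻¹ * x) = 0 := by rw [h.cmul, hcinv, hg, neg_add_cancel]
    have h4 := hcα _ h3
    rw [map_mul, h.cmul, map_inv, hcinv] at h4
    linear_combination h4
  let A : F →+ F :=
    { toFun := fun e => c (α (g e))
      map_zero' := by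
        apply hcα
        rw [hg]
      map_add' := by
        intro a b
        have h3 := hAx (g a * g b)
        rw [h.cmul, hg, hg, map_mul, h.cmul] at h3
        exact h3.symm }
  have hA : ∀ x, c (α x) = A (c x) := hAx
  have hAA : ∀ e, A (A e) = e := by
    intro e
    have h3 := hA (α (g e))
    rw [hα, h.cmul, h.cmul, hcinv, hg, hA, hg] at h3
    rw [← h3]; ring
  -- the elements of the centre
  have hZ : ∀ s, σ s = s → ∃ z, c z = 0 ∧ d z = s ∧ ∃ t, t * σ t = s := by
    intro s hs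
    haveI : CharP F 2 := by
      have h3 : (2 : F) = 0 := by have := h2 1; rw [one_add_one_eq_two] at this; exact this
      exact CharTwo.of_one_ne_zero_of_two_eq_zero one_ne_zero h3
    obtain ⟨t, ht⟩ : ∃ t : F, t ^ 2 = s := by
      have h3 : Function.Surjective (frobenius F 2) := Finite.surjective_of_injective (frobenius_inj F 2)
      obtain ⟨t, ht⟩ := h3 s
      exact ⟨t, ht⟩
    have hσt : σ t = t := by
      have h3 : (σ t + t) * (σ t + t) = 0 := by
        have h4 : σ t ^ 2 = s := by rw [← map_pow, ht, hs]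
        have e : (σ t + t) * (σ t + t) = σ t ^ 2 + t ^ 2 + (σ t * t + σ t * t) := by ring
        rw [e, h4, ht, h2, h2, add_zero]
      exact eq_of_add_zero h2 (mul_self_eq_zero.1 h3)
    refine ⟨g t * g t, ?_, ?_, t, ?_⟩
    · rw [h.cmul, h2]
    · rw [h.dmul, hg, h2, zero_sub, hneg, hσt, ← ht, pow_two]
    · rw [hσt, ← ht, pow_two]
  choose! Zf hZ1 hZ2 hZ3 using hZ
  obtain ⟨B, hB⟩ : ∃ B : F → F, ∀ s, B s = d (α (Zf s)) := ⟨_, fun _ => rfl⟩
  have hfixd : ∀ z, c z = 0 → σ (d z) = d z := by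
    intro z hz
    have h3 := h.rel z
    rw [hz, zero_mul, neg_zero] at h3
    exact (eq_of_add_zero h2 h3).symm
  have hBz : ∀ z, c z = 0 → d (α z) = B (d z) := by
    intro z hz
    have h3 : z = Zf (d z) := h.inj _ _ (by rw [hz, hZ1 _ (hfixd z hz)]) (by rw [hZ2 _ (hfixd z hz)])
    rw [hB, ← h3]
  have hBadd : ∀ s t, σ s = s → σ t = t → B (s + t) = B s + B t := by
    intro s t hs ht
    have h3 := hBz (Zf s * Zf t) (by rw [h.cmul, hZ1 s hs, hZ1 t ht, add_zero])
    rw [h.dmul, hZ1 s hs, hZ2 s hs, hZ2 t ht, mul_zero, sub_zero, map_mul, h.dmul, hcα _ (hZ1 s hs), mul_zero,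
      sub_zero, ← hB, ← hB] at h3
    exact h3.symm
  have hN : ∀ a, A a * σ (A a) = B (a * σ a) := by
    intro a
    have h3 := hBz (g a * g a) (by rw [h.cmul, h2])
    rw [map_mul, h.dmul, h.dmul, h2, h2, zero_sub, zero_sub, hneg, hneg, hg, hA, hg] at h3
    rw [mul_comm, h3, mul_comm a]
  have hfin := main h2 hσ1 hσ2 A hAA B hBadd hN
  have hz0 := hcen2 z hz
  apply h.inj
  · rw [hcα z hz0, hz0]
  · rw [hBz z hz0]
    obtain ⟨t, ht⟩ := hZ3 (d z) (hfixd z hz0)
    rw [← ht, ← hN, hfin]

end Cfsg.Agent.H18.SuSq
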