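import Mathlib

/-! Homomorphisms onto the Sylow `p`-subgroup of the symmetric group of degree `p²` (S1952). -/

set_option autoImplicit false
open Subgroup

namespace Cfsg.Agent.H18.WrZp

open Polynomial in
theorem poly_id (p : ℕ) [hp : Fact p.Prime] :
    (∑ i ∈ Finset.range p, (X : (ZMod p)[X]) ^ i) = (X - 1) ^ (p - 1) := by
  have h1 : (X - 1 : (ZMod p)[X]) ≠ 0 := by
    have := X_sub_C_ne_zero (R := ZMod p) 1
    simpa using this
  apply mul_right_cancel₀ h1
  rw [geom_sum_mul, ← pow_succ, Nat.sub_add_cancel hp.out.one_le, sub_pow_char, one_pow]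

variable {p : ℕ} [hp : Fact p.Prime]

theorem end_id {V : Type*} [AddCommGroup V] [Module (ZMod p) V] (T : V →ₗ[ZMod p] V) :
    (∑ i ∈ Finset.range p, T ^ i) = (T - 1) ^ (p - 1) := by
  have := congrArg (Polynomial.aeval T) (poly_id p)
  simpa using this

set_option maxHeartbeats 1000000 in
theorem lin {V : Type*} [AddCommGroup V] [Module (ZMod p) V] [Finite V] (T : V →ₗ[ZMod p] V)
    (hT : T ^ p = 1) (x : V) (hx : ∑ i ∈ Finset.range p, (T ^ i) x ≠ 0) :
    ∃ φ : V →ₗ[ZMod p] ZMod p, Function.Surjective φ ∧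
      p ^ p * Nat.card {w : V // ∀ i : ℕ, φ ((T ^ i) w) = 0} ≤ Nat.card V := by
  classical
  obtain ⟨φ, hφ⟩ : ∃ φ : V →ₗ[ZMod p] ZMod p, φ (∑ i ∈ Finset.range p, (T ^ i) x) ≠ 0 := by
    by_contra h
    push Not at h
    exact hx ((Module.forall_dual_apply_eq_zero_iff (ZMod p) _).1 h)
  refine ⟨φ, ?_, ?_⟩
  · apply LinearMap.surjective
    rintro rfl
    exact hφ rfl
  set s := T - 1 with hs
  have hsp : s ^ p = 0 := by
    have h1 : s ^ p = s ^ (p - 1) * s := by rw [← pow_succ, Nat.sub_add_cancel hp.out.one_le]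
    rw [h1, hs, ← end_id, geom_sum_mul, hT, sub_self]
  have hNx : ∑ i ∈ Finset.range p, (T ^ i) x = (s ^ (p - 1)) x := by
    rw [hs, ← end_id, LinearMap.sum_apply]
  rw [hNx] at hφ
  let W : Submodule (ZMod p) V := ⨅ i : ℕ, LinearMap.ker (φ.comp (T ^ i))
  have hW : ∀ w, w ∈ W ↔ ∀ i : ℕ, φ ((T ^ i) w) = 0 := by
    intro w
    simp only [W, Submodule.mem_iInf, LinearMap.mem_ker, LinearMap.comp_apply]
  have hWT : ∀ w ∈ W, T w ∈ W := by
    intro w hw
    rw [hW] at hw ⊢
    intro i
    have := hw (i + 1)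
    rwa [pow_succ, Module.End.mul_apply] at this
  have hWs : ∀ w ∈ W, s w ∈ W := by
    intro w hw
    show T w - w ∈ W
    exact W.sub_mem (hWT w hw) hw
  have hcard : Nat.card {w : V // ∀ i : ℕ, φ ((T ^ i) w) = 0} = Nat.card W :=
    Nat.card_congr (Equiv.subtypeEquivRight fun w => (hW w).symm)
  rw [hcard]
  have hlt : ∀ j < p, W.comap (s ^ j) < W.comap (s ^ (j + 1)) := by
    intro j hj
    apply lt_of_le_of_ne
    · intro w hw
      rw [Submodule.mem_comap] at hw ⊢
      rw [pow_succ', Module.End.mul_apply]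
      exact hWs _ hw
    · intro h
      have h1 : (s ^ (p - 1 - j)) x ∈ W.comap (s ^ (j + 1)) := by
        rw [Submodule.mem_comap, ← Module.End.mul_apply, ← pow_add,
          show j + 1 + (p - 1 - j) = p by omega, hsp]
        exact W.zero_mem
      rw [← h, Submodule.mem_comap, ← Module.End.mul_apply, ← pow_add,
        show j + (p - 1 - j) = p - 1 by omega, hW] at h1
      exact hφ (by simpa using h1 0)
  have hfin : ∀ j ≤ p, Module.finrank (ZMod p) W + j ≤ Module.finrank (ZMod p) (W.comap (s ^ j)) := by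
    intro j
    induction j with
    | zero =>
      intro _
      simp
      rfl
    | succ j ih =>
      intro hj
      have h1 := ih (by omega)
      have h2 := Submodule.finrank_lt_finrank_of_lt (hlt j (by omega))
      omega
  have h1 := hfin p le_rfl
  have h2 : Module.finrank (ZMod p) (W.comap (s ^ p)) ≤ Module.finrank (ZMod p) V := Submodule.finrank_le _
  rw [Module.natCard_eq_pow_finrank (K := ZMod p) (V := V), Module.natCard_eq_pow_finrank (K := ZMod p) (V := W),
    Nat.card_zmod, ← pow_add]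
  exact Nat.pow_le_pow_right hp.out.pos (by omega)

end Cfsg.Agent.H18.WrZp
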