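import Mathlib
import Cfsg.Agent.H18.WrZp

/-! Homomorphisms onto the Sylow `p`-subgroup of the symmetric group of degree `p²` (S1952). -/

set_option autoImplicit false
open Subgroup

namespace Cfsg.Agent.H18.WrZp

variable {p : ℕ} [hp : Fact p.Prime]

set_option maxHeartbeats 1000000 in
theorem add_lin {V : Type*} [AddCommGroup V] [Finite V] (hV : ∀ v : V, p • v = 0) (c : V →+ V)
    (hc : ∀ v, (c^[p]) v = v) (x : V) (hx : ∑ i ∈ Finset.range p, (c^[i]) x ≠ 0) :
    ∃ φ : V →+ ZMod p, Function.Surjective φ ∧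
      p ^ p * Nat.card {v : V // ∀ i : ℕ, φ ((c^[i]) v) = 0} ≤ Nat.card V := by
  obtain ⟨inst⟩ : Nonempty (Module (ZMod p) V) := ⟨AddCommGroup.zmodModule hV⟩
  obtain ⟨T, hTc⟩ : ∃ T : V →ₗ[ZMod p] V, ∀ v, T v = c v := ⟨c.toZModLinearMap p, fun v => rfl⟩
  have hTi : ∀ (i : ℕ) (a : V), (T ^ i) a = (c^[i]) a := by
    intro i
    induction i with
    | zero => intro a; simp
    | succ i ih =>
      intro a
      rw [pow_succ, Module.End.mul_apply]
      have h1 : T a = c a := hTc a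
      rw [h1, ih (c a)]
      rfl
  have hTp : T ^ p = 1 := by
    apply LinearMap.ext
    intro v
    rw [hTi, hc]
    rfl
  have hsum : ∑ i ∈ Finset.range p, (T ^ i) x ≠ 0 := by
    intro h1
    apply hx
    simp only [hTi] at h1
    exact h1
  obtain ⟨φ, hφ, hcard⟩ := lin T hTp x hsum
  refine ⟨φ.toAddMonoidHom, hφ, ?_⟩
  have h1 : Nat.card {a : V // ∀ i : ℕ, φ.toAddMonoidHom ((c^[i]) a) = 0} =
      Nat.card {w : V // ∀ i : ℕ, φ ((T ^ i) w) = 0} := by
    apply Nat.card_congr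
    refine Equiv.subtypeEquivRight ?_
    intro a
    refine forall_congr' fun i => ?_
    rw [hTi]
    rfl
  rw [h1]
  exact hcard

theorem grp_lin {A : Type*} [CommGroup A] [Finite A] (hA : ∀ a : A, a ^ p = 1) (c : A →* A)
    (hc : ∀ a, (c^[p]) a = a) (x : A) (hx : ∏ i ∈ Finset.range p, (c^[i]) x ≠ 1) :
    ∃ ψ : A →* Multiplicative (ZMod p), Function.Surjective ψ ∧
      p ^ p * Nat.card {a : A // ∀ i : ℕ, ψ ((c^[i]) a) = 1} ≤ Nat.card A := by
  obtain ⟨φ, h1, h2⟩ := add_lin (V := Additive A) (p := p) (fun v => hA v.toMul) (MonoidHom.toAdditive c)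
    (fun v => hc v.toMul) (Additive.ofMul x) (fun h => hx h)
  exact ⟨AddMonoidHom.toMultiplicativeRight φ, h1, h2⟩

set_option maxHeartbeats 1000000 in
/-- an index `p ^ 2` subgroup with core of index at least `p ^ (p + 1)` -/
theorem of_core {P : Type*} [Group P] [Finite P] (hP : IsPGroup p P) (H : Subgroup P)
    (hH : H.index = p ^ 2) (hB : p ^ (p + 1) ≤ H.normalCore.index) :
    ∃ (Q : Sylow p (Equiv.Perm (Fin (p ^ 2)))) (f : P →* ↥(Q : Subgroup (Equiv.Perm (Fin (p ^ 2))))), Function.Surjective f := by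
  have e : (P ⧸ H) ≃ Fin (p ^ 2) := Finite.equivFinOfCardEq hH
  let F : P →* Equiv.Perm (Fin (p ^ 2)) := e.permCongrHom.toMonoidHom.comp (MulAction.toPermHom P (P ⧸ H))
  have hker : F.ker = H.normalCore := by
    rw [Subgroup.normalCore_eq_ker]
    ext g
    simp only [F, MonoidHom.mem_ker, MonoidHom.comp_apply, MulEquiv.coe_toMonoidHom]
    exact e.permCongrHom.map_eq_one_iff
  have hcard : p ^ (p + 1) ≤ Nat.card F.range := by
    rw [← Subgroup.index_ker, hker]
    exact hB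
  have hrp : IsPGroup p F.range := by
    exact hP.of_surjective F.rangeRestrict F.rangeRestrict_surjective
  obtain ⟨Q, hQ⟩ := hrp.exists_le_sylow
  have hQc : Nat.card Q = p ^ (p + 1) := by
    have h1 := Q.card_eq_multiplicity
    rw [h1, Nat.card_perm, Nat.card_fin, ← Nat.multiplicity_eq_factorization hp.out (p ^ 2).factorial_ne_zero,
        Nat.Prime.multiplicity_factorial_pow hp.out]
    congr 1
    simp [Finset.sum_range_succ]
    ring
  have hEq : F.range = Q := Subgroup.eq_of_le_of_card_ge hQ (by rw [hQc]; exact hcard)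
  refine ⟨Q, F.codRestrict Q (fun g => hQ ⟨g, rfl⟩), ?_⟩
  rintro ⟨q, hq⟩
  rw [← hEq] at hq
  obtain ⟨g, hg⟩ := hq
  exact ⟨g, Subtype.ext hg⟩

end Cfsg.Agent.H18.WrZp
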