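import Mathlib
import Cfsg.Prelude

/-!
# Weights of a normal abelian subgroup and fixed points of a 2-subgroup (helper18, for S4414)
-/

set_option autoImplicit false
set_option linter.all false

namespace Cfsg.Agent.H18.Wt

open Subgroup

noncomputable section

attribute [local instance] Fintype.ofFinite

variable {S : Type*} [Group S] [Finite S] (A : Subgroup S) [A.Normal]
  {K : Type*} [Field K] [Finite K] {V : Type*} [AddCommGroup V] [Module K V]

/-- `S` acts on the characters of `A` -/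
@[reducible] def actX (K : Type*) [Field K] : MulAction S (A →* Kˣ) where
  smul s l := l.comp ((MulAut.conjNormal s⁻¹ : A ≃* A) : A →* A)
  one_smul l := by
    ext a
    show ((l ((MulAut.conjNormal (1 : S)⁻¹ : A ≃* A) a) : Kˣ) : K) = _
    rw [inv_one, map_one]; rfl
  mul_smul s t l := by
    ext a
    show ((l ((MulAut.conjNormal (s * t)⁻¹ : A ≃* A) a) : Kˣ) : K) =
      ((l ((MulAut.conjNormal t⁻¹ : A ≃* A) ((MulAut.conjNormal s⁻¹ : A ≃* A) a)) : Kˣ) : K)
    rw [mul_inv_rev, map_mul]; rfl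

attribute [local instance] actX

theorem smul_apply (s : S) (l : A →* Kˣ) (a : A) :
    (s • l) a = l ((MulAut.conjNormal s⁻¹ : A ≃* A) a) := rfl

theorem smul_conj (s : S) (l : A →* Kˣ) (a : A) :
    (s • l) ((MulAut.conjNormal s : A ≃* A) a) = l a := by
  rw [smul_apply]
  congr 1
  have : (MulAut.conjNormal s⁻¹ : A ≃* A) ((MulAut.conjNormal s : A ≃* A) a) =
      ((MulAut.conjNormal s⁻¹ * MulAut.conjNormal s : MulAut A)) a := rfl
  rw [this, ← map_mul, inv_mul_cancel, map_one]; rfl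

instance : Finite (A →* Kˣ) := Finite.of_injective (fun f : A →* Kˣ => (f : A → Kˣ)) DFunLike.coe_injective

variable (σ : S →* Module.End K V)

/-- the projection -/
def e (l : A →* Kˣ) : V →ₗ[K] V := ∑ a : A, ((l a)⁻¹ : Kˣ).1 • (σ (a : S))

theorem e_apply (l : A →* Kˣ) (v : V) : e A σ l v = ∑ a : A, ((l a)⁻¹ : Kˣ).1 • (σ (a : S) v) := by
  unfold e
  rw [LinearMap.sum_apply]
  rfl

/-- equivariance -/
theorem smul_e (s : S) (l : A →* Kˣ) (v : V) : σ s (e A σ l v) = e A σ (s • l) (σ s v) := by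
  rw [e_apply, e_apply, map_sum]
  apply Fintype.sum_equiv (MulAut.conjNormal s : A ≃* A).toEquiv
  intro a
  rw [map_smul]
  show _ = (((s • l) ((MulAut.conjNormal s : A ≃* A) a))⁻¹ : Kˣ).1 •
    (σ ((MulAut.conjNormal s : A ≃* A) a : A) (σ s v))
  rw [smul_conj, MulAut.conjNormal_apply]
  congr 1
  show (σ s * σ (a : S)) v = (σ (s * a * s⁻¹) * σ s) v
  rw [← map_mul, ← map_mul, inv_mul_cancel_right]

theorem e_mem (l : A →* Kˣ) (v : V) (b : A) : σ (b : S) (e A σ l v) = ((l b : Kˣ) : K) • e A σ l v := by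
  rw [e_apply, map_sum, Finset.smul_sum]
  apply Fintype.sum_equiv (Equiv.mulLeft b)
  intro a
  rw [map_smul, smul_smul]
  show _ = (((l b : Kˣ) : K) * ((l (b * a))⁻¹ : Kˣ).1) • (σ ((b * a : A) : S) v)
  have h1 : ((l b : Kˣ) : K) * ((l (b * a))⁻¹ : Kˣ).1 = ((l a)⁻¹ : Kˣ).1 := by
    rw [← Units.val_mul]
    congr 1
    rw [map_mul, mul_inv_rev, mul_comm, mul_assoc, inv_mul_cancel, mul_one]
  rw [h1]
  congr 1
  show (σ (b : S) * σ (a : S)) v = _
  rw [← map_mul]; rfl

variable (hodd : (Nat.card A : K) = 1)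

include hodd in
theorem e_of_mem {l : A →* Kˣ} {v : V} (hv : ∀ b : A, σ (b : S) v = ((l b : Kˣ) : K) • v) :
    e A σ l v = v := by
  rw [e_apply]
  have : ∀ a : A, ((l a)⁻¹ : Kˣ).1 • (σ (a : S) v) = v := by
    intro a
    rw [hv, smul_smul, ← Units.val_mul, inv_mul_cancel, Units.val_one, one_smul]
  rw [Finset.sum_congr rfl (fun a _ => this a), Finset.sum_const, Finset.card_univ,
    ← Nat.card_eq_fintype_card, ← Nat.cast_smul_eq_nsmul K, hodd, one_smul]

theorem e_of_mem_ne {l m : A →* Kˣ} {v : V} (hv : ∀ b : A, σ (b : S) v = ((m b : Kˣ) : K) • v)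
    (hlm : l ≠ m) : e A σ l v = 0 := by
  rw [e_apply]
  have h1 : ∀ a : A, ((l a)⁻¹ : Kˣ).1 • (σ (a : S) v) = (((l⁻¹ * m) a : Kˣ) : K) • v := by
    intro a
    rw [hv, smul_smul, ← Units.val_mul]; rfl
  rw [Finset.sum_congr rfl (fun a _ => h1 a), ← Finset.sum_smul]
  have h2 : ∑ a : A, (((l⁻¹ * m) a : Kˣ) : K) = 0 := by
    have h3 := sum_hom_units_eq_zero ((Units.coeHom K).comp (l⁻¹ * m)) (by
      intro h
      apply hlm
      have h4 : l⁻¹ * m = 1 := by
        ext a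
        exact DFunLike.congr_fun h a
      exact (inv_mul_eq_one.1 h4))
    exact h3
  rw [h2, zero_smul]

theorem card_X (hc : ∀ a b : A, a * b = b * a) [HasEnoughRootsOfUnity K (Monoid.exponent A)] :
    Nat.card (A →* Kˣ) = Nat.card A := by
  letI : CommGroup A := { (inferInstance : Group A) with mul_comm := hc }
  exact CommGroup.card_monoidHom_of_hasEnoughRootsOfUnity A K

theorem exists_X (hc : ∀ a b : A, a * b = b * a) [HasEnoughRootsOfUnity K (Monoid.exponent A)] {a : A}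
    (ha : a ≠ 1) : ∃ l : A →* Kˣ, l a ≠ 1 := by
  letI : CommGroup A := { (inferInstance : Group A) with mul_comm := hc }
  exact CommGroup.exists_apply_ne_one_of_hasEnoughRootsOfUnity A K ha

theorem sum_e (hc : ∀ a b : A, a * b = b * a) [HasEnoughRootsOfUnity K (Monoid.exponent A)]
    (hodd : (Nat.card A : K) = 1)
    (v : V) : ∑ l : A →* Kˣ, e A σ l v = v := by
  have h1 : ∑ l : A →* Kˣ, e A σ l v = ∑ a : A, (∑ l : A →* Kˣ, ((l a)⁻¹ : Kˣ).1) • (σ (a : S) v) := by
    simp_rw [e_apply, Finset.sum_smul]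
    rw [Finset.sum_comm]
  rw [h1, Finset.sum_eq_single (1 : A)]
  · have h2 : ∑ l : A →* Kˣ, ((l (1 : A))⁻¹ : Kˣ).1 = 1 := by
      have h3 : ∀ l : A →* Kˣ, ((l (1 : A))⁻¹ : Kˣ).1 = 1 := by
        intro l; rw [map_one, inv_one, Units.val_one]
      rw [Finset.sum_congr rfl (fun l _ => h3 l), Finset.sum_const, Finset.card_univ,
        ← Nat.card_eq_fintype_card, nsmul_eq_mul, mul_one]
      have h4 : Nat.card (A →* Kˣ) = Nat.card A := card_X A hc
      rw [h4, hodd]
    rw [h2, one_smul]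
    show σ ((1 : A) : S) v = v
    rw [Subgroup.coe_one, map_one]; rfl
  · intro a _ ha
    obtain ⟨m, hm⟩ := exists_X (K := K) A hc ha
    have h2 : ∑ l : A →* Kˣ, ((l a)⁻¹ : Kˣ).1 = 0 := by
      have h3 : ((m a)⁻¹ : Kˣ).1 * ∑ l : A →* Kˣ, ((l a)⁻¹ : Kˣ).1 = ∑ l : A →* Kˣ, ((l a)⁻¹ : Kˣ).1 := by
        rw [Finset.mul_sum]
        apply Fintype.sum_equiv (Equiv.mulLeft m)
        intro l
        show _ = (((m * l) a)⁻¹ : Kˣ).1
        rw [MonoidHom.mul_apply, mul_inv, Units.val_mul]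
      have h4 : (((m a)⁻¹ : Kˣ).1 - 1) * ∑ l : A →* Kˣ, ((l a)⁻¹ : Kˣ).1 = 0 := by
        rw [sub_mul, h3, one_mul, sub_self]
      rcases mul_eq_zero.1 h4 with h5 | h5
      · exfalso
        apply hm
        rw [sub_eq_zero] at h5
        have h6 : (m a)⁻¹ = 1 := Units.ext h5
        exact inv_eq_one.1 h6
      · exact h5
    rw [h2, zero_smul]
  · intro h; exact absurd (Finset.mem_univ _) h

end

end Cfsg.Agent.H18.Wt
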