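import Mathlib
import Cfsg.Prelude
import Cfsg.Agent.H18.Wt1

set_option autoImplicit false
set_option linter.all false

namespace Cfsg.Agent.H18.Wt

open Subgroup Pointwise

noncomputable section

attribute [local instance] Fintype.ofFinite
attribute [local instance] actX

/-- no fixed points: `q` divides the order -/
theorem dvd_of_no_fixed {Q X : Type*} [Group Q] [Finite Q] [MulAction Q X] [Finite X] {q : ℕ}
    [Fact q.Prime] (hQ : IsPGroup q Q) (Y : Set X) (hY : ∀ (g : Q), ∀ y ∈ Y, g • y ∈ Y)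
    (hfix : ∀ y ∈ Y, ∃ g : Q, g • y ≠ y) : q ∣ Nat.card Y := by
  letI : MulAction Q Y :=
    { smul := fun g y => ⟨g • (y : X), hY g y y.2⟩
      one_smul := fun y => Subtype.ext (one_smul Q (y : X))
      mul_smul := fun a b y => Subtype.ext (mul_smul a b (y : X)) }
  have h := hQ.card_modEq_card_fixedPoints Y
  have h0 : Nat.card (MulAction.fixedPoints Q Y) = 0 := by
    rw [Nat.card_eq_zero]
    left
    constructor
    rintro ⟨y, hy⟩
    obtain ⟨g, hg⟩ := hfix y y.2
    exact hg (congrArg Subtype.val (hy g))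
  rw [h0] at h
  exact (Nat.modEq_zero_iff_dvd).1 h

variable {S : Type*} [Group S] [Finite S] (A : Subgroup S) [A.Normal]
  {K : Type*} [Field K] [Finite K] {V : Type*} [AddCommGroup V] [Module K V]
  (σ : S →* Module.End K V)

def supp (v : V) : Set (A →* Kˣ) := {l | e A σ l v ≠ 0}

theorem σ_inv_apply (s : S) (v : V) : σ s⁻¹ (σ s v) = v := by
  show (σ s⁻¹ * σ s) v = v
  rw [← map_mul, inv_mul_cancel, map_one]; rfl

theorem σ_inj {s : S} {v w : V} (h : σ s v = σ s w) : v = w := by
  rw [← σ_inv_apply σ s v, h, σ_inv_apply]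

theorem supp_smul (s : S) (v : V) : supp A σ (σ s v) = s • supp A σ v := by
  ext l
  rw [Set.mem_smul_set_iff_inv_smul_mem]
  have h1 : e A σ l (σ s v) = σ s (e A σ (s⁻¹ • l) v) := by
    rw [smul_e, smul_inv_smul]
  show e A σ l (σ s v) ≠ 0 ↔ e A σ (s⁻¹ • l) v ≠ 0
  rw [h1]
  constructor
  · intro h h2
    apply h; rw [h2, map_zero]
  · intro h h2
    apply h
    apply σ_inj σ (s := s)
    rw [h2, map_zero]

/-- the vectors with support in `O` -/
def U (O : Set (A →* Kˣ)) : Submodule K V where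
  carrier := {v | ∀ l, l ∉ O → e A σ l v = 0}
  add_mem' := fun {v w} hv hw l hl => by rw [map_add, hv l hl, hw l hl, add_zero]
  zero_mem' := fun l _ => map_zero _
  smul_mem' := fun c v hv l hl => by rw [map_smul, hv l hl, smul_zero]

theorem mem_U {O : Set (A →* Kˣ)} {v : V} : v ∈ U A σ O ↔ ∀ l, l ∉ O → e A σ l v = 0 := Iff.rfl

/-- fixed vectors with given support -/
theorem exists_fixed [CharP K 2] [Finite V] {T : Subgroup S} (hT : IsPGroup 2 T) {O : Set (A →* Kˣ)}
    (hO : ∀ t ∈ T, ∀ l ∈ O, t • l ∈ O) {w : V} (hw : w ≠ 0) (hwO : w ∈ U A σ O) :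
    ∃ v : V, v ≠ 0 ∧ (∀ t ∈ T, σ t v = v) ∧ ∀ l, l ∉ O → e A σ l v = 0 := by
  have hinv : ∀ t ∈ T, ∀ u ∈ U A σ O, σ t u ∈ U A σ O := by
    intro t ht u hu l hl
    have h1 : t⁻¹ • l ∉ O := by
      intro h
      apply hl
      have := hO t ht _ h
      rwa [smul_inv_smul] at this
    have h2 : e A σ l (σ t u) = σ t (e A σ (t⁻¹ • l) u) := by
      rw [smul_e, smul_inv_smul]
    rw [h2, hu _ h1, map_zero]
  letI : MulAction T (U A σ O) :=
    { smul := fun t u => ⟨σ (t : S) (u : V), hinv t t.2 u u.2⟩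
      one_smul := fun u => Subtype.ext (by
        show σ ((1 : T) : S) (u : V) = u
        rw [Subgroup.coe_one, map_one]; rfl)
      mul_smul := fun a b u => Subtype.ext (by
        show σ ((a * b : T) : S) (u : V) = σ (a : S) (σ (b : S) (u : V))
        rw [Subgroup.coe_mul, map_mul]; rfl) }
  have h2 : 2 ∣ Nat.card (U A σ O) := by
    have h3 : addOrderOf (⟨w, hwO⟩ : U A σ O) = 2 := by
      apply addOrderOf_eq_prime
      · rw [← Nat.cast_smul_eq_nsmul K, CharTwo.two_eq_zero (R := K) |> fun h => (by exact_mod_cast h : ((2 : ℕ) : K) = 0), zero_smul]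
      · intro h
        exact hw (congrArg Subtype.val h)
    rw [← h3]
    exact addOrderOf_dvd_natCard _
  obtain ⟨b, hb, hb0⟩ := hT.exists_fixed_point_of_prime_dvd_card_of_fixed_point (U A σ O) h2
    (a := 0) (by
      intro t
      apply Subtype.ext
      show σ (t : S) (0 : V) = 0
      exact map_zero _)
  refine ⟨b, ?_, ?_, b.2⟩
  · intro h
    exact hb0 (Subtype.ext h.symm)
  · intro t ht
    exact congrArg Subtype.val (hb ⟨t, ht⟩)

end

end Cfsg.Agent.H18.Wt
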