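import Mathlib
import Cfsg.Prelude
import Cfsg.Agent.H18.Wt2

set_option autoImplicit false
set_option linter.all false

namespace Cfsg.Agent.H18.Wt

open Subgroup Pointwise

noncomputable section

attribute [local instance] Fintype.ofFinite
attribute [local instance] actX

variable {S : Type*} [Group S] [Finite S] (A : Subgroup S) [A.Normal]
  {K : Type*} [Field K] [Finite K] {V : Type*} [AddCommGroup V] [Module K V]
  (σ : S →* Module.End K V)

/-- the fixed points of `T` -/
def Cfix (T : Subgroup S) : Submodule K V where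
  carrier := {v | ∀ t ∈ T, σ t v = v}
  add_mem' := fun {v w} hv hw t ht => by rw [map_add, hv t ht, hw t ht]
  zero_mem' := fun t _ => map_zero _
  smul_mem' := fun c v hv t ht => by rw [map_smul, hv t ht]

/-- the weights -/
def Lam : Set (A →* Kˣ) := {l | ∃ v : V, v ≠ 0 ∧ ∀ b : A, σ (b : S) v = ((l b : Kˣ) : K) • v}

theorem Lam_smul (s : S) {l : A →* Kˣ} (hl : l ∈ Lam A σ) : s • l ∈ Lam A σ := by
  obtain ⟨v, hv, hvl⟩ := hl
  refine ⟨σ s v, ?_, ?_⟩
  · intro h
    apply hv
    apply σ_inj σ (s := s)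
    rw [h, map_zero]
  · intro b
    obtain ⟨c, rfl⟩ := (MulAut.conjNormal s : A ≃* A).surjective b
    rw [smul_conj, MulAut.conjNormal_apply, ← map_smul, ← hvl c]
    show (σ (s * c * s⁻¹) * σ s) v = (σ s * σ (c : S)) v
    rw [← map_mul, ← map_mul, inv_mul_cancel_right]

theorem orbit_inv (T : Subgroup S) (l : A →* Kˣ) :
    ∀ t ∈ T, ∀ m ∈ MulAction.orbit T l, t • m ∈ MulAction.orbit T l := by
  intro t ht m hm
  obtain ⟨t', ht'⟩ := hm
  have h1 : (t' : S) • l = m := ht'
  refine ⟨⟨t, ht⟩ * t', ?_⟩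
  show ((⟨t, ht⟩ * t' : T) : S) • l = t • m
  rw [← h1, ← mul_smul]; rfl

set_option maxHeartbeats 1000000 in
theorem main_abs [CharP K 2] [Finite V] (hc : ∀ a b : A, a * b = b * a)
    [HasEnoughRootsOfUnity K (Monoid.exponent A)] (hodd : (Nat.card A : K) = 1)
    {T Q : Subgroup S} (hT : IsPGroup 2 T) {q : ℕ} [hq : Fact q.Prime] (hq2 : q ≠ 2) (hQ : Nat.card Q = q)
    (hV : ∃ v : V, v ≠ 0) (hfix : ∀ v : V, (∀ a : A, σ (a : S) v = v) → v = 0)
    (hQfix : ∀ l : A →* Kˣ, (∀ g ∈ Q, g • l = l) → l = 1) :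
    2 ≤ Module.finrank K (Cfix σ T) ∧ (Module.finrank K (Cfix σ T) = 2 →
      ∃ x ∈ Q, ∃ v ∈ Cfix σ T, σ x v ∉ Cfix σ T) := by
  classical
  have hQq : IsPGroup q Q := IsPGroup.of_card (n := 1) (by rw [hQ, pow_one])
  have h1Lam : (1 : A →* Kˣ) ∉ Lam A σ := by
    rintro ⟨v, hv, hv2⟩
    apply hv
    apply hfix
    intro a
    rw [hv2 a, MonoidHom.one_apply, Units.val_one, one_smul]
  have hnofix : ∀ l ∈ Lam A σ, ∃ g : Q, g • l ≠ l := by
    intro l hl
    by_contra hcon
    push Not at hcon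
    have := hQfix l (fun g hg => hcon ⟨g, hg⟩)
    rw [this] at hl
    exact h1Lam hl
  have hLe : ∀ l (v : V), e A σ l v ≠ 0 → l ∈ Lam A σ := fun l v h => ⟨_, h, e_mem A σ l v⟩
  obtain ⟨v₀, hv₀⟩ := hV
  obtain ⟨l₀, hl₀⟩ : ∃ l₀, l₀ ∈ Lam A σ := by
    by_contra hcon
    push Not at hcon
    apply hv₀
    rw [← sum_e A σ hc hodd v₀]
    apply Finset.sum_eq_zero
    intro l _
    by_contra h
    exact hcon l (hLe l v₀ h)
  have hqLam : q ∣ Nat.card (Lam A σ) :=
    dvd_of_no_fixed hQq (Lam A σ) (fun g l hl => Lam_smul A σ (g : S) hl) hnofix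
  -- orbits
  have horb : ∀ l : A →* Kˣ, ∃ n, Nat.card (MulAction.orbit T l) = 2 ^ n := fun l => hT.card_orbit l
  have hndvd : ∀ l : A →* Kˣ, ¬ q ∣ Nat.card (MulAction.orbit T l) := by
    intro l h
    obtain ⟨n, hn⟩ := horb l
    rw [hn] at h
    exact hq2 ((Nat.prime_dvd_prime_iff_eq hq.out Nat.prime_two).1 (hq.out.dvd_of_dvd_pow h))
  have horbLam : ∀ l ∈ Lam A σ, MulAction.orbit T l ⊆ Lam A σ := by
    rintro l hl _ ⟨t, rfl⟩
    exact Lam_smul A σ (t : S) hl
  obtain ⟨l₁, hl₁, hl₁O⟩ : ∃ l₁ ∈ Lam A σ, l₁ ∉ MulAction.orbit T l₀ := by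
    by_contra hcon
    push Not at hcon
    have h1 : Lam A σ = MulAction.orbit T l₀ :=
      Set.Subset.antisymm (fun l hl => hcon l hl) (horbLam l₀ hl₀)
    rw [h1] at hqLam
    exact hndvd l₀ hqLam
  -- for each weight a fixed vector whose support is the orbit
  have hvec : ∀ l ∈ Lam A σ, ∃ v ∈ Cfix σ T, supp A σ v = MulAction.orbit T l := by
    intro l hl
    obtain ⟨w, hw, hwl⟩ := hl
    have hwU : w ∈ U A σ (MulAction.orbit T l) := by
      intro m hm
      apply e_of_mem_ne A σ hwl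
      rintro rfl
      exact hm (MulAction.mem_orbit_self _)
    obtain ⟨v, hv0, hvT, hvO⟩ := exists_fixed A σ hT (O := MulAction.orbit T l)
      (orbit_inv A T l) hw hwU
    refine ⟨v, hvT, ?_⟩
    apply Set.Subset.antisymm
    · intro m hm
      by_contra h
      exact hm (hvO m h)
    · -- the support is nonempty and `T`-invariant
      obtain ⟨m, hm⟩ : ∃ m, m ∈ supp A σ v := by
        by_contra hcon
        push Not at hcon
        apply hv0
        rw [← sum_e A σ hc hodd v]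
        apply Finset.sum_eq_zero
        intro l _
        by_contra h
        exact hcon l h
      have hinv : ∀ t : T, ∀ m ∈ supp A σ v, t • m ∈ supp A σ v := by
        intro t m hm
        have h1 : supp A σ v = (t : S) • supp A σ v := by
          rw [← supp_smul A σ (t : S) v, hvT t t.2]
        rw [h1]
        exact Set.smul_mem_smul_set hm
      have hmO : m ∈ MulAction.orbit T l := by
        by_contra h
        exact hm (hvO m h)
      intro m' hm'
      have h5 : MulAction.orbit T m = MulAction.orbit T l := MulAction.orbit_eq_iff.2 hmO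
      rw [← h5] at hm'
      obtain ⟨t, ht⟩ := hm'
      rw [← ht]
      exact hinv t m hm
  obtain ⟨v₁, hv₁, hs₁⟩ := hvec l₀ hl₀
  obtain ⟨v₂, hv₂, hs₂⟩ := hvec l₁ hl₁
  set O₁ := MulAction.orbit T l₀ with hO₁
  set O₂ := MulAction.orbit T l₁ with hO₂
  have hl₀O₁ : l₀ ∈ O₁ := MulAction.mem_orbit_self _
  have hl₁O₂ : l₁ ∈ O₂ := MulAction.mem_orbit_self _
  have hdisj : ∀ l, l ∈ O₁ → l ∉ O₂ := by
    intro l h1 h2
    apply hl₁O
    rw [hO₁, hO₂] at *
    have h3 := MulAction.orbit_eq_iff.2 h1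
    have h4 := MulAction.orbit_eq_iff.2 h2
    rw [← h3, h4]
    exact MulAction.mem_orbit_self _
  have hes₁ : ∀ l, e A σ l v₁ ≠ 0 ↔ l ∈ O₁ := fun l => by rw [← hs₁]; exact Iff.rfl
  have hes₂ : ∀ l, e A σ l v₂ ≠ 0 ↔ l ∈ O₂ := fun l => by rw [← hs₂]; exact Iff.rfl
  have he₁ : ∀ l, l ∉ O₁ → e A σ l v₁ = 0 := fun l h => by
    by_contra h2; exact h ((hes₁ l).1 h2)
  have he₂ : ∀ l, l ∉ O₂ → e A σ l v₂ = 0 := fun l h => by
    by_contra h2; exact h ((hes₂ l).1 h2)
  have hli : LinearIndependent K ![(⟨v₁, hv₁⟩ : Cfix σ T), ⟨v₂, hv₂⟩] := by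
    rw [LinearIndependent.pair_iff]
    intro a b hab
    have hab' : a • v₁ + b • v₂ = 0 := congrArg Subtype.val hab
    constructor
    · have h1 := congrArg (e A σ l₀) hab'
      rw [map_add, map_smul, map_smul, map_zero, he₂ l₀ (hdisj l₀ hl₀O₁), smul_zero, add_zero] at h1
      exact (smul_eq_zero.1 h1).resolve_right ((hes₁ l₀).2 hl₀O₁)
    · have h1 := congrArg (e A σ l₁) hab'
      rw [map_add, map_smul, map_smul, map_zero, he₁ l₁ hl₁O, smul_zero, zero_add] at h1
      exact (smul_eq_zero.1 h1).resolve_right ((hes₂ l₁).2 hl₁O₂)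
  haveI : Module.Finite K V := Module.Finite.of_finite
  have h2le : 2 ≤ Module.finrank K (Cfix σ T) := by
    have := hli.fintype_card_le_finrank
    simpa using this
  refine ⟨h2le, fun hdim => ?_⟩
  by_contra hcon
  push Not at hcon
  have hspan : ∀ v ∈ Cfix σ T, ∃ a b : K, v = a • v₁ + b • v₂ := by
    intro v hv
    have htop := hli.span_eq_top_of_card_eq_finrank (by rw [hdim]; simp)
    have h1 : (⟨v, hv⟩ : Cfix σ T) ∈ Submodule.span K (Set.range ![(⟨v₁, hv₁⟩ : Cfix σ T), ⟨v₂, hv₂⟩]) := by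
      rw [htop]; exact Submodule.mem_top
    have h3 : Set.range ![(⟨v₁, hv₁⟩ : Cfix σ T), ⟨v₂, hv₂⟩] = {⟨v₁, hv₁⟩, ⟨v₂, hv₂⟩} := by
      simp [Matrix.range_cons, Matrix.range_empty, Set.pair_comm]
    rw [h3, Submodule.mem_span_pair] at h1
    obtain ⟨a, b, hab⟩ := h1
    exact ⟨a, b, (congrArg Subtype.val hab).symm⟩
  have hO12 : O₁ ≠ O₂ := by
    intro h
    exact hdisj l₀ hl₀O₁ (h ▸ hl₀O₁)
  -- the support of `a v₁ + b v₂`
  have hsupp : ∀ a b : K, supp A σ (a • v₁ + b • v₂) =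
      {l | (a ≠ 0 ∧ l ∈ O₁) ∨ (b ≠ 0 ∧ l ∈ O₂)} := by
    intro a b
    ext l
    show e A σ l (a • v₁ + b • v₂) ≠ 0 ↔ (a ≠ 0 ∧ l ∈ O₁) ∨ (b ≠ 0 ∧ l ∈ O₂)
    rw [map_add, map_smul, map_smul]
    by_cases h1 : l ∈ O₁
    · have h2 := hdisj l h1
      rw [he₂ l h2, smul_zero, add_zero]
      constructor
      · intro h
        left
        exact ⟨fun ha => h (by rw [ha, zero_smul]), h1⟩
      · rintro (h | h)
        · exact smul_ne_zero h.1 ((hes₁ l).2 h1)
        · exact absurd h.2 h2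
    · rw [he₁ l h1, smul_zero, zero_add]
      constructor
      · intro h
        right
        refine ⟨fun hb => h (by rw [hb, zero_smul]), ?_⟩
        by_contra h2
        exact h (by rw [he₂ l h2, smul_zero])
      · rintro (h | h)
        · exact absurd h.2 h1
        · exact smul_ne_zero h.1 ((hes₂ l).2 h.2)
  have hcase : ∀ x ∈ Q, ∀ (v : V) (O : Set (A →* Kˣ)), v ∈ Cfix σ T → supp A σ v = O →
      (O = O₁ ∨ O = O₂) → (x • O = O₁ ∨ x • O = O₂) := by
    intro x hx v O hv hvO hO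
    obtain ⟨a, b, hab⟩ := hspan _ (hcon x hx v hv)
    have h1 : x • O = {l | (a ≠ 0 ∧ l ∈ O₁) ∨ (b ≠ 0 ∧ l ∈ O₂)} := by
      rw [← hvO, ← supp_smul, hab, hsupp]
    have hcardO : (x • O).ncard = O.ncard := Set.ncard_smul_set _ _
    by_cases ha : a = 0
    · by_cases hb : b = 0
      · exfalso
        have h2 : x • O = ∅ := by
          rw [h1]
          ext l
          simp [ha, hb]
        have h3 : O = ∅ := by
          rw [Set.smul_set_eq_empty] at h2; exact h2
        rcases hO with h | h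
        · rw [h] at h3; rw [h3] at hl₀O₁; exact hl₀O₁
        · rw [h] at h3; rw [h3] at hl₁O₂; exact hl₁O₂
      · right
        rw [h1]; ext l; simp [ha, hb]
    · by_cases hb : b = 0
      · left
        rw [h1]; ext l; simp [ha, hb]
      · exfalso
        have h2 : x • O = O₁ ∪ O₂ := by
          rw [h1]; ext l; simp [ha, hb]
        have h3 : (O₁ ∪ O₂).ncard = O₁.ncard + O₂.ncard :=
          Set.ncard_union_eq (Set.disjoint_left.2 hdisj) (Set.toFinite _) (Set.toFinite _)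
        have h4 : 0 < O₁.ncard := (Set.ncard_pos (Set.toFinite _)).2 ⟨l₀, hl₀O₁⟩
        have h5 : 0 < O₂.ncard := (Set.ncard_pos (Set.toFinite _)).2 ⟨l₁, hl₁O₂⟩
        rw [h2, h3] at hcardO
        rcases hO with h | h
        · rw [h] at hcardO; omega
        · rw [h] at hcardO; omega
  have hstab : ∀ x ∈ Q, x • O₁ = O₁ := by
    intro x hx
    rcases hcase x hx v₁ O₁ hv₁ hs₁ (Or.inl rfl) with h1 | h1
    · exact h1
    · have h2 : x • O₂ = O₁ := by
        rcases hcase x hx v₂ O₂ hv₂ hs₂ (Or.inr rfl) with h2 | h2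
        · exact h2
        · exfalso
          apply hO12
          have h3 : x • O₁ = x • O₂ := by rw [h1, h2]
          have h4 := congrArg (fun Y => x⁻¹ • Y) h3
          simpa using h4
      have h3 : ∀ k : ℕ, (x ^ (2 * k)) • O₁ = O₁ := by
        intro k
        induction k with
        | zero => simp
        | succ k ih =>
          have : x ^ (2 * (k + 1)) = x ^ (2 * k) * (x * x) := by
            rw [mul_add, mul_one, pow_add, pow_two]
          rw [this, mul_smul, mul_smul, h1, h2, ih]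
      have hxq : x ^ q = 1 := by
        have := orderOf_dvd_natCard (⟨x, hx⟩ : Q)
        rw [hQ] at this
        have h4 := orderOf_dvd_iff_pow_eq_one.1 this
        exact congrArg Subtype.val h4
      obtain ⟨k, hk⟩ : ∃ k, q + 1 = 2 * k := by
        have : Odd q := hq.out.odd_of_ne_two hq2
        obtain ⟨m, hm⟩ := this
        exact ⟨m + 1, by omega⟩
      have h4 := h3 k
      rw [← hk, pow_succ, hxq, one_mul] at h4
      exact h4
  have := dvd_of_no_fixed hQq O₁ (fun g l hl => by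
    have h1 := hstab g g.2
    rw [← h1]
    exact Set.smul_mem_smul_set hl) (fun l hl => hnofix l (horbLam l₀ hl₀ hl))
  exact hndvd l₀ this

end

end Cfsg.Agent.H18.Wt
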