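import Mathlib
import Cfsg.Prelude
import Cfsg.Agent.H18.Wt3

set_option autoImplicit false
set_option linter.all false

namespace Cfsg.Agent.H18.Wt

open Subgroup Pointwise TensorProduct

noncomputable section

/-- a finite field of characteristic two with roots of unity of odd order -/
theorem exists_field (n : ℕ) (hn : Odd n) : ∃ m : ℕ, m ≠ 0 ∧
    HasEnoughRootsOfUnity (GaloisField 2 m) n := by
  have hn0 : n ≠ 0 := by rintro rfl; exact absurd hn (by decide)
  haveI : NeZero n := ⟨hn0⟩
  have hcop : Nat.Coprime 2 n := (Nat.coprime_two_left).2 hn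
  refine ⟨Nat.totient n, (Nat.totient_pos.2 (Nat.pos_of_ne_zero hn0)).ne', ?_⟩
  have hm0 : Nat.totient n ≠ 0 := (Nat.totient_pos.2 (Nat.pos_of_ne_zero hn0)).ne'
  have h1 : 2 ^ Nat.totient n ≡ 1 [MOD n] := Nat.ModEq.pow_totient hcop
  have hcard : Nat.card (GaloisField 2 (Nat.totient n))ˣ = 2 ^ Nat.totient n - 1 := by
    rw [Nat.card_units, GaloisField.card 2 _ hm0]
  have hdvd : n ∣ Nat.card (GaloisField 2 (Nat.totient n))ˣ := by
    rw [hcard]
    exact (Nat.modEq_iff_dvd' Nat.one_le_two_pow).1 h1.symm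
  obtain ⟨g, hg⟩ := IsCyclic.exists_ofOrder_eq_natCard (α := (GaloisField 2 (Nat.totient n))ˣ)
  obtain ⟨k, hk⟩ := hdvd
  have hk0 : k ≠ 0 := by
    rintro rfl
    rw [mul_zero] at hk
    exact Nat.card_pos.ne' hk
  have hord : orderOf (g ^ k) = n := by
    rw [orderOf_pow_of_dvd hk0 (by rw [hg, hk]; exact dvd_mul_left _ _), hg, hk,
      Nat.mul_div_cancel _ (Nat.pos_of_ne_zero hk0)]
  refine ⟨⟨((g ^ k : (GaloisField 2 (Nat.totient n))ˣ) : GaloisField 2 (Nat.totient n)), ?_⟩, ?_⟩
  · have h2 : IsPrimitiveRoot (g ^ k) n := IsPrimitiveRoot.iff_orderOf.2 hord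
    exact IsPrimitiveRoot.coe_units_iff.2 h2
  · infer_instance

variable {S : Type*} [Group S] {E : Type*} [AddCommGroup E] [Module (ZMod 2) E]
  (K : Type*) [Field K] [Algebra (ZMod 2) K] (ρ : Representation (ZMod 2) S E)

/-- the base change -/
def bc : S →* Module.End K (K ⊗[ZMod 2] E) where
  toFun s := (ρ s).baseChange K
  map_one' := by
    rw [map_one]
    exact LinearMap.baseChange_id
  map_mul' s t := by
    rw [map_mul]
    exact LinearMap.baseChange_comp _ _

theorem bc_coord {ι : Type*} [DecidableEq ι] (b : Module.Basis ι (ZMod 2) K) (s : S) (v : K ⊗[ZMod 2] E) (i : ι) :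
    TensorProduct.equivFinsuppOfBasisLeft b (bc K ρ s v) i =
      ρ s (TensorProduct.equivFinsuppOfBasisLeft b v i) := by
  induction v using TensorProduct.induction_on with
  | zero => simp
  | tmul k x =>
    have h1 : bc K ρ s (k ⊗ₜ x) = k ⊗ₜ (ρ s x) := rfl
    rw [h1, TensorProduct.equivFinsuppOfBasisLeft_apply_tmul_apply,
      TensorProduct.equivFinsuppOfBasisLeft_apply_tmul_apply, map_smul]
  | add x y hx hy => rw [map_add, map_add, Finsupp.add_apply, hx, hy, map_add, Finsupp.add_apply, map_add]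

/-- counting fixed points after base change -/
theorem card_fixed [Finite K] [Finite E] (T : Subgroup S) :
    Nat.card {v : E // ∀ s ∈ T, ρ s v = v} = 2 ^ Module.finrank K (Cfix (bc K ρ) T) := by
  classical
  haveI : Module.Finite (ZMod 2) K := Module.Finite.of_finite
  let b := Module.Free.chooseBasis (ZMod 2) K
  let ι := Module.Free.ChooseBasisIndex (ZMod 2) K
  haveI : Finite ι := Module.Finite.finite_basis b
  let φ := TensorProduct.equivFinsuppOfBasisLeft (N := E) b
  haveI : Finite (ι →₀ E) := Finite.of_equiv (ι → E) Finsupp.equivFunOnFinite.symm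
  haveI : Finite (K ⊗[ZMod 2] E) := Finite.of_equiv (ι →₀ E) φ.symm.toEquiv
  have h2 : Nat.card K = 2 ^ Nat.card ι := by
    rw [Nat.card_congr b.equivFun.toEquiv, Nat.card_fun, Nat.card_zmod]
  have hn0 : Nat.card ι ≠ 0 := by
    intro h
    rw [h, pow_zero] at h2
    have : 1 < Nat.card K := Finite.one_lt_card
    omega
  have h1 : Nat.card (Cfix (bc K ρ) T) = (Nat.card {v : E // ∀ s ∈ T, ρ s v = v}) ^ Nat.card ι := by
    rw [← Nat.card_fun]
    refine Nat.card_congr ⟨fun v i => ⟨φ (v : K ⊗[ZMod 2] E) i, ?_⟩,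
      fun f => ⟨φ.symm (Finsupp.equivFunOnFinite.symm (fun i => (f i : E))), ?_⟩, ?_, ?_⟩
    · intro s hs
      have := bc_coord K ρ b s v i
      rw [v.2 s hs] at this
      exact this.symm
    · intro s hs
      apply φ.injective
      ext i
      have := bc_coord K ρ b s (φ.symm (Finsupp.equivFunOnFinite.symm (fun i => (f i : E)))) i
      have h2 : φ (φ.symm (Finsupp.equivFunOnFinite.symm (fun i => (f i : E)))) i = (f i : E) := by
        rw [LinearEquiv.apply_symm_apply]; rfl
      refine this.trans ?_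
      show ρ s (φ (φ.symm (Finsupp.equivFunOnFinite.symm (fun i => (f i : E)))) i) = _
      rw [h2]
      exact (f i).2 s hs
    · intro v
      apply Subtype.ext
      apply φ.injective
      show φ (φ.symm _) = _
      rw [LinearEquiv.apply_symm_apply]
      ext i; rfl
    · intro f
      funext i
      apply Subtype.ext
      show φ (φ.symm (Finsupp.equivFunOnFinite.symm (fun i => (f i : E)))) i = (f i : E)
      rw [LinearEquiv.apply_symm_apply]; rfl
  have h3 : Nat.card (Cfix (bc K ρ) T) = Nat.card K ^ Module.finrank K (Cfix (bc K ρ) T) := by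
    haveI := Fintype.ofFinite K
    haveI := Fintype.ofFinite (Cfix (bc K ρ) T)
    rw [Nat.card_eq_fintype_card, Nat.card_eq_fintype_card]
    exact Module.card_eq_pow_finrank (K := K) (V := ↥(Cfix (bc K ρ) T))
  rw [h1, h2, ← pow_mul, mul_comm, pow_mul] at h3
  exact Nat.pow_left_injective hn0 h3

end

end Cfsg.Agent.H18.Wt
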