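import Cfsg.Agent.H18.Xt4

/-!
# Extraspecial groups of order 32 of minus type and elements of order five (helper18)
-/

set_option autoImplicit false
set_option linter.style.haveILetI false
open Cfsg

namespace Cfsg.Agent.H18

theorem perm_fix_one {σ τ : Equiv.Perm (Fin 5)} (hσ : orderOf σ = 5) (hτ1 : τ ≠ 1) (k : ℤ)
    (hk : τ * σ * τ⁻¹ = σ ^ k) {i j : Fin 5} (hi : τ i = i) (hj : τ j = j) : i = j := by
  have hcyc : σ.IsCycle := Equiv.Perm.isCycle_of_prime_order'' (by simp; norm_num) (by simp [hσ])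
  have hmov : ∀ a, σ a ≠ a := by
    have h1 := hcyc.orderOf
    rw [hσ] at h1
    have h2 : σ.support = Finset.univ := by
      apply Finset.eq_univ_of_card
      rw [← h1]; rfl
    intro a
    rw [← Equiv.Perm.mem_support, h2]
    exact Finset.mem_univ a
  have hex : ∀ a, ∃ m : ℤ, (σ ^ m) i = a := fun a => hcyc.exists_zpow_eq (hmov i) (hmov a)
  have hfix : ∀ n : ℤ, (σ ^ n) i = i → σ ^ n = 1 := by
    intro n hn
    apply Equiv.ext
    intro a
    obtain ⟨m, rfl⟩ := hex a
    rw [← Equiv.Perm.mul_apply, ← zpow_add, add_comm, zpow_add, Equiv.Perm.mul_apply, hn]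
    rfl
  have hτ' : τ⁻¹ i = i := by rw [Equiv.Perm.inv_eq_iff_eq, hi]
  have hconj : ∀ n : ℤ, τ ((σ ^ n) i) = (σ ^ (k * n)) i := by
    intro n
    have h1 : τ * σ ^ n * τ⁻¹ = σ ^ (k * n) := by
      rw [← conj_zpow, hk, ← zpow_mul]
    rw [← h1, Equiv.Perm.mul_apply, Equiv.Perm.mul_apply, hτ']
  obtain ⟨m, hm⟩ := hex j
  have h2 := hconj m
  rw [hm, hj, ← hm] at h2
  have h3 : (σ ^ (k * m - m)) i = i := by
    rw [sub_eq_neg_add, zpow_add, Equiv.Perm.mul_apply, ← h2, ← Equiv.Perm.mul_apply, ← zpow_add]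
    simp
  have h4 := hfix _ h3
  rw [← orderOf_dvd_iff_zpow_eq_one, hσ] at h4
  have h5 : ((5 : ℕ) : ℤ) ∣ (k - 1) * m := by
    have : k * m - m = (k - 1) * m := by ring
    rwa [this] at h4
  rcases (Nat.prime_iff_prime_int.1 (by norm_num : Nat.Prime 5)).dvd_or_dvd h5 with h6 | h6
  · exfalso
    apply hτ1
    apply Equiv.ext
    intro a
    obtain ⟨n, rfl⟩ := hex a
    rw [hconj n]
    have h7 : σ ^ (k * n) = σ ^ n := by
      have h8 : σ ^ (k - 1) = 1 := by
        rw [← orderOf_dvd_iff_zpow_eq_one, hσ]; exact h6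
      have h9 : k * n = (k - 1) * n + n := by ring
      rw [h9, zpow_add, zpow_mul, h8, one_zpow, one_mul]
    rw [h7]; rfl
  · have h7 : σ ^ m = 1 := by rw [← orderOf_dvd_iff_zpow_eq_one, hσ]; exact h6
    rw [h7] at hm
    exact hm

namespace Fam

variable {P : Type*} [Group P] {z : P} {x : Fin 5 → P}

/-- elements of order four -/
theorem order_four [Finite P] (h : Xt P z) (h32 : Nat.card P = 32) (hx : Fam z x) {c : P}
    (hc : c * c = z) : ∃ j k, j ≠ k ∧ (c = x k * x j ∨ c = z * (x k * x j)) := by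
  have hc1 : c ≠ 1 := by rintro rfl; exact h.z_ne (by rw [← hc, one_mul])
  have hcz : c ≠ z := by rintro rfl; exact h.z_ne (hc.symm.trans h.z_sq)
  have h1 : ∃ j, x j * c = z * (c * x j) := by
    by_contra hcon
    push Not at hcon
    have hcom : ∀ j, x j * c = c * x j := fun j => (h.comm (x j) c).resolve_right (hcon j)
    have hm : ∀ j, x j ∈ Subgroup.centralizer {c} := fun j => by
      rw [Subgroup.mem_centralizer_singleton_iff]; exact hcom j
    have htop := hx.gen h h32 (Subgroup.centralizer {c}) (by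
      rw [Subgroup.mem_centralizer_singleton_iff]; exact (h.z_comm c).symm) (i := 0) (j := 1)
      (k := 2) (l := 3) (by decide) (by decide) (by decide) (by decide) (by decide) (by decide)
      (hm 0) (hm 1) (hm 2) (hm 3)
    rcases h.cent c (fun y => by
      have : y ∈ Subgroup.centralizer {c} := by rw [htop]; trivial
      rw [Subgroup.mem_centralizer_singleton_iff] at this
      exact this.symm) with h2 | h2
    · exact hc1 h2
    · exact hcz h2
  obtain ⟨j, hj⟩ := h1
  have hj' := h.nsymm hj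
  have h2 : (c * x j) * (c * x j) = 1 := by
    rw [h.mul_sq_n hj', hc, hx.sq, mul_one, h.z_sq]
  have hxj : c = (c * x j) * x j := by rw [mul_assoc, hx.sq, mul_one]
  have h3 : c * x j ≠ 1 := by
    intro h4
    rw [h4, one_mul] at hxj
    rw [hxj, hx.sq] at hc
    exact h.z_ne hc.symm
  have h4 : c * x j ≠ z := by
    intro h5
    rw [h5] at hxj
    have h6 : (z * x j) * (z * x j) = 1 := by
      rw [h.mul_sq_c (h.z_comm (x j)).symm, h.z_sq, hx.sq, one_mul]
    rw [hxj, h6] at hc
    exact h.z_ne hc.symm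
  obtain ⟨k, hk⟩ := hx.all' h h2 h3 h4
  refine ⟨j, k, ?_, ?_⟩
  · rintro rfl
    rcases hk with hk | hk
    · rw [hxj, hk, hx.sq] at hc1; exact hc1 rfl
    · rw [hxj, hk, mul_assoc, hx.sq, mul_one] at hcz; exact hcz rfl
  · rcases hk with hk | hk
    · left; rw [← hk, ← hxj]
    · right; rw [← mul_assoc, ← hk, ← hxj]

end Fam

end Cfsg.Agent.H18
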